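import Mathlib

/-!
Abelian groups of isometries of small symplectic spaces over the field with two elements.
-/

set_option autoImplicit false
set_option linter.unusedSectionVars false

namespace Cfsg.Agent.H1.AB

open Module Subgroup MulAction

variable {V : Type*} [AddCommGroup V] [Module (ZMod 2) V] [Finite V]

instance finGL : Finite (V ≃ₗ[ZMod 2] V) := Finite.of_injective (fun g => (g : V → V)) DFunLike.coe_injective

theorem orb (P : Subgroup (V ≃ₗ[ZMod 2] V)) (u : V) (S : Set V) (h : ∀ a ∈ P, a u ∈ S) :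
    Nat.card P ≤ Nat.card S * Nat.card (P ⊓ stabilizer (V ≃ₗ[ZMod 2] V) u : Subgroup _) := by
  rw [Nat.card_congr (orbitProdStabilizerEquivGroup P u).symm, Nat.card_prod]
  refine Nat.mul_le_mul (Nat.card_mono (Set.toFinite _) ?_) ?_
  · rintro _ ⟨a, rfl⟩
    exact h a a.2
  · exact Nat.card_le_card_of_injective (fun a => ⟨a.1.1, a.1.2, a.2⟩) fun a b e =>
      Subtype.ext (Subtype.ext (congrArg Subtype.val e :))

/-- the fixed points of a subgroup -/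
def Fix (P : Subgroup (V ≃ₗ[ZMod 2] V)) : Submodule (ZMod 2) V where
  carrier := {v | ∀ a ∈ P, a v = v}
  add_mem' := fun hu hv a ha => by rw [map_add, hu a ha, hv a ha]
  zero_mem' := fun a _ => map_zero a
  smul_mem' := fun c v hv a ha => by rw [map_smul, hv a ha]

theorem cardS (Y : Submodule (ZMod 2) V) : Nat.card Y = 2 ^ finrank (ZMod 2) Y := by
  rw [Module.natCard_eq_pow_finrank (K := ZMod 2), Nat.card_zmod]

theorem modEq {p : ℕ} (hp : p.Prime) {P : Subgroup (V ≃ₗ[ZMod 2] V)} (hP : IsPGroup p P) {Y : Submodule (ZMod 2) V}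
    (hY : ∀ a ∈ P, ∀ y ∈ Y, a y ∈ Y) :
    2 ^ finrank (ZMod 2) Y ≡ 2 ^ finrank (ZMod 2) (Y ⊓ Fix P : Submodule _ _) [MOD p] := by
  have := Fact.mk hp
  let Z : SubMulAction P V := ⟨Y, fun a y hy => hY a a.2 y hy⟩
  have := hP.card_modEq_card_fixedPoints Z
  rw [← cardS, ← cardS]
  refine this.trans (Eq.subst (motive := fun n => _ ≡ n [MOD p]) (Nat.card_congr ?_) (Nat.ModEq.refl _))
  exact ⟨fun y => ⟨y.1.1, y.1.2, fun a ha => congrArg Subtype.val (y.2 ⟨a, ha⟩)⟩,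
    fun y => ⟨⟨y.1, y.2.1⟩, fun a => Subtype.ext (y.2.2 a a.2)⟩, fun _ => rfl, fun _ => rfl⟩

theorem fixv {P : Subgroup (V ≃ₗ[ZMod 2] V)} (hP : IsPGroup 2 P) {Y : Submodule (ZMod 2) V}
    (hY : ∀ a ∈ P, ∀ y ∈ Y, a y ∈ Y) (h0 : Y ≠ ⊥) : Y ⊓ Fix P ≠ ⊥ := fun e => by
  have := modEq Nat.prime_two hP hY
  rw [e, finrank_bot, Nat.ModEq, Nat.mod_eq_zero_of_dvd (dvd_pow_self 2 (by rwa [Ne, Submodule.finrank_eq_zero]))] at this
  omega

variable {B : LinearMap.BilinForm (ZMod 2) V} (hB : ∀ v, B v v = 0)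
include hB

theorem symm (u v : V) : B u v = B v u := by
  have := hB (u + v)
  simp only [map_add, LinearMap.add_apply, hB, zero_add, add_zero] at this
  rw [eq_neg_of_add_eq_zero_right this, ZMod.neg_eq_self_mod_two]

theorem step {Y : Submodule (ZMod 2) V} {u v : V} (hu : u ∈ Y) (hv : v ∈ Y) (h : B u v = 1) :
    finrank (ZMod 2) Y = finrank (ZMod 2) (Y ⊓ LinearMap.ker (B u) ⊓ LinearMap.ker (B v) : Submodule _ _) + 2 ∧
    Nat.card {y | y ∈ Y ∧ B u y = 1} * 2 ≤ 2 ^ finrank (ZMod 2) Y ∧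
    ∀ y ∈ Y, y - B v y • u - B u y • v ∈ Y ⊓ LinearMap.ker (B u) ⊓ LinearMap.ker (B v) := by
  have h' : B v u = 1 := symm hB u v ▸ h
  have e : ∀ y ∈ Y, y - B v y • u - B u y • v ∈ Y ⊓ LinearMap.ker (B u) ⊓ LinearMap.ker (B v) := fun y hy =>
    ⟨⟨Y.sub_mem (Y.sub_mem hy (Y.smul_mem _ hu)) (Y.smul_mem _ hv), by simp [hB, h]⟩, by simp [hB, h']⟩
  refine ⟨Nat.pow_right_injective le_rfl ?_, ?_, e⟩
  · simp only [pow_add, ← cardS]
    rw [show 2 ^ 2 = Nat.card (ZMod 2 × ZMod 2) by simp, ← Nat.card_prod]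
    refine Nat.card_congr ⟨fun y => (⟨_, e y y.2⟩, B u y, B v y), fun z => ⟨z.1 + z.2.2 • u + z.2.1 • v,
      Y.add_mem (Y.add_mem z.1.2.1.1 (Y.smul_mem _ hu)) (Y.smul_mem _ hv)⟩, fun y => Subtype.ext (by simp only []; abel), ?_⟩
    rintro ⟨⟨z, ⟨z1, z2⟩, z3⟩, s, t⟩
    replace z2 : B u z = 0 := z2
    replace z3 : B v z = 0 := z3
    simp only [map_add, map_smul, z2, z3, hB, h, h', smul_eq_mul, mul_zero, mul_one, zero_add, add_zero, Prod.mk.injEq,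
      Subtype.mk.injEq, and_true]
    abel
  · rw [← cardS]
    refine le_of_eq_of_le (b := Nat.card ({y | y ∈ Y ∧ B u y = 1} × ZMod 2)) (by rw [Nat.card_prod, Nat.card_zmod]) ?_
    refine Nat.card_le_card_of_injective (fun z => ⟨z.1 + z.2 • v, Y.add_mem z.1.2.1 (Y.smul_mem _ hv)⟩) ?_
    rintro ⟨⟨y, y1, y2⟩, s⟩ ⟨⟨z, z1, z2⟩, t⟩ e
    have e1 : y + s • v = z + t • v := congrArg Subtype.val e
    obtain rfl : s = t := by simpa [y2, z2, h] using congrArg (B u) e1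
    obtain rfl := add_right_cancel e1
    rfl

theorem spB (n : ℕ) : ∀ {Y : Submodule (ZMod 2) V} {P : Subgroup (V ≃ₗ[ZMod 2] V)}, finrank (ZMod 2) Y = n →
    (∀ y ∈ Y, (∀ z ∈ Y, B y z = 0) → y = 0) → IsPGroup 2 P → (∀ a ∈ P, ∀ u v, B (a u) (a v) = B u v) →
    (∀ a ∈ P, ∀ y ∈ Y, a y ∈ Y) → (∀ a ∈ P, (∀ y ∈ Y, a y = y) → a = 1) → ∃ k, n = 2 * k ∧ Nat.card P ≤ 2 ^ k ^ 2 := by
  induction n using Nat.strong_induction_on with | _ n ih => ?_
  intro Y P hn nd hP iso inv ff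
  by_cases h0 : Y = ⊥
  · subst h0
    exact ⟨0, by simp [← hn], by rw [(eq_bot_iff_forall P).2 fun a ha => ff a ha (by simp), card_bot]; rfl⟩
  obtain ⟨u, ⟨hu, hu'⟩, u0⟩ := (Submodule.ne_bot_iff _).1 (fixv hP inv h0)
  obtain ⟨v, hv, h⟩ : ∃ v ∈ Y, B u v = 1 := by
    by_contra! hc
    exact u0 (nd u hu fun z hz => by have := hc z hz; revert this; generalize B u z = t; revert t; decide)
  obtain ⟨s1, s2, s3⟩ := step hB hu hv h
  obtain ⟨k, k1, k2⟩ := ih _ (by omega) (Y := Y ⊓ LinearMap.ker (B u) ⊓ LinearMap.ker (B v))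
    (P := P ⊓ stabilizer (V ≃ₗ[ZMod 2] V) v) rfl (fun y hy e => nd y hy.1.1 fun z hz => by
      have e1 := e _ (s3 z hz)
      have e2 : B y u = 0 := symm hB u y ▸ hy.1.2
      have e3 : B y v = 0 := symm hB v y ▸ hy.2
      simpa [e2, e3] using e1) (hP.to_le inf_le_left) (fun a ha => iso a ha.1)
    (fun a ha y hy => ⟨⟨inv a ha.1 y hy.1.1, by
      rw [SetLike.mem_coe, LinearMap.mem_ker, ← hu' a ha.1, iso a ha.1]; exact hy.1.2⟩, by
      rw [SetLike.mem_coe, LinearMap.mem_ker, ← show a v = v from ha.2, iso a ha.1]; exact hy.2⟩)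
    fun a ha e => ff a ha.1 fun y hy => by
      simpa [hu' a ha.1, show a v = v from ha.2] using e _ (s3 y hy)
  refine ⟨k + 1, by omega, (orb P v {y | y ∈ Y ∧ B u y = 1} fun a ha =>
    ⟨inv a ha v hv, by rw [← hu' a ha, iso a ha, h]⟩).trans ?_⟩
  rw [s1, k1, pow_succ] at s2
  rw [show (k + 1) ^ 2 = 2 * k + 1 + k ^ 2 by ring, pow_add]
  exact Nat.mul_le_mul (Nat.le_of_mul_le_mul_right s2 two_pos) k2

omit hB in
/-- the moved space -/
def Wx (x : V ≃ₗ[ZMod 2] V) : Submodule (ZMod 2) V := LinearMap.range ((x : V →ₗ[ZMod 2] V) - 1)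

omit hB in
/-- the fixed space -/
def Cx (x : V ≃ₗ[ZMod 2] V) : Submodule (ZMod 2) V := LinearMap.ker ((x : V →ₗ[ZMod 2] V) - 1)

omit hB in
theorem mem_Cx {x : V ≃ₗ[ZMod 2] V} {v : V} : v ∈ Cx x ↔ x v = v := by simp [Cx, sub_eq_zero]

omit hB in
theorem mem_Wx {x : V ≃ₗ[ZMod 2] V} {v : V} : v ∈ Wx x ↔ ∃ w, x w - w = v := by simp [Wx]

omit hB in
theorem WC {x : V ≃ₗ[ZMod 2] V} {p : ℕ} (hp : Odd p) (hx : x ^ p = 1) {v : V} (h1 : v ∈ Wx x) (h2 : v ∈ Cx x) :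
    v = 0 := by
  obtain ⟨w, rfl⟩ := mem_Wx.1 h1
  rw [mem_Cx] at h2
  have : ∀ k : ℕ, (x ^ k) w = w + (k : ZMod 2) • (x w - w) := fun k => by
    induction k with
    | zero => simp
    | succ k ih => rw [pow_succ', LinearEquiv.mul_apply, ih, map_add, map_smul, h2, Nat.cast_succ, add_smul, one_smul]; abel
  have e := this p
  rwa [hx, ZMod.natCast_eq_one_iff_odd.2 hp, one_smul, LinearEquiv.coe_one, id, left_eq_add] at e

omit hB in
theorem dimWC (x : V ≃ₗ[ZMod 2] V) : finrank (ZMod 2) (Wx x) + finrank (ZMod 2) (Cx x) = finrank (ZMod 2) V :=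
  LinearMap.finrank_range_add_finrank_ker _

omit hB in
theorem decomp {x : V ≃ₗ[ZMod 2] V} {p : ℕ} (hp : Odd p) (hx : x ^ p = 1) (v : V) :
    ∃ w ∈ Wx x, ∃ c ∈ Cx x, w + c = v := by
  refine Submodule.mem_sup.1 ((Submodule.eq_top_of_finrank_eq (S := Wx x ⊔ Cx x) ?_).ge trivial)
  rw [← dimWC x, ← Submodule.finrank_sup_add_finrank_inf_eq,
    (Submodule.eq_bot_iff (Wx x ⊓ Cx x)).2 fun v hv => WC hp hx hv.1 hv.2, finrank_bot, add_zero]

omit hB in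
theorem invW {x a : V ≃ₗ[ZMod 2] V} (h : a * x = x * a) {v : V} (hv : v ∈ Wx x) : a v ∈ Wx x := by
  obtain ⟨w, rfl⟩ := mem_Wx.1 hv
  exact mem_Wx.2 ⟨a w, by rw [map_sub, ← LinearEquiv.mul_apply, ← h, LinearEquiv.mul_apply]⟩

omit hB in
theorem invC {x a : V ≃ₗ[ZMod 2] V} (h : a * x = x * a) {v : V} (hv : v ∈ Cx x) : a v ∈ Cx x := by
  rw [mem_Cx] at hv ⊢
  rw [← LinearEquiv.mul_apply, ← h, LinearEquiv.mul_apply, hv]

omit hB in
theorem invF {P : Subgroup (V ≃ₗ[ZMod 2] V)} {a : V ≃ₗ[ZMod 2] V} (h : ∀ b ∈ P, b * a = a * b) {v : V}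
    (hv : v ∈ Fix P) : a v ∈ Fix P := fun b hb => by
  rw [← LinearEquiv.mul_apply, h b hb, LinearEquiv.mul_apply, hv b hb]

omit hB in
theorem perpWC {x : V ≃ₗ[ZMod 2] V} (iso : ∀ u v, B (x u) (x v) = B u v) {w c : V} (hw : w ∈ Wx x) (hc : c ∈ Cx x) :
    B c w = 0 := by
  obtain ⟨w, rfl⟩ := mem_Wx.1 hw
  rw [map_sub, ← iso c w, mem_Cx.1 hc, sub_self]

omit hB in
theorem dimI {x : V ≃ₗ[ZMod 2] V} {p d : ℕ} (hp : p = 5 ∧ d = 4 ∨ p = 7 ∧ d = 3) (hx : x ^ p = 1)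
    (h8 : finrank (ZMod 2) V ≤ 8) {Y : Submodule (ZMod 2) V} (h1 : Y ≤ Wx x) (h2 : ∀ y ∈ Y, x y ∈ Y) :
    d ∣ finrank (ZMod 2) Y := by
  have pp : p.Prime := by rcases hp with ⟨rfl, -⟩ | ⟨rfl, -⟩ <;> norm_num
  have po : Odd p := by rcases hp with ⟨rfl, -⟩ | ⟨rfl, -⟩ <;> decide
  have := Fact.mk pp
  have e := modEq pp (P := zpowers x) (IsPGroup.of_card_dvd_pow (n := 1) (by
    rw [Nat.card_zpowers, pow_one]; exact orderOf_dvd_of_pow_eq_one hx)) (Y := Y) fun a ha => by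
      obtain ⟨k, rfl⟩ := mem_powers_iff_mem_zpowers.2 ha
      induction k with
      | zero => simp
      | succ k ih => exact fun y hy => by simpa [pow_succ] using ih (by simp) _ (h2 y hy)
  rw [(Submodule.eq_bot_iff (Y ⊓ Fix (zpowers x))).2 fun v hv => WC po hx (h1 hv.1)
    (mem_Cx.2 (hv.2 x (mem_zpowers x))), finrank_bot] at e
  have := Y.finrank_le.trans h8
  generalize finrank (ZMod 2) Y = k at *
  rcases hp with ⟨rfl, rfl⟩ | ⟨rfl, rfl⟩ <;> interval_cases k <;> simp_all [Nat.ModEq]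

variable (nd : ∀ u, (∀ v, B u v = 0) → u = 0) (h8 : finrank (ZMod 2) V ≤ 8)
include nd h8

theorem evenW {x : V ≃ₗ[ZMod 2] V} {p : ℕ} (hp : Odd p) (hx : x ^ p = 1) (iso : ∀ u v, B (x u) (x v) = B u v) :
    2 ∣ finrank (ZMod 2) (Wx x) := by
  obtain ⟨k, hk, -⟩ := spB hB _ (Y := Wx x) (P := ⊥) rfl (fun y hy e => nd y fun v => by
    obtain ⟨w, hw, c, hc, rfl⟩ := decomp hp hx v
    rw [map_add, e w hw, symm hB, perpWC iso hy hc, add_zero]) IsPGroup.of_bot (by simp) (by simp) (by simp)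
  exact ⟨k, hk⟩

theorem key {x : V ≃ₗ[ZMod 2] V} {p d : ℕ} (hp : p = 5 ∧ d = 4 ∨ p = 7 ∧ d = 3) (hx : x ^ p = 1) (x1 : x ≠ 1)
    (isx : ∀ u v, B (x u) (x v) = B u v) {P : Subgroup (V ≃ₗ[ZMod 2] V)} (hP : IsPGroup 2 P)
    (iso : ∀ a ∈ P, ∀ u v, B (a u) (a v) = B u v) (cm : ∀ a ∈ P, a * x = x * a) : Nat.card P ≤ 16 := by
  have po : Odd p := by rcases hp with ⟨rfl, -⟩ | ⟨rfl, -⟩ <;> decide
  have w0 : Wx x ≠ ⊥ := fun e => x1 (LinearEquiv.ext fun v => sub_eq_zero.1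
    ((Submodule.eq_bot_iff _).1 e _ (mem_Wx.2 ⟨v, rfl⟩)))
  have u0 := fixv hP (fun a ha y hy => invW (cm a ha) hy) w0
  have dI := fun Y => dimI hp hx h8 (Y := Y)
  have d1 := dI _ le_rfl fun y hy => invW rfl hy
  have d2 := dI (Wx x ⊓ Fix P) inf_le_left fun y hy => ⟨invW rfl hy.1, invF cm hy.2⟩
  have d3 := evenW hB nd h8 po hx isx
  have d4 := dimWC x
  have kC : ∀ P' ≤ P, Wx x ≤ Fix P' → ∃ k, finrank (ZMod 2) (Cx x) = 2 * k ∧ Nat.card P' ≤ 2 ^ k ^ 2 := fun P' h1 h2 =>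
    spB hB _ rfl (fun y hy e => nd y fun v => by
      obtain ⟨w, hw, c, hc, rfl⟩ := decomp po hx v
      rw [map_add, e c hc, perpWC isx hw hy, add_zero]) (hP.to_le h1) (fun a ha => iso a (h1 ha))
      (fun a ha y hy => invC (cm a (h1 ha)) hy) fun a ha e => LinearEquiv.ext fun v => by
        obtain ⟨w, hw, c, hc, rfl⟩ := decomp po hx v
        rw [map_add, e c hc, h2 hw a ha, LinearEquiv.coe_one, id]
  rw [Ne, ← Submodule.finrank_eq_zero] at w0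
  by_cases hU : Wx x ≤ Fix P
  · obtain ⟨k, k1, k2⟩ := kC P le_rfl hU
    exact k2.trans (Nat.pow_le_pow_right two_pos (Nat.pow_le_pow_left (show k ≤ 2 by
      rcases hp with ⟨-, rfl⟩ | ⟨-, rfl⟩ <;> omega) 2))
  obtain ⟨u, hu, hu'⟩ := SetLike.not_le_iff_exists.1 hU
  have l1 := Submodule.finrank_lt_finrank_of_lt (show Wx x ⊓ Fix P < Wx x from inf_lt_left.2 hU)
  have l0 := u0
  rw [Ne, ← Submodule.finrank_eq_zero] at l0
  obtain ⟨k, k1, k2⟩ := kC (P ⊓ stabilizer (V ≃ₗ[ZMod 2] V) u) inf_le_left (by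
    have l2 := Submodule.finrank_lt_finrank_of_lt (show Wx x ⊓ Fix P < Wx x ⊓ Fix (P ⊓ stabilizer (V ≃ₗ[ZMod 2] V) u) from
      lt_of_le_of_ne (fun y hy => ⟨hy.1, fun a ha => hy.2 a ha.1⟩) fun e => hu' (e.ge ⟨hu, fun a ha => ha.2⟩).2)
    have d5 := dI (Wx x ⊓ Fix (P ⊓ stabilizer (V ≃ₗ[ZMod 2] V) u)) inf_le_left fun y hy =>
      ⟨invW rfl hy.1, invF (fun a ha => cm a (mem_inf.1 ha).1) hy.2⟩
    have l3 := Submodule.finrank_mono (show Wx x ⊓ Fix (P ⊓ stabilizer (V ≃ₗ[ZMod 2] V) u) ≤ Wx x from inf_le_left)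
    exact inf_eq_left.1 (Submodule.eq_of_le_of_finrank_le inf_le_left (by
      rcases hp with ⟨-, rfl⟩ | ⟨-, rfl⟩ <;> omega)))
  let Z : Submodule (ZMod 2) V := Wx x ⊓ (Wx x ⊓ Fix P).dualAnnihilator.comap B
  have mZ : ∀ z, z ∈ Z ↔ z ∈ Wx x ∧ ∀ y ∈ Wx x ⊓ Fix P, B z y = 0 := fun z => by
    simp only [Z, Submodule.mem_inf, Submodule.mem_comap, Submodule.mem_dualAnnihilator]
  have d6 := dI Z inf_le_left fun z hz => (mZ _).2 ⟨invW rfl hz.1, fun y hy => by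
    have e : x * x⁻¹ = x⁻¹ * x := by simp
    have := ((mZ _).1 hz).2 (x⁻¹ y) ⟨invW e.symm hy.1, invF (fun b hb => (show Commute b x from cm b hb).inv_right) hy.2⟩
    rwa [← isx, ← LinearEquiv.mul_apply x x⁻¹, mul_inv_cancel, LinearEquiv.coe_one, id] at this⟩
  have l4 := Submodule.finrank_lt_finrank_of_lt (show Z < Wx x from lt_of_le_of_ne inf_le_left fun e => u0 (
    (Submodule.eq_bot_iff _).2 fun y hy => nd y fun v => by
      obtain ⟨w, hw, c, hc, rfl⟩ := decomp po hx v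
      rw [map_add, symm hB, ((mZ w).1 (e.ge hw)).2 y hy, symm hB, perpWC isx hy.1 hc, add_zero]))
  have o := orb P u ((· + u) '' Z) fun a ha => ⟨a u - u, (mZ _).2 ⟨(Wx x).sub_mem (invW (cm a ha) hu) hu, fun y hy => by
    rw [map_sub, LinearMap.sub_apply, ← iso a ha u, hy.2 a ha, sub_self]⟩, sub_add_cancel _ _⟩
  rw [Nat.card_image_of_injective (add_left_injective u), SetLike.coe_sort_coe, cardS] at o
  refine o.trans ?_
  rcases hp with ⟨rfl, rfl⟩ | ⟨rfl, rfl⟩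
  · exact Nat.mul_le_mul (Nat.pow_le_pow_right two_pos (show finrank (ZMod 2) Z ≤ 4 by omega))
      (k2.trans_eq (show _ = 1 by rw [show k = 0 by omega]; rfl))
  · exact Nat.mul_le_mul (Nat.pow_le_pow_right two_pos (show finrank (ZMod 2) Z ≤ 3 by omega))
      (k2.trans (Nat.pow_le_pow_right two_pos (Nat.pow_le_pow_left (show k ≤ 1 by omega) 2)))

theorem key57 {x y : V ≃ₗ[ZMod 2] V} (hx : x ^ 7 = 1) (x1 : x ≠ 1) (isx : ∀ u v, B (x u) (x v) = B u v)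
    (hy : y ^ 5 = 1) (y1 : y ≠ 1) (cm : x * y = y * x) : False := by
  have w0 : ∀ x : V ≃ₗ[ZMod 2] V, x ≠ 1 → finrank (ZMod 2) (Wx x) ≠ 0 := fun x x1 e => x1 (LinearEquiv.ext fun v =>
    sub_eq_zero.1 ((Submodule.eq_bot_iff _).1 (Submodule.finrank_eq_zero.1 e) _ (mem_Wx.2 ⟨v, rfl⟩)))
  have a1 := dimI (Or.inr ⟨rfl, rfl⟩) hx h8 le_rfl fun y hy => invW rfl hy
  have a2 := dimI (Or.inl ⟨rfl, rfl⟩) hy h8 le_rfl fun y hy => invW rfl hy
  have a3 := dimI (Or.inr ⟨rfl, rfl⟩) hx h8 (Y := Wx x ⊓ Wx y) inf_le_left fun z hz => ⟨invW rfl hz.1, invW cm hz.2⟩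
  have a4 := dimI (Or.inl ⟨rfl, rfl⟩) hy h8 (Y := Wx x ⊓ Wx y) inf_le_right fun z hz =>
    ⟨invW cm.symm hz.1, invW rfl hz.2⟩
  have a5 := evenW hB nd h8 (by decide) hx isx
  have a6 := Submodule.finrank_sup_add_finrank_inf_eq (Wx x) (Wx y)
  have a7 := (Wx x ⊔ Wx y).finrank_le
  have a8 := (Wx x ⊓ Wx y).finrank_le
  have := w0 x x1
  have := w0 y y1
  omega

omit hB nd in
theorem key25 {O P : Subgroup (V ≃ₗ[ZMod 2] V)} (hO : Nat.card O = 25) (hP : IsPGroup 2 P)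
    (c1 : ∀ a ∈ O, ∀ b ∈ O, a * b = b * a) (c2 : ∀ a ∈ O, ∀ b ∈ P, b * a = a * b) : P = ⊥ := by
  have := Fact.mk Nat.prime_five
  have ex : ∀ O' : Subgroup (V ≃ₗ[ZMod 2] V), 5 ∣ Nat.card O' → ∃ x ∈ O', x ^ 5 = 1 ∧ Wx x ≠ ⊥ := fun O' h => by
    obtain ⟨x, hx⟩ := exists_prime_orderOf_dvd_card' 5 h
    refine ⟨x, x.2, by rw [← hx, ← orderOf_coe, pow_orderOf_eq_one], fun e => ?_⟩
    rw [show x = 1 from Subtype.ext (LinearEquiv.ext fun v => sub_eq_zero.1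
      ((Submodule.eq_bot_iff _).1 e _ (mem_Wx.2 ⟨v, rfl⟩))), orderOf_one] at hx
    omega
  suffices h : 8 ≤ finrank (ZMod 2) (Fix P) from (eq_bot_iff_forall P).2 fun a ha => LinearEquiv.ext fun v =>
    (Submodule.eq_top_of_finrank_eq (le_antisymm (Fix P).finrank_le (h8.trans h))).ge trivial a ha
  obtain ⟨x, hx, x5, w0⟩ := ex O (by omega)
  obtain ⟨u, hu, u0⟩ := (Submodule.ne_bot_iff _).1 (fixv hP (fun a ha y hy => invW (c2 x hx a ha) hy) w0)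
  have d1 := dimI (Or.inl ⟨rfl, rfl⟩) x5 h8 (Y := Wx x ⊓ Fix P) inf_le_left fun z hz =>
    ⟨invW rfl hz.1, invF (c2 x hx) hz.2⟩
  have d2 := Submodule.finrank_mono (show Wx x ⊓ Fix P ≤ Fix P from inf_le_right)
  by_contra hc
  have o := orb O u (Wx x ⊓ Fix P : Submodule _ _) fun a ha => ⟨invW (c1 a ha x hx) hu.1, invF (c2 a ha) hu.2⟩
  rw [SetLike.coe_sort_coe, cardS, hO] at o
  have o1 := o.trans (Nat.mul_le_mul_right _ (Nat.pow_le_pow_right two_pos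
    (show finrank (ZMod 2) (Wx x ⊓ Fix P : Submodule _ _) ≤ 4 by omega)))
  obtain ⟨y, hy, y5, w1⟩ := ex (O ⊓ stabilizer (V ≃ₗ[ZMod 2] V) u) (by
    obtain ⟨k, -, hk⟩ := (Nat.dvd_prime_pow Nat.prime_five (m := 2)).1
      (hO ▸ card_dvd_of_le (show O ⊓ stabilizer (V ≃ₗ[ZMod 2] V) u ≤ O from inf_le_left))
    rw [hk] at o1 ⊢
    exact dvd_pow_self 5 (by rintro rfl; omega))
  have d3 := dimI (Or.inl ⟨rfl, rfl⟩) y5 h8 (Y := Wx y ⊓ Fix P) inf_le_left fun z hz =>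
    ⟨invW rfl hz.1, invF (c2 y hy.1) hz.2⟩
  have d4 := dimI (Or.inl ⟨rfl, rfl⟩) x5 h8 (Y := Wx x ⊓ Fix P ⊓ Cx y) (inf_le_left.trans inf_le_left) fun z hz =>
    ⟨⟨invW rfl hz.1.1, invF (c2 x hx) hz.1.2⟩, invC (c1 x hx y hy.1) hz.2⟩
  have d5 := fixv hP (fun a ha z hz => invW (c2 y hy.1 a ha) hz) w1
  have d6 : Wx x ⊓ Fix P ⊓ Cx y ≠ ⊥ := (Submodule.ne_bot_iff _).2 ⟨u, ⟨hu, mem_Cx.2 hy.2⟩, u0⟩
  rw [Ne, ← Submodule.finrank_eq_zero] at d5 d6
  have d7 := Submodule.finrank_sup_add_finrank_inf_eq (Wx y ⊓ Fix P) (Wx x ⊓ Fix P ⊓ Cx y)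
  rw [(Submodule.eq_bot_iff (Wx y ⊓ Fix P ⊓ (Wx x ⊓ Fix P ⊓ Cx y))).2 fun z hz => WC (by decide) y5 hz.1.1 hz.2.2,
    finrank_bot] at d7
  have d8 := Submodule.finrank_mono (show (Wx y ⊓ Fix P) ⊔ (Wx x ⊓ Fix P ⊓ Cx y) ≤ Fix P from
    sup_le inf_le_right (inf_le_left.trans inf_le_right))
  omega

theorem odd {A : Subgroup (V ≃ₗ[ZMod 2] V)} (iso : ∀ a ∈ A, ∀ u v, B (a u) (a v) = B u v)
    (cm : ∀ a ∈ A, ∀ b ∈ A, a * b = b * a) {k : ℕ} (hd : Nat.card A ∣ 2 ^ k * 175) :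
    Nat.card A < 128 ∨ IsPGroup 2 A := by
  have := Fact.mk Nat.prime_five
  have := Fact.mk (show Nat.Prime 7 by norm_num)
  obtain ⟨P⟩ : Nonempty (Sylow 2 A) := inferInstance
  have hP : IsPGroup 2 (P.1.map A.subtype) := P.2.map _
  have lP : P.1.map A.subtype ≤ A := map_subtype_le _
  have e := P.1.card_mul_index
  rw [← card_map_of_injective A.subtype_injective] at e
  have hi : P.1.index ∣ 175 := (Nat.Coprime.pow_right k ((Nat.coprime_comm.1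
    ((Nat.Prime.coprime_iff_not_dvd Nat.prime_two).2 P.not_dvd_index)))).dvd_of_dvd_mul_left
    ((Dvd.intro_left _ e).trans hd)
  have ex : ∀ p : ℕ, p.Prime → p ∣ P.1.index → ∃ x ∈ A, x ^ p = 1 ∧ x ≠ 1 := fun p hp h => by
    have := Fact.mk hp
    obtain ⟨x, hx⟩ := exists_prime_orderOf_dvd_card' p (h.trans (Dvd.intro_left _ e))
    exact ⟨x, x.2, by rw [← hx, ← orderOf_coe, pow_orderOf_eq_one], fun e => hp.ne_one (by
      rw [← hx, ← orderOf_coe, e, orderOf_one])⟩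
  have k1 : ∀ p d, p = 5 ∧ d = 4 ∨ p = 7 ∧ d = 3 → P.1.index = p → Nat.card A < 128 := fun p d hp h => by
    obtain ⟨x, hx, x1, x2⟩ := ex p (by rcases hp with ⟨rfl, -⟩ | ⟨rfl, -⟩ <;> norm_num) (h ▸ dvd_rfl)
    have := key hB nd h8 hp x1 x2 (iso x hx) hP (fun a ha => iso a (lP ha)) fun a ha => cm a (lP ha) x hx
    rcases hp with ⟨rfl, -⟩ | ⟨rfl, -⟩ <;> rw [← e, h] <;> omega
  have k2 : ¬ 35 ∣ P.1.index := fun h => by
    obtain ⟨x, hx, x1, x2⟩ := ex 7 (by norm_num) (Dvd.dvd.trans (by norm_num) h)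
    obtain ⟨y, hy, y1, y2⟩ := ex 5 (by norm_num) (Dvd.dvd.trans (by norm_num) h)
    exact key57 hB nd h8 x1 x2 (iso x hx) y1 y2 (cm x hx y hy)
  have : P.1.index ∈ Nat.divisors 175 := Nat.mem_divisors.2 ⟨hi, by omega⟩
  rw [show Nat.divisors 175 = {1, 5, 7, 25, 35, 175} by decide] at this
  simp only [Finset.mem_insert, Finset.mem_singleton] at this
  rcases this with h | h | h | h | h | h
  · obtain ⟨n, hn⟩ := hP.exists_card_eq
    exact Or.inr (IsPGroup.of_card (n := n) (by rw [← e, h, hn, mul_one]))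
  · exact Or.inl (k1 5 4 (by simp) h)
  · exact Or.inl (k1 7 3 (by simp) h)
  · obtain ⟨O, hO⟩ := Sylow.exists_subgroup_card_pow_prime (G := A) 5 (n := 2) (by rw [← e, h]; exact Dvd.intro_left _ rfl)
    have lO : O.map A.subtype ≤ A := map_subtype_le _
    rw [key25 h8 (O := O.map A.subtype) (by rw [card_map_of_injective A.subtype_injective, hO]; rfl) hP
      (fun a ha b hb => cm a (lO ha) b (lO hb)) fun a ha b hb => cm b (lP hb) a (lO ha), card_bot, h] at e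
    omega
  · exact (k2 (h ▸ dvd_rfl)).elim
  · exact (k2 (by rw [h]; norm_num)).elim

omit h8 in
theorem two6 (h6 : finrank (ZMod 2) V = 6) {A : Subgroup (V ≃ₗ[ZMod 2] V)} (hA : IsPGroup 2 A)
    (iso : ∀ a ∈ A, ∀ u v, B (a u) (a v) = B u v) (cm : ∀ a ∈ A, ∀ b ∈ A, a * b = b * a) : Nat.card A < 256 := by
  have : Nontrivial V := nontrivial_of_finrank_pos (R := ZMod 2) (by omega)
  obtain ⟨u, ⟨-, hu⟩, u0⟩ := (Submodule.ne_bot_iff _).1 (fixv hA (Y := ⊤) (by simp) top_ne_bot)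
  obtain ⟨v, h⟩ : ∃ v, B u v = 1 := by
    by_contra! hc
    exact u0 (nd u fun z => by have := hc z; revert this; generalize B u z = t; revert t; decide)
  have hv : v ∈ Fix (A ⊓ stabilizer (V ≃ₗ[ZMod 2] V) v) := fun a ha => ha.2
  obtain ⟨-, s2, -⟩ := step hB (Y := Fix (A ⊓ stabilizer (V ≃ₗ[ZMod 2] V) v)) (fun a ha => hu a ha.1) hv h
  have o := orb A v {y | y ∈ Fix (A ⊓ stabilizer (V ≃ₗ[ZMod 2] V) v) ∧ B u y = 1} fun a ha =>
    ⟨invF (fun b hb => cm b (mem_inf.1 hb).1 a ha) hv, by rw [← hu a ha, iso a ha, h]⟩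
  obtain ⟨t1, -, t3⟩ := step hB (Y := ⊤) trivial trivial h
  rw [finrank_top] at t1
  generalize hP : A ⊓ stabilizer (V ≃ₗ[ZMod 2] V) v = P at *
  have lP : P ≤ A := hP ▸ inf_le_left
  by_cases h4 : finrank (ZMod 2) (Fix P) ≤ 4
  · obtain ⟨k, k1, k2⟩ := spB hB _ (Y := ⊤ ⊓ LinearMap.ker (B u) ⊓ LinearMap.ker (B v)) (P := P) rfl
      (fun y hy e => nd y fun z => by
        have e1 := e _ (t3 z trivial)
        have e2 : B y u = 0 := symm hB u y ▸ hy.1.2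
        have e3 : B y v = 0 := symm hB v y ▸ hy.2
        simpa [e2, e3] using e1) (hA.to_le lP) (fun a ha => iso a (lP ha))
      (fun a ha y hy => ⟨⟨trivial, by
        rw [SetLike.mem_coe, LinearMap.mem_ker, ← hu a (lP ha), iso a (lP ha)]; exact hy.1.2⟩, by
        rw [SetLike.mem_coe, LinearMap.mem_ker, ← hv a ha, iso a (lP ha)]; exact hy.2⟩)
      fun a ha e => LinearEquiv.ext fun y => by simpa [hu a (lP ha), hv a ha] using e _ (t3 y trivial)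
    have := s2.trans (Nat.pow_le_pow_right two_pos h4)
    rw [show k = 2 by omega] at k2
    exact (o.trans (Nat.mul_le_mul (show _ ≤ 8 by omega) k2)).trans_lt (by norm_num)
  have s3 := s2.trans (Nat.pow_le_pow_right two_pos ((Fix P).finrank_le.trans h6.le))
  refine (o.trans (Nat.mul_le_mul (show _ ≤ 32 by omega) (show _ ≤ 2 from ?_))).trans_lt (by norm_num)
  by_cases ht : Fix P = ⊤
  · rw [(eq_bot_iff_forall P).2 fun a ha => LinearEquiv.ext fun v => ht.ge trivial a ha, card_bot]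
    omega
  obtain ⟨w, -, hw⟩ := SetLike.not_le_iff_exists.1 fun e => ht (eq_top_iff.2 e)
  have o2 := orb P w ((· + w) '' B.orthogonal (Fix P)) fun a ha => ⟨a w - w, fun y hy => by
    rw [map_sub, ← iso a (lP ha) y w, hy a ha, sub_self], sub_add_cancel _ _⟩
  have l2 := Submodule.finrank_lt_finrank_of_lt (show Fix P < Fix (P ⊓ stabilizer (V ≃ₗ[ZMod 2] V) w) from
      lt_of_le_of_ne (fun y hy a ha => hy a ha.1) fun e => hw (e.ge fun a ha => ha.2))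
  have l3 := (Fix (P ⊓ stabilizer (V ≃ₗ[ZMod 2] V) w)).finrank_le
  rw [Nat.card_image_of_injective (add_left_injective w), SetLike.coe_sort_coe, cardS,
    LinearMap.BilinForm.finrank_orthogonal ⟨nd, fun u e => nd u fun v => symm hB u v ▸ e v⟩,
    (eq_bot_iff_forall (P ⊓ _)).2 fun a ha => LinearEquiv.ext fun v =>
      (Submodule.eq_top_of_finrank_eq (S := Fix (P ⊓ stabilizer (V ≃ₗ[ZMod 2] V) w)) (by omega)).ge trivial a ha,
    card_bot, mul_one] at o2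
  exact o2.trans (Nat.pow_le_pow_right two_pos (show finrank (ZMod 2) V - finrank (ZMod 2) (Fix P) ≤ 1 by omega))

end Cfsg.Agent.H1.AB
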