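import Cfsg.Agent.H1.ABa

/-!
Abelian 2-groups of isometries of a quadratic space of dimension eight without reflections.
-/

set_option autoImplicit false
set_option linter.unusedSectionVars false

namespace Cfsg.Agent.H1.AB

open Module Subgroup MulAction

variable {V : Type*} [AddCommGroup V] [Module (ZMod 2) V] [Finite V]
  {B : LinearMap.BilinForm (ZMod 2) V} (hB : ∀ v, B v v = 0) {Q : V → ZMod 2}
  (hQ : ∀ x y, Q (x + y) = Q x + Q y + B x y)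

theorem z2 (s : ZMod 2) : s = 0 ∨ s = 1 := by revert s; decide

theorem z11 : (1 + 1 : ZMod 2) = 0 := rfl

include hQ in
theorem Q0 : Q 0 = 0 := by simpa using hQ 0 0

include hQ in
theorem Qs (s : ZMod 2) (x : V) : Q (s • x) = s * Q x := by rcases z2 s with rfl | rfl <;> simp [Q0 hQ]

include hQ in
theorem isoB {a : V ≃ₗ[ZMod 2] V} (h : ∀ v, Q (a v) = Q v) (u v : V) : B (a u) (a v) = B u v := by
  have := h (u + v)
  rwa [map_add, hQ, hQ, h, h, add_right_inj] at this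

include hB

theorem down {Y : Submodule (ZMod 2) V} {P : Subgroup (V ≃ₗ[ZMod 2] V)} (nd : ∀ y ∈ Y, (∀ z ∈ Y, B y z = 0) → y = 0)
    (iso : ∀ a ∈ P, ∀ u v, B (a u) (a v) = B u v) (inv : ∀ a ∈ P, ∀ y ∈ Y, a y ∈ Y)
    (ff : ∀ a ∈ P, (∀ y ∈ Y, a y = y) → a = 1) {u v : V} (hu : u ∈ Y) (hv : v ∈ Y) (hu' : u ∈ Fix P) (hv' : v ∈ Fix P)
    (h : B u v = 1) : ∃ Y' : Submodule (ZMod 2) V, Y' = Y ⊓ LinearMap.ker (B u) ⊓ LinearMap.ker (B v) ∧
      finrank (ZMod 2) Y = finrank (ZMod 2) Y' + 2 ∧ (∀ y ∈ Y', (∀ z ∈ Y', B y z = 0) → y = 0) ∧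
      (∀ a ∈ P, ∀ y ∈ Y', a y ∈ Y') ∧ ∀ a ∈ P, (∀ y ∈ Y', a y = y) → a = 1 := by
  obtain ⟨s1, -, s3⟩ := step hB hu hv h
  refine ⟨_, rfl, s1, fun y hy e => nd y hy.1.1 fun z hz => ?_, fun a ha y hy => ⟨⟨inv a ha y hy.1.1, ?_⟩, ?_⟩,
    fun a ha e => ff a ha fun y hy => by simpa [hu' a ha, hv' a ha] using e _ (s3 y hy)⟩
  · have e1 := e _ (s3 z hz)
    have e2 : B y u = 0 := symm hB u y ▸ hy.1.2
    have e3 : B y v = 0 := symm hB v y ▸ hy.2
    simpa [e2, e3] using e1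
  · rw [SetLike.mem_coe, LinearMap.mem_ker, ← hu' a ha, iso a ha]; exact hy.1.2
  · rw [SetLike.mem_coe, LinearMap.mem_ker, ← hv' a ha, iso a ha]; exact hy.2

include hQ

theorem fixS {P : Subgroup (V ≃ₗ[ZMod 2] V)} (hP : IsPGroup 2 P) (iso : ∀ a ∈ P, ∀ v, Q (a v) = Q v)
    {Y : Submodule (ZMod 2) V} (inv : ∀ a ∈ P, ∀ y ∈ Y, a y ∈ Y) (h3 : 3 ≤ finrank (ZMod 2) Y) :
    ∃ u ∈ Y, u ∈ Fix P ∧ u ≠ 0 ∧ Q u = 0 := by
  obtain ⟨t, ⟨ht, ht'⟩, t0⟩ := (Submodule.ne_bot_iff _).1 (fixv hP inv (by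
    rintro rfl; simp at h3))
  rcases z2 (Q t) with h | h
  · exact ⟨t, ht, ht', t0, h⟩
  let S : SubMulAction P V := ⟨{y | y ∈ Y ⊓ LinearMap.ker (B t) ∧ Q y = 0}, fun a y hy =>
    ⟨⟨inv a a.2 y hy.1.1, show B t (a.1 y) = 0 by rw [← ht' a a.2, isoB hQ (iso a a.2)]; exact hy.1.2⟩,
      (iso a a.2 y).trans hy.2⟩⟩
  have mt : t ∈ Y ⊓ LinearMap.ker (B t) := ⟨ht, hB t⟩
  have e : ∀ y ∈ Y ⊓ LinearMap.ker (B t), ∀ s : ZMod 2, Q (y + s • t) = Q y + s := fun y hy s => by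
    rw [hQ, Qs hQ, h, map_smul, symm hB, show B t y = 0 from hy.2, smul_zero, mul_one, add_zero]
  have c1 : Nat.card (S × ZMod 2) = Nat.card (Y ⊓ LinearMap.ker (B t) : Submodule _ _) :=
    Nat.card_congr ⟨fun z => ⟨z.1 + z.2 • t, add_mem z.1.2.1 (Submodule.smul_mem _ _ mt)⟩,
      fun z => (⟨z + Q z • t, add_mem z.2 (Submodule.smul_mem _ _ mt), by rw [e _ z.2, CharTwo.add_self_eq_zero]⟩, Q z),
      fun z => by
        have e1 : Q (z.1 + z.2 • t) = z.2 := by rw [e _ z.1.2.1, z.1.2.2, zero_add]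
        exact Prod.ext (Subtype.ext (by simp only [e1]; rw [add_assoc, ← add_smul, CharTwo.add_self_eq_zero]; simp)) e1,
      fun z => Subtype.ext (by simp only []; rw [add_assoc, ← add_smul, CharTwo.add_self_eq_zero]; simp)⟩
  have c2 := Submodule.finrank_sup_add_finrank_inf_eq Y (LinearMap.ker (B t))
  have c3 := (Y ⊔ LinearMap.ker (B t)).finrank_le
  have c4 := LinearMap.finrank_range_add_finrank_ker (B t)
  have c5 := (LinearMap.range (B t)).finrank_le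
  rw [finrank_self] at c5
  rw [Nat.card_prod, Nat.card_zmod, cardS] at c1
  obtain ⟨b, hb, b0⟩ := hP.exists_fixed_point_of_prime_dvd_card_of_fixed_point S (by
    obtain ⟨k, hk⟩ : ∃ k, finrank (ZMod 2) (Y ⊓ LinearMap.ker (B t) : Submodule _ _) = k + 2 :=
      ⟨finrank (ZMod 2) (Y ⊓ LinearMap.ker (B t) : Submodule _ _) - 2, by omega⟩
    rw [hk, pow_add] at c1
    omega) (a := ⟨0, zero_mem _, Q0 hQ⟩) fun a => Subtype.ext (map_zero a.1)
  exact ⟨b, b.2.1.1, fun a ha => congrArg Subtype.val (hb ⟨a, ha⟩), fun e => b0 (Subtype.ext e.symm), b.2.2⟩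

theorem astep {A : Subgroup (V ≃ₗ[ZMod 2] V)} (hA : IsPGroup 2 A) (iso : ∀ a ∈ A, ∀ v, Q (a v) = Q v)
    (cm : ∀ a ∈ A, ∀ b ∈ A, a * b = b * a) {Y : Submodule (ZMod 2) V} (nd : ∀ y ∈ Y, (∀ z ∈ Y, B y z = 0) → y = 0)
    (inv : ∀ a ∈ A, ∀ y ∈ Y, a y ∈ Y) (h3 : 3 ≤ finrank (ZMod 2) Y) : ∃ u ∈ Y, ∃ v ∈ Y, B u v = 1 ∧ ∃ P ≤ A,
      u ∈ Fix P ∧ v ∈ Fix P ∧ Nat.card A * 4 ≤ 2 ^ finrank (ZMod 2) (Y ⊓ Fix P : Submodule _ _) * Nat.card P := by
  obtain ⟨u, hu, hu', u0, qu⟩ := fixS hB hQ hA iso inv h3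
  obtain ⟨v, hv, h, qv⟩ : ∃ v ∈ Y, B u v = 1 ∧ Q v = 0 := by
    obtain ⟨v, hv, h⟩ : ∃ v ∈ Y, B u v = 1 := by
      by_contra! hc
      exact u0 (nd u hu fun z hz => (z2 _).resolve_right (hc z hz))
    exact ⟨v + Q v • u, add_mem hv (Y.smul_mem _ hu), by simp [h, hB], by
      simp [hQ, Qs hQ, qu, symm hB v u, h, CharTwo.add_self_eq_zero]⟩
  have f1 : u ∈ Fix (A ⊓ stabilizer (V ≃ₗ[ZMod 2] V) v) := fun a ha => hu' a ha.1
  have f2 : v ∈ Fix (A ⊓ stabilizer (V ≃ₗ[ZMod 2] V) v) := fun a ha => ha.2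
  refine ⟨u, hu, v, hv, h, _, inf_le_left, f1, f2, ?_⟩
  have o := orb A v {y | y ∈ Y ⊓ Fix (A ⊓ stabilizer (V ≃ₗ[ZMod 2] V) v) ∧ B u y = 1 ∧ Q y = 0} fun a ha =>
    ⟨⟨inv a ha v hv, invF (fun b hb => cm b (mem_inf.1 hb).1 a ha) f2⟩, by rw [← hu' a ha, isoB hQ (iso a ha), h],
      (iso a ha v).trans qv⟩
  refine (Nat.mul_le_mul_right 4 o).trans ?_
  rw [mul_right_comm, ← cardS]
  refine Nat.mul_le_mul_right _ ?_
  generalize A ⊓ stabilizer (V ≃ₗ[ZMod 2] V) v = P at f1 f2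
  refine le_of_eq_of_le (b := Nat.card ({y | y ∈ Y ⊓ Fix P ∧ B u y = 1 ∧ Q y = 0} × ZMod 2 × ZMod 2))
    (by rw [Nat.card_prod, Nat.card_prod, Nat.card_zmod]) ?_
  refine Nat.card_le_card_of_injective (fun z => ⟨z.1 + z.2.1 • u + z.2.2 • v,
    add_mem (add_mem z.1.2.1 (Submodule.smul_mem _ _ ⟨hu, f1⟩)) (Submodule.smul_mem _ _ ⟨hv, f2⟩)⟩) ?_
  rintro ⟨⟨y, y1, y2, y3⟩, s, t⟩ ⟨⟨z, z1, z2, z3⟩, s', t'⟩ e
  have e1 : y + s • u + t • v = z + s' • u + t' • v := congrArg Subtype.val e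
  obtain rfl : t = t' := by simpa [y2, z2, h, hB] using congrArg (B u) e1
  have e2 := add_right_cancel e1
  obtain rfl : s = s' := by
    simpa [hQ, Qs hQ, qu, y3, z3, symm hB y u, symm hB z u, y2, z2] using congrArg Q e2
  obtain rfl := add_right_cancel e2
  rfl

variable (nd : ∀ u, (∀ v, B u v = 0) → u = 0)
include nd

theorem fstep {P : Subgroup (V ≃ₗ[ZMod 2] V)} (hP : IsPGroup 2 P) (iso : ∀ a ∈ P, ∀ v, Q (a v) = Q v) {c : ℕ}
    (h : finrank (ZMod 2) (Fix P) + c + 2 = finrank (ZMod 2) V) : ∃ P' ≤ P,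
      finrank (ZMod 2) (Fix P) < finrank (ZMod 2) (Fix P') ∧ Nat.card P ≤ 2 ^ (c + 1) * Nat.card P' := by
  have nd' : B.Nondegenerate := ⟨nd, fun u e => nd u fun v => symm hB u v ▸ e v⟩
  obtain ⟨w, hw, r, hr, e⟩ : ∃ w ∉ Fix P, ∃ r ∈ B.orthogonal (Fix P), Q r ≠ B r w := by
    by_contra! hc
    obtain ⟨w, -, hw⟩ := SetLike.exists_of_lt (Submodule.lt_top_of_finrank_lt_finrank (s := Fix P) (by omega))
    have l1 := Submodule.finrank_add_le_finrank_add_finrank (Fix P) (Submodule.span (ZMod 2) {w})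
    have l2 := finrank_span_le_card (R := ZMod 2) ({w} : Set V)
    simp only [Set.toFinset_singleton, Finset.card_singleton] at l2
    obtain ⟨w', -, hw'⟩ := SetLike.exists_of_lt (Submodule.lt_top_of_finrank_lt_finrank
      (s := Fix P ⊔ Submodule.span (ZMod 2) {w}) (by omega))
    have h1 : w' ∉ Fix P := fun e => hw' (Submodule.mem_sup_left e)
    refine h1 (LinearMap.BilinForm.orthogonal_orthogonal nd' (fun x y e => symm hB x y ▸ e) (Fix P) ▸ fun r hr => ?_)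
    have := hc (w' - w) (fun e => hw' (by
      simpa using add_mem (Submodule.mem_sup_left e) (Submodule.mem_sup_right (Submodule.mem_span_singleton_self w)))) r hr
    rw [map_sub, ← hc w hw r hr, eq_sub_iff_add_eq, CharTwo.add_self_eq_zero] at this
    exact this.symm
  refine ⟨P ⊓ stabilizer (V ≃ₗ[ZMod 2] V) w, inf_le_left, Submodule.finrank_lt_finrank_of_lt
    (lt_of_le_of_ne (fun y hy a ha => hy a ha.1) fun e => hw (e.ge fun a ha => ha.2)), ?_⟩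
  have o := orb P w ((· + w) '' (B.orthogonal (Fix P) \ {r})) fun a ha => ⟨a w - w, ⟨fun y hy => by
    rw [map_sub, ← isoB hQ (iso a ha) y w, hy a ha, sub_self], fun e' => e (by
      have := hQ (a w - w) w
      rw [sub_add_cancel, iso a ha, show a w - w = r from e', add_right_comm, right_eq_add] at this
      rw [eq_neg_of_add_eq_zero_left this, ZMod.neg_eq_self_mod_two])⟩, sub_add_cancel _ _⟩
  rw [Nat.card_image_of_injective (add_left_injective w), Nat.card_coe_set_eq, Set.ncard_diff_singleton_of_mem hr,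
    ← Nat.card_coe_set_eq, SetLike.coe_sort_coe, cardS, LinearMap.BilinForm.finrank_orthogonal nd',
    show finrank (ZMod 2) V - finrank (ZMod 2) (Fix P) = c + 2 by omega] at o
  obtain ⟨a, ha⟩ := hP.exists_card_eq
  obtain ⟨b, hb⟩ := (hP.to_le (inf_le_left (b := stabilizer (V ≃ₗ[ZMod 2] V) w))).exists_card_eq
  rw [ha, hb] at o ⊢
  have o1 := o.trans_lt (Nat.mul_lt_mul_of_pos_right (Nat.sub_one_lt (Nat.two_pow_pos (c + 2)).ne') (Nat.two_pow_pos b))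
  rw [← pow_add] at o1 ⊢
  exact Nat.pow_le_pow_right two_pos (by have := (Nat.pow_lt_pow_iff_right one_lt_two).1 o1; omega)

theorem two8 (h8 : finrank (ZMod 2) V = 8) {A : Subgroup (V ≃ₗ[ZMod 2] V)} (hA : IsPGroup 2 A)
    (iso : ∀ a ∈ A, ∀ v, Q (a v) = Q v) (cm : ∀ a ∈ A, ∀ b ∈ A, a * b = b * a)
    (nr : ∀ a ∈ A, 7 ≤ finrank (ZMod 2) (Cx a) → a = 1) : Nat.card A ≤ 64 := by
  have f1 : ∀ P ≤ A, 7 ≤ finrank (ZMod 2) (Fix P) → Nat.card P ≤ 1 := fun P h e => by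
    rw [(eq_bot_iff_forall P).2 fun a ha => nr a (h ha) (e.trans (Submodule.finrank_mono fun v hv =>
      mem_Cx.2 (hv a ha))), card_bot]
  have f2 : ∀ P ≤ A, finrank (ZMod 2) (Fix P) = 6 → Nat.card P ≤ 2 := fun P h e => by
    obtain ⟨P', a1, a2, a3⟩ := fstep hB hQ nd (hA.to_le h) (fun a ha => iso a (h ha)) (c := 0) (by omega)
    have := f1 P' (a1.trans h) (by omega)
    omega
  have f3 : ∀ P ≤ A, finrank (ZMod 2) (Fix P) = 5 → Nat.card P ≤ 8 := fun P h e => by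
    obtain ⟨P', a1, a2, a3⟩ := fstep hB hQ nd (hA.to_le h) (fun a ha => iso a (h ha)) (c := 1) (by omega)
    have := f1 P' (a1.trans h)
    have := f2 P' (a1.trans h)
    omega
  have f4 : ∀ P ≤ A, 5 ≤ finrank (ZMod 2) (Fix P) → 2 ^ finrank (ZMod 2) (Fix P) * Nat.card P ≤ 256 := fun P h e => by
    have := f1 P h
    have := f2 P h
    have := f3 P h
    have := (Fix P).finrank_le.trans h8.le
    generalize finrank (ZMod 2) (Fix P) = k at *
    interval_cases k <;> omega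
  obtain ⟨u, hu, v, hv, h, P, a1, a2, a3, a4⟩ := astep hB hQ hA iso cm (Y := ⊤) (fun y _ e => nd y fun z => e z trivial)
    (by simp) (by rw [finrank_top]; omega)
  rw [top_inf_eq] at a4
  by_cases h5 : 5 ≤ finrank (ZMod 2) (Fix P)
  · have := f4 P a1 h5
    omega
  have iB := fun a ha => isoB hQ (iso a ha)
  obtain ⟨Y, hY, b1, b2, b3, b4⟩ := down hB (Y := ⊤) (P := P) (fun y _ e => nd y fun z => e z trivial)
    (fun a ha => iB a (a1 ha)) (by simp) (fun a _ e => LinearEquiv.ext fun y => e y trivial) hu hv a2 a3 h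
  rw [finrank_top] at b1
  obtain ⟨u', hu', v', hv', h', P', c1, c2, c3, c4⟩ := astep hB hQ (hA.to_le a1) (fun a ha => iso a (a1 ha))
    (fun a ha b hb => cm a (a1 ha) b (a1 hb)) b2 b3 (by omega)
  obtain ⟨d1, -⟩ := step hB (Y := Fix P') (fun a ha => a2 a (c1 ha)) (fun a ha => a3 a (c1 ha)) h
  rw [inf_assoc, inf_comm, ← top_inf_eq (LinearMap.ker (B u)), ← hY] at d1
  have d2 := a4.trans (Nat.mul_le_mul_right _ (Nat.pow_le_pow_right two_pos (show _ ≤ 4 by omega)))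
  by_cases h6 : 5 ≤ finrank (ZMod 2) (Fix P')
  · have := f4 P' (c1.trans a1) h6
    rw [d1, pow_add, mul_right_comm] at this
    omega
  obtain ⟨Y', -, e1, e2, e3, e4⟩ := down hB (P := P') b2 (fun a ha => iB a (a1 (c1 ha))) (fun a ha => b3 a (c1 ha))
    (fun a ha => b4 a (c1 ha)) hu' hv' c2 c3 h'
  obtain ⟨k, k1, k2⟩ := spB hB _ rfl e2 (hA.to_le (c1.trans a1)) (fun a ha => iB a (a1 (c1 ha))) e3 e4
  rw [show k = 2 by omega] at k2
  have d3 := c4.trans (Nat.mul_le_mul_right _ (Nat.pow_le_pow_right two_pos (show _ ≤ 2 by omega)))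
  omega

end Cfsg.Agent.H1.AB
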