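import Cfsg.Agent.H1.ABb
import Cfsg.Agent.H9.FAdapt
import Cfsg.Agent.H8.Parity

/-!
Abelian subgroups of order prime to three of `Sp₆(2)` and `Ω₈⁺(2)`.
-/

set_option autoImplicit false
set_option linter.unusedSectionVars false

namespace Cfsg.Agent.H1.AB

open Module Subgroup Cfsg.Agent.Form Cfsg.Agent.H9.FAdapt Cfsg.Agent.H9.FOrd Cfsg.Agent.H9.FClass Cfsg.Agent.H9.FIdx

variable {V : Type*} [AddCommGroup V] [Module (ZMod 2) V]

theorem sig (P : FP (ZMod 2)) (a : ZMod 2) : P.σ a = a := by rcases z2 a with rfl | rfl <;> simp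

/-- the bilinear form -/
def bil {P : FP (ZMod 2)} (S : PQ P V) : LinearMap.BilinForm (ZMod 2) V :=
  LinearMap.mk₂ (ZMod 2) S.B S.B_add_left S.B_smul_left S.B_add_right fun c x y => by rw [S.B_smul_right, sig, smul_eq_mul]

theorem dvd175 {n k j : ℕ} (h : n ∣ 2 ^ k * 175 * 3 ^ j) (h3 : ¬ 3 ∣ n) : n ∣ 2 ^ k * 175 :=
  (Nat.Coprime.pow_right j (Nat.coprime_comm.1 ((Nat.Prime.coprime_iff_not_dvd Nat.prime_three).2 h3))).dvd_of_dvd_mul_right h

theorem cm_map {G H : Type*} [Group G] [Group H] (A : Subgroup G) [IsMulCommutative A] (f : G →* H) :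
    ∀ a ∈ A.map f, ∀ b ∈ A.map f, a * b = b * a := by
  rintro _ ⟨a, ha, rfl⟩ _ ⟨b, hb, rfl⟩
  rw [← map_mul, ← map_mul]
  exact congrArg f (congrArg Subtype.val (mul_comm' (⟨a, ha⟩ : A) ⟨b, hb⟩))

theorem sp (A : Subgroup (Matrix.symplecticGroup (Fin 3) (ZMod 2))) [IsMulCommutative A] (h3 : ¬ 3 ∣ Nat.card A) :
    Nat.card A < 256 := by
  let f := (glEquiv (ι := Fin 3 ⊕ Fin 3) (F := ZMod 2)).toMonoidHom.comp
    (Matrix.symplecticGroup (Fin 3) (ZMod 2)).subtype.toHomUnits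
  have hf : Function.Injective f := glEquiv.injective.comp fun x y e => Subtype.ext (congrArg Units.val e)
  have le : A.map f ≤ (spS 3 (ZMod 2)).isom := by
    rintro _ ⟨x, -, rfl⟩
    exact (isIso_spS_iff 3 _).2 x.2
  have hB : ∀ v, bil (spS 3 (ZMod 2)) v v = 0 := (isSymplecticForm_sympForm 3 (ZMod 2)).alternating
  have nd : ∀ u, (∀ v, bil (spS 3 (ZMod 2)) u v = 0) → u = 0 := spS_nondeg 3
  have iso : ∀ a ∈ A.map f, ∀ u v, bil (spS 3 (ZMod 2)) (a u) (a v) = bil (spS 3 (ZMod 2)) u v :=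
    fun a ha => PQ.B_isom (le ha)
  have hd := card_dvd_of_le le
  rw [card_isom_symp (ZMod.card 2) 3 (spS_nondeg 3) (finrank_sum 3)] at hd
  rw [← card_map_of_injective hf] at h3 ⊢
  rcases odd hB nd (by rw [finrank_sum]; omega) iso (cm_map A f) (dvd175 (k := 9) (j := 4) (hd.trans (by decide)) h3)
    with h | h
  · omega
  · exact two6 hB nd (finrank_sum 3) h iso (cm_map A f)

theorem norefl [Finite V] {Q : QuadraticForm (ZMod 2) V} (hN : H8.ND Q) (h8 : finrank (ZMod 2) V = 8)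
    {U : Submodule (ZMod 2) V} (hU : H8.MaxTS Q U) {a : V ≃ₗ[ZMod 2] V} (ha : a ∈ H8.Om Q)
    (h : 7 ≤ finrank (ZMod 2) (Cx a)) : a = 1 := by
  by_contra a1
  obtain ⟨w, hw⟩ : ∃ w, a w ≠ w := by_contra fun hc => a1 (LinearEquiv.ext (by simpa using hc))
  have iso : ∀ v, Q (a v) = Q v := H8.Om_le_OG ha
  have e1 : ∀ y ∈ Cx a, QuadraticMap.polar Q y (a w - w) = 0 := fun y hy => by
    have := isoB (B := QuadraticMap.polarBilin Q) (H8.Q_add Q) iso y w
    rw [mem_Cx.1 hy] at this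
    exact (QuadraticMap.polar_sub_right ..).trans (sub_eq_zero.2 this)
  have sp : ∀ v, ∃ y ∈ Cx a, ∃ s : ZMod 2, y + s • w = v := fun v => by
    have l := Submodule.finrank_lt_finrank_of_lt (show Cx a < Cx a ⊔ Submodule.span (ZMod 2) {w} from
      left_lt_sup.2 fun e => hw (mem_Cx.1 (e (Submodule.mem_span_singleton_self w))))
    obtain ⟨y, hy, z, hz, e⟩ := Submodule.mem_sup.1 ((Submodule.eq_top_of_finrank_eq
      (le_antisymm (Submodule.finrank_le _) (by omega))).ge (show v ∈ (⊤ : Submodule (ZMod 2) V) from trivial) :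
        v ∈ Cx a ⊔ Submodule.span (ZMod 2) {w})
    obtain ⟨s, rfl⟩ := Submodule.mem_span_singleton.1 hz
    exact ⟨y, hy, s, e⟩
  have e2 : QuadraticMap.polar Q w (a w - w) = 1 := (z2 _).resolve_left fun e => hw (sub_eq_zero.1 (hN _ fun v => by
    obtain ⟨y, hy, s, rfl⟩ := sp v
    rw [H8.pol_comm, QuadraticMap.polar_add_left, e1 y hy, QuadraticMap.polar_smul_left, e, smul_zero, add_zero]))
  have e3 : Q (a w - w) = 1 := by
    have := H8.Q_add Q w (a w - w)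
    rw [add_sub_cancel, iso, e2, add_assoc, left_eq_add] at this
    exact eq_neg_of_add_eq_zero_left this
  have e4 : a = H8.refl Q (a w - w) := LinearEquiv.ext fun v => by
    obtain ⟨y, hy, s, rfl⟩ := sp v
    rw [map_add, map_add, map_smul, map_smul, H8.refl_apply, H8.refl_apply, e1 y hy, e2, e3, mem_Cx.1 hy, zero_div,
      zero_smul, sub_zero, div_one, ← ZMod.neg_eq_self_mod_two 1, neg_smul, one_smul, sub_neg_eq_add, add_sub_cancel]
  have p1 := H8.refl_parity hN hU hU (a := a w - w) (by rw [e3]; exact one_ne_zero)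
  have p2 := H8.Om_parity hN (by omega) ha hU hU
  rw [← e4, add_comm] at p1
  exact Nat.not_even_iff_odd.2 p1 p2

theorem om (A : Subgroup (Cfsg.Omega (ZMod 2) (Cfsg.quadFormPlus 4 (ZMod 2)))) [IsMulCommutative A]
    (h3 : ¬ 3 ∣ Nat.card A) : Nat.card A < 128 := by
  let f := (glEquiv (ι := Fin 4 ⊕ Fin 4) (F := ZMod 2)).toMonoidHom.comp
    ((isometryGroup (ZMod 2) (quadFormPlus 4 (ZMod 2))).subtype.comp (Omega (ZMod 2) (quadFormPlus 4 (ZMod 2))).subtype)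
  have hf : Function.Injective f := glEquiv.injective.comp fun x y e => Subtype.ext (Subtype.ext e)
  have hS : (oP 4 (ZMod 2)).Nondeg := quadPQ_nondeg _
  have le : A.map f ≤ H8.Om (toQF (oP 4 (ZMod 2))) := by
    rintro _ ⟨x, -, rfl⟩
    rw [Om_toQF]
    exact (mem_omegaGL_iff _ _).1 ⟨x.1, x.2, rfl⟩
  have le' : A.map f ≤ (oP 4 (ZMod 2)).isom := OG_toQF (oP 4 (ZMod 2)) ▸ le.trans H8.Om_le_OG
  have hB : ∀ v, bil (oP 4 (ZMod 2)) v v = 0 := fun v => (polar_toQF _ v v).symm.trans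
    ((H8.pol_self (toQF (oP 4 (ZMod 2))) v).trans (mul_eq_zero_of_left z11 _))
  have hw : widx (oP 4 (ZMod 2)) ⊤ = 4 := by
    have := plus_oP (F := ZMod 2) 4
    rw [Plus, finrank_top, finrank_sum] at this
    omega
  have hd := card_dvd_of_le le'
  have hc := card_isom_orth_plus (ZMod.card 2) 4 hS (finrank_sum 4) hw
  rw [show 2 * 2 ^ (4 * (4 - 1)) * H9.Count.P (2 ^ 2) 4 = 2 ^ 13 * 175 * 3 ^ 5 * (2 ^ 4 + 1) by decide,
    Nat.mul_left_inj (by omega)] at hc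
  rw [← card_map_of_injective hf] at h3 ⊢
  rcases odd hB hS (finrank_sum 4).le (fun a ha => PQ.B_isom (le' ha)) (cm_map A f) (dvd175 (hc ▸ hd) h3) with h | h
  · exact h
  obtain ⟨U, -, u1, u2⟩ := exists_ts_widx (oP 4 (ZMod 2)) ⊤
  exact (two8 hB (Q := (oP 4 (ZMod 2)).Q) (oP 4 (ZMod 2)).orth_Q_add hS (finrank_sum 4) h
    (fun a ha => (PQ.orth_mem_isom _ _).1 (le' ha)) (cm_map A f) fun a ha => norefl (nd_toQF hS) (finrank_sum 4)
      ⟨(PQ.orth_ts _ U).1 u1, by rw [u2, hw, finrank_sum]⟩ (le ha)).trans_lt (by omega)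

end Cfsg.Agent.H1.AB
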