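import Cfsg.Agent.Bd.Asm1

/-! A variant of Bender's fixed point lemma and a double transitivity criterion. -/

set_option autoImplicit false

namespace Cfsg.Agent.H1.Bi
open Subgroup MulAction H5.Odd Cfsg.Agent.Bd

variable {G Ω : Type*} [Group G] [MulAction G Ω] [Finite G] [Finite Ω] {H : Subgroup G} {a b c : Ω} {p : ℕ}

theorem A1s [hp : Fact p.Prime] (hSE : SE G Ω) (Gd : Subgroup G → Ω → Prop)
    (g1 : ∀ Y R c, Y ≤ R → Gd R c → Gd Y c)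
    (g2 : ∀ Y c g, g ∈ H → (∀ y ∈ Y, g * y * g⁻¹ ∈ Y) → Gd Y c → Gd Y (g • c))
    (g3 : ∀ Y c d u, Y ≤ H → u ∈ H → Inv u → u • c = c → (∀ y ∈ Y, u * y * u⁻¹ ∈ Y) → (∀ y ∈ Y, y • c = c) →
      d ∈ Fx Ω H Y → d ≠ c → Gd Y c) (Y : Subgroup G) :
    IsPGroup p Y → Y ≤ H → Three (Fx Ω H Y) → ∀ c ∈ Fx Ω H Y, Gd Y c := by
  induction Y using WellFoundedGT.induction with
  | _ Y IH =>
  intro hY hle h3
  set Δ := Fx Ω H Y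
  set N := H ⊓ normalizer (Y : Set G)
  have hN : ∀ g ∈ N, ∀ c ∈ Δ, g • c ∈ Δ := fun g hg c hc => Fx_smul hg.1 (mem_norm.1 hg.2) hc
  have TA : ∀ δ ∈ Δ, ∀ δ' ∈ Δ, δ ≠ δ' → SylIn p Y (St H δ δ') → ∃ w ∈ N, Inv w ∧ w • δ = δ' :=
    fun δ h1 δ' h2 hne h => by
      obtain ⟨w, w1, w2, w3, w4⟩ := hSE.typeA h1.1 h2.1 hne h
      exact ⟨w, ⟨w1, mem_norm.2 w4⟩, w2, w3⟩
  have exR : ∀ δ ∈ Δ, ∀ δ' ∈ Δ, ¬ SylIn p Y (St H δ δ') → ∃ R : Subgroup G, IsPGroup p R ∧ R ≤ St H δ δ' ∧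
      R ≤ normalizer (Y : Set G) ∧ Y ≤ R ∧ R ≠ Y := fun δ h1 δ' h2 h => by
    by_contra hn
    push Not at hn
    exact h (sylIn_of_norm hY (fun y hy => mem_St.2 ⟨hle hy, h1.2 y hy, h2.2 y hy⟩) hn)
  have IH' : ∀ R : Subgroup G, IsPGroup p R → Y < R → R ≤ H → Three (Fx Ω H R) → ∀ δ ∈ Fx Ω H R, Gd Y δ :=
    fun R h1 h2 h3 h4 δ h5 => g1 Y R δ h2.le (IH R h2 h1 h3 h4 δ h5)
  have lg : ∀ c ∈ Δ, c ∈ Lam Ω N → Gd Y c := fun c hc ⟨u, hu, hi, e⟩ => by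
    obtain ⟨d, hd, hdc, -⟩ := h3 c c
    exact g3 Y c d u hle hu.1 hi e (mem_norm.1 hu.2) hc.2 hd hdc
  have mv : ∀ g ∈ N, ∀ c, Gd Y c → Gd Y (g • c) := fun g hg c => g2 Y c g hg.1 (mem_norm.1 hg.2)
  have TB : ∀ δ ∈ Δ, ¬ Gd Y δ → ∀ δ' ∈ Δ, δ ≠ δ' → ¬ SylIn p Y (St H δ δ') →
      ∃ S, SylIn p S (N ⊓ stabilizer G δ) ∧ (∀ x ∈ S, x • δ' = δ') ∧
        ∀ c ∈ Δ, (∀ x ∈ S, x • c = c) → c = δ ∨ c = δ' := fun δ h1 h0 δ' h2 hne h => by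
    obtain ⟨R, hR, r1, r2, r3, r4⟩ := exR δ h1 δ' h2 h
    have hf : ∀ c ∈ Δ, (∀ x ∈ R, x • c = c) → c = δ ∨ c = δ' := fun c hc e => by
      by_contra hn
      push Not at hn
      have m1 : δ ∈ Fx Ω H R := ⟨h1.1, fun x hx => (mem_St.1 (r1 hx)).2.1⟩
      exact h0 (IH' R hR (lt_of_le_of_ne r3 r4.symm) (fun x hx => (mem_St.1 (r1 hx)).1)
        (three_of m1 ⟨h2.1, fun x hx => (mem_St.1 (r1 hx)).2.2⟩ ⟨hc.1, e⟩ hne hn.1.symm hn.2.symm) δ m1)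
    have hRN : R ≤ N ⊓ stabilizer G δ := fun x hx => ⟨⟨(mem_St.1 (r1 hx)).1, r2 hx⟩, (mem_St.1 (r1 hx)).2.1⟩
    obtain ⟨S, hS, hRS⟩ := exists_sylIn hR hRN
    have d1 : p ∣ ((Δ \ {δ}) \ {δ'}).ncard := dvd_of_no_fix hR (fun g hg x hx =>
      ⟨⟨hN g (hRN hg).1 x hx.1.1, fun e => hx.1.2 (smul_left_cancel g (e.trans (mem_St.1 (r1 hg)).2.1.symm))⟩,
        fun e => hx.2 (smul_left_cancel g (e.trans (mem_St.1 (r1 hg)).2.2.symm))⟩)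
      fun x hx e => (hf x hx.1.1 e).elim hx.1.2 hx.2
    obtain ⟨c, hc, e⟩ := exists_fix_of_not_dvd hS.pg (Δ \ {δ}) (fun g hg x hx =>
      ⟨hN g (hS.le hg).1 x hx.1, fun e => hx.2 (smul_left_cancel g (e.trans (Eq.symm (hS.le hg).2)))⟩) fun h => by
        rw [← Set.ncard_sdiff_singleton_add_one (s := Δ \ {δ}) ⟨h2, hne.symm⟩] at h
        exact hp.out.one_lt.ne' (Nat.dvd_one.1 ((Nat.dvd_add_right d1).1 h))
    obtain rfl := (hf c hc.1 fun x hx => e x (hRS hx)).resolve_left hc.2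
    exact ⟨S, hS, e, fun c hc e => hf c hc fun x hx => e x (hRS hx)⟩
  have TC : ∀ δ ∈ Δ, ¬ Gd Y δ → ∀ δ' ∈ Δ, δ ≠ δ' → ¬ SylIn p Y (St H δ δ') → ∀ δ'' ∈ Δ, δ ≠ δ'' →
      ¬ SylIn p Y (St H δ δ'') → ∃ g ∈ N, g • δ = δ ∧ g • δ' = δ'' := fun δ h1 h0 δ' h2 n2 b2 δ'' h3 n3 b3 => by
    obtain ⟨S, hS, f1, -⟩ := TB δ h1 h0 δ' h2 n2 b2
    obtain ⟨S', hS', -, f2⟩ := TB δ h1 h0 δ'' h3 n3 b3
    obtain ⟨g, hg, rfl⟩ := hS'.conj_eq hS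
    refine ⟨g, hg.1, hg.2, (f2 _ (hN g hg.1 _ h2) fun x hx => ?_).resolve_left fun e =>
      n2 (smul_left_cancel g (Eq.trans hg.2 e.symm))⟩
    rw [← mul_smul, show x * g = g * (g⁻¹ * x * g) by group, mul_smul, f1 _ (mem_cj.1 hx)]
  intro δ hδ
  by_contra h0
  by_cases hΔ : ∃ α ∈ Δ, α ∈ Lam Ω N
  · obtain ⟨α, hα, u, hu, hi, e⟩ := hΔ
    have gα := lg α hα ⟨u, hu, hi, e⟩
    have n1 : δ ≠ α := fun e' => h0 (e' ▸ gα)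
    have n2 : δ ≠ u • δ := fun e' => h0 (lg δ hδ ⟨u, hu, hi, e'.symm⟩)
    have b1 : ¬ SylIn p Y (St H δ α) := fun h => by
      obtain ⟨w, hw, iw, rfl⟩ := TA δ hδ α hα n1 h
      exact h0 (iw.smul2 δ ▸ mv w hw _ gα)
    obtain ⟨g, hg, -, e'⟩ := TC δ hδ h0 α hα n1 b1 _ (hN u hu δ hδ) n2 fun h => b1 (h.of_card hY
      (fun y hy => mem_St.2 ⟨hle hy, hδ.2 y hy, hα.2 y hy⟩) dvd_rfl
      (by rw [St_comm, (hSE.B5 ⟨hu.1, hi, e⟩ hδ.1 n1.symm).2]))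
    exact h0 (hi.smul2 δ ▸ mv u hu _ (e' ▸ mv g hg _ gα))
  push Not at hΔ
  obtain ⟨δ₁, hδ₁, n1, -⟩ := h3 δ δ
  have hYo : Odd (Nat.card Y) := hSE.odd_card n1 fun y hy => ⟨hδ₁.2 y hy, hδ.2 y hy⟩
  obtain ⟨O, hO, ho, hn, hm⟩ := B9 (Y := N) (by
    rintro ⟨x, hx, y, hy, ix, iy, hxy, e⟩
    obtain ⟨d, hd⟩ := hSE.fix ix
    exact hΔ d ⟨⟨x, hx.1, ix, hd⟩, hSE.B8 hYo ix iy hxy e hd (mem_norm.1 hx.2) (mem_norm.1 hy.2)⟩ ⟨x, hx, ix, hd⟩)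
  obtain ⟨u, hu, hi⟩ : ∃ u ∈ N, Inv u := by
    by_contra hn
    push Not at hn
    have ns : ∀ x ∈ Δ, ∀ y ∈ Δ, x ≠ y → ¬ SylIn p Y (St H x y) := fun x hx y hy n1 h => by
      obtain ⟨w, w1, w2, -⟩ := TA x hx y hy n1 h
      exact hn w w1 w2
    have T0 : ∀ x ∈ Δ, ¬ Gd Y x → ∀ y ∈ Δ, ∀ z ∈ Δ, x ≠ y → x ≠ z → ∃ g ∈ N, g • x = x ∧ g • y = z :=
      fun x hx h0 y hy z hz n1 n2 => TC x hx h0 y hy n1 (ns x hx y hy n1) z hz n2 (ns x hx z hz n2)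
    have bad : ∀ x ∈ Δ, ¬ Gd Y x := fun x hx gx => by
      have nx : δ ≠ x := fun e => h0 (e ▸ gx)
      obtain ⟨y, hy, y1, y2⟩ := h3 δ x
      obtain ⟨R, hR, r1, r2, r3, r4⟩ := exR x hx y hy (ns x hx y hy y2.symm)
      have m1 : δ ∈ Fx Ω H R := ⟨hδ.1, fun r hr => by
        have rN : r ∈ N := ⟨(mem_St.1 (r1 hr)).1, r2 hr⟩
        by_contra hne
        obtain ⟨g, hg, -, e⟩ := T0 δ hδ h0 x hx _ (hN r rN δ hδ) nx (Ne.symm hne)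
        have := mv _ (N.inv_mem rN) _ (e ▸ mv g hg x gx)
        rw [inv_smul_smul] at this
        exact h0 this⟩
      exact h0 (IH' R hR (lt_of_le_of_ne r3 r4.symm) (fun x hx => (mem_St.1 (r1 hx)).1)
        (three_of m1 ⟨hx.1, fun r hr => (mem_St.1 (r1 hr)).2.1⟩ ⟨hy.1, fun r hr => (mem_St.1 (r1 hr)).2.2⟩ nx
          y1.symm y2.symm) δ m1)
    have T : ∀ x ∈ Δ, ∀ y ∈ Δ, ∀ z ∈ Δ, x ≠ y → x ≠ z → ∃ g ∈ N, g • x = x ∧ g • y = z := fun x hx =>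
      T0 x hx (bad x hx)
    obtain ⟨δ₂, hδ₂, n2, n3⟩ := h3 δ δ₁
    obtain ⟨g, hg, g1, g2⟩ := T δ hδ δ₁ hδ₁ δ₂ hδ₂ n1.symm n2.symm
    obtain ⟨h, hh, h1, h2⟩ := T δ₂ hδ₂ δ hδ δ₁ hδ₁ n2 n3
    obtain ⟨k, hk, k1, k2⟩ := T δ₁ hδ₁ δ₂ hδ₂ δ hδ n3.symm n1
    obtain ⟨n, h⟩ := exists_inv_of_swap (g := k * h * g) n1.symm (by rw [mul_smul, mul_smul, g1, h2, k1])
      (by rw [mul_smul, mul_smul, g2, h1, k2])
    exact hn _ (pow_mem (mul_mem (mul_mem hk hh) hg) n) h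
  let B : Ω → Set Ω := fun c => {x | ∃ o ∈ O, o • c = x}
  have hB : ∀ c ∈ Δ, B c ⊆ Δ := by
    rintro c hc _ ⟨o, h, rfl⟩
    exact hN o (hO h) c hc
  have hg : ∀ g ∈ N, ∀ c, g • c ∈ B c → ∀ x ∈ B c, g • x ∈ B c := by
    rintro g h c ⟨o', ho', e⟩ _ ⟨o, h', rfl⟩
    exact ⟨g * o * g⁻¹ * o', mul_mem (hn g h o h') ho', by rw [mul_smul, e, ← mul_smul, inv_mul_cancel_right, mul_smul]⟩
  have hw : ∀ w ∈ N, Inv w → w • δ ∈ B (u • δ) := fun w h iw =>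
    ⟨w * u, hm w h u hu iw hi, by rw [mul_smul, hi.smul2]⟩
  have self : ∀ c, c ∈ B c := fun c => ⟨1, one_mem _, one_smul _ _⟩
  have hg1 : ∀ g ∈ N, g • δ = δ → ∀ x ∈ B δ, g • x ∈ B δ := fun g h e => hg g h δ (e.symm ▸ self δ)
  have hg2 : ∀ g ∈ N, g • δ = δ → ∀ x ∈ B (u • δ), g • x ∈ B (u • δ) := fun g h e => hg g h _ (by
    have := hw _ (mul_mem (mul_mem h hu) (N.inv_mem h)) (hi.conj g)
    rwa [mul_smul, mul_smul, inv_smul_eq_iff.2 e.symm] at this)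
  have disj : ∀ x ∈ B δ, x ∉ B (u • δ) := by
    rintro _ ⟨o, h, rfl⟩ ⟨o', h', e⟩
    obtain ⟨x, hx, e'⟩ := exists_fix_of_not_dvd (pelt_pgroup (p := 2) (n := 1) (x := u) (by simp [sq, hi.2])) (B δ)
      (fun g hg' => hg g (zpowers_le.2 hu hg') δ (by
        obtain ⟨n, rfl⟩ := mem_powers_iff_mem_zpowers.2 hg'
        induction n with
        | zero => simpa using self δ
        | succ n ih =>
          simp only [pow_succ', mul_smul]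
          exact hg u hu δ ⟨o'⁻¹ * o, mul_mem (O.inv_mem h') h, by rw [mul_smul, ← e, inv_smul_smul]⟩ _
            (ih (pow_mem (mem_zpowers u) n))))
      (fun h => Nat.not_even_iff_odd.2 (odd_orbit ho δ) (even_iff_two_dvd.2 h))
    exact hΔ x (hB δ hδ hx) ⟨u, hu, hi, e' u (mem_zpowers u)⟩
  have tb : ∀ c ∈ Δ, δ ≠ c → c ∉ B (u • δ) → ¬ SylIn p Y (St H δ c) := fun c hc n h h' => by
    obtain ⟨w, w1, w2, rfl⟩ := TA δ hδ c hc n h'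
    exact h (hw w w1 w2)
  have one : B δ = {δ} → B (u • δ) = {u • δ} := fun h => by
    refine Set.eq_singleton_iff_unique_mem.2 ⟨self _, ?_⟩
    rintro _ ⟨o, h', rfl⟩
    have : (u⁻¹ * o * u) • δ ∈ B δ := ⟨_, by simpa using hn _ (N.inv_mem hu) o h', rfl⟩
    rw [h, Set.mem_singleton_iff, mul_smul, mul_smul, inv_smul_eq_iff] at this
    exact this
  by_cases h1 : B δ = {δ}
  · obtain ⟨c, hc, c1, c2⟩ := h3 δ (u • δ)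
    obtain ⟨S, hS, -, f⟩ := TB δ hδ h0 c hc c1.symm (tb c hc c1.symm (by rw [one h1]; exact c2))
    rcases f _ (hN u hu δ hδ) (fun x hx => by
      have := hg2 x (hS.le hx).1 (hS.le hx).2 _ (self _)
      rwa [one h1] at this) with h | h
    · exact disj δ (self δ) (by rw [h]; exact self δ)
    · exact c2 h.symm
  obtain ⟨δ', m', n'⟩ : ∃ δ' ∈ B δ, δ' ≠ δ := by
    by_contra hn
    push Not at hn
    exact h1 (Set.eq_singleton_iff_unique_mem.2 ⟨self δ, hn⟩)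
  obtain ⟨S, hS, f', f⟩ := TB δ hδ h0 δ' (hB δ hδ m') n'.symm (tb _ (hB δ hδ m') n'.symm (disj _ m'))
  have d1 : p ∣ (B (u • δ)).ncard := dvd_of_no_fix hS.pg (fun g hg => hg2 g (hS.le hg).1 (hS.le hg).2)
    fun x hx e => (f x (hB _ (hN u hu δ hδ) hx) e).elim (fun e => disj _ (self δ) (e ▸ hx)) fun e => disj _ m' (e ▸ hx)
  have d2 : p ∣ ((B δ \ {δ}) \ {δ'}).ncard := dvd_of_no_fix hS.pg (fun g hg x hx =>
    ⟨⟨hg1 g (hS.le hg).1 (hS.le hg).2 x hx.1.1, fun e => hx.1.2 (smul_left_cancel g (e.trans (Eq.symm (hS.le hg).2)))⟩,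
      fun e => hx.2 (smul_left_cancel g (e.trans (f' g hg).symm))⟩)
    fun x hx e => (f x (hB δ hδ hx.1.1) e).elim hx.1.2 hx.2
  have e1 : B (u • δ) = (u • ·) '' B δ := Set.ext fun x => ⟨fun ⟨o, h, e⟩ => ⟨(u⁻¹ * o * u) • δ,
    ⟨_, by simpa using hn _ (N.inv_mem hu) o h, rfl⟩, by simp [mul_smul, e]⟩, by
      rintro ⟨_, ⟨o, h, rfl⟩, rfl⟩
      exact ⟨_, hn u hu o h, by simp [mul_smul]⟩⟩
  have o1 : Odd (B (u • δ)).ncard := odd_orbit ho _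
  rw [e1, Set.ncard_image_of_injective _ (MulAction.injective u), ← Set.ncard_sdiff_singleton_add_one (self δ),
    ← Set.ncard_sdiff_singleton_add_one (s := B δ \ {δ}) ⟨m', n'⟩] at d1 o1
  obtain rfl := (Nat.prime_dvd_prime_iff_eq hp.out Nat.prime_two).1 ((Nat.dvd_add_right d2).1 d1)
  exact Nat.not_even_iff_odd.2 o1 (even_iff_two_dvd.2 d1)

theorem relIdx (S D : Subgroup G) : S.relIndex D = {x : G ⧸ S | ∃ d ∈ D, (d : G ⧸ S) = x}.ncard := by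
  have e : {x : G ⧸ S | ∃ d ∈ D, (d : G ⧸ S) = x} = orbit D ((1 : G) : G ⧸ S) := Set.ext fun x =>
    ⟨fun ⟨d, hd, e⟩ => ⟨⟨d, hd⟩, by rw [← e]; show ((d * 1 : G) : G ⧸ S) = d; rw [mul_one]⟩,
      fun ⟨d, e⟩ => ⟨d, d.2, by rw [← e]; show _ = ((d * 1 : G) : G ⧸ S); rw [mul_one]⟩⟩
  rw [e, ← index_stabilizer, relIndex]
  congr 1
  ext d
  rw [mem_subgroupOf, mem_stabilizer_iff]
  show _ ↔ ((d * 1 : G) : G ⧸ S) = (1 : G)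
  rw [eq_comm, QuotientGroup.eq]
  simp

theorem relIdx_eq {S D M : Subgroup G} (h : D ≤ M) (h' : ∀ m ∈ M, ∃ d ∈ D, d⁻¹ * m ∈ S) :
    S.relIndex D = S.relIndex M := by
  rw [relIdx, relIdx]
  congr 1
  ext x
  refine ⟨fun ⟨d, hd, e⟩ => ⟨d, h hd, e⟩, ?_⟩
  rintro ⟨m, hm, rfl⟩
  obtain ⟨d, hd, e⟩ := h' m hm
  exact ⟨d, hd, QuotientGroup.eq.2 e⟩

theorem syl_not_le [Fact p.Prime] {S D P : Subgroup G} (h : SylIn p P D) (hp : p ∣ S.relIndex D) : ¬ P ≤ S := fun hle =>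
  h.not_dvd (by
    rw [← card_mul_index (S.subgroupOf D)]
    refine mul_dvd_mul ?_ hp
    rw [← card_subtype]
    exact card_dvd_of_le fun x hx => ⟨⟨x, h.le hx⟩, hle hx, rfl⟩)

theorem TT (hSE : SE G Ω) (Θ : Ω → Subgroup G) (e1 : ∀ g ∈ H, ∀ c, ∀ x ∈ Θ c, g * x * g⁻¹ ∈ Θ (g • c))
    (e2 : Odd (Nat.card (Θ a)))
    (e3 : ∀ c, ∀ u ∈ IA H c, ∀ v ∈ IA H c, ∀ d ∈ Lam Ω H, d ≠ c → (u * v) • d = d → u * v ∈ Θ c)
    (r2 : ∃ u ∈ IA H a, ∃ v ∈ IA H a, u ≠ v ∧ u * v = v * u) (hnt : (Lam Ω H).Nontrivial) :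
    (∀ b ∈ Lam Ω H, ∀ c ∈ Lam Ω H, b ≠ a → c ≠ a → ∃ g ∈ H, g • a = a ∧ g • b = c) ∧
    ∀ X ≤ H ⊓ stabilizer G a, (∀ g ∈ H, g • a = a → ∀ x ∈ X, g * x * g⁻¹ ∈ X) →
      (∀ x ∈ X, ∀ d ∈ Lam Ω H, d ≠ a → x • d = d → x ∈ Θ a) → ∀ x ∈ X, ∀ u ∈ IA H a, u * (x * u * x⁻¹) ∈ Θ a := by
  have ea : ∀ g ∈ H, g • a = a → ∀ x ∈ Θ a, g * x * g⁻¹ ∈ Θ a := fun g hg e x hx => by
    simpa [e] using e1 g hg a x hx
  have key : ∀ u ∈ IA H a, ∃ S : Subgroup G, (∀ h, h ∈ S ↔ h ∈ H ⊓ stabilizer G a ∧ u * (h * u * h⁻¹) ∈ Θ a) ∧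
      S.relIndex (H ⊓ stabilizer G a) ≠ 1 ∧ ∀ p : ℕ, ∀ _ : Fact p.Prime, p ∣ S.relIndex (H ⊓ stabilizer G a) →
      ∀ b ∈ Lam Ω H, b ≠ a → ∃ P : Subgroup G, IsPGroup p P ∧ P ≤ St H a b ∧
        ∀ c ∈ Lam Ω H, (∀ x ∈ P, x • c = c) → c = a ∨ c = b := fun u hu => by
    have ha : a ∈ Lam Ω H := ⟨u, hu⟩
    have cl : ∀ h k : G, h ∈ H ⊓ stabilizer G a → u * (h * u * h⁻¹) ∈ Θ a → u * (k * u * k⁻¹) ∈ Θ a →
        u * (h * k * u * (h * k)⁻¹) ∈ Θ a := fun h k hh h1 h2 => by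
      have := mul_mem h1 (ea h hh.1 hh.2 _ h2)
      rwa [show u * (h * u * h⁻¹) * (h * (u * (k * u * k⁻¹)) * h⁻¹) = u * (h * (u * u) * k * u * (h * k)⁻¹) by group,
        hu.2.1.2, mul_one] at this
    let S : Subgroup G :=
      { carrier := {h | h ∈ H ⊓ stabilizer G a ∧ u * (h * u * h⁻¹) ∈ Θ a}
        one_mem' := ⟨one_mem _, by simp [hu.2.1.2]⟩
        mul_mem' := fun {h k} hh hk => ⟨mul_mem hh.1 hk.1, cl h k hh.1 hh.2 hk.2⟩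
        inv_mem' := fun {h} hh => ⟨Subgroup.inv_mem _ hh.1, by
          have := (Θ a).inv_mem (ea _ (H.inv_mem hh.1.1) (Subgroup.inv_mem (stabilizer G a) hh.1.2) _ hh.2)
          simpa [mul_assoc, hu.2.1.inv] using this⟩ }
    have tr : ∀ b ∈ Lam Ω H, b ≠ a → ∀ v ∈ IA H a, ∃ k ∈ St H a b, k * u * k⁻¹ = v := fun b hb hba v hv => by
      obtain ⟨w, hw, hi, rfl⟩ := hSE.swap ha hb hba.symm
      obtain ⟨k, hk, e⟩ := hSE.K_trans hw hi hba hu hv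
      exact ⟨k, hk.1, e⟩
    have sle : ∀ b, St H a b ≤ H ⊓ stabilizer G a := fun b => inf_le_left
    refine ⟨S, fun h => Iff.rfl, fun e => ?_, fun p _ hp b hb hba => ?_⟩
    · obtain ⟨b, hb, hba⟩ := hnt.exists_ne a
      have all : ∀ v ∈ IA H a, u * v ∈ Θ a := fun v hv => by
        obtain ⟨k, hk, rfl⟩ := tr b hb hba v hv
        exact (relIndex_eq_one.1 e (sle b hk)).2
      obtain ⟨v, hv, w, hw, hne, e⟩ := r2
      have : v * w ∈ Θ a := by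
        simpa [mul_assoc, hu.2.1.inv, hv.2.1.inv, hu.2.1.tt] using mul_mem ((Θ a).inv_mem (all v hv)) (all w hw)
      refine Inv.not_odd ⟨fun h => hne (by rw [← hv.2.1.inv]; exact inv_eq_of_mul_eq_one_right h), ?_⟩
        (odd_orderOf_of_mem e2 this)
      rw [mul_assoc, ← mul_assoc w, ← e, mul_assoc v w w, hw.2.1.2, mul_one, hv.2.1.2]
    obtain ⟨P, hP, -⟩ := exists_sylIn (p := p) (X := St H a b) .of_bot bot_le
    refine ⟨P, hP.pg, hP.le, fun c hc hf => ?_⟩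
    by_contra hn
    push Not at hn
    have fa : a ∈ Fx Ω H P := ⟨ha, fun x hx => (mem_St.1 (hP.le hx)).2.1⟩
    obtain ⟨v, hv, h⟩ := A1s (H := H) hSE (fun Y c => ∃ u ∈ IA H c, ∀ y ∈ Y, u * (y * u * y⁻¹) ∈ Θ c)
      (fun Y R c h ⟨u, hu, e⟩ => ⟨u, hu, fun y hy => e y (h hy)⟩)
      (fun Y c g hg hn ⟨u, hu, e⟩ => ⟨_, IA_conj hg hu, fun y hy => by
        have := e1 g hg c _ (e _ (conj_inv_mem hn y hy))
        simpa [mul_assoc] using this⟩)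
      (fun Y c d u hY hu hi e hn hc hd hdc => ⟨u, ⟨hu, hi, e⟩, fun y hy => e3 c u ⟨hu, hi, e⟩ _
        (by simpa [hc y hy] using IA_conj (hY hy) (show u ∈ IA H c from ⟨hu, hi, e⟩)) d hd.1 hdc (hd.2 _ (by
          simpa [mul_assoc, hi.inv] using mul_mem (hn y hy) (Y.inv_mem hy)))⟩)
      P hP.pg (fun x hx => (mem_St.1 (hP.le hx)).1)
      (three_of fa ⟨hb, fun x hx => (mem_St.1 (hP.le hx)).2.2⟩ ⟨hc, hf⟩ hba.symm hn.1.symm hn.2.symm) a fa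
    obtain ⟨k, hk, rfl⟩ := tr b hb hba v hv
    have hk' := (St H a b).inv_mem hk
    refine syl_not_le (S := S) (hP.cj' fun x hx => mul_mem (mul_mem hk' hx) (Subgroup.inv_mem _ hk'))
      (by
        rw [relIdx_eq (sle b) fun m hm => ?_]
        · exact hp
        obtain ⟨d, hd, e⟩ := tr b hb hba _ (by simpa [show m • a = a from hm.2] using IA_conj hm.1 hu)
        refine ⟨d, hd, mul_mem (Subgroup.inv_mem _ (sle b hd)) hm, ?_⟩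
        rw [show d⁻¹ * m * u * (d⁻¹ * m)⁻¹ = d⁻¹ * (m * u * m⁻¹) * d by group, ← e]
        simp [mul_assoc, hu.2.1.2])
      (cj_le.2 fun y hy => ⟨sle b (mul_mem (mul_mem hk' (hP.le hy)) (Subgroup.inv_mem _ hk')), ?_⟩)
    simpa [mul_assoc] using ea _ (sle b hk').1 (sle b hk').2 _ (h y hy)
  refine ⟨fun b hb c hc hba hca => ?_, fun X hX hn hΘ x hx u hu => ?_⟩
  · obtain ⟨u, hu, -⟩ := r2
    obtain ⟨S, -, h1, h2⟩ := key u hu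
    obtain ⟨p, hp, hd⟩ := Nat.exists_prime_and_dvd h1
    have := Fact.mk hp
    exact B10 (p := p) (fun g hg x hx => Lam_smul hg hx) (h2 p this hd) hb hba hc hca
  obtain ⟨S, hS, -, h2⟩ := key u hu
  by_contra hne
  obtain ⟨p, hp, hd⟩ := Nat.exists_prime_and_dvd (show S.relIndex X ≠ 1 from fun e =>
    hne ((hS x).1 (relIndex_eq_one.1 e hx)).2)
  have := Fact.mk hp
  have hSle : S ≤ H ⊓ stabilizer G a := fun h hh => ((hS h).1 hh).1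
  have hd' : p ∣ S.relIndex (H ⊓ stabilizer G a) := by
    rw [relIdx_eq (M := X ⊔ S) le_sup_left fun m hm => ?_] at hd
    · exact hd.trans ⟨_, (relIndex_mul_relIndex _ _ _ le_sup_right (sup_le hX hSle)).symm⟩
    obtain ⟨y, hy, z, hz, rfl⟩ := mem_sup_norm (fun g hg => hn g (hSle hg).1 (hSle hg).2) hm
    exact ⟨y, hy, by simpa using hz⟩
  obtain ⟨R, hR, -⟩ := exists_sylIn (p := p) (X := X) .of_bot bot_le
  obtain ⟨b, hb, hba⟩ := hnt.exists_ne a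
  obtain ⟨P, hP, h1, h2⟩ := h2 p this hd' b hb hba
  have d1 : p ∣ ((Lam Ω H \ {a}) \ {b}).ncard := dvd_of_no_fix hP (fun g hg x hx =>
    ⟨⟨Lam_smul (mem_St.1 (h1 hg)).1 hx.1.1, fun e => hx.1.2 (smul_left_cancel g (e.trans (mem_St.1 (h1 hg)).2.1.symm))⟩,
      fun e => hx.2 (smul_left_cancel g (e.trans (mem_St.1 (h1 hg)).2.2.symm))⟩)
    fun x hx e => (h2 x hx.1.1 e).elim hx.1.2 hx.2
  obtain ⟨c, hc, e⟩ := exists_fix_of_not_dvd hR.pg (Lam Ω H \ {a}) (fun g hg x hx =>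
    ⟨Lam_smul (hX (hR.le hg)).1 hx.1, fun e => hx.2 (smul_left_cancel g (e.trans (Eq.symm (hX (hR.le hg)).2)))⟩)
    fun h => by
      rw [← Set.ncard_sdiff_singleton_add_one (s := Lam Ω H \ {a}) ⟨hb, hba⟩] at h
      exact hp.one_lt.ne' (Nat.dvd_one.1 ((Nat.dvd_add_right d1).1 h))
  refine syl_not_le hR hd fun y hy => (hS y).2 ⟨hX (hR.le hy), ?_⟩
  have h3 := hΘ y (hR.le hy) c hc.1 hc.2 (e y hy)
  simpa [mul_assoc, hu.2.1.inv] using mul_mem (ea u hu.1 hu.2.2 _ h3) ((Θ a).inv_mem h3)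

end Cfsg.Agent.H1.Bi
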