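import Cfsg.Agent.H1.Bi1

/-! Binary families of subgroups in a strongly embedded action. -/

set_option autoImplicit false
set_option linter.unusedSectionVars false

namespace Cfsg.Agent.H1.Bi
open Subgroup MulAction H5.Odd Cfsg.Agent.Bd Pointwise

variable {G Ω : Type*} [Group G] [MulAction G Ω]

structure Bin (𝓗 : Ω → Subgroup G) : Prop where
  se : SE G Ω
  lam : ∀ a : Ω, a ∈ Lam Ω (⊤ : Subgroup G)
  r2 : R2 (⊤ : Subgroup G)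
  fix : ∀ c, ∀ h ∈ 𝓗 c, h • c = c
  inv : ∀ (u : G) c, Inv u → u • c = c → u ∈ 𝓗 c
  eqv : ∀ (g : G) c, ∀ h ∈ 𝓗 c, g * h * g⁻¹ ∈ 𝓗 (g • c)
  crt : ∀ (A B : Set Ω) (y : G), (∀ c ∈ A, ∀ d ∈ B, ∃ z ∈ 𝓗 c, y⁻¹ * z ∈ 𝓗 d) →
    ∃ z, (∀ c ∈ A, z ∈ 𝓗 c) ∧ ∀ d ∈ B, y⁻¹ * z ∈ 𝓗 d

variable (𝓗 : Ω → Subgroup G)

def HA (A : Set Ω) : Subgroup G := ⨅ c ∈ A, 𝓗 c
def BB (A : Set Ω) : Set Ω := {c | c ∉ A ∧ ∀ h ∈ 𝓗 c, h • A = A}
def Z1 (A : Set Ω) : Subgroup G := closure {x | x ∈ HA 𝓗 A ∧ ∃ c ∉ A, x ∈ 𝓗 c}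
def Rt (A : Set Ω) (r : G) : Prop := r ∈ HA 𝓗 A ∧ r ∉ Z1 𝓗 A
def Gam (y : G) (d : Ω) : Set Ω := {c | ∃ z ∈ 𝓗 c, y⁻¹ * z ∈ 𝓗 d}
def NC : Prop := ∀ F : Set Ω, (∀ c ∈ F, ∀ h ∈ 𝓗 c, ∀ x ∈ F, h • x ∈ F) → F.Nontrivial → F = Set.univ

variable {𝓗} {A : Set Ω} {a b c d e : Ω} {g r s u w x y z : G}

theorem mem_HA : x ∈ HA 𝓗 A ↔ ∀ c ∈ A, x ∈ 𝓗 c := by simp [HA, mem_iInf]

theorem mem_Z1 (h : x ∈ HA 𝓗 A) (hc : c ∉ A) (hx : x ∈ 𝓗 c) : x ∈ Z1 𝓗 A := subset_closure ⟨h, c, hc, hx⟩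

theorem smul_eq_of {U : Subgroup G} (h : ∀ g ∈ U, ∀ x ∈ A, g • x ∈ A) : ∀ g ∈ U, g • A = A := fun g hg =>
  Set.Subset.antisymm (by rintro _ ⟨x, hx, rfl⟩; exact h g hg x hx)
    fun x hx => Set.mem_smul_set_iff_inv_smul_mem.2 (h _ (U.inv_mem hg) x hx)

namespace Bin
variable [Finite G] [Finite Ω] (h : Bin 𝓗)
include h

theorem eqv' (hx : x ∈ 𝓗 (g • c)) : g⁻¹ * x * g ∈ 𝓗 c := by simpa using h.eqv g⁻¹ _ x hx

theorem nrm (hg : g • c = c) (hx : x ∈ 𝓗 c) : g * x * g⁻¹ ∈ 𝓗 c := by simpa [hg] using h.eqv g c x hx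

theorem two (a : Ω) : ∃ u ∈ IA (⊤ : Subgroup G) a, ∃ v ∈ IA (⊤ : Subgroup G) a, u ≠ v ∧ u * v = v * u := by
  obtain ⟨x, -, y, -, ix, iy, hxy, e⟩ := h.r2
  obtain ⟨d, hd⟩ := h.se.fix ix
  obtain ⟨g, -, rfl⟩ := h.se.trans (h.lam d) (h.lam a)
  exact ⟨_, IA_conj (mem_top g) ⟨trivial, ix, hd⟩, _, IA_conj (mem_top g) ⟨trivial, iy, h.se.fix_of_comm ix hd e.symm⟩,
    by simpa using hxy, by simp [e]⟩

theorem F0 (hs : Inv s) (h1 : s • a = a) (hu : Inv u) (h2 : u • b = b) (hab : a ≠ b) : s * u ∉ 𝓗 c := fun hc => by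
  obtain ⟨z, z1, z2⟩ := h.crt {a, b} {c, s • c} s (by
    rintro _ (rfl | rfl) d hd
    · exact ⟨s, h.inv s _ hs h1, by simp⟩
    refine ⟨u, h.inv u _ hu h2, ?_⟩
    rcases hd with rfl | rfl
    · rwa [hs.inv]
    · simpa [mul_assoc, hs.inv, hu.inv, hs.2] using h.eqv s c _ ((𝓗 c).inv_mem hc))
  have e1 : z • c = s • c := by
    have := h.fix c _ (z2 c (.inl rfl))
    rwa [mul_smul, inv_smul_eq_iff] at this
  have e2 : z • s • c = c := by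
    have := h.fix _ _ (z2 _ (.inr rfl))
    rwa [mul_smul, inv_smul_eq_iff, hs.smul2] at this
  by_cases e : c = s • c
  · obtain rfl := h.se.uniq hs e.symm h1
    have := h.fix _ _ hc
    rw [mul_smul, ← inv_smul_eq_iff.2 h1.symm, smul_eq_iff_eq_inv_smul, inv_smul_eq_iff.2 h1.symm,
      inv_smul_eq_iff.2 h1.symm] at this
    exact hab (h.se.uniq hu this h2)
  · obtain ⟨n, hn⟩ := exists_inv_of_swap e e1 e2
    exact hab (h.se.uniq hn (h.fix _ _ (pow_mem (z1 a (.inl rfl)) n)) (h.fix _ _ (pow_mem (z1 b (.inr rfl)) n)))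

theorem F1 (hs : Inv s) (h1 : s • a = a) {U : Subgroup G} (hU : U ≤ 𝓗 c) (hn : ∀ y ∈ U, s * y * s⁻¹ ∈ U) (hy : y ∈ U) :
    y • a = a := by
  by_contra hne
  exact h.F0 hs h1 (hs.conj y) (conj_fix h1 y) (Ne.symm hne) (hU (by
    simpa [mul_assoc, hs.inv] using mul_mem (hn y hy) (U.inv_mem hy)))

theorem F3 (hw : Inv w) (he : w • e = e) (h1 : y ∈ 𝓗 a) (h2 : y ∈ 𝓗 (w • a)) : y • e = e :=
  h.F1 hw he (U := 𝓗 a ⊓ 𝓗 (w • a)) inf_le_left (fun x hx =>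
    ⟨by simpa [hw.smul2] using h.eqv w _ x hx.2, h.eqv w _ x hx.1⟩) ⟨h1, h2⟩

theorem F2 (y : G) (d : Ω) : ∃ x, y⁻¹ * x ∈ 𝓗 d ∧ ∀ c ∈ Gam 𝓗 y d, x ∈ 𝓗 c := by
  obtain ⟨z, z1, z2⟩ := h.crt (Gam 𝓗 y d) {d} y (by
    rintro c hc _ rfl
    exact hc)
  exact ⟨z, z2 d rfl, z1⟩

omit h [Finite G] [Finite Ω] in
theorem gam_self (hy : y ∈ 𝓗 c) : c ∈ Gam 𝓗 y d := ⟨y, hy, by simp⟩

theorem gam_inv (hy : y • d = d) : ∀ g ∈ 𝓗 d, ∀ c ∈ Gam 𝓗 y d, g • c ∈ Gam 𝓗 y d := by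
  rintro g hg c ⟨z, z1, z2⟩
  exact ⟨_, h.eqv g c z z1, by
    rw [show y⁻¹ * (g * z * g⁻¹) = y⁻¹ * g * y * (y⁻¹ * z) * g⁻¹ by group]
    exact mul_mem (mul_mem (h.eqv' (hy.symm ▸ hg)) z2) ((𝓗 d).inv_mem hg)⟩

theorem HA_conj (g : G) (hx : x ∈ HA 𝓗 A) : g * x * g⁻¹ ∈ HA 𝓗 (g • A) := mem_HA.2 (by
  rintro _ ⟨c, hc, rfl⟩
  exact h.eqv g c x (mem_HA.1 hx c hc))

theorem HA_cj (g : G) (A : Set Ω) : cj g (HA 𝓗 A) = HA 𝓗 (g • A) :=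
  le_antisymm (cj_le.2 fun _ => h.HA_conj g) fun x hx => mem_cj.2 (by simpa using h.HA_conj g⁻¹ hx)

theorem Z1_conj (g : G) (hx : x ∈ Z1 𝓗 A) : g * x * g⁻¹ ∈ Z1 𝓗 (g • A) := cj_le.1 (by
  rw [Z1, cj, MonoidHom.map_closure, closure_le]
  rintro _ ⟨x, ⟨h1, c, hc, h2⟩, rfl⟩
  exact mem_Z1 (h.HA_conj g h1) (Set.smul_mem_smul_set_iff.not.2 hc) (h.eqv g c x h2)) x hx

theorem rt_conj (g : G) (hr : Rt 𝓗 A r) : Rt 𝓗 (g • A) (g * r * g⁻¹) :=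
  ⟨h.HA_conj g hr.1, fun e => hr.2 (by simpa [mul_assoc] using h.Z1_conj g⁻¹ e)⟩

theorem BB_smul (g : G) (hc : c ∈ BB 𝓗 A) : g • c ∈ BB 𝓗 (g • A) :=
  ⟨Set.smul_mem_smul_set_iff.not.2 hc.1, fun x hx => by
    have := hc.2 _ (h.eqv' hx)
    rwa [mul_smul, mul_smul, inv_smul_eq_iff] at this⟩

theorem B1 (hN : NC 𝓗) (ha : a ∈ A) (hc : c ∈ BB 𝓗 A) (hd : d ∈ BB 𝓗 A) : c = d := by
  by_contra hne
  have := hN (BB 𝓗 A) (fun c hc g hg x hx => by simpa [hc.2 g hg] using h.BB_smul g hx) ⟨c, hc, d, hd, hne⟩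
  exact (this.ge (Set.mem_univ a)).1 ha

omit h [Finite G] [Finite Ω] in
theorem r0 (hr : Rt 𝓗 A r) (hc : r ∈ 𝓗 c) : c ∈ A := by
  by_contra hn
  exact hr.2 (mem_Z1 hr.1 hn hc)

theorem r1 (hr : Rt 𝓗 A r) (hc : r • c = c) : c ∈ A ∨ c ∈ BB 𝓗 A := by
  refine or_iff_not_imp_left.2 fun hn => ⟨hn, smul_eq_of fun g hg a ha => ?_⟩
  obtain ⟨x, x1, x2⟩ := h.F2 r c
  have hx : x ∈ HA 𝓗 A := mem_HA.2 fun a ha => x2 a (gam_self (mem_HA.1 hr.1 a ha))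
  refine r0 ⟨hx, fun e => hr.2 ?_⟩ (x2 _ (h.gam_inv hc g hg a (gam_self (mem_HA.1 hr.1 a ha))))
  simpa using mul_mem e (Subgroup.inv_mem _ (mem_Z1 (mul_mem (Subgroup.inv_mem _ hr.1) hx) hn x1))

theorem r2' (hr : Rt 𝓗 A (x * y)) (hx : x ∈ 𝓗 c) (hy : y ∈ 𝓗 d) (hc : c ∉ A) (hd : d ∉ A) : False := by
  obtain ⟨z, z1, z2⟩ := h.crt (insert c A) {d} (x * y) (by
    rintro b (rfl | hb) _ rfl
    · exact ⟨x, hx, by simpa using hy⟩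
    · exact ⟨_, mem_HA.1 hr.1 b hb, by simp only [inv_mul_cancel, one_mem]⟩)
  have hz : z ∈ HA 𝓗 A := mem_HA.2 fun a ha => z1 a (.inr ha)
  refine hr.2 ?_
  have := mul_mem (mem_Z1 hz hc (z1 c (.inl rfl)))
    (Subgroup.inv_mem _ (mem_Z1 (mul_mem (Subgroup.inv_mem _ hr.1) hz) hd (z2 d rfl)))
  simpa only [mul_inv_rev, inv_inv, mul_inv_cancel_left] using this

theorem r4 {A' : Set Ω} (hr : Rt 𝓗 A r) (h1 : r • A' = A') (hc : c ∈ A') (hc' : c ∉ A) (hg : g ∈ HA 𝓗 A') :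
    g • A = A := by
  refine (Set.eq_of_subset_of_ncard_le (fun d hd => ?_) (by rw [Set.ncard_smul_set])).symm
  by_contra hn
  have hgc := mem_HA.1 hg c hc
  refine h.r2' (x := g * (r * g⁻¹ * r⁻¹)) (y := r) (c := c) (by simpa [mul_assoc] using h.rt_conj g hr)
    (mul_mem hgc (mem_HA.1 (h1 ▸ h.HA_conj r (Subgroup.inv_mem _ hg)) c hc)) (mem_HA.1 hr.1 d hd) (fun e => hc' ?_) hn
  rwa [← h.fix c g hgc, Set.smul_mem_smul_set_iff] at e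

theorem odd_HA (ha : a ∈ A) (hb : b ∈ A) (hab : a ≠ b) : Odd (Nat.card (HA 𝓗 A)) :=
  h.se.odd_card hab fun x hx => ⟨h.fix a x (mem_HA.1 hx a ha), h.fix b x (mem_HA.1 hx b hb)⟩

theorem HA_fix (ha : a ∈ A) (hd : d ∈ BB 𝓗 A) (hx : x ∈ HA 𝓗 A) : x • d = d := by
  obtain ⟨s, -, hs, e⟩ := h.lam d
  exact h.F1 hs e (U := HA 𝓗 A) (fun y hy => mem_HA.1 hy a ha)
    (fun y hy => by simpa [hd.2 s (h.inv s d hs e)] using h.HA_conj s hy) hx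

theorem ML0 (hN : NC 𝓗) (ha : a ∈ A) (hd : d ∈ BB 𝓗 A) (hz : Rt 𝓗 A z) (hw : Inv w) (hwa : w • a = d)
    (dis : ∀ c ∈ A, c ∉ w • A) : False := by
  have hwd : w • d = a := hwa ▸ hw.smul2 a
  have had : a ≠ d := fun e => hd.1 (e ▸ ha)
  have mA : ∀ v ∈ IA (⊤ : Subgroup G) d, v • a ∈ A ∧ v • a ≠ a := fun v hv =>
    ⟨hd.2 v (h.inv v d hv.2.1 hv.2.2) ▸ Set.smul_mem_smul_set ha, fun e => had (h.se.uniq hv.2.1 e hv.2.2)⟩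
  obtain ⟨u, hu, v, hv, huv, euv⟩ := h.two d
  have fx : ∀ (g : G) r, Rt 𝓗 (g • A) r → ∀ c, r • c = c → c ∈ g • A ∨ c = g • d := fun g r hr c hc =>
    (h.r1 hr hc).imp_right fun hc => h.B1 hN (Set.smul_mem_smul_set ha) hc (h.BB_smul g hd)
  have nb : ∀ g : G, g • d ∉ g • A := fun g => (h.BB_smul g hd).1
  obtain ⟨p, hp, hd'⟩ := Nat.exists_prime_and_dvd (show (Z1 𝓗 A).relIndex (HA 𝓗 A) ≠ 1 from fun e =>
    hz.2 (relIndex_eq_one.1 e hz.1))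
  have := Fact.mk hp
  have p2 : ¬ 2 ∣ p := fun e => Nat.not_even_iff_odd.2 (h.odd_HA ha (mA u hu).1 (mA u hu).2.symm)
    (even_iff_two_dvd.2 (e.trans (hd'.trans (relIndex_dvd_card _ _))))
  have sr : ∀ (g : G) P, SylIn p P (HA 𝓗 (g • A)) → ∃ r ∈ P, Rt 𝓗 (g • A) r := fun g P hP => by
    have h1 := hP.cj g⁻¹
    rw [h.HA_cj, inv_smul_smul] at h1
    obtain ⟨r, r1, r2⟩ := SetLike.not_le_iff_exists.1 (syl_not_le h1 hd')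
    exact ⟨_, by simpa using mem_cj.1 r1, h.rt_conj g ⟨h1.le r1, r2⟩⟩
  have ha' : a ∈ BB 𝓗 (w • A) := hwd ▸ h.BB_smul w hd
  have hd1 : d ∈ w • A := hwa ▸ Set.smul_mem_smul_set ha
  obtain ⟨S, hS, hf⟩ : ∃ S, SylIn p S (St (⊤ : Subgroup G) a d) ∧ ∀ c, (∀ x ∈ S, x • c = c) → c = a ∨ c = d := by
    obtain ⟨P, hP, -⟩ := exists_sylIn (p := p) (X := HA 𝓗 A ⊔ HA 𝓗 (w • A)) .of_bot bot_le
    have n1 : ∀ B B' : Set Ω, ∀ b ∈ BB 𝓗 B, b ∈ B' → HA 𝓗 B ⊔ HA 𝓗 B' ≤ normalizer (HA 𝓗 B : Set G) :=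
      fun B B' b hb hb' => sup_le le_normalizer fun g hg => mem_norm.2 fun x hx => by
        simpa [hb.2 g (mem_HA.1 hg b hb')] using h.HA_conj g hx
    obtain ⟨r, r1, r2⟩ := sr 1 _ (by simpa using hP.inf le_sup_left fun g hg => mem_norm.1 (n1 _ _ d hd hd1 hg))
    obtain ⟨r', r1', r2'⟩ := sr w _ (hP.inf le_sup_right fun g hg => mem_norm.1
      (n1 _ _ a ha' ha (by rwa [sup_comm])))
    obtain ⟨S, hS, hle⟩ := exists_sylIn (X := St ⊤ a d) hP.pg (hP.le.trans (sup_le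
      (fun x hx => mem_St.2 ⟨trivial, h.fix a x (mem_HA.1 hx a ha), h.HA_fix ha hd hx⟩)
      fun x hx => mem_St.2 ⟨trivial, h.HA_fix hd1 ha' hx, h.fix d x (mem_HA.1 hx d hd1)⟩))
    refine ⟨S, hS, fun c hc => ?_⟩
    rcases fx 1 r r2 c (hc r (hle r1.1)) with h1 | h1
    · exact .inl (((fx w r' r2' c (hc r' (hle r1'.1))).resolve_left (dis c (by simpa using h1))).trans hwd)
    · exact .inr (by simpa using h1)
  have hS' : SylIn p S ⊤ := sylIn_of_norm hS.pg le_top fun R hR _ hn hle => hS.max R hR (fun x hx => by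
    have k : ∀ c, (∀ y ∈ S, y • c = c) → x • c = a ∨ x • c = d := fun c hc => hf _ fun y hy => by
      rw [← mul_smul, show y * x = x * (x⁻¹ * y * x) by group, mul_smul, hc _ (conj_inv_mem (mem_norm.1 (hn hx)) y hy)]
    have k1 := k a fun y hy => (mem_St.1 (hS.le hy)).2.1
    have k2 := k d fun y hy => (mem_St.1 (hS.le hy)).2.2
    rcases k1 with k1 | k1
    · exact mem_St.2 ⟨trivial, k1, k2.resolve_left fun e => had (smul_left_cancel x (k1.trans e.symm))⟩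
    obtain ⟨n, hn⟩ := exists_inv_of_swap had k1 (k2.resolve_right fun e => had (smul_left_cancel x (k1.trans e.symm)))
    obtain ⟨m, hm⟩ := pelt_of_mem hR (pow_mem hx n)
    exact absurd (Nat.prime_two.dvd_of_dvd_pow (hn.orderOf ▸ orderOf_dvd_of_pow_eq_one hm)) p2) hle
  have E2 : ∀ c, ∀ R : Subgroup G, IsPGroup p R → (∀ x ∈ R, x • c = c) →
      ∃ g : G, (∀ x ∈ R, x • g • a = g • a ∧ x • g • d = g • d) ∧ (c = g • a ∨ c = g • d) := fun c R hR hc => by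
    obtain ⟨S1, h1, hle⟩ := exists_sylIn (X := stabilizer G c) hR hc
    obtain ⟨g0, -, rfl⟩ := h.se.trans (h.lam a) (h.lam c)
    have h2 := hS'.cj' (g := g0) fun _ _ => trivial
    obtain ⟨g, -, rfl⟩ := (h2.of_card h1.pg le_top (h1.card_dvd h2.pg (cj_le.2 fun x hx =>
      conj_fix (mem_St.1 (hS.le hx)).2.1 g0)) dvd_rfl).conj_eq hS'
    have k : ∀ c : Ω, ∀ x : G, (g⁻¹ * x * g) • c = c → x • g • c = g • c := fun c x e => by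
      rwa [mul_smul, mul_smul, inv_smul_eq_iff] at e
    refine ⟨g, fun x hx => ⟨k a x (mem_St.1 (hS.le (mem_cj.1 (hle hx)))).2.1,
      k d x (mem_St.1 (hS.le (mem_cj.1 (hle hx)))).2.2⟩, ?_⟩
    rw [← inv_smul_eq_iff, ← inv_smul_eq_iff]
    refine hf _ fun x hx => ?_
    have : (g * x * g⁻¹) • g0 • a = g0 • a := h1.le (conj_mem_cj hx)
    rwa [mul_smul, mul_smul, smul_eq_iff_eq_inv_smul] at this
  have sym : ∀ g0 g1 : G, g0 • d ∈ g1 • A → g1 • d ∈ g0 • A := fun g0 g1 hm => by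
    have hr := h.rt_conj g1 hz
    obtain ⟨c, c1, c2⟩ : ∃ c ∈ g0 • A, c ∉ g1 • A := Set.not_subset.1 fun e => nb g0
      (Set.eq_of_subset_of_ncard_le e (by simp [Set.ncard_smul_set]) ▸ hm)
    have hr0 := h.rt_conj g0 hz
    have e := h.r4 hr ((h.BB_smul g0 hd).2 _ (mem_HA.1 hr.1 _ hm)) c1 c2 hr0.1
    refine (fx g0 _ hr0 _ (h.B1 hN (Set.smul_mem_smul_set ha) ?_ (h.BB_smul g1 hd))).resolve_right
      fun e => nb g1 (e ▸ hm)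
    simpa [e] using h.BB_smul (g0 * z * g0⁻¹) (h.BB_smul g1 hd)
  have b3 : ∀ g g1 : G, g • a ∈ g1 • A → g • d ∈ g1 • A → False := fun g g1 h1 h2 => by
    have k1 := sym g g1 h2
    have k2 := sym (g * w) g1 (by rwa [mul_smul, hwd])
    rw [mul_smul] at k2
    exact dis _ (Set.mem_smul_set_iff_inv_smul_mem.1 k1) (Set.mem_smul_set_iff_inv_smul_mem.1 k2)
  have b4 : ∀ (g g1 : G) r, Rt 𝓗 (g1 • A) r → r • g • a = g • a → r • g • d = g • d →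
      (g • a = g1 • d ∧ g • d ∈ g1 • A) ∨ (g • d = g1 • d ∧ g • a ∈ g1 • A) := fun g g1 r hr h1 h2 => by
    rcases fx g1 r hr _ h1 with k1 | k1 <;> rcases fx g1 r hr _ h2 with k2 | k2
    · exact (b3 g g1 k1 k2).elim
    · exact .inr ⟨k2, k1⟩
    · exact .inl ⟨k1, k2⟩
    · exact absurd (smul_left_cancel g (k1.trans k2.symm)) had
  have b6 : ∀ g1 g2 : G, g1 • d ∈ g2 • A → ∀ c ∈ g1 • A, c ∉ g2 • A := fun g1 g2 h1 c c1 c2 => by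
    obtain ⟨R, hR, -⟩ := exists_sylIn (p := p) (X := HA 𝓗 (g1 • A)) .of_bot bot_le
    obtain ⟨r, r1, r2⟩ := sr g1 R hR
    obtain ⟨g, k1, k2⟩ := E2 c R hR.pg fun x hx => h.fix c x (mem_HA.1 (hR.le hx) c c1)
    rcases b4 g g1 r r2 (k1 r r1).1 (k1 r r1).2 with ⟨k, -⟩ | ⟨k, -⟩
    · exact b3 g g2 (k ▸ h1) (k2.resolve_left (fun e => nb g1 (k ▸ e ▸ c1)) ▸ c2)
    · exact b3 g g2 (k2.resolve_right (fun e => nb g1 (k ▸ e ▸ c1)) ▸ c2) (k ▸ h1)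
  have b7 : ∀ t : G, Inv t → t • a = u • a → t • d = d := fun t ht hta => by
    obtain ⟨e, he⟩ := h.se.fix ht
    obtain ⟨R, hR, -, hn⟩ := exists_inv_sylIn' (p := p) (X := 𝓗 a ⊓ 𝓗 (t • a)) ht.2
      (h.se.odd_card (hta ▸ (mA u hu).2.symm) fun x hx => ⟨h.fix _ x hx.1, h.fix _ x hx.2⟩)
      (fun x hx => ⟨by simpa [ht.smul2] using h.eqv t _ x hx.2, h.eqv t _ x hx.1⟩) .of_bot bot_le (by simp)
    obtain ⟨R0, h0, -⟩ := exists_sylIn (p := p) (X := HA 𝓗 ((1 : G) • A)) .of_bot bot_le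
    obtain ⟨r, r1, r2⟩ := sr 1 R0 h0
    rw [one_smul] at h0 r2
    obtain ⟨m, hm, hle⟩ := hR.conj_le h0.pg fun x hx =>
      ⟨mem_HA.1 (h0.le hx) a ha, mem_HA.1 (h0.le hx) _ (hta ▸ (mA u hu).1)⟩
    have q1 := hle (conj_mem_cj r1)
    have q2 := hn _ q1
    have s2 := h.rt_conj t (h.rt_conj m r2)
    rw [← mul_smul] at s2
    obtain ⟨g, k1, -⟩ := E2 a R hR.pg fun x hx => h.fix a x (hR.le hx).1
    have a1 : a ∈ m • A := h.fix a m hm.1 ▸ Set.smul_mem_smul_set ha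
    have a2 : a ∈ (t * m) • A := by
      have := Set.smul_mem_smul_set (a := t * m) (hta ▸ (mA u hu).1)
      rwa [mul_smul t m (t • a), h.fix _ m hm.2, ht.smul2] at this
    have eq : (t * m) • d = m • d := by
      rcases b4 g m _ (h.rt_conj m r2) (k1 _ q1).1 (k1 _ q1).2 with ⟨k, -⟩ | ⟨k, -⟩ <;>
        rcases b4 g _ _ s2 (k1 _ q2).1 (k1 _ q2).2 with ⟨k', k''⟩ | ⟨k', k''⟩
      · exact k'.symm.trans k
      · exact (b6 m _ (k ▸ k'') a a1 a2).elim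
      · exact (b6 m _ (k ▸ k'') a a1 a2).elim
      · exact k'.symm.trans k
    rw [mul_smul] at eq
    have := (h.se.uniq ht eq he).trans (h.F3 ht he hm.1 hm.2).symm
    rwa [smul_left_cancel m this]
  obtain ⟨k, hk⟩ := (Function.Injective.bijective_of_nat_card_le (f := fun k : KK (⊤ : Subgroup G) a u =>
    (⟨u * k, trivial, (hu.2.1.mul_KK (mA u hu).2 k.2).1, b7 _ (hu.2.1.mul_KK (mA u hu).2 k.2).1
      (hu.2.1.mul_KK (mA u hu).2 k.2).2⟩ : IA (⊤ : Subgroup G) d))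
    (fun k k' e => Subtype.ext (mul_left_cancel (congrArg Subtype.val e))) (by
      rw [h.se.card_K (mem_top u) hu.2.1 (mA u hu).2 (h.lam a), h.se.card_IA (h.lam a) (h.lam d)])).2 ⟨v, hv⟩
  have hk : u * k = v := congrArg Subtype.val hk
  have e : (k : G) = u * v := by rw [← hk, hu.2.1.tt]
  refine had (h.se.uniq (t := (k : G)) ⟨fun e' => huv (by rw [← hk, e', mul_one]), ?_⟩ (mem_KK.1 k.2).2.1
    (by rw [e, mul_smul, hv.2.2, hu.2.2]))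
  rw [e, mul_assoc, ← mul_assoc v, ← euv, mul_assoc u v v, hv.2.1.2, mul_one, hu.2.1.2]

theorem ML (hN : NC 𝓗) (hy : y ∈ 𝓗 a) (hw : Inv w) (hd : y • w • a = w • a) (he : w • e = e) : y • e = e := by
  by_contra hne
  obtain ⟨z, ⟨a, w, e, hy, hw, hd, he, hne⟩, hm⟩ := Set.exists_max_image
    {z : G | ∃ a w e, z ∈ 𝓗 a ∧ Inv w ∧ z • w • a = w • a ∧ w • e = e ∧ z • e ≠ e}
    (fun z => {c | z ∈ 𝓗 c}.ncard) (Set.toFinite _) ⟨y, a, w, e, hy, hw, hd, he, hne⟩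
  set A := {c | z ∈ 𝓗 c}
  have mx : ∀ x, (∀ c ∈ A, x ∈ 𝓗 c) → x • w • a = w • a → x • e ≠ e → ∀ c, x ∈ 𝓗 c → c ∈ A := fun x h1 h2 h3 c hc =>
    (Set.eq_of_subset_of_ncard_le (t := {c | x ∈ 𝓗 c}) h1 (hm x ⟨a, w, e, h1 a hy, hw, h2, he, h3⟩)).ge hc
  have hB : w • a ∈ BB 𝓗 A := by
    refine ⟨fun e => hne (h.F3 hw he hy e), smul_eq_of fun g hg c hc => ?_⟩
    obtain ⟨x, x1, x2⟩ := h.F2 z (w • a)
    have k : ∀ c : Ω, (z⁻¹ * x) • c = c → x • c = z • c := fun c e => by rwa [mul_smul, inv_smul_eq_iff] at e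
    refine mx x (fun c hc => x2 c (gam_self hc)) ((k _ (h.fix _ _ x1)).trans hd) ?_ _
      (x2 _ (h.gam_inv hd g hg c (gam_self hc)))
    rwa [k e (h.F3 hw he (mul_mem (Subgroup.inv_mem _ hy) (x2 a (gam_self hy))) x1)]
  refine h.ML0 hN hy hB ⟨mem_HA.2 fun c hc => hc, fun e' => hne ((show Z1 𝓗 A ≤ stabilizer G e from
    (closure_le _).2 ?_) e')⟩ hw rfl fun c hc hc' => hne (h.F3 hw he hc ?_)
  · rintro x ⟨h1, c, hc, h2⟩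
    by_contra h3
    exact hc (mx x (mem_HA.1 h1) (h.HA_fix hy hB h1) h3 c h2)
  · have := Set.mem_smul_set_iff_inv_smul_mem.1 hc'
    rwa [hw.inv] at this

end Bin

end Cfsg.Agent.H1.Bi
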