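import Cfsg.Agent.H1.Bi2

/-! In a binary family the involutions fixing a point commute modulo the kernel of the action. -/

set_option autoImplicit false
set_option linter.unusedSectionVars false

namespace Cfsg.Agent.H1.Bi
open Subgroup MulAction H5.Odd Cfsg.Agent.Bd Pointwise

universe u v

section
variable {G Ω : Type*} [Group G] [MulAction G Ω] {𝓗 : Ω → Subgroup G} {a b c d e : Ω} {g r s u v w x y z : G}

variable (G) in
def XX (c : Ω) : Subgroup G := closure (IA (⊤ : Subgroup G) c)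

theorem XX_conj (g : G) : ∀ x ∈ XX G c, g * x * g⁻¹ ∈ XX G (g • c) := cj_le.1 (by
  rw [XX, cj, MonoidHom.map_closure, closure_le]
  rintro _ ⟨x, hx, rfl⟩
  exact subset_closure (IA_conj (mem_top g) hx))

def Star (G Ω : Type*) [Group G] [MulAction G Ω] : Prop :=
  ∀ (a : Ω), ∀ u ∈ IA (⊤ : Subgroup G) a, ∀ v ∈ IA (⊤ : Subgroup G) a, ∀ c : Ω, (u * v * (u * v)) • c = c

namespace Bin
variable [Finite G] [Finite Ω] (h : Bin 𝓗)
include h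

theorem XX_le : XX G c ≤ 𝓗 c := (closure_le _).2 fun u hu => h.inv u c hu.2.1 hu.2.2

theorem tt1 (hb : b ≠ a) (hc : c ≠ a)
    (H : ∀ c : Ω, ∀ u ∈ IA (⊤ : Subgroup G) c, ∀ v ∈ IA (⊤ : Subgroup G) c, ∀ d, d ≠ c → (u * v) • d = d →
      ∃ N ≤ XX G c, (∀ s ∈ IA (⊤ : Subgroup G) c, ∀ x ∈ N, s * x * s⁻¹ ∈ N) ∧ Odd (Nat.card N) ∧ u * v ∈ N) :
    ∃ g : G, g • a = a ∧ g • b = c := by
  choose Θ h1 h2 h3 h4 using fun c : Ω => exists_Op' (p := 2) (XX G c)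
  have od : ∀ n : ℕ, ¬ 2 ∣ n ↔ Odd n := fun n => by rw [← even_iff_two_dvd, Nat.not_even_iff_odd]
  obtain ⟨g, -, hg⟩ := (TT (H := ⊤) (a := a) h.se Θ (fun g _ c => cj_le.1 (h4 _ _
      (cj_le.2 fun x hx => XX_conj g x (h1 c hx)) (fun k hk x hx => mem_cj.2 (by
        have hk' : g⁻¹ * k * g ∈ XX G c := by simpa using XX_conj g⁻¹ k hk
        simpa [mul_assoc] using h3 c _ (fun y hy => mul_mem (mul_mem hk' hy) (Subgroup.inv_mem _ hk')) _ (mem_cj.1 hx)))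
      (by rw [card_cj]; exact h2 c)))
    ((od _).1 (h2 a)) (fun c u hu v hv d _ hd e => by
      obtain ⟨N, n1, n2, n3, n4⟩ := H c u hu v hv d hd e
      exact h4 c N n1 (fun g hg => mem_norm.1 (((closure_le _).2 fun s hs => mem_norm.2 (n2 s hs) :
        XX G c ≤ normalizer (N : Set G)) hg)) ((od _).2 n3) n4)
    (h.two a) ⟨b, h.lam b, a, h.lam a, hb⟩).1 b (h.lam b) c (h.lam c) hb hc
  exact ⟨g, hg⟩

variable (hN : NC 𝓗)
include hN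

theorem M1 (hy : y ∈ 𝓗 a) (hb : y • b = b) (hv : Inv v) (e : v • b = b) : y • v • a = v • a := by
  by_cases hab : b = a
  · rw [← hab, e, hb]
  obtain ⟨s, -, hs, ha⟩ := h.lam a
  obtain ⟨k, hk⟩ := h.se.odd_mul hv hs e ha hab
  set g := v * s with hg
  have sq : g ^ (k + 1) * g ^ (k + 1) = g := by
    rw [← pow_add, show k + 1 + (k + 1) = 2 * k + 1 + 1 by ring, ← hk, pow_succ, pow_orderOf_eq_one, one_mul]
  have iv : ∀ j : ℕ, g ^ j * s * (g ^ j)⁻¹ = g ^ j * g ^ j * s := fun j => by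
    have : s * g⁻¹ * s⁻¹ = g := by rw [hg, mul_inv_rev, hs.inv, hv.inv, hs.tt]
    have := congrArg (· ^ j) this
    simp only [conj_pow, inv_pow] at this
    rw [mul_assoc, mul_assoc, ← eq_mul_inv_iff_mul_eq.1 this.symm]
  have step : ∀ j : ℕ, y • g ^ j • a = g ^ j • a → y • g ^ ((k + 1) * j) • a = g ^ ((k + 1) * j) • a := fun j hj =>
    h.ML hN hy (hs.conj (g ^ ((k + 1) * j))) (by
      rwa [iv, pow_mul, ← (Commute.refl _).mul_pow, sq, mul_smul, ha]) (conj_fix ha _)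
  have all : ∀ i : ℕ, y • g ^ (k + 1) ^ (i + 1) • a = g ^ (k + 1) ^ (i + 1) • a := fun i => by
    induction i with
    | zero =>
      have := conj_fix ha (g ^ (k + 1))
      rw [iv, sq, hg, mul_assoc, hs.2, mul_one] at this
      rwa [zero_add, pow_one, h.se.uniq hv this e]
    | succ i ih => rw [pow_succ' (k + 1)]; exact step _ ih
  have := all ((orderOf g).totient - 1)
  rw [Nat.sub_add_cancel (Nat.totient_pos.2 (orderOf_pos g)), pow_eq_pow_iff_modEq.2 (Nat.ModEq.pow_totient (by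
    rw [hk, show 2 * k + 1 = k + (k + 1) by ring]; simp)), pow_one] at this
  rwa [hg, mul_smul, ha] at this

theorem split (hy : y ∈ 𝓗 a) (hb : y • b = b) : ∃ x z : G, y = x * z ∧ x ∈ 𝓗 a ∧ x • b = b ∧ z ∈ 𝓗 a ∧ z ∈ 𝓗 b ∧
    ∀ v : G, Inv v → v • b = b → x ∈ 𝓗 (v • a) := by
  obtain ⟨x, x1, x2⟩ := h.F2 y b
  have hx := x2 a (gam_self hy)
  refine ⟨x, (y⁻¹ * x)⁻¹, by group, hx, ?_, Subgroup.inv_mem _ (mul_mem (Subgroup.inv_mem _ hy) hx),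
    Subgroup.inv_mem _ x1, fun v hv e => x2 _ (h.gam_inv hb v (h.inv v b hv e) a (gam_self hy))⟩
  have := h.fix _ _ x1
  rwa [mul_smul, inv_smul_eq_iff, hb] at this

theorem M2 (hy : y ∈ 𝓗 a) (hb : y • b = b) (hs : Inv s) (e : s • a = a) : y • s • b = s • b := by
  obtain ⟨x, z, rfl, x1, -, z1, z2, x3⟩ := h.split hN hy hb
  obtain ⟨v, -, hv, ev⟩ := h.lam b
  rw [mul_smul, h.M1 hN z2 (h.fix a z z1) hs e]
  refine h.ML hN x1 (hv.conj s) ?_ (conj_fix ev s)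
  rw [mul_smul, mul_smul, inv_smul_eq_iff.2 e.symm]
  exact h.M1 hN (x3 v hv ev) (h.fix a x x1) hs e

theorem M2' (hy : y ∈ 𝓗 a) (hb : y • b = b) (hs : Inv s) (e : s • a = a) : (s * y * s⁻¹) • b = b := by
  simpa [hs.smul2] using conj_fix (h.M2 hN hy hb hs e) s

theorem M3 (hs : Inv s) (e : s • a = a) : ∀ y ∈ (𝓗 a ⊓ stabilizer G b) ⊔ (𝓗 b ⊓ stabilizer G a),
    s * y * s⁻¹ ∈ (𝓗 a ⊓ stabilizer G b) ⊔ (𝓗 b ⊓ stabilizer G a) := cj_le.1 (by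
  rw [cj, Subgroup.map_sup, sup_le_iff]
  refine ⟨cj_le.2 fun y hy => mem_sup_left ⟨h.nrm e hy.1, h.M2' hN hy.1 hy.2 hs e⟩, cj_le.2 fun y hy => ?_⟩
  obtain ⟨x, z, rfl, -, x2, z1, z2, x3⟩ := h.split hN hy.1 hy.2
  rw [← conj_mul]
  exact mul_mem (mem_sup_right ⟨by simpa [hs.smul2] using h.eqv s _ x (x3 s hs e), by
    simpa [e] using conj_fix x2 s⟩) (mem_sup_left ⟨h.nrm e z2, h.M2' hN z2 (h.fix b z z1) hs e⟩))

theorem star_nc : Star G Ω := fun a u hu v hv b => by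
  by_cases hba : b = a
  · simp [hba, mul_smul, hu.2.2, hv.2.2]
  have t2 : ∀ c d : Ω, d ≠ c → ∃ g : G, g • a = c ∧ g • b = d := fun c d hd => by
    obtain ⟨g, -, rfl⟩ := h.se.trans (h.lam a) (h.lam c)
    obtain ⟨k, k1, k2⟩ := h.tt1 hba (c := g⁻¹ • d) (fun e => hd (inv_smul_eq_iff.1 e)) fun c u hu v hv d hd e =>
      ⟨XX G c ⊓ stabilizer G d, inf_le_left, fun s hs x hx => ⟨by simpa [hs.2.2] using XX_conj s x hx.1,
        h.M2' hN (h.XX_le hx.1) hx.2 hs.2.1 hs.2.2⟩,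
        h.se.odd_card hd fun x hx => ⟨hx.2, h.fix c x (h.XX_le hx.1)⟩,
        mul_mem (subset_closure hu) (subset_closure hv), e⟩
    exact ⟨g * k, by rw [mul_smul, k1], by rw [mul_smul, k2, smul_inv_smul]⟩
  set T := (𝓗 a ⊓ stabilizer G b) ⊔ (𝓗 b ⊓ stabilizer G a) with hT
  have Tf : T ≤ stabilizer G a ⊓ stabilizer G b :=
    sup_le (fun x hx => ⟨h.fix a x hx.1, hx.2⟩) fun x hx => ⟨hx.2, h.fix b x hx.1⟩
  have ia : ∀ s ∈ IA (⊤ : Subgroup G) a, s ∈ IA (normalizer (T : Set G)) a := fun s hs =>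
    ⟨mem_norm.2 (h.M3 hN hs.2.1 hs.2.2), hs.2⟩
  have la : a ∈ Lam Ω (normalizer (T : Set G)) := ⟨u, ia u hu⟩
  have lb : b ∈ Lam Ω (normalizer (T : Set G)) := by
    obtain ⟨s, -, hs, e⟩ := h.lam b
    exact ⟨s, mem_norm.2 (by rw [hT, sup_comm]; exact h.M3 hN hs e), hs, e⟩
  have cjN : ∀ (g : G) (c d : Ω), cj g (𝓗 c ⊓ stabilizer G d) ≤ 𝓗 (g • c) ⊓ stabilizer G (g • d) := fun g c d =>
    cj_le.2 fun x hx => ⟨h.eqv g c x hx.1, conj_fix hx.2 g⟩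
  have NT : ∀ c ∈ Lam Ω (normalizer (T : Set G)), ∀ d ∈ Lam Ω (normalizer (T : Set G)), d ≠ c → ∀ x ∈ 𝓗 c, x • d = d →
      x ∈ T := fun c hc d hd hdc x hx e => by
    obtain ⟨g, hg, rfl⟩ := h.se.trans la hc
    obtain ⟨k, hk, rfl⟩ := h.se.trans la hd
    obtain ⟨m, m1, m2⟩ := t2 _ _ hdc
    have l1 : cj g (𝓗 a ⊓ stabilizer G b) ≤ T := cj_le.2 fun y hy => mem_norm.1 hg y (mem_sup_left hy)
    refine l1 ((eq_of_le_of_card_ge (K := 𝓗 (g • a) ⊓ stabilizer G (k • a)) (fun y hy => ⟨(cjN g a b hy).1, ?_⟩) ?_).ge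
      ⟨hx, e⟩)
    · have : (k⁻¹ * y * k) • a = a := (Tf (conj_inv_mem (mem_norm.1 hk) y (l1 hy))).1
      rwa [mul_smul, mul_smul, inv_smul_eq_iff] at this
    · have := card_le_of_le (cjN m⁻¹ (g • a) (k • a))
      rw [card_cj, inv_smul_eq_iff.2 m1.symm, inv_smul_eq_iff.2 m2.symm] at this
      rwa [card_cj]
  obtain ⟨u', hu', v', hv', e⟩ := h.two a
  have := (TT (H := normalizer (T : Set G)) (a := a) h.se (fun _ => T) (fun g hg _ => mem_norm.1 hg)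
    (h.se.odd_card hba fun x hx => ⟨(Tf hx).2, (Tf hx).1⟩)
    (fun c u hu v hv d hd hdc e => NT c ⟨u, hu⟩ d hd hdc _
      (mul_mem (h.inv u c hu.2.1 hu.2.2) (h.inv v c hv.2.1 hv.2.2)) e)
    ⟨u', ia u' hu', v', ia v' hv', e⟩ ⟨b, lb, a, la, hba⟩).2 (XX G a)
    ((closure_le _).2 fun s hs => ⟨(ia s hs).1, hs.2.2⟩) (fun g _ e x hx => by simpa [e] using XX_conj g x hx)
    (fun x hx d hd hda e => NT a la d hd hda x (h.XX_le hx) e) v (subset_closure hv) u (ia u hu)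
  simpa [mul_assoc, hv.2.1.inv] using (Tf this).2

end Bin
end

theorem star (n : ℕ) : ∀ (G : Type u) (Ω : Type v) [Group G] [MulAction G Ω] [Finite G] [Finite Ω]
    (𝓗 : Ω → Subgroup G), Nat.card Ω = n → Bin 𝓗 → Star G Ω := by
  induction n using Nat.strong_induction_on with
  | _ n IH =>
  intro G Ω _ _ _ _ 𝓗 hn h
  by_cases hN : NC 𝓗
  · exact h.star_nc hN
  simp only [NC, not_forall] at hN
  obtain ⟨F₀, f1, f2, f3⟩ := hN
  have sub : ∀ F : Set Ω, (∀ c ∈ F, ∀ g ∈ 𝓗 c, ∀ x ∈ F, g • x ∈ F) → F ≠ Set.univ → ∀ a ∈ F,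
      ∀ u ∈ IA (⊤ : Subgroup G) a, ∀ v ∈ IA (⊤ : Subgroup G) a, ∀ c ∈ F, (u * v * (u * v)) • c = c := by
    intro F f1 f3 a ha u hu v hv c hc
    have hF : ∀ g ∈ stabilizer G F, ∀ x ∈ F, g • x ∈ F := fun g hg x hx => by
      have := Set.smul_mem_smul_set (a := g) hx
      rwa [mem_stabilizer_iff.1 hg] at this
    have hY : ∀ c ∈ F, 𝓗 c ≤ stabilizer G F := fun c hc => smul_eq_of (f1 c hc)
    letI := resAct _ F hF
    have i1 : ∀ t : stabilizer G F, Inv t ↔ Inv (t : G) := fun t =>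
      ⟨fun h => ⟨fun e => h.1 (Subtype.ext e), congrArg Subtype.val h.2⟩,
        fun h => ⟨fun e => h.1 (congrArg Subtype.val e), Subtype.ext h.2⟩⟩
    have i2 : ∀ c : F, ∀ u ∈ IA (⊤ : Subgroup G) c.1, ∃ u' ∈ IA (⊤ : Subgroup (stabilizer G F)) c, (u' : G) = u :=
      fun c u hu => ⟨⟨u, hY c c.2 (h.inv u c hu.2.1 hu.2.2)⟩, ⟨trivial, (i1 _).2 hu.2.1, Subtype.ext hu.2.2⟩, rfl⟩
    obtain ⟨u, hu', rfl⟩ := i2 ⟨a, ha⟩ u hu
    obtain ⟨v, hv', rfl⟩ := i2 ⟨a, ha⟩ v hv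
    refine congrArg Subtype.val (IH _ ?_ (stabilizer G F) F (fun c => (𝓗 c).subgroupOf _) rfl
      ⟨fun t ht => ?_, fun c => ?_, ?_, fun c g hg => Subtype.ext (h.fix c g hg),
        fun u c hu e => h.inv u c ((i1 u).1 hu) (congrArg Subtype.val e), fun g c k hk => h.eqv g c k hk,
        fun A B y H => ?_⟩ ⟨a, ha⟩ u hu' v hv' ⟨c, hc⟩)
    · rw [← hn, ← Set.ncard_univ Ω]
      exact Set.ncard_lt_ncard (Set.ssubset_univ_iff.2 f3)
    · obtain ⟨d, hd⟩ := h.se.fix ((i1 t).1 ht)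
      obtain ⟨g, hg, rfl⟩ := h.se.trans (Y := stabilizer G F) ⟨u, u.2, hu.2⟩ ⟨t, t.2, (i1 t).1 ht, hd⟩
      exact ⟨⟨_, hF g hg a ha⟩, Subtype.ext hd, fun e he => Subtype.ext
        (h.se.uniq ((i1 t).1 ht) (congrArg Subtype.val he) hd)⟩
    · obtain ⟨s, hs⟩ := h.lam c
      obtain ⟨s, hs, -⟩ := i2 c s hs
      exact ⟨s, hs⟩
    · obtain ⟨x, hx, y, hy, e, e'⟩ := h.two a
      obtain ⟨x, hx', rfl⟩ := i2 ⟨a, ha⟩ x hx
      obtain ⟨y, hy', rfl⟩ := i2 ⟨a, ha⟩ y hy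
      exact ⟨x, trivial, y, trivial, hx'.2.1, hy'.2.1, fun e' => e (congrArg _ e'), Subtype.ext e'⟩
    · rcases A.eq_empty_or_nonempty with rfl | ⟨c, hc⟩
      · exact ⟨y, by simp, by simp⟩
      obtain ⟨z, z1, z2⟩ := h.crt (Subtype.val '' A) (Subtype.val '' B) y (by
        rintro _ ⟨c, hc, rfl⟩ _ ⟨d, hd, rfl⟩
        obtain ⟨z, hz⟩ := H c hc d hd
        exact ⟨z, hz⟩)
      exact ⟨⟨z, hY c c.2 (z1 c ⟨c, hc, rfl⟩)⟩, fun c hc => z1 c ⟨c, hc, rfl⟩, fun d hd => z2 d ⟨d, hd, rfl⟩⟩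
  have ex : ∀ a : Ω, ∃ F : Set Ω, (∀ c ∈ F, ∀ g ∈ 𝓗 c, ∀ x ∈ F, g • x ∈ F) ∧ F ≠ Set.univ ∧ a ∈ F ∧ ∃ b ∈ F, b ≠ a :=
    fun a => by
      obtain ⟨c, hc, d, hd, hcd⟩ := f2
      obtain ⟨g, -, rfl⟩ := h.se.trans (h.lam c) (h.lam a)
      refine ⟨g • F₀, ?_, fun e => f3 (by simpa using congrArg (g⁻¹ • ·) e), Set.smul_mem_smul_set hc, _,
        Set.smul_mem_smul_set hd, fun e => hcd (smul_left_cancel g e).symm⟩
      rintro _ ⟨c, hc, rfl⟩ k hk _ ⟨x, hx, rfl⟩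
      exact ⟨_, f1 c hc _ (h.eqv' hk) x hx, by simp [mul_smul]⟩
  intro a u hu v hv c
  by_cases hca : c = a
  · simp [hca, mul_smul, hu.2.2, hv.2.2]
  obtain ⟨F, f1, f3, ha, b, hb, hba⟩ := ex a
  obtain ⟨g, g1, rfl⟩ := h.tt1 hba hca fun c u hu v hv d hd e => by
    obtain ⟨F, f1, f3, hc, b, hb, hbc⟩ := ex c
    refine ⟨XX G c ⊓ ⨅ x ∈ F, stabilizer G x, inf_le_left, fun s hs x hx =>
      ⟨by simpa [hs.2.2] using XX_conj s x hx.1, ?_⟩, h.se.odd_card hbc fun x hx =>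
        ⟨mem_iInf.1 (mem_iInf.1 hx.2 b) hb, h.fix c x (h.XX_le hx.1)⟩, mul_mem (subset_closure hu) (subset_closure hv),
        mem_of_sq' (h.se.odd_order hd e (by rw [mul_smul, hv.2.2, hu.2.2])) ?_⟩
    · refine mem_iInf.2 fun y => mem_iInf.2 fun hy => ?_
      have : x • s • y = s • y := mem_iInf.1 (mem_iInf.1 hx.2 _) (f1 c hc s (h.inv s c hs.2.1 hs.2.2) y hy)
      simpa [hs.2.1.smul2] using conj_fix this s
    · exact mem_iInf.2 fun y => mem_iInf.2 fun hy => sub F f1 f3 c hc u hu v hv y hy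
  have k : ∀ u ∈ IA (⊤ : Subgroup G) a, g⁻¹ * u * g⁻¹⁻¹ ∈ IA (⊤ : Subgroup G) a := fun u hu => by
    simpa [inv_smul_eq_iff.2 g1.symm] using IA_conj (mem_top g⁻¹) hu
  have := sub F f1 f3 a ha _ (k u hu) _ (k v hv) b hb
  rwa [conj_mul, conj_mul, mul_smul, mul_smul, inv_inv, inv_smul_eq_iff] at this

end Cfsg.Agent.H1.Bi
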