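import Cfsg.Agent.H1.Bx3

/-! Bender theorem when the involutions fixing a point commute. -/

set_option autoImplicit false

namespace Cfsg.Agent.H1.Bx
open Subgroup MulAction H5.Odd Cfsg.Agent.Bd

universe u v

/-- a faithful group all of whose proper subgroups satisfy the conclusion -/
theorem concl_top {G : Type u} {Ω : Type v} [Group G] [Finite G] [Finite Ω] [MulAction G Ω] [FaithfulSMul G Ω]
    (hSE : SE G Ω) (hFT : AB G Ω) (h2 : R2 (⊤ : Subgroup G)) (lam : ∀ a : Ω, a ∈ Lam Ω (⊤ : Subgroup G))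
    (nt : Nontrivial Ω) (ih : ∀ Y : Subgroup G, Y ≠ ⊤ → R2 Y → (Lam Ω Y).Nontrivial → Concl Ω Y)
    (hmin : Mn G Ω → Concl Ω (⊤ : Subgroup G)) : Concl Ω (⊤ : Subgroup G) := by
  by_cases hs : ∀ N : Subgroup G, N.Normal → N = ⊥ ∨ N = ⊤
  · exact hmin ⟨hSE, hFT, hFT.a2 hSE, h2, hs, lam, nt, ih⟩
  push Not at hs
  obtain ⟨N, hN, N1, NT⟩ := hs
  obtain ⟨x, -, y, -, ix, iy, hxy, e⟩ := h2
  have hall : ∀ u : G, Inv u → u ∈ N := by
    rcases Nat.even_or_odd (Nat.card N) with h | h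
    · obtain ⟨s, hs, s1, s2⟩ := exists_involution_of_even h
      obtain ⟨a, b, hab⟩ := nt
      intro u hu
      obtain ⟨g, -, rfl⟩ := hSE.inv_conj (lam a) (lam b) hab (mem_top s) ⟨s1, s2⟩ (mem_top u) hu
      exact hN.conj_mem s hs g
    · refine absurd (eq_bot_iff.2 fun n hn => FaithfulSMul.eq_of_smul_eq_smul (α := Ω) fun a => ?_) N1
      obtain ⟨c, hc⟩ := hSE.fix ix
      obtain ⟨g, -, rfl⟩ := hSE.trans (lam c) (lam a)
      have := hSE.B8 h ix iy hxy e hc (fun z hz => hN.conj_mem z hz x) (fun z hz => hN.conj_mem z hz y) _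
        (hN.conj_mem' n hn g)
      rw [one_smul, ← mul_smul, ← mul_inv_cancel_left g (n * g), mul_smul, ← mul_assoc, this]
  have hL : ∀ a, a ∈ Lam Ω N := fun a => by
    obtain ⟨u, -, hu⟩ := lam a
    exact ⟨u, hall u hu.1, hu⟩
  have hnt : (Lam Ω N).Nontrivial := by
    obtain ⟨a, b, hab⟩ := nt
    exact ⟨a, hL a, b, hL b, hab⟩
  have r2 : R2 N := ⟨x, hall x ix, y, hall y iy, ix, iy, hxy, e⟩
  intro a _
  obtain ⟨S, hS, hn, htr, -⟩ := (ih N NT r2 hnt).syl hSE r2 hnt (fun u _ _ n _ h => by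
    rw [show n = 1 from FaithfulSMul.eq_of_smul_eq_smul (α := Ω) fun c => by rw [h c (hL c), one_smul]]
    simp) (hL a)
  refine ⟨S, fun q hq => ⟨trivial, (hS.le hq).2⟩, fun h _ hh => ?_, fun b _ c _ => htr b (hL b) c (hL c),
    fun q hq b _ hb e c _ => by rw [hSE.two_elt hS.pg hq hb e (hS.le hq).2, one_smul]⟩
  exact cj_le.1 (hS.le_of_normal' (cj_pgroup hS.pg) (fun g hg => hn g hg.1 hg.2) (cj_le.2 fun q hq =>
    ⟨hN.conj_mem q (hS.le hq).1 h, mul_mem (mul_mem hh (hS.le hq).2) (Subgroup.inv_mem _ hh)⟩))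

theorem concl_all (n : ℕ) :
    ∀ (G : Type u) (Ω : Type v) [Group G] [Finite G] [Finite Ω] [MulAction G Ω] (Y : Subgroup G),
      Nat.card Y = n → SE G Ω → AB G Ω → R2 Y → (Lam Ω Y).Nontrivial → Concl Ω Y := by
  induction n using Nat.strong_induction_on with
  | _ n IH =>
  intro G Ω _ _ _ _ Y hn hSE hFT h2 hnt
  obtain ⟨G', _, _, _, _, f, hf, hact⟩ := exists_quot Y (Lam Ω Y) fun g hg x hx => Lam_smul hg hx
  have hko : Odd (Nat.card f.ker) := by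
    obtain ⟨b, hb, c, hc, hbc⟩ := hnt
    rw [← card_subtype]
    refine hSE.odd_card hbc ?_
    rintro _ ⟨x, hx, rfl⟩
    exact ⟨by rw [coe_subtype, ← hact x ⟨b, hb⟩, hx, one_smul], by rw [coe_subtype, ← hact x ⟨c, hc⟩, hx, one_smul]⟩
  have lift : ∀ x : G', Inv x → ∃ y : Y, Inv (y : G) ∧ f y = x := fun x hx => by
    obtain ⟨x, rfl⟩ := hf x
    obtain ⟨y, hy, e⟩ := exists_inv_lift f hko hx
    exact ⟨y, ⟨fun h => hy.1 (Subtype.ext h), congrArg Subtype.val hy.2⟩, e⟩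
  have hSE' : SE G' (Lam Ω Y) := fun x hx => by
    obtain ⟨y, hy, rfl⟩ := lift x hx
    obtain ⟨c, hc⟩ := hSE.fix hy
    exact ⟨⟨c, y, y.2, hy, hc⟩, Subtype.ext (by rw [hact]; exact hc), fun d hd =>
      Subtype.ext (hSE.uniq hy (by rw [← hact, hd]) hc)⟩
  have hFT' : AB G' (Lam Ω Y) := fun c x y hx hy e1 e2 => by
    obtain ⟨x, hx', rfl⟩ := lift x hx
    obtain ⟨y, hy', rfl⟩ := lift y hy
    rw [← map_mul, ← map_mul, show x * y = y * x from Subtype.ext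
      (hFT c x y hx' hy' (by rw [← hact, e1]) (by rw [← hact, e2]))]
  have lam : ∀ c : Lam Ω Y, c ∈ Lam (Lam Ω Y) (⊤ : Subgroup G') := by
    rintro ⟨c, u, hu, i, e⟩
    refine ⟨f ⟨u, hu⟩, trivial, ⟨fun h => i.not_odd ?_, ?_⟩, Subtype.ext (by rw [hact]; exact e)⟩
    · simpa using odd_orderOf_of_mem hko h
    · rw [← map_mul, show (⟨u, hu⟩ : Y) * ⟨u, hu⟩ = 1 from Subtype.ext i.2, map_one]
  have hC : Concl (Lam Ω Y) (⊤ : Subgroup G') := by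
    obtain ⟨x, y, x1, y1, hxy, x2, y2, e⟩ := hSE.r2_quot f hact hnt h2
    refine concl_top hSE' hFT' ⟨x, trivial, y, trivial, ⟨x1, x2⟩, ⟨y1, y2⟩, hxy, e⟩ lam
      (Set.nontrivial_coe_sort.2 hnt) (fun Z hZ => IH _ ?_ G' _ Z rfl hSE' hFT') fun h => h.concl (h.ab.l1 h.se)
    exact ((card_lt_of_lt' hZ.lt_top).trans_eq card_top).trans_le (hn ▸ Nat.card_le_card_of_surjective f hf)
  intro a ha
  obtain ⟨Q, hQ, hn, htr, hreg⟩ := hC ⟨a, ha⟩ (lam _)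
  have h1 : ∀ c : Y, f c • (⟨a, ha⟩ : Lam Ω Y) = ⟨a, ha⟩ ↔ (c : G) • a = a := fun c => by
    rw [Subtype.ext_iff, hact]
  refine ⟨(Q.comap f).map Y.subtype, ?_, ?_, fun b hb c hc hba hca => ?_, ?_⟩
  · rintro _ ⟨q, hq, rfl⟩
    exact ⟨q.2, (h1 q).1 (hQ hq).2⟩
  · rintro h hh e _ ⟨q, hq, rfl⟩
    refine ⟨⟨h, hh⟩ * q * ⟨h, hh⟩⁻¹, show f _ ∈ Q from ?_, rfl⟩
    rw [map_mul, map_mul, map_inv]
    exact hn _ trivial ((h1 _).2 e) _ hq
  · obtain ⟨q, hq, e⟩ := htr ⟨b, hb⟩ (lam _) ⟨c, hc⟩ (lam _) (fun e => hba (congrArg Subtype.val e))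
      fun e => hca (congrArg Subtype.val e)
    obtain ⟨q, rfl⟩ := hf q
    exact ⟨q, ⟨q, hq, rfl⟩, by rw [← hact q ⟨b, hb⟩, e]⟩
  · rintro _ ⟨q, hq, rfl⟩ b hb hba e c hc
    have := hreg _ hq ⟨b, hb⟩ (lam _) (fun e => hba (congrArg Subtype.val e)) (Subtype.ext (by rw [hact]; exact e))
      ⟨c, hc⟩ (lam _)
    rw [coe_subtype, ← hact q ⟨c, hc⟩, this]
where card_lt_of_lt' {H : Type u} [Group H] [Finite H] {A B : Subgroup H} (h : A < B) : Nat.card A < Nat.card B :=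
  lt_of_le_of_ne (card_le_of_le h.le) fun e => h.ne (eq_of_le_of_card_ge h.le e.ge)

theorem classify {G : Type u} {Ω : Type v} [Group G] [Finite G] [IsSimpleGroup G] [Finite Ω] [MulAction G Ω]
    [FaithfulSMul G Ω] (hSE : SE G Ω) (hA : AB G Ω) (lam : ∀ a : Ω, a ∈ Lam Ω (⊤ : Subgroup G))
    (hnt : (Lam Ω (⊤ : Subgroup G)).Nontrivial) (r2 : R2 (⊤ : Subgroup G)) :
    (∃ (F : Type) (_ : Field F) (_ : Fintype F) (n : ℕ), 2 ≤ n ∧ Fintype.card F = 2 ^ n ∧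
        Nonempty (G ≃* Matrix.ProjectiveSpecialLinearGroup (Fin 2) F)) ∨ Cfsg.Lie.IsoSuzuki G ∨
      (∃ (F : Type) (_ : Field F) (_ : Fintype F) (n : ℕ), 2 ≤ n ∧ Fintype.card F = (2 ^ n) ^ 2 ∧
        Nonempty (G ≃* Cfsg.PSU 3 F (2 ^ n))) := by
  obtain ⟨a, ha, -⟩ := id hnt
  obtain ⟨S, hS, hn, htr, -⟩ := (concl_all _ G _ ⊤ rfl hSE hA r2 hnt).syl hSE r2 hnt (fun u _ _ n _ h => by
    rw [show n = 1 from FaithfulSMul.eq_of_smul_eq_smul (α := Ω) fun c => by rw [h c (lam c), one_smul]]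
    simp) ha
  obtain ⟨t, -, hi, hta⟩ := hSE.exists_t hnt ha
  have hev : Even (Nat.card G) := even_iff_two_dvd.2 (hi.orderOf ▸ orderOf_dvd_natCard t)
  obtain ⟨G', _, _, _, _, f, hf, hact⟩ := exists_quot ⊤ (Lam Ω (⊤ : Subgroup G)) fun g hg x hx => Lam_smul hg hx
  have hS' := hSE.setup f hf hact ha trivial hi hta hS.le hn htr fun q hq e => by
    rw [show q = 1 from Subtype.ext (hSE.two_elt hS.pg hq hta e (hS.le hq).2), map_one]
  have hinj : Function.Injective f := (injective_iff_map_eq_one f).2 fun x hx => Subtype.ext <|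
    FaithfulSMul.eq_of_smul_eq_smul (α := Ω) fun c => by rw [← hact x ⟨c, lam c⟩, hx]; simp
  let e : G ≃* G' := topEquiv.symm.trans (MulEquiv.ofBijective f ⟨hinj, hf⟩)
  have := e.symm.isSimpleGroup
  obtain ⟨L, hL, ho, h⟩ := S1136.result hS' (hSE.r2_quot f hact hnt r2)
  obtain rfl : L = ⊤ := hL.eq_bot_or_eq_top.resolve_left fun h => by
    rw [h, index_bot, ← Nat.card_congr e.toEquiv] at ho
    exact Nat.not_odd_iff_even.2 hev ho
  let e' := e.trans topEquiv.symm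
  rcases h with ⟨F, _, _, ⟨n, h1, h2⟩, ⟨i⟩⟩ | ⟨F, _, _, n, h1, h2, ⟨i⟩⟩ | ⟨F, _, _, n, h1, h2, ⟨i⟩⟩
  · exact .inl ⟨F, _, _, n, h1, h2, ⟨e'.trans i⟩⟩
  · exact .inr (.inl ⟨F, _, _, n, h1, h2, ⟨e'.trans i⟩⟩)
  · exact .inr (.inr ⟨F, _, _, n, h1, h2, ⟨e'.trans i⟩⟩)

end Cfsg.Agent.H1.Bx
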