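import Cfsg.Agent.H1.Bi3
import Cfsg.Agent.H1.Bx4
import Cfsg.Agent.H4.Bin

/-! Simple groups with one class of involutions and a binary action with point stabiliser of even order. -/

set_option autoImplicit false

namespace Cfsg.Agent.H1.Bi
open Subgroup MulAction H5.Odd Cfsg.Agent.Bd Pointwise

universe u

theorem classify {G : Type u} [Group G] [Finite G] [IsSimpleGroup G]
    (hc : ∀ s t : G, s ≠ 1 → s * s = 1 → t ≠ 1 → t * t = 1 → ∃ k, k * s * k⁻¹ = t) {H : Subgroup G} (hH : H ≠ ⊤)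
    (he : Even (Nat.card H)) (hb : H4.Bin.Binary G (G ⧸ H)) :
    (∃ (F : Type) (_ : Field F) (_ : Fintype F) (n : ℕ), 2 ≤ n ∧ Fintype.card F = 2 ^ n ∧
        Nonempty (G ≃* Matrix.ProjectiveSpecialLinearGroup (Fin 2) F)) ∨ Cfsg.Lie.IsoSuzuki G ∨
      (∃ (F : Type) (_ : Field F) (_ : Fintype F) (n : ℕ), 2 ≤ n ∧ Fintype.card F = (2 ^ n) ^ 2 ∧
        Nonempty (G ≃* Cfsg.PSU 3 F (2 ^ n))) := by
  obtain ⟨s, hs, s1, s2⟩ := exists_involution_of_even he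
  have cm : ∀ u v : G, Inv u → Inv v → u * v = v * u → fixedBy (G ⧸ H) u = fixedBy (G ⧸ H) v := fun u v hu hv =>
    hb.fixedBy_eq_of_invol hc hu.1 hu.2 hv.1 hv.2
  let Ω := {S : Set (G ⧸ H) // ∃ u : G, Inv u ∧ S = fixedBy (G ⧸ H) u}
  letI : MulAction G Ω :=
    { smul := fun g S => ⟨g • S.1, S.2.elim fun u hu => ⟨_, hu.1.conj g, by rw [hu.2, smul_fixedBy]⟩⟩
      one_smul := fun S => Subtype.ext (one_smul G S.1)
      mul_smul := fun g k S => Subtype.ext (mul_smul g k S.1) }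
  have sm : ∀ (g : G) (S : Ω), g • S = S ↔ g • S.1 = S.1 := fun g S => Subtype.ext_iff
  have key : ∀ (t : G) (S : Ω), Inv t → (t • S = S ↔ S.1 = fixedBy (G ⧸ H) t) := by
    rintro t ⟨_, u, hu, rfl⟩ ht
    rw [sm]
    dsimp only
    refine ⟨fun e => ?_, fun e => by rw [e, smul_fixedBy, mul_inv_cancel_right]⟩
    by_cases ho : Odd (orderOf (t * u))
    · obtain ⟨k, hk⟩ := hc u t hu.1 hu.2 ht.1 ht.2
      refine Set.eq_of_subset_of_ncard_le (fun x hx => ?_) (by rw [← hk, H4.Bin.ncard_fixedBy_conj])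
      have h1 : u • t • x = t • x := (show t • fixedBy (G ⧸ H) u = _ from e).le (Set.smul_mem_smul_set hx)
      have h2 : t * u ∈ stabilizer G x := mem_of_sq' ho (by
        rw [mem_stabilizer_iff, mul_smul, mul_smul, mul_smul, show u • x = x from hx, h1, ht.smul2])
      rwa [mem_stabilizer_iff, mul_smul, show u • x = x from hx] at h2
    · obtain ⟨m, m1, m2, e1, e2⟩ := exists_central_involution ht.2 hu.2 ho
      exact (cm u _ hu ⟨m1, m2⟩ e2).trans (cm t _ ht ⟨m1, m2⟩ e1).symm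
  have hSE : SE G Ω := fun t ht => ⟨⟨_, t, ht, rfl⟩, (key t _ ht).2 rfl, fun S e => Subtype.ext ((key t S ht).1 e)⟩
  have lam : ∀ S : Ω, S ∈ Lam Ω (⊤ : Subgroup G) := fun S => S.2.elim fun u hu => ⟨u, trivial, hu.1, (key u S hu.1).2 hu.2⟩
  have nrm : ∀ N : Subgroup G, N.Normal → s ∈ N → ¬ N ≤ H := fun N hN h1 h2 => by
    rcases hN.eq_bot_or_eq_top with rfl | rfl
    · exact s1 h1
    · exact hH (top_le_iff.1 h2)
  let a : Ω := ⟨_, s, ⟨s1, s2⟩, rfl⟩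
  obtain ⟨g, hg⟩ : ∃ g : G, g • a ≠ a := by
    by_contra hn
    push Not at hn
    refine nrm H.normalCore inferInstance (fun g => ?_) H.normalCore_le
    have h1 : ((1 : G) : G ⧸ H) ∈ fixedBy (G ⧸ H) s := H4.Bin.smul_mk_eq.2 (by simpa using hs)
    rw [← show g • fixedBy (G ⧸ H) s = fixedBy (G ⧸ H) s from (sm g a).1 (hn g), smul_fixedBy] at h1
    simpa using H4.Bin.smul_mk_eq.1 h1
  have r2 : R2 (⊤ : Subgroup G) := by
    by_contra h
    obtain ⟨O, -, ho, hn, hm⟩ := B9 h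
    rcases (⟨fun x hx g => hn g trivial x hx⟩ : O.Normal).eq_bot_or_eq_top with rfl | rfl
    · refine nrm (zpowers s) ⟨?_⟩ (mem_zpowers s) (zpowers_le.2 hs)
      rintro _ ⟨n, rfl⟩ g
      have := mem_bot.1 (hm _ trivial s trivial (Inv.conj ⟨s1, s2⟩ g) ⟨s1, s2⟩)
      rw [← conj_zpow, eq_inv_of_mul_eq_one_left this, inv_eq_of_sq s2]
      exact ⟨n, rfl⟩
    · exact Inv.not_odd ⟨s1, s2⟩ (odd_orderOf_of_mem ho (mem_top s))
  have hF : FaithfulSMul G Ω := ⟨fun {x y} h => by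
    rcases (inferInstance : (toPermHom G Ω).ker.Normal).eq_bot_or_eq_top with h' | h'
    · exact (MonoidHom.ker_eq_bot_iff _).1 h' (Equiv.ext h)
    · exact absurd (DFunLike.congr_fun (MonoidHom.mem_ker.1 (h'.ge (mem_top g))) a) hg⟩
  have hB : Bin (fun S : Ω => fixingSubgroup G S.1) := by
    refine ⟨hSE, lam, r2, fun S k hk => (sm k S).2 (smul_eq_of (fun k hk x hx => ?_) k hk), fun u S hu e => ?_,
      fun g S k hk => ?_, fun A B y h => ?_⟩
    · rwa [(mem_fixingSubgroup_iff G).1 hk x hx]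
    · rw [mem_fixingSubgroup_iff, (key u S hu).1 e]
      exact fun x hx => hx
    · rw [mem_fixingSubgroup_iff]
      rintro _ ⟨x, hx, rfl⟩
      exact conj_fix ((mem_fixingSubgroup_iff G).1 hk x hx) g
    simp only [mem_fixingSubgroup_iff, mul_smul, inv_smul_eq_iff] at h ⊢
    obtain ⟨z, hz⟩ := hb.finite (ι := {x : G ⧸ H // ∃ c ∈ A, x ∈ c.1} ⊕ {x : G ⧸ H // ∃ c ∈ B, x ∈ c.1})
      (Sum.elim Subtype.val Subtype.val) (Sum.elim Subtype.val fun x => y • x.1) (by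
        rintro (⟨x, c, hc, hx⟩ | ⟨x, c, hc, hx⟩) (⟨x', d, hd, hx'⟩ | ⟨x', d, hd, hx'⟩)
        · exact ⟨1, by simp⟩
        · obtain ⟨z, z1, z2⟩ := h c hc d hd
          exact ⟨z, z1 x hx, z2 x' hx'⟩
        · obtain ⟨z, z1, z2⟩ := h d hd c hc
          exact ⟨z, z2 x hx, z1 x' hx'⟩
        · exact ⟨y, rfl, rfl⟩)
    exact ⟨z, fun c hc x hx => hz (.inl ⟨x, c, hc, hx⟩), fun c hc x hx => hz (.inr ⟨x, c, hc, hx⟩)⟩
  refine Bx.classify hSE (fun c u v hu hv e1 e2 => ?_) lam ⟨_, lam _, a, lam a, hg⟩ r2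
  have : u * v * (u * v) = 1 := FaithfulSMul.eq_of_smul_eq_smul (α := Ω) fun d => by
    rw [star _ G Ω _ rfl hB c u ⟨trivial, hu, e1⟩ v ⟨trivial, hv, e2⟩ d, one_smul]
  rw [eq_inv_of_mul_eq_one_left this, mul_inv_rev, hu.inv, hv.inv]

end Cfsg.Agent.H1.Bi
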