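import Cfsg.Agent.Bd.Asm3

/-! Bender reduction when the involutions fixing a point commute, part 1. -/

set_option autoImplicit false
set_option linter.unusedSectionVars false

namespace Cfsg.Agent.H1.Bx
open Subgroup MulAction H5.Odd Cfsg.Agent.Bd

section
variable {G Ω : Type*} [Group G] [MulAction G Ω] {H Y : Subgroup G} {a b c : Ω}

variable (G Ω) in
def AB : Prop := ∀ (a : Ω) (u v : G), Inv u → Inv v → u • a = a → v • a = a → u * v = v * u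

variable (G Ω) in
def A2P : Prop := ∀ Y H : Subgroup G, Y ≤ H → Three (Fx Ω H Y) →
  ∀ c ∈ Fx Ω H Y, ∃ u ∈ H, Inv u ∧ u • c = c ∧ ∀ y ∈ Y, y * u = u * y

variable (G) in
structure Mn (Ω : Type*) [MulAction G Ω] : Prop where
  se : SE G Ω
  ab : AB G Ω
  ft : A2P G Ω
  r2 : R2 (⊤ : Subgroup G)
  simple : ∀ N : Subgroup G, N.Normal → N = ⊥ ∨ N = ⊤
  lam : ∀ a : Ω, a ∈ Lam Ω (⊤ : Subgroup G)
  nt : Nontrivial Ω
  ih : ∀ Y : Subgroup G, Y ≠ ⊤ → R2 Y → (Lam Ω Y).Nontrivial → Concl Ω Y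

variable [Finite G] (hSE : SE G Ω) (hA : AB G Ω)
include hSE hA

theorem AB.l1 : L1 G Ω := fun u y a b hu h1 h2 h3 hab e => by
  have e' : u * y * (u * y) = 1 := by
    rw [hu.inv] at e
    rw [← mul_assoc, e, inv_mul_cancel]
  by_cases h : u * y = 1
  · rw [← inv_eq_of_mul_eq_one_right h, hu.inv] at h3
    exact absurd (hSE.uniq hu h3 h1) hab
  have := hA a u _ hu ⟨h, e'⟩ h1 (by rw [mul_smul, h2, h1])
  rw [hu.inv] at e
  rw [hu.tt, e] at this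
  exact eq_one_of_sq_of_odd (hSE.odd_order hab h3 h2) (by nth_rewrite 2 [this]; simp)

theorem solv2 (ha : a ∈ Lam Ω H) (hb : b ∈ Lam Ω H) (hab : b ≠ a) :
    ⁅⁅St H a b, St H a b⁆, ⁅St H a b, St H a b⁆⁆ ≤ centralizer (IA H a) := by
  have hc : ∀ x : G, x • a = a → x * x = 1 → ∀ y : G, y • a = a → y * y = 1 → x * y = y * x := fun x h1 h2 y h3 h4 => by
    by_cases x1 : x = 1
    · simp [x1]
    by_cases y1 : y = 1
    · simp [y1]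
    exact hA a x y ⟨x1, h2⟩ ⟨y1, h4⟩ h1 h3
  let E : Subgroup G :=
    { carrier := {s | s ∈ H ∧ s • a = a ∧ s * s = 1}
      one_mem' := ⟨one_mem _, one_smul _ _, mul_one _⟩
      mul_mem' := fun {x y} hx hy => ⟨mul_mem hx.1 hy.1, by rw [mul_smul, hy.2.1, hx.2.1], by
        rw [mul_assoc, ← mul_assoc y, ← hc x hx.2.1 hx.2.2 y hy.2.1 hy.2.2, mul_assoc x y y, hy.2.2, mul_one, hx.2.2]⟩
      inv_mem' := fun {x} hx => by rw [inv_eq_of_sq hx.2.2]; exact hx }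
  letI : CommGroup E := { mul_comm := fun x y => Subtype.ext (hc x x.2.2.1 x.2.2.2 y y.2.2.1 y.2.2.2) }
  letI : DistribMulAction (St H a b) (Additive E) :=
    { smul := fun d e => Additive.ofMul ⟨d * e.toMul * (d : G)⁻¹,
        mul_mem (mul_mem (mem_St.1 d.2).1 e.toMul.2.1) (H.inv_mem (mem_St.1 d.2).1), by
        simpa [(mem_St.1 d.2).2.1] using conj_fix e.toMul.2.2.1 (d : G), H5.RankOne.conj_sq e.toMul.2.2.2 _⟩
      one_smul := fun e => Subtype.ext (by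
        show (1 : G) * e.toMul * 1⁻¹ = e.toMul
        simp)
      mul_smul := fun c d e => Subtype.ext (by
        show (c * d : G) * e.toMul * (c * d : G)⁻¹ = c * (d * e.toMul * (d : G)⁻¹) * (c : G)⁻¹
        group)
      smul_zero := fun d => Subtype.ext (by
        show (d : G) * 1 * (d : G)⁻¹ = 1
        simp)
      smul_add := fun d e f => Subtype.ext (by
        show (d : G) * (e.toMul * f.toMul) * (d : G)⁻¹ = d * e.toMul * (d : G)⁻¹ * (d * f.toMul * (d : G)⁻¹)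
        group) }
  let ρ := DistribMulAction.toModuleAut ℤ (Additive E) (S := St H a b)
  have hρ : ∀ d (e : Additive E), ((ρ d e).toMul : G) = d * e.toMul * (d : G)⁻¹ := fun _ _ => rfl
  have hodd : Odd (Nat.card ρ.range) := (hSE.odd_St hab.symm).of_dvd_nat (card_range_dvd ρ)
  obtain ⟨u, hu⟩ := id ha
  have : Nontrivial (Additive E) :=
    ⟨⟨Additive.ofMul ⟨u, hu.1, hu.2.2, hu.2.1.2⟩, 0, fun e => hu.2.1.1 (congrArg Subtype.val e)⟩⟩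
  have htr : ∀ x y : Additive E, x ≠ 0 → y ≠ 0 → ∃ d : ρ.range, d • x = y := fun x y hx hy => by
    obtain ⟨t, ht, hi, rfl⟩ := hSE.swap ha hb hab.symm
    obtain ⟨k, hk, e⟩ := hSE.K_trans ht hi hab (s := (x.toMul : G)) (s' := (y.toMul : G))
      ⟨x.toMul.2.1, ⟨fun e => hx (Subtype.ext e), x.toMul.2.2.2⟩, x.toMul.2.2.1⟩
      ⟨y.toMul.2.1, ⟨fun e => hy (Subtype.ext e), y.toMul.2.2.2⟩, y.toMul.2.2.1⟩
    exact ⟨⟨_, ⟨k, hk.1⟩, rfl⟩, Subtype.ext e⟩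
  have : Finite (Additive E ≃ₗ[ℤ] Additive E) := Finite.of_injective _ DFunLike.coe_injective
  obtain ⟨cyc, -, comm⟩ := S1161.result (D := ρ.range) (E := Additive E) hodd Nat.prime_two
    (fun e => by rw [two_nsmul]; exact Subtype.ext e.toMul.2.2.2) htr
  obtain ⟨γ, hγ⟩ := exists_gen cyc
  rw [← map_subtype_commutator (St H a b)]
  rw [Subgroup.commutator_le]
  rintro _ ⟨x, hx, rfl⟩ _ ⟨y, hy, rfl⟩ v hv
  have k : ∀ x ∈ _root_.commutator (St H a b), ρ.rangeRestrict x ∈ zpowers γ := fun x hx =>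
    hγ ▸ comm (by
      have := mem_map_of_mem ρ.rangeRestrict hx
      rw [commutator_def, map_commutator] at this
      exact commutator_mono le_top le_top this)
  have e : ρ (x * y * x⁻¹ * y⁻¹) = 1 := congrArg Subtype.val (show ρ.rangeRestrict (x * y * x⁻¹ * y⁻¹) = 1 by
    rw [map_mul, map_mul, map_mul, zpowers_comm (k x hx) (k y hy)]; simp)
  have := hρ (x * y * x⁻¹ * y⁻¹) (Additive.ofMul ⟨v, hv.1, hv.2.2, hv.2.1.2⟩)
  rw [e] at this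
  exact eq_mul_inv_iff_mul_eq.1 this

omit hSE hA in
theorem exists_norm_sup' (hc : ⁅Y, Y⁆ < Y) : ∃ (p : ℕ) (_ : Fact p.Prime) (Y0 P : Subgroup G),
    Y0 < Y ∧ (∀ g ∈ Y, ∀ x ∈ Y0, g * x * g⁻¹ ∈ Y0) ∧ IsPGroup p P ∧ Y0 ⊔ P = Y := by
  obtain ⟨Y0, ⟨h0, h0'⟩, hm⟩ := (Set.toFinite {Z : Subgroup G | ⁅Y, Y⁆ ≤ Z ∧ Z < Y}).exists_maximal ⟨_, le_rfl, hc⟩
  by_contra hn
  push Not at hn
  refine h0'.ne (eq_of_le_of_card_ge h0'.le (Nat.le_of_dvd Nat.card_pos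
    ((Nat.dvd_iff_prime_pow_dvd_dvd _ _).2 fun p n hp h => ?_)))
  have := Fact.mk hp
  obtain ⟨R, hR, e⟩ := exists_pow_sub h
  rw [← e]
  refine card_dvd_of_le (le_sup_right.trans (hm ⟨h0.trans le_sup_left, lt_of_le_of_ne (sup_le h0'.le hR)
    (hn p this Y0 R h0' (fun g hg x hx => ?_) (.of_card e))⟩ le_sup_left))
  simpa [commutatorElement_def] using mul_mem (h0 (commutator_mem_commutator hg (h0'.le hx))) hx

theorem AB.a2 [Finite Ω] : A2P G Ω := fun Y => by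
  have hL := hA.l1 hSE
  induction Y using WellFoundedLT.induction with
  | _ Y IH =>
  intro H hle h3 c hc
  obtain ⟨d, hd, hdc, -⟩ := h3 c c
  have hY : Y ≤ St H c d := fun y hy => mem_St.2 ⟨hle hy, hc.2 y hy, hd.2 y hy⟩
  by_cases h1 : ⁅Y, Y⁆ = Y
  · obtain ⟨u, hu⟩ := id hc.1
    refine ⟨u, hu.1, hu.2.1, hu.2.2, fun y hy => (solv2 hSE hA hc.1 hd.1 hdc (commutator_mono
      (commutator_mono hY hY) (commutator_mono hY hY) ?_) u hu).symm⟩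
    rwa [h1, h1]
  obtain ⟨p, _, Y0, P, h0, hn, hP, rfl⟩ := exists_norm_sup' (lt_of_le_of_ne (commutator_le.2 fun x hx y hy =>
    mul_mem (mul_mem (mul_mem hx hy) (Subgroup.inv_mem _ hx)) (Subgroup.inv_mem _ hy)) h1)
  have sub : Fx Ω H (Y0 ⊔ P) ⊆ Fx Ω H Y0 := fun x hx => ⟨hx.1, fun y hy => hx.2 y (mem_sup_left hy)⟩
  have sub' : Fx Ω H (Y0 ⊔ P) ⊆ Fx Ω (H ⊓ normalizer (Y0 : Set G)) P := fun x hx => by
    obtain ⟨u, h1, h2, h3, h4⟩ := IH Y0 h0 H (h0.le.trans hle) (h3.mono sub) x (sub hx)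
    exact ⟨⟨u, ⟨h1, mem_norm.2 fun y hy => by rwa [← h4 y hy, mul_inv_cancel_right]⟩, h2, h3⟩,
      fun y hy => hx.2 y (mem_sup_right hy)⟩
  obtain ⟨u, h1, h2, h3, h4⟩ := A1 hSE hL (H := H ⊓ normalizer (Y0 : Set G)) P hP
    (fun x hx => ⟨hle (mem_sup_right hx), mem_norm.2 (hn x (mem_sup_right hx))⟩) (h3.mono sub') c (sub' hc)
  refine ⟨u, h1.1, h2, h3, fun y hy => mem_centralizer_singleton_iff.1 ((sup_le ?_ ?_ : _ ≤ centralizer {u}) hy)⟩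
  · exact fun y hy => mem_centralizer_singleton_iff.2 (hL.cent hSE h2 h3 hdc (fun y hy =>
      ⟨(sub hc).2 y hy, (sub hd).2 y hy⟩) (mem_norm.1 h1.2) y hy)
  · exact fun y hy => mem_centralizer_singleton_iff.2 (h4 y hy)

omit hSE hA in
theorem Mn.solv (h : Mn G Ω) (hab : b ≠ a) (hW : St (CA G a) a b = ⊥) (hY : Y ≤ St ⊤ a b) : Group.IsSolvable Y := by
  refine ⟨⟨2, (map_eq_bot_iff_of_injective _ Y.subtype_injective).1 (eq_bot_iff.2 (le_trans ?_ hW.le))⟩⟩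
  have e : ∀ X : Subgroup G, ⁅X, X⁆ ≤ X := fun X => commutator_le.2 fun x hx y hy =>
    mul_mem (mul_mem (mul_mem hx hy) (Subgroup.inv_mem _ hx)) (Subgroup.inv_mem _ hy)
  rw [derivedSeries_succ, derivedSeries_one, map_commutator, map_subtype_commutator]
  exact fun x hx => mem_St.2 ⟨solv2 h.se h.ab (h.lam a) (h.lam b) hab (commutator_mono
    (commutator_mono hY hY) (commutator_mono hY hY) hx), (mem_St.1 (hY (e _ (e _ hx)))).2⟩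

end

section
variable {G Ω : Type*} [Group G] [MulAction G Ω] {H Y : Subgroup G} {a b c : Ω} {s t u k y : G}

variable [Finite G]

variable [Finite Ω] (hSE : SE G Ω) (hL : L1 G Ω)
include hSE

include hL

variable (hFT : A2P G Ω)
include hFT

theorem K_fix (ht : t ∈ H) (hi : Inv t) (hta : t • a ≠ a) (ha : a ∈ Lam Ω H) (hk : k ∈ KK H a t) (k1 : k ≠ 1)
    (hc : c ∈ Lam Ω H) (e : k • c = c) : c = a ∨ c = t • a := by
  by_contra hn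
  push Not at hn
  have h := mem_KK.1 hk
  have f : ∀ x ∈ Lam Ω H, k • x = x → x ∈ Fx Ω H (zpowers k) := fun x hx e =>
    ⟨hx, fun y hy => (zpowers_le.2 e : _ ≤ stabilizer G x) hy⟩
  obtain ⟨u, -, hu, -, e⟩ := hFT _ H (zpowers_le.2 h.1) (three_of (f c hc e) (f a ha h.2.1)
    (f _ (Lam_smul ht ha) h.2.2.1) hn.1 hn.2 hta.symm) c (f c hc e)
  exact k1 (kodd hSE hL hi hta hk hu (e k (mem_zpowers k)).symm)

theorem exists_two_fix {p : ℕ} [hp : Fact p.Prime] (h : p ∣ Nat.card (IA H a)) (ha : a ∈ Lam Ω H) (hb : b ∈ Lam Ω H)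
    (hba : b ≠ a) : ∃ P : Subgroup G, IsPGroup p P ∧ P ≤ St H a b ∧
      ∀ c ∈ Lam Ω H, (∀ x ∈ P, x • c = c) → c = a ∨ c = b := by
  obtain ⟨t, ht, hi, rfl⟩ := hSE.swap ha hb hba.symm
  obtain ⟨k, hk, e⟩ := exists_inverted_of_prime_dvd hi.2 (hSE.odd_St hba.symm) (St_conj ht hi) hp.out
    (hSE.card_K ht hi hba ha ▸ h)
  exact ⟨zpowers k, .of_card (n := 1) (by rw [Nat.card_zpowers, e, pow_one]), zpowers_le.2 hk.1, fun c hc h =>
    K_fix hSE hL hFT ht hi hba ha hk (fun h => hp.out.one_lt.ne' (by rw [← e, h, orderOf_one])) hc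
      (h k (mem_zpowers k))⟩

theorem two_trans (h : Nat.card (IA H a) ≠ 1) (ha : a ∈ Lam Ω H) (hb : b ∈ Lam Ω H) (hba : b ≠ a) (hc : c ∈ Lam Ω H)
    (hca : c ≠ a) : ∃ g ∈ H, g • a = a ∧ g • b = c := by
  obtain ⟨p, hp, h⟩ := Nat.exists_prime_and_dvd h
  have := Fact.mk hp
  exact B10 (p := p) (fun g hg x hx => Lam_smul hg hx) (fun b hb hba => exists_two_fix hSE hL hFT h ha hb hba)
    hb hba hc hca

theorem fix_second {p : ℕ} [hp : Fact p.Prime] (h : p ∣ Nat.card (IA H a)) (ha : a ∈ Lam Ω H)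
    (hnt : (Lam Ω H).Nontrivial) {R : Subgroup G} (hR : IsPGroup p R) (hle : R ≤ H ⊓ stabilizer G a) :
    ∃ c ∈ Lam Ω H, c ≠ a ∧ ∀ x ∈ R, x • c = c := by
  obtain ⟨b, hb, hba⟩ := hnt.exists_ne a
  obtain ⟨P, hP, h1, h2⟩ := exists_two_fix hSE hL hFT h ha hb hba
  have d1 : p ∣ ((Lam Ω H \ {a}) \ {b}).ncard := dvd_of_no_fix hP (fun g hg x hx =>
    ⟨⟨Lam_smul (mem_St.1 (h1 hg)).1 hx.1.1, fun e => hx.1.2 (smul_left_cancel g (e.trans (mem_St.1 (h1 hg)).2.1.symm))⟩,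
      fun e => hx.2 (smul_left_cancel g (e.trans (mem_St.1 (h1 hg)).2.2.symm))⟩)
    fun x hx e => (h2 x hx.1.1 e).elim hx.1.2 hx.2
  obtain ⟨c, hc, e⟩ := exists_fix_of_not_dvd hR (Lam Ω H \ {a}) (fun g hg x hx =>
    ⟨Lam_smul (hle hg).1 hx.1, fun e => hx.2 (smul_left_cancel g (e.trans (Eq.symm (hle hg).2)))⟩) fun h => by
      rw [← Set.ncard_sdiff_singleton_add_one (s := Lam Ω H \ {a}) ⟨hb, hba⟩] at h
      exact hp.out.one_lt.ne' (Nat.dvd_one.1 ((Nat.dvd_add_right d1).1 h))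
  exact ⟨c, hc.1, hc.2, e⟩

/-- A4: an involution of `H_a` centralises every odd order subgroup `X` of `H_a` it normalises, or the number of
inverted elements is prime to `|I_a|` -/
theorem A4 {p : ℕ} (hp : p.Prime) (h : p ∣ Nat.card (IA H a)) (hnt : (Lam Ω H).Nontrivial) (hu : u ∈ IA H a)
    {X : Subgroup G} (hX : X ≤ H ⊓ stabilizer G a) (ho : Odd (Nat.card X)) (hn : ∀ x ∈ X, u * x * u⁻¹ ∈ X) :
    ¬ p ∣ Nat.card (invertedBy X u) := fun hd => by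
  have := Fact.mk hp
  obtain ⟨k, hk, e⟩ := exists_inverted_of_prime_dvd hu.2.1.2 ho hn hp hd
  obtain ⟨c, -, hc, f⟩ := fix_second hSE hL hFT h ⟨u, hu⟩ hnt
    (R := zpowers k) (.of_card (n := 1) (by rw [Nat.card_zpowers, e, pow_one])) (zpowers_le.2 (hX hk.1))
  rw [hL u k a c hu.2.1 hu.2.2 (hX hk.1).2 (f k (mem_zpowers k)) hc hk.2, orderOf_one] at e
  exact hp.one_lt.ne e

theorem r2_of (h : Nat.card (IA H a) ≠ 1) (ha : a ∈ Lam Ω H) (hnt : (Lam Ω H).Nontrivial) : R2 H := by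
  by_contra h2
  obtain ⟨O, hO, ho, hn, hm⟩ := B9 h2
  obtain ⟨p, hp, h⟩ := Nat.exists_prime_and_dvd h
  obtain ⟨u, hu⟩ := ha
  have ho' : Odd (Nat.card ↥(O ⊓ stabilizer G a)) := ho.of_dvd_nat (card_dvd_of_le inf_le_left)
  refine A4 hSE hL hFT hp h hnt hu (X := O ⊓ stabilizer G a) (inf_le_inf_right _ hO) ho'
    (fun x hx => ⟨hn u hu.1 x hx.1, mul_mem (mul_mem hu.2.2 hx.2) (Subgroup.inv_mem _ hu.2.2)⟩) ?_
  convert h using 1
  refine Nat.card_congr ⟨fun x => ⟨u * x, mul_mem hu.1 (hO x.2.1.1), ⟨fun e => ?_, ?_⟩, mul_mem hu.2.2 x.2.1.2⟩,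
    fun v => ⟨u * v, ⟨hm u hu.1 v v.2.1 hu.2.1 v.2.2.1, mul_mem hu.2.2 v.2.2.2⟩, ?_⟩,
    fun x => Subtype.ext (hu.2.1.tt _), fun x => Subtype.ext (hu.2.1.tt _)⟩
  · exact hu.2.1.not_odd (eq_inv_of_mul_eq_one_left e ▸ odd_orderOf_of_mem ho' (Subgroup.inv_mem _ x.2.1))
  · have := x.2.2
    rw [hu.2.1.inv] at this
    rw [← mul_assoc, this, inv_mul_cancel]
  · rw [hu.2.1.tt, mul_inv_rev, v.2.2.1.inv]

theorem exists_s (ht : t ∈ H) (hi : Inv t) (hta : t • a ≠ a) (ha : a ∈ Lam Ω H) :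
    ∃ s ∈ IA H a, ∀ d ∈ St H a (t • a), d * t = t * d ↔ d * s = s * d := by
  obtain ⟨γ, hγ⟩ := hSE.fix hi
  have f : ∀ x ∈ Lam Ω H, (∀ d ∈ St H a (t • a), d * t = t * d → d • x = x) →
      x ∈ Fx Ω H (St H a (t • a) ⊓ centralizer {t}) := fun x hx e =>
    ⟨hx, fun y hy => e y hy.1 (mem_centralizer_singleton_iff.1 hy.2)⟩
  have fa := f a ha fun d hd _ => (mem_St.1 hd).2.1
  obtain ⟨s, h1, h2, h3, h4⟩ := hFT (St H a (t • a) ⊓ centralizer {t}) H (fun x hx => (mem_St.1 hx.1).1)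
    (three_of fa (f _ (Lam_smul ht ha) fun d hd _ => (mem_St.1 hd).2.2)
      (f γ ⟨t, ht, hi, hγ⟩ fun d _ e => hSE.fix_of_comm hi hγ e) hta.symm (fun e => hta (e ▸ hγ))
      fun e => hta (e.trans (smul_left_cancel t (hγ.trans e.symm)))) a fa
  have := eq_of_le_of_card_ge (H := St H a (t • a) ⊓ centralizer {t}) (K := St H a (t • a) ⊓ centralizer {s})
    (fun x hx => ⟨hx.1, mem_centralizer_singleton_iff.2 (h4 x hx)⟩) (by
      have e1 := hSE.card_St ht hi hta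
      rw [hSE.card_St' ⟨h1, h2, h3⟩ (Lam_smul ht ha) hta.symm, hSE.card_K ht hi hta ha] at e1
      have : Nonempty (IA H a) := ⟨⟨s, h1, h2, h3⟩⟩
      exact (Nat.eq_of_mul_eq_mul_right Nat.card_pos e1).le)
  refine ⟨s, ⟨h1, h2, h3⟩, fun d hd => ?_⟩
  simpa [hd, mem_centralizer_singleton_iff] using SetLike.ext_iff.1 this d

theorem conj_into_V (ht : t ∈ H) (hi : Inv t) (hta : t • a ≠ a) (hs : s ∈ IA H a)
    (hV : ∀ d ∈ St H a (t • a), d * t = t * d ↔ d * s = s * d) (hY : Y ≤ St H a (t • a)) (hc : c ∈ Fx Ω H Y)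
    (h1 : c ≠ a) (h2 : c ≠ t • a) : ∃ k ∈ KK H a t, ∀ y ∈ Y, k * y * k⁻¹ * t = t * (k * y * k⁻¹) := by
  have fa : a ∈ Fx Ω H Y := ⟨⟨s, hs⟩, fun y hy => (mem_St.1 (hY hy)).2.1⟩
  obtain ⟨u, u1, u2, u3, u4⟩ := hFT Y H (fun y hy => (mem_St.1 (hY hy)).1) (three_of hc fa
    ⟨Lam_smul ht ⟨s, hs⟩, fun y hy => (mem_St.1 (hY hy)).2.2⟩ h1 h2 hta.symm) a fa
  obtain ⟨k, hk, rfl⟩ := hSE.K_trans ht hi hta ⟨u1, u2, u3⟩ hs
  refine ⟨k, hk, fun y hy => (hV _ (mul_mem (mul_mem hk.1 (hY hy)) (Subgroup.inv_mem _ hk.1))).2 ?_⟩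
  calc _ = k * (y * u) * k⁻¹ := by group
    _ = _ := by rw [u4 y hy]; group

omit hSE hFT in
theorem Mn.ps (h : Mn G Ω) (a : Ω) : ∃ t s : G, PS G a t s := by
  have hnt : (Lam Ω (⊤ : Subgroup G)).Nontrivial := by
    obtain ⟨a, b, hab⟩ := h.nt
    exact ⟨a, h.lam a, b, h.lam b, hab⟩
  obtain ⟨t, -, hi, hta⟩ := h.se.exists_t hnt (h.lam a)
  obtain ⟨s, hs, hV⟩ := exists_s h.se hL h.ft (mem_top t) hi hta (h.lam a)
  refine ⟨t, s, h.se, hL, h.lam, fun b c hb hc => ?_, hi, hta, hs.2.1, hs.2.2, hV, fun d hd c h1 h2 e => ?_,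
    fun k hk u hu e => kodd h.se hL hi hta hk hu e⟩
  · obtain ⟨g, -, hg⟩ := two_trans h.se hL h.ft (fun e => by
      obtain ⟨x, -, y, -, ix, iy, hxy, e'⟩ := h.r2
      obtain ⟨d, hd⟩ := h.se.fix ix
      rw [h.se.card_IA (h.lam a) (h.lam d), Nat.card_eq_one_iff_unique] at e
      exact hxy (congrArg Subtype.val (e.1.elim ⟨x, trivial, ix, hd⟩ ⟨y, trivial, iy, h.se.fix_of_comm ix hd e'.symm⟩)))
      (h.lam a) (h.lam b) hb (h.lam c) hc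
    exact ⟨g, hg⟩
  · obtain ⟨k, hk, f⟩ := conj_into_V h.se hL h.ft (mem_top t) hi hta hs hV (zpowers_le.2 hd)
      ⟨h.lam c, fun y hy => (zpowers_le.2 e : _ ≤ stabilizer G c) hy⟩ h1 h2
    exact ⟨k, hk, f d (mem_zpowers d)⟩

end

section
variable {G Ω : Type*} [Group G] [MulAction G Ω] {Y : Subgroup G} {a b c : Ω} {s t u k y : G}

variable [Finite G]

variable [Finite Ω] (h : Mn G Ω) (hL : L1 G Ω)
include h hL

theorem Mn.cent_inv (hab : b ≠ a) (hf : ∀ y ∈ Y, y • a = a ∧ y • b = b) (hc : ∀ y ∈ Y, y • c = c) (h1 : c ≠ a)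
    (h2 : c ≠ b) {d : Ω} (hd : ∀ y ∈ Y, y • d = d) : d ∈ Lam Ω (centralizer (Y : Set G)) := by
  obtain ⟨u, -, i, e, f⟩ := h.ft Y ⊤ le_top (three_of (Δ := Fx Ω ⊤ Y) ⟨h.lam c, hc⟩
    ⟨h.lam a, fun y hy => (hf y hy).1⟩ ⟨h.lam b, fun y hy => (hf y hy).2⟩ h1 h2 hab.symm) d ⟨h.lam d, hd⟩
  exact ⟨u, f, i, e⟩

omit hL [Finite Ω] in
theorem Mn.third (hab : b ≠ a) (hf : ∀ y ∈ Y, y • a = a ∧ y • b = b) (hu : u ∈ IA (centralizer (Y : Set G)) a) :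
    (∀ y ∈ Y, y • u • b = u • b) ∧ u • b ≠ a ∧ u • b ≠ b :=
  ⟨fun y hy => by rw [← mul_smul, hu.1 y hy, mul_smul, (hf y hy).2],
    fun e => hab (smul_left_cancel u (e.trans hu.2.2.symm)), fun e => hab (h.se.uniq hu.2.1 e hu.2.2)⟩

theorem Mn.lam_cent (hab : b ≠ a) (hf : ∀ y ∈ Y, y • a = a ∧ y • b = b) (hu : u ∈ IA (centralizer (Y : Set G)) a)
    (d : Ω) : d ∈ Lam Ω (centralizer (Y : Set G)) ↔ ∀ y ∈ Y, y • d = d :=
  ⟨fun ⟨_, h1, h2, h3⟩ y hy => h.se.fix_of_comm h2 h3 (h1 y hy),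
    h.cent_inv hL hab hf (h.third hab hf hu).1 (h.third hab hf hu).2.1 (h.third hab hf hu).2.2⟩

theorem Mn.F1 (hY : Y ≠ ⊥) (hab : b ≠ a) (hf : ∀ y ∈ Y, y • a = a ∧ y • b = b) (h2 : T2 a Y) :
    ∃ S : Subgroup G, IsPGroup 2 S ∧ S ≤ centralizer (Y : Set G) ⊓ stabilizer G a ∧
      (∀ x ∈ centralizer (Y : Set G), x • a = a → (∃ n : ℕ, x ^ 2 ^ n = 1) → x ∈ S) ∧
      (∀ c d : Ω, (∀ y ∈ Y, y • c = c) → (∀ y ∈ Y, y • d = d) → c ≠ a → d ≠ a → ∃ q ∈ S, q • c = d) ∧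
      (∀ u ∈ IA (centralizer (Y : Set G)) a, ∀ x ∈ S, u * x = x * u) ∧
      ∀ t ∈ centralizer (Y : Set G), Inv t → t • a ≠ a →
        ∃ k₀ : G, (zpowers k₀ : Set G) = KK (centralizer (Y : Set G)) a t := by
  obtain ⟨u, hu, v, hv, huv⟩ := h2
  have lam := h.lam_cent hL hab hf hu
  set H := centralizer (Y : Set G)
  have ha : a ∈ Lam Ω H := ⟨u, hu⟩
  have hb : b ∈ Lam Ω H := (lam b).2 fun y hy => (hf y hy).2
  have hnt : (Lam Ω H).Nontrivial := ⟨a, ha, b, hb, hab.symm⟩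
  have r2 : R2 H := r2_of h.se hL h.ft (fun e => huv (congrArg Subtype.val
    ((Nat.card_eq_one_iff_unique.1 e).1.elim (⟨u, hu⟩ : IA H a) ⟨v, hv⟩))) ha hnt
  have hT : H ≠ ⊤ := fun e => by
    rcases h.simple Y ⟨fun y hy g => by rwa [← (e.ge (mem_top g) : g ∈ H) y hy, mul_inv_cancel_right]⟩ with h' | h'
    · exact hY h'
    · obtain ⟨g, -, -, hg⟩ := h.se.swap (h.lam a) (h.lam b) hab.symm
      exact hab (hg.symm.trans (hf g (h' ▸ mem_top g)).1)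
  obtain ⟨S, hS, hn, htr, -⟩ := (h.ih H hT r2 hnt).syl h.se r2 hnt (fun u hu i n hn e => by
    obtain ⟨c, hc⟩ := h.se.fix i
    obtain ⟨d, hd, hdc⟩ := hnt.exists_ne c
    refine (hL.cent h.se (Y := H ⊓ fixingSubgroup G (Lam Ω H)) i hc hdc (fun y hy => ⟨(mem_fixingSubgroup_iff G).1 hy.2 c
      ⟨u, hu, i, hc⟩, (mem_fixingSubgroup_iff G).1 hy.2 d hd⟩) (fun y hy => ⟨mul_mem (mul_mem hu hy.1) (H.inv_mem hu),
        (mem_fixingSubgroup_iff G).2 fun x hx => ?_⟩) n ⟨hn, (mem_fixingSubgroup_iff G).2 e⟩).symm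
    rw [mul_smul, mul_smul, (mem_fixingSubgroup_iff G).1 hy.2 _ (Lam_smul (H.inv_mem hu) hx), smul_inv_smul]) ha
  obtain ⟨t, ht, hi, hta⟩ := h.se.exists_t hnt ha
  exact ⟨S, hS.pg, hS.le, fun x hx e ⟨n, hn'⟩ => hS.le_of_normal' (pelt_pgroup hn') (fun g hg => hn g hg.1 hg.2)
      (zpowers_le.2 ⟨hx, e⟩) (mem_zpowers x), fun c d hc hd => htr c ((lam c).2 hc) d ((lam d).2 hd),
    fun u hu => ((h.se.reg hS.pg hS.le hn htr ha ht hi hta).1 u hu).2,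
    fun t ht hi hta => (h.se.reg hS.pg hS.le hn htr ha ht hi hta).2⟩

theorem Mn.gal (hi : Inv t) (hta : t • a ≠ a) (hs : s ∈ IA ⊤ a)
    (hV : ∀ d ∈ St ⊤ a (t • a), d * t = t * d → d * s = s * d) (hY : Y ≤ St ⊤ a (t • a) ⊓ centralizer {t}) (h1 : Y ≠ ⊥)
    (hk : ∃ k ∈ KK ⊤ a t, k ≠ 1 ∧ ∀ y ∈ Y, y * k = k * y) :
    ∃ (k₀ : G) (m : ℕ), (∀ k, (k ∈ KK ⊤ a t ∧ ∀ y ∈ Y, y * k = k * y) ↔ k ∈ zpowers k₀) ∧ orderOf k₀ = 2 ^ m - 1 ∧
      ∀ v ∈ St ⊤ a (t • a), v * t = t * v → (∀ y ∈ Y, v * y * v⁻¹ ∈ Y) → ∃ i : ℕ, v * k₀ * v⁻¹ = k₀ ^ 2 ^ i := by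
  obtain ⟨k, hk, k1, hc⟩ := hk
  have hYt : ∀ y ∈ Y, y * t = t * y := fun y hy => mem_centralizer_singleton_iff.1 (hY hy).2
  have hs' : s ∈ IA (centralizer (Y : Set G)) a := ⟨fun y hy => hV y (hY hy).1 (hYt y hy), hs.2⟩
  obtain ⟨S, hS, hle, h2, -, hz, hK⟩ := h.F1 hL h1 hta (fun y hy => (mem_St.1 (hY hy).1).2)
    (t2_of_K h.se hi hta hs' hk k1 hc)
  set H := centralizer (Y : Set G)
  obtain ⟨k₀, hk₀⟩ := hK t hYt hi hta
  have m1 : ∀ k, (k ∈ KK ⊤ a t ∧ ∀ y ∈ Y, y * k = k * y) ↔ k ∈ zpowers k₀ := fun k => by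
    rw [← SetLike.mem_coe, hk₀, mem_KK, mem_KK]
    exact ⟨fun h => ⟨h.2, h.1.2⟩, fun h => ⟨⟨trivial, h.2⟩, h.1⟩⟩
  have c1 : ∀ x ∈ H, x • a = a → x * x = 1 → x ∈ S ∧ ∀ y ∈ S, x * y = y * x := fun x h1 h2' h3 =>
    ⟨h2 x h1 h2' ⟨1, by simp [sq, h3]⟩, fun y hy => by
      by_cases e : x = 1
      · simp [e]
      · exact hz x ⟨h1, ⟨e, h3⟩, h2'⟩ y hy⟩
  let E : Subgroup G :=
    { carrier := {x | x ∈ H ∧ x • a = a ∧ x * x = 1}
      one_mem' := ⟨one_mem _, one_smul _ _, mul_one _⟩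
      mul_mem' := fun {x y} hx hy => ⟨mul_mem hx.1 hy.1, by rw [mul_smul, hy.2.1, hx.2.1], by
        rw [mul_assoc, ← mul_assoc y, ← (c1 x hx.1 hx.2.1 hx.2.2).2 y (c1 y hy.1 hy.2.1 hy.2.2).1, mul_assoc x y y,
          hy.2.2, mul_one, hx.2.2]⟩
      inv_mem' := fun {x} hx => by rwa [inv_eq_of_sq hx.2.2] }
  have hn : ∀ v, v • a = a → (∀ y ∈ Y, v * y * v⁻¹ ∈ Y) → ∀ u ∈ E, v * u * v⁻¹ ∈ E := fun v hv hvY u hu =>
    ⟨fun y hy => by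
      have := hu.1 _ (conj_inv_mem hvY y hy)
      calc _ = v * (v⁻¹ * y * v * u) * v⁻¹ := by group
        _ = _ := by rw [this]; group, by simpa [hv] using conj_fix hu.2.1 v, H5.RankOne.conj_sq hu.2.2 v⟩
  have m0 := (m1 k₀).2 (mem_zpowers k₀)
  obtain ⟨m, hm⟩ := IsPGroup.iff_card.1 (hS.to_le (H := E) fun x hx => (c1 x hx.1 hx.2.1 hx.2.2).1)
  refine ⟨k₀, m, m1, ?_, fun v hv hvt hvY => gal_lemma (E := E) (s := s) (fun x hx => hx.2.2)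
    ⟨hs'.1, hs.2.2, hs.2.1.2⟩ hs.2.1.1 (hn _ (mem_KK.1 m0.1).2.1 fun y hy => by rwa [← m0.2 y hy, mul_inv_cancel_right])
    (fun u hu u1 => ?_) (fun k hk => h.se.K_comm hi hta ((m1 k).2 hk).1 hs.2.1 hs.2.2) (hV v hv hvt)
    (hn v (mem_St.1 hv).2.1 hvY) ((m1 _).1 ⟨inverted_conj hv hvt m0.1, fun y hy => ?_⟩)⟩
  · rw [← Nat.card_zpowers, ← SetLike.coe_sort_coe, hk₀, h.se.card_K (Y := H) hYt hi hta ⟨s, hs'⟩, ← hm,
      ← SetLike.coe_sort_coe, Nat.card_coe_set_eq, Nat.card_coe_set_eq,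
      ← Set.ncard_sdiff_singleton_of_mem (show (1 : G) ∈ (E : Set G) from E.one_mem)]
    congr 1
    exact Set.ext fun x => ⟨fun h => ⟨⟨h.1, h.2.2, h.2.1.2⟩, h.2.1.1⟩, fun h => ⟨h.1.1, ⟨h.2, h.1.2.2⟩, h.1.2.1⟩⟩
  · obtain ⟨k, hk, e⟩ := h.se.K_trans (Y := H) hYt hi hta hs' ⟨hu.1, ⟨u1, hu.2.2⟩, hu.2.1⟩
    exact ⟨k, by rwa [← SetLike.mem_coe, hk₀], e⟩
  · have := m0.2 _ (conj_inv_mem hvY y hy)
    calc _ = v * (v⁻¹ * y * v * k₀) * v⁻¹ := by group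
      _ = _ := by rw [this]; group

end

end Cfsg.Agent.H1.Bx
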