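import Cfsg.Agent.H1.Bx1
import Cfsg.Agent.Sg.Dade

/-! Bender reduction when the involutions fixing a point commute, part 2. -/

set_option autoImplicit false
set_option linter.unusedSectionVars false

namespace Cfsg.Agent.H1.Bx
open Subgroup MulAction H5.Odd Cfsg.Agent.Bd

section
variable {G Ω : Type*} [Group G] [MulAction G Ω] {N Y R : Subgroup G} {a b c : Ω} {s t u k y g : G} {p : ℕ}

variable {A : Type*} [CommGroup A] {f : G → A}

variable [Finite G]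

variable [Finite Ω] (h : Mn G Ω) (hL : L1 G Ω) (hT : TH N a b p)
include h hL hT

theorem Mn.ctl {E Z : Subgroup G} (hY : Y ≤ St N a b) (hE : E ≤ Y) (hn : ∀ g ∈ Y, ∀ e ∈ E, g * e * g⁻¹ ∈ E)
    (hZ : Z ≤ E) (hc : E ≤ centralizer (Z : Set G)) (h1 : Z ≠ ⊥) (h2 : T2 a Z) : Ctl N a b Y := by
  have hZ' := hZ.trans (hE.trans hY)
  obtain ⟨S, hS, hle, hm, htr, -⟩ := h.F1 hL h1 hT.ne (fun y hy => (mem_St.1 (hZ' hy)).2) h2
  refine ⟨S ⊓ centralizer (Y : Set G), hS.to_inf_left, fun x hx => ⟨hT.S Z hZ' h1 h2 x (hle hx.1).1 (hle hx.1).2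
    (pelt_of_mem hS hx.1), hx.2⟩, fun c hc' hca => ?_⟩
  obtain ⟨x, hx, rfl⟩ := htr b c (fun y hy => (mem_St.1 (hZ' hy)).2.2) (fun y hy => hc' y (hE (hZ hy))) hT.ne hca
  have key : ∀ y ∈ Y, y * x * y⁻¹ ∈ centralizer (Z : Set G) → y * x = x * y := fun y hy e => by
    have m := mem_St.1 (hY hy)
    obtain ⟨n, hn⟩ := pelt_of_mem hS hx
    have h3 := hm _ e (by simpa [m.2.1] using conj_fix (hle hx).2 y) ⟨n, by rw [conj_pow, hn]; simp⟩
    have := h.se.two_elt hS (mul_mem (S.inv_mem hx) h3) hT.ne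
      (by rw [mul_smul, mul_smul, mul_smul, inv_smul_eq_iff.2 m.2.2.symm, hc' y hy, inv_smul_smul])
      (hle (mul_mem (S.inv_mem hx) h3)).2
    exact mul_inv_eq_iff_eq_mul.1 (inv_mul_eq_one.1 this).symm
  have k1 : ∀ e ∈ E, e * x = x * e := fun e he => key e (hE he)
    (mul_mem (mul_mem (hc he) (hle hx).1) (Subgroup.inv_mem _ (hc he)))
  refine ⟨x, ⟨hx, fun y hy => key y hy fun z hz => ?_⟩, rfl⟩
  have := k1 _ (conj_inv_mem (hn y hy) z (hZ hz))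
  calc _ = y * (y⁻¹ * z * y * x) * y⁻¹ := by group
    _ = _ := by rw [this]; group

theorem Mn.pure [Fact p.Prime] (hY : Y ≤ St N a b) (hp : IsPGroup p Y) (hc : ¬ Ctl N a b Y) :
    IsCyclic Y ∧ (∃ u, u ∈ IA (centralizer (Y : Set G)) a) ∧ ∀ Z ≤ Y, Z ≠ ⊥ → ¬ T2 a Z := by
  obtain ⟨c, c1, c2, c3⟩ : ∃ c : Ω, (∀ y ∈ Y, y • c = c) ∧ c ≠ a ∧ c ≠ b := by
    by_contra hn
    push Not at hn
    exact hc ⟨⊥, .of_bot, bot_le, fun c h1 h2 => ⟨1, one_mem _, by rw [one_smul, hn c h1 h2]⟩⟩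
  obtain ⟨u, hu⟩ := h.cent_inv hL hT.ne (fun y hy => (mem_St.1 (hY hy)).2) c1 c2 c3 fun y hy => (mem_St.1 (hY hy)).2.1
  have cyc : IsCyclic Y := by
    by_contra hn
    obtain ⟨z, E, h1, h2, h3, -, h5, h6, h7, r, h8, h9⟩ := exists_E hT.odd hp hn
    obtain ⟨e, he, e1, e2⟩ := hT.E2 E (h2.trans hY) h5 z h1 r h8 (h6 z h1 r h8) h3 h9 u ⟨centralizer_le h2 hu.1, hu.2⟩
    exact hc (h.ctl hL hT hY h2 (fun g hg x hx => by simpa using mul_mem (zpowers_le.2 h1 (h7 g hg x hx)) hx)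
      (zpowers_le.2 he) (fun x hx y hy => h6 y (zpowers_le.2 he hy) x hx) (zpowers_ne_bot.2 e1) e2)
  obtain ⟨x, rfl⟩ := exists_gen cyc
  exact ⟨cyc, ⟨u, hu⟩, fun Z h1 h2 h3 => hc (h.ctl hL hT hY le_rfl (fun g hg x hx => mul_mem (mul_mem hg hx)
    (Subgroup.inv_mem _ hg)) h1 (fun x hx y hy => zpowers_comm (h1 hy) hx) h2 h3)⟩

/-- the structure of `C_R(e)` in the exceptional case -/
theorem Mn.cent_e (hp : p.Prime) (hR : R ≤ St ⊤ a b) (hu : u ∈ IA (centralizer (R : Set G)) a) {z e : G} (hz : z ∈ R)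
    (he : e ∈ R) (hy : y ∈ R) (zp : z ^ p = 1) (ep : e ^ p = 1) (e1 : e ≠ 1) (zc : ∀ g ∈ R, g * z = z * g)
    (hye : y * e * y⁻¹ * e⁻¹ ∈ zpowers z) (hne : y * e * y⁻¹ * e⁻¹ ≠ 1) (z1 : ¬ T2 a (zpowers z))
    (e2 : T2 a (zpowers e)) {v : G} (hv : v ∈ R) (hve : v * e = e * v) : ∃ j l : ℕ, v = z ^ j * e ^ l := by
  have lam := h.lam_cent hL hT.ne (fun y hy => (mem_St.1 (hR hy)).2) hu
  obtain ⟨t, ht, hi, rfl⟩ := h.se.swap ⟨u, hu⟩ ((lam b).2 fun y hy => (mem_St.1 (hR hy)).2.2) hT.ne.symm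
  obtain ⟨s, hs, hV⟩ := exists_s h.se hL h.ft (mem_top t) hi hT.ne (h.lam a)
  have hs' : ∀ x ∈ R, s ∈ IA (centralizer (zpowers x : Set G)) a := fun x hx =>
    ⟨fun w hw => (hV w (hR (zpowers_le.2 hx hw))).1 (ht w (zpowers_le.2 hx hw)), hs.2⟩
  have cz : ∀ {x k : G}, x * k = k * x → ∀ w ∈ zpowers x, w * k = k * w := fun {x k} e w hw =>
    mem_centralizer_singleton_iff.1 ((zpowers_le.2 (mem_centralizer_singleton_iff.2 e) : _ ≤ centralizer {k}) hw)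
  have gal : ∀ x ∈ R, x ≠ 1 → (∃ k ∈ KK ⊤ a t, k ≠ 1 ∧ x * k = k * x) → ∃ (k₀ : G) (m : ℕ),
      (∀ k, (k ∈ KK ⊤ a t ∧ x * k = k * x) ↔ k ∈ zpowers k₀) ∧ orderOf k₀ = 2 ^ m - 1 ∧
      ∀ v ∈ R, v * x = x * v → ∃ i : ℕ, v * k₀ * v⁻¹ = k₀ ^ 2 ^ i := fun x hx x1 ⟨k, hk, k1, e⟩ => by
    obtain ⟨k₀, m, h1, h2, h3⟩ := h.gal hL hi hT.ne hs (fun d hd => (hV d hd).1) (Y := zpowers x)
      (zpowers_le.2 ⟨hR hx, mem_centralizer_singleton_iff.2 (ht x hx)⟩) (zpowers_ne_bot.2 x1) ⟨k, hk, k1, cz e⟩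
    exact ⟨k₀, m, fun k => ⟨fun h => (h1 k).1 ⟨h.1, cz h.2⟩, fun h => ⟨((h1 k).2 h).1, ((h1 k).2 h).2 x (mem_zpowers x)⟩⟩,
      h2, fun v hv e => h3 v (hR hv) (ht v hv) fun w hw => by rwa [← cz e.symm w hw, mul_inv_cancel_right]⟩
  have zf : ∀ k ∈ KK ⊤ a t, z * k = k * z → k = 1 := fun k hk e => by
    by_contra k1
    exact z1 (t2_of_K h.se hi hT.ne (hs' z hz) hk k1 (cz e))
  have zf' : ∀ k ∈ KK ⊤ a t, e * k = k * e → y * e * y⁻¹ * k = k * (y * e * y⁻¹) → k = 1 := fun k hk h1 h2 =>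
    zf k hk (cz ((show Commute _ k from h2).mul_left (show Commute e k from h1).inv_left) z
      (mem_zpowers_of_prime hp zp hye hne))
  obtain ⟨k, hk, k1, hke⟩ := e2.exists_K h.se hi hT.ne fun w hw => ht w (zpowers_le.2 he hw)
  obtain ⟨k₁, m, a1, a2, a3⟩ := gal e he e1 ⟨k, hk, k1, hke e (mem_zpowers e)⟩
  have n1 : k₁ ≠ 1 := fun e' => k1 (by simpa [e'] using (a1 k).1 ⟨hk, hke e (mem_zpowers e)⟩)
  have m1 := (a1 k₁).2 (mem_zpowers k₁)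
  have he2 : y * e * y⁻¹ ∈ R := mul_mem (mul_mem hy he) (R.inv_mem hy)
  have m2 : y * k₁ * y⁻¹ ∈ KK ⊤ a t ∧ y * e * y⁻¹ * (y * k₁ * y⁻¹) = y * k₁ * y⁻¹ * (y * e * y⁻¹) :=
    ⟨inverted_conj (hR hy) (ht y hy) m1.1, by
      calc _ = y * (e * k₁) * y⁻¹ := by group
        _ = _ := by rw [m1.2]; group⟩
  obtain ⟨k₂, m', b1, b2, b3⟩ := gal _ he2 (by simpa using e1) ⟨_, m2.1, by simpa using n1, m2.2⟩
  have n2 : k₂ ≠ 1 := fun e' => n1 (by simpa [e'] using (b1 _).1 m2)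
  have ce : ∀ v ∈ R, v * e = e * v → v * (y * e * y⁻¹) = y * e * y⁻¹ * v := fun v hv hve => by
    rw [← inv_mul_cancel_right (y * e * y⁻¹) e]
    exact (show Commute v _ from (cz (zc v hv).symm _ hye).symm).mul_right hve
  obtain ⟨i, hi1⟩ := a3 z hz (zc e he).symm
  obtain ⟨i', hi2⟩ := b3 e he (ce e he rfl)
  obtain ⟨rfl, c1⟩ := c1 hp a2 n1 zp hi1 fun k hk => zf k ((a1 k).2 hk).1
  obtain ⟨rfl, c2⟩ := Bd.c1 hp b2 n2 ep hi2 fun k hk e' => zf' k ((b1 k).2 hk).1 e' ((b1 k).2 hk).2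
  obtain ⟨l, hl⟩ := a3 v hv hve
  obtain ⟨j, hj⟩ := c1 v l hl
  have hv' : (z ^ j)⁻¹ * v ∈ R := mul_mem (R.inv_mem (pow_mem hz j)) hv
  have hve' : Commute ((z ^ j)⁻¹ * v) e := ((show Commute e z from zc e he).symm.pow_left j).inv_left.mul_left hve
  obtain ⟨l, hl⟩ := b3 _ hv' (ce _ hv' hve')
  obtain ⟨j', hj'⟩ := c2 _ l hl
  refine ⟨j, j', ?_⟩
  by_contra hn
  have w1 : Commute ((e ^ j')⁻¹ * ((z ^ j)⁻¹ * v)) k₁ :=
    ((show Commute e k₁ from m1.2).pow_left j').inv_left.mul_left (show _ = _ by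
      rw [mul_assoc, eq_mul_of_mul_inv_eq hj]; group)
  have w2 : Commute ((e ^ j')⁻¹ * ((z ^ j)⁻¹ * v)) k₂ := show _ = _ by
    rw [mul_assoc, eq_mul_of_mul_inv_eq hj']; group
  obtain ⟨k₀, -, d1, -⟩ := gal _ (mul_mem (R.inv_mem (pow_mem he j')) hv')
    (fun e => hn (by rw [← inv_mul_eq_iff_eq_mul, ← inv_mul_eq_one.1 e])) ⟨k₁, m1.1, n1, w1⟩
  have m3 := (b1 k₂).2 (mem_zpowers k₂)
  exact n2 (zf' _ m3.1 ((a1 _).2 (mem_zpowers_of_cyc ((d1 _).1 ⟨m1.1, w1⟩) ((d1 _).1 ⟨m3.1, w2⟩)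
    (by rw [a2, ← b2, pow_orderOf_eq_one]))).2 m3.2)

theorem Mn.fus_pure [hp : Fact p.Prime] (hf : HomOn f (St N a b)) (hR : SylIn p R (St N a b)) (hC : Ctl N a b R)
    (hy : y ∈ R) (y1 : y ≠ 1) (hg : g ∈ N) (hy' : g * y * g⁻¹ ∈ R) (hc : ¬ Ctl N a b (R ⊓ centralizer {y})) :
    f (g * y * g⁻¹) = f y := by
  have hR' := hC.syl hT hR
  have hRa : ∀ x ∈ R, x • a = a := fun x hx => (mem_St.1 (hR.le hx)).2.1
  obtain ⟨cyc, ⟨u, hu⟩, ty⟩ := h.pure hL hT (inf_le_left.trans hR.le) hR.pg.to_inf_left hc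
  have ty' : ∀ x ∈ R, x * y = y * x → x ≠ 1 → ¬ T2 a (zpowers x) := fun x hx e x1 =>
    ty _ (zpowers_le.2 ⟨hx, mem_centralizer_singleton_iff.2 e⟩) (zpowers_ne_bot.2 x1)
  obtain ⟨-, u', hu'⟩ := exists_cent_inv hR.pg hRa (hR.pg.to_le (zpowers_le.2 hy))
    (fun x hx => hRa x (zpowers_le.2 hy hx)) (u := u) ⟨centralizer_le (zpowers_le.2
      (show y ∈ R ⊓ centralizer {y} from ⟨hy, mem_centralizer_singleton_iff.2 rfl⟩)) hu.1, hu.2⟩ (ty' y hy rfl y1)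
  have nc : ¬ ∀ x ∈ R, x * y = y * x := fun hn =>
    hc (by rwa [inf_eq_left.2 fun x hx => mem_centralizer_singleton_iff.2 (hn x hx)])
  obtain ⟨z, E, h1, h2, z1, zc, h5, h6, h7, r, h8, h9⟩ := exists_E hT.odd hR.pg fun hn => by
    obtain ⟨x, rfl⟩ := exists_gen hn
    exact nc fun x hx => zpowers_comm hx hy
  obtain ⟨e, he, e1, e2⟩ := hT.E2 E (h2.trans hR.le) h5 z h1 r h8 (h6 z h1 r h8) z1 h9 u'
    ⟨centralizer_le h2 hu'.1, hu'.2⟩
  have hz := h2 h1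
  have zp := h5 z h1
  have ep := h5 e he
  have hn := fun g hg => h7 g hg e he
  replace he := h2 he
  have hne : y * e * y⁻¹ * e⁻¹ ≠ 1 := fun e' => ty' e he (by
    rw [mul_inv_eq_one, mul_inv_eq_iff_eq_mul] at e'; exact e'.symm) e1 e2
  have ce := fun v => h.cent_e hL hT hp.out (fun x hx => mem_St.2 ⟨trivial, (mem_St.1 (hR.le hx)).2⟩) hu' hz he hy zp ep
    e1 zc (hn y hy) hne (ty' z hz (zc y hy).symm z1) e2 (v := v)
  have zc' : ∀ g ∈ R, ∀ w ∈ zpowers z, g * w = w * g := fun g hg w hw =>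
    (mem_centralizer_singleton_iff.1 ((zpowers_le.2 (mem_centralizer_singleton_iff.2 (zc g hg).symm) :
      _ ≤ centralizer {g}) hw)).symm
  have hz' := mem_zpowers_of_prime hp.out zp (hn y hy) hne
  set ζ := y * e * y⁻¹ * e⁻¹ with hζ
  have it : ∀ n : ℕ, y ^ n * e * (y ^ n)⁻¹ = ζ ^ n * e := fun n => by
    induction n with
    | zero => simp
    | succ n ih =>
      calc _ = y * (y ^ n * e * (y ^ n)⁻¹) * y⁻¹ := by group
        _ = _ := by rw [ih, ← mul_assoc, zc' y hy _ (pow_mem (hn y hy) n), pow_succ, hζ]; group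
  have dec : ∀ g ∈ R, ∃ n j l : ℕ, g = y ^ n * (z ^ j * e ^ l) := fun g hg => by
    obtain ⟨n, hn'⟩ := H2.PGroup.exists_nat_pow (zpowers_le.2 hz' (hn g hg))
    obtain ⟨j, l, e'⟩ := ce ((y ^ n)⁻¹ * g) (mul_mem (R.inv_mem (pow_mem hy n)) hg) (by
      rw [mul_inv_eq_iff_eq_mul, ← it, mul_inv_eq_iff_eq_mul] at hn'
      rw [mul_assoc, hn']; group)
    exact ⟨n, j, l, by rw [← e', mul_inv_cancel_left]⟩
  have yp : y ^ p ∈ zpowers z := by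
    obtain ⟨j, l, e'⟩ := ce (y ^ p) (pow_mem hy p) (by
      rw [← mul_inv_eq_iff_eq_mul, it, orderOf_dvd_iff_pow_eq_one.1 ((orderOf_dvd_of_mem_zpowers (hn y hy)).trans
        (orderOf_dvd_of_pow_eq_one zp)), one_mul])
    by_cases h' : e ^ l = 1
    · rw [e', h', mul_one]; exact pow_mem (mem_zpowers z) j
    · refine absurd (e2.mono (zpowers_le.2 (pow_mem (mem_zpowers e) l))) (ty' _ (pow_mem he l) ?_ h')
      rw [← inv_mul_eq_iff_eq_mul] at e'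
      rw [← e']
      exact ((show Commute y z from zc y hy).symm.pow_left j).inv_left.mul_left ((Commute.refl y).pow_left p)
  have : ((zpowers z).subgroupOf R).Normal := ⟨fun x hx g => by
    rw [mem_subgroupOf, coe_mul, coe_mul, zc' g g.2 x hx, coe_inv, mul_inv_cancel_right]; exact hx⟩
  let π := QuotientGroup.mk' ((zpowers z).subgroupOf R)
  have hπ : ∀ x : R, π x = 1 ↔ (x : G) ∈ zpowers z := fun x => QuotientGroup.eq_one_iff x
  have dec' : ∀ x : R, ∃ n l : ℕ, π x = π ⟨y, hy⟩ ^ n * π ⟨e, he⟩ ^ l := fun x => by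
    obtain ⟨n, j, l, e'⟩ := dec x x.2
    exact ⟨n, l, by rw [show x = ⟨y, hy⟩ ^ n * (⟨z, hz⟩ ^ j * ⟨e, he⟩ ^ l) from Subtype.ext e', map_mul, map_mul, map_pow,
      map_pow, map_pow, (hπ ⟨z, hz⟩).2 (mem_zpowers z), one_pow, one_mul]⟩
  have cm : Commute (π ⟨y, hy⟩) (π ⟨e, he⟩) := by
    have := (hπ (⟨y, hy⟩ * ⟨e, he⟩ * ⟨y, hy⟩⁻¹ * ⟨e, he⟩⁻¹)).2 (hn y hy)
    rwa [map_mul, map_mul, map_mul, map_inv, map_inv, mul_inv_eq_one, mul_inv_eq_iff_eq_mul] at this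
  have ab : ∀ x ∈ R, ∀ w ∈ R, x * w * x⁻¹ * w⁻¹ ∈ zpowers z := fun x hx w hw => by
    refine (hπ (⟨x, hx⟩ * ⟨w, hw⟩ * ⟨x, hx⟩⁻¹ * ⟨w, hw⟩⁻¹)).1 ?_
    obtain ⟨n, l, e1⟩ := dec' ⟨x, hx⟩
    obtain ⟨n', l', e2⟩ := dec' ⟨w, hw⟩
    rw [map_mul, map_mul, map_mul, map_inv, map_inv, mul_inv_eq_one, mul_inv_eq_iff_eq_mul, e1, e2]
    exact ((Commute.pow_pow_self _ n n').mul_right (cm.pow_pow n l')).mul_left
      ((cm.pow_pow n' l).symm.mul_right (Commute.pow_pow_self _ l l'))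
  have ex : ∀ x ∈ R, x ^ p ∈ zpowers z := fun x hx => by
    refine (hπ (⟨x, hx⟩ ^ p)).1 ?_
    obtain ⟨n, l, e1⟩ := dec' ⟨x, hx⟩
    rw [map_pow, e1, (cm.pow_pow n l).mul_pow, pow_right_comm, ← map_pow, (hπ _).2 yp, pow_right_comm, ← map_pow π _ p,
      show (⟨e, he⟩ : R) ^ p = 1 from Subtype.ext ep, map_one]
    simp
  have yp1 : y ^ p ≠ 1 := fun e' => by
    obtain ⟨x, hx⟩ := exists_gen cyc
    exact nc fun w hw => zc' w hw y (H2.PGroup.mem_zpowers_of_pow_eq_one (x := x)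
      (hx ▸ ⟨hz, mem_centralizer_singleton_iff.2 (zc y hy).symm⟩) (hx ▸ ⟨hy, mem_centralizer_singleton_iff.2 rfl⟩) z1 zp e')
  have gz : ∀ w ∈ zpowers z, g * w * g⁻¹ ∈ zpowers z := fun w hw => by
    obtain ⟨n, rfl⟩ := zpowers_le.2 (mem_zpowers_of_prime hp.out zp yp yp1) hw
    rw [← conj_zpow, ← conj_pow]
    exact zpow_mem (ex _ hy') n
  have fz : ∀ w ∈ zpowers z, f w = 1 := fun w hw => by
    obtain ⟨n, rfl⟩ := H2.PGroup.exists_nat_pow (zpowers_le.2 hz' hw)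
    have m := hR.le (mul_mem (mul_mem hy he) (R.inv_mem hy))
    rw [hf.pow (mul_mem m (Subgroup.inv_mem _ (hR.le he))), hf _ m _ (Subgroup.inv_mem _ (hR.le he)),
      hf.conj (hR.le he) (hR.le hy), hf.inv (hR.le he), mul_inv_cancel, one_pow]
  let H := N ⊓ normalizer {x | x * (g * y * g⁻¹)⁻¹ ∈ zpowers z}
  have key : ∀ r : G, (∀ w ∈ zpowers z, r * w = w * r) → r * (g * y * g⁻¹) * r⁻¹ * (g * y * g⁻¹)⁻¹ ∈ zpowers z →
      r ∈ normalizer {x | x * (g * y * g⁻¹)⁻¹ ∈ zpowers z} := fun r h1 h2 => mem_normalizer_fintype fun x hx => by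
    have := mul_mem hx h2
    rw [← mul_assoc, ← mul_assoc, ← mul_assoc, ← h1 _ hx] at this
    simpa [mul_assoc] using this
  have H1 : R ≤ H := fun r hr => ⟨hR'.le hr, key r (zc' r hr) (ab r hr _ hy')⟩
  have H2 : cj g R ≤ H := cj_le.2 fun r hr => ⟨mul_mem (mul_mem hg (hR'.le hr)) (N.inv_mem hg), key _ (fun w hw => by
      have := zc' r hr _ (conj_inv_mem gz w hw)
      calc _ = g * (r * (g⁻¹ * w * g)) * g⁻¹ := by group
        _ = _ := by rw [this]; group) (by simpa [mul_assoc] using gz _ (ab r hr y hy))⟩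
  obtain ⟨c, hc, e'⟩ := (hR'.mono H1 inf_le_left).conj_le (cj_pgroup hR.pg) H2
  rw [cj_cj] at e'
  rw [← hC.fus' hT hf hR.le (mul_mem hc.1 hg) (e'.trans hR.le) hy]
  have h3 : c * (g * y * g⁻¹) * c⁻¹ * (g * y * g⁻¹)⁻¹ ∈ zpowers z := (mem_set_normalizer_iff.1 hc.2 _).1 (by simp)
  rw [show c * g * y * (c * g)⁻¹ = c * (g * y * g⁻¹) * c⁻¹ * (g * y * g⁻¹)⁻¹ * (g * y * g⁻¹) by group,
    hf _ (hR.le (zpowers_le.2 hz h3)) _ (hR.le hy'), fz _ h3, one_mul]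

/-- Lemma T -/
theorem Mn.lemT [hp : Fact p.Prime] (hN : N ≤ Gen p N) (hf : HomOn f (St N a b)) (hR : SylIn p R (St N a b))
    (hC : Ctl N a b R) : ∀ y ∈ R, f y = 1 := by
  have hR' := hC.syl hT hR
  refine hR'.focal hN (hf.mono hR.le) fun y hy g hg hy' => ?_
  by_cases y1 : y = 1
  · simp [y1]
  by_cases c1 : Ctl N a b (R ⊓ centralizer {y})
  swap
  · exact h.fus_pure hL hT hf hR hC hy y1 hg hy' c1
  by_cases c2 : Ctl N a b (R ⊓ centralizer {g * y * g⁻¹})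
  swap
  · simpa [mul_assoc] using (h.fus_pure hL hT hf hR hC hy' (by simpa using y1) (N.inv_mem hg)
      (by simpa [mul_assoc] using hy) c2).symm
  obtain ⟨P, hP, h1⟩ := exists_sylIn (X := N ⊓ centralizer {g * y * g⁻¹}) (hR.pg.to_inf_left)
    (inf_le_inf_right _ hR'.le)
  obtain ⟨c, hc, h2⟩ := hP.conj_le (cj_pgroup (g := g) (hR.pg.to_inf_left (K := centralizer {y})))
    (cj_le.2 fun x hx => ⟨mul_mem (mul_mem hg (hR'.le hx.1)) (N.inv_mem hg), mem_centralizer_singleton_iff.2 (by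
      calc _ = g * (x * y) * g⁻¹ := by group
        _ = _ := by rw [mem_centralizer_singleton_iff.1 hx.2]; group)⟩)
  obtain ⟨d, hd, h3⟩ := hR'.conj_le hP.pg (hP.le.trans inf_le_left)
  rw [← c2.fus' hT hf (inf_le_left.trans hR.le) hd ((cj_mono h1).trans (h3.trans hR.le))
    ⟨hy', mem_centralizer_singleton_iff.2 rfl⟩, ← c1.fus' hT hf (inf_le_left.trans hR.le) (mul_mem hd (mul_mem hc.1 hg))
    (by rw [← cj_cj, ← cj_cj]; exact (cj_mono h2).trans (h3.trans hR.le)) ⟨hy, mem_centralizer_singleton_iff.2 rfl⟩]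
  congr 1
  calc _ = d * (c * (g * y * g⁻¹) * c⁻¹) * d⁻¹ := by rw [mem_centralizer_singleton_iff.1 hc.2]; group
    _ = _ := by group

/-- Lemma T: a Sylow subgroup of `N_ab` not inside the derived group is pure -/
theorem Mn.lemT' [Fact p.Prime] (hN : N ≤ Gen p N) (hR : SylIn p R (St N a b)) (hn : ¬ R ≤ ⁅St N a b, St N a b⁆) :
    IsCyclic R ∧ (∃ u, u ∈ IA (centralizer (R : Set G)) a) ∧ ∀ Z ≤ R, Z ≠ ⊥ → ¬ T2 a Z := by
  obtain ⟨f, hf, hf'⟩ := exists_homOn (St N a b)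
  exact h.pure hL hT hR.le hR.pg fun hC => hn fun y hy => hf' y (hR.le hy) (h.lemT hL hT hN hf hR hC y hy)

end

section
variable {G Ω : Type*} [Group G] [MulAction G Ω] {N Y R : Subgroup G} {a b c : Ω} {s t u k y g : G} {p : ℕ}

variable [Finite G]

variable [Finite Ω] (h : Mn G Ω) (hL : L1 G Ω)
include h hL

omit hL [Finite Ω] in
theorem Mn.two_inv (a : Ω) : ∃ u ∈ IA (⊤ : Subgroup G) a, ∃ v ∈ IA (⊤ : Subgroup G) a, u ≠ v ∧ u * v = v * u := by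
  obtain ⟨x, -, y, -, ix, iy, hxy, e⟩ := h.r2
  obtain ⟨d, hd⟩ := h.se.fix ix
  obtain ⟨g, -, rfl⟩ := h.se.trans (h.lam d) (h.lam a)
  exact ⟨_, IA_conj (mem_top g) ⟨trivial, ix, hd⟩, _, IA_conj (mem_top g) ⟨trivial, iy, h.se.fix_of_comm ix hd e.symm⟩,
    by simpa using hxy, by simp [e]⟩

theorem Mn.exists_pure {N₀ : Subgroup G} {n : ℕ} (hn : Nat.card (St (Gen n N₀) a b) ∣ n) (hab : b ≠ a)
    (hT : ∀ p : ℕ, p.Prime → p ≠ 2 → TH (Gen n N₀) a b p) (h1 : St (Gen n N₀) a b ≠ ⊥)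
    (hs : Group.IsSolvable (St (Gen n N₀) a b)) :
    ∃ (p : ℕ) (R : Subgroup G), p.Prime ∧ p ≠ 2 ∧ SylIn p R (St (Gen n N₀) a b) ∧
      ¬ R ≤ ⁅St (Gen n N₀) a b, St (Gen n N₀) a b⁆ ∧
      IsCyclic R ∧ (∃ u, u ∈ IA (centralizer (R : Set G)) a) ∧ ∀ Z ≤ R, Z ≠ ⊥ → ¬ T2 a Z := by
  have ho := h.se.odd_St (Y := Gen n N₀) hab.symm
  obtain ⟨p, hp, Y0, P, h0, -, hc, hP, e⟩ := exists_norm_sup hs h1
  obtain ⟨R, hR, hPR⟩ := exists_sylIn hP (e ▸ le_sup_right)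
  have hn' : ¬ R ≤ ⁅St (Gen n N₀) a b, St (Gen n N₀) a b⁆ := fun h' =>
    h0.ne (e ▸ (sup_eq_left.2 (hPR.trans (h'.trans hc))).symm)
  have hd : p ∣ Nat.card (St (Gen n N₀) a b) :=
    (hR.pg.card_eq_or_dvd.resolve_left fun e => hn' (card_eq_one.1 e ▸ bot_le)).trans (card_dvd_of_le hR.le)
  have p2 : p ≠ 2 := by
    rintro rfl
    exact Nat.not_even_iff_odd.2 ho (even_iff_two_dvd.2 hd)
  exact ⟨p, R, hp.out, p2, hR, hn', h.lemT' hL (hT p hp.out p2) (Gen_le_Gen (hd.trans hn)) hR hn'⟩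

variable (hP : PS G a t s)
include hP

theorem Mn.caseW (hW : St (CA G a) a (t • a) ≠ ⊥) : ∃ Q : Subgroup G, (∀ q ∈ Q, q • a = a) ∧
    (∀ g : G, g • a = a → ∀ q ∈ Q, g * q * g⁻¹ ∈ Q) ∧ (∀ g : G, g • a = a → ∃ q ∈ Q, q • t • a = g • t • a) ∧
    ∀ q ∈ Q, q • t • a = t • a → q = 1 := by
  set W := St (CA G a) a (t • a)
  have ho : Odd (Nat.card W) := h.se.odd_St hP.ta.symm
  have t2 : ∀ Y ≤ CA G a, T2 a Y := fun Y hY => by
    obtain ⟨u, hu, v, hv, e, -⟩ := h.two_inv a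
    exact ⟨u, ⟨fun y hy => (hY hy u hu).symm, hu.2⟩, v, ⟨fun y hy => (hY hy v hv).symm, hv.2⟩, e⟩
  have hT : ∀ N ≤ CA G a, (∀ x ∈ CA G a, (∃ n : ℕ, x ^ 2 ^ n = 1) → x ∈ N) → ∀ p, p ≠ 2 → TH N a (t • a) p :=
    fun N hN h2 p p2 => ⟨hP.ta, fun g hg => hP.CA_fix g (hN hg), p2, fun Y hY Y1 hY2 x hx e hx2 => by
      obtain ⟨S, -, -, hm, -, hz, -⟩ := h.F1 hL Y1 hP.ta (fun y hy => (mem_St.1 (hY hy)).2) hY2
      exact h2 x (fun u hu => hz u ⟨fun y hy => (hN (mem_St.1 (hY hy)).1 u hu).symm, hu.2⟩ x (hm x hx e hx2)) hx2,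
      fun E hE _ z hz _ _ _ z1 _ _ _ => ⟨z, hz, z1, t2 _ (zpowers_le.2 (hN (mem_St.1 (hE hz)).1))⟩⟩
  have hT1 := hT _ le_rfl fun _ hx _ => hx
  have syl : ∀ p : ℕ, ∀ _ : Fact p.Prime, p ∣ Nat.card W → ∀ Y, SylIn p Y W → Ctl (CA G a) a (t • a) Y ∧
      SylIn p Y (CA G a) := fun p hp hd Y hY => by
    have p2 : p ≠ 2 := by
      rintro rfl
      exact Nat.not_even_iff_odd.2 ho (even_iff_two_dvd.2 hd)
    have : Ctl (CA G a) a (t • a) Y := by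
      by_contra hn
      exact (h.pure hL (hT1 p p2) hY.le hY.pg hn).2.2 Y le_rfl (fun e => hY.not_dvd (by simpa [e] using hd))
        (t2 Y fun y hy => (mem_St.1 (hY.le hy)).1)
    exact ⟨this, this.syl (hT1 p p2) hY⟩
  set Q := Gen (Nat.card W) (CA G a)
  have hQ : ∀ g : G, g • a = a → ∀ q ∈ Q, g * q * g⁻¹ ∈ Q := fun g hg => Gen_conj (CA_conj hg)
  have e1 : Q ⊔ W = CA G a := eq_of_syl (sup_le Gen_le fun x hx => (mem_St.1 hx).1) fun p hp => by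
    by_cases hd : p ∣ Nat.card W
    · obtain ⟨Y, hY, -⟩ := exists_sylIn (p := p) (X := W) .of_bot bot_le
      exact ⟨Y, (syl p hp hd Y hY).2, hY.le.trans le_sup_right⟩
    · obtain ⟨Y, hY, -⟩ := exists_sylIn (p := p) (X := CA G a) .of_bot bot_le
      refine ⟨Y, hY, fun x hx => mem_sup_left (mem_Gen (hY.le hx) ?_)⟩
      obtain ⟨n, hn⟩ := pelt_of_mem hY.pg hx
      exact (Nat.Coprime.pow_left n ((Nat.Prime.coprime_iff_not_dvd hp.out).2 hd)).coprime_dvd_left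
        (orderOf_dvd_of_pow_eq_one hn)
  refine ⟨Q, fun q hq => hP.CA_fix q (Gen_le hq), hQ, fun g hg => ?_, fun q hq e => ?_⟩
  · obtain ⟨p, hp, hd⟩ := Nat.exists_prime_and_dvd (card_eq_one.not.2 hW)
    have := Fact.mk hp
    obtain ⟨Y, hY, -⟩ := exists_sylIn (p := p) (X := W) .of_bot bot_le
    obtain ⟨⟨T, -, hle, htr⟩, hY'⟩ := syl p this hd Y hY
    obtain ⟨x, hx, hn⟩ := hY'.frattini (CA_conj hg)
    obtain ⟨c, hc, e⟩ := htr ((x * g) • t • a) (Fx_smul (H := ⊤) trivial (mem_norm.1 hn)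
      ⟨hP.lam _, fun y hy => (mem_St.1 (hY.le hy)).2.2⟩).2 fun e => hP.ta (smul_left_cancel (x * g)
        (by rw [e, mul_smul, hg, hP.CA_fix x hx]))
    obtain ⟨q, hq, w, hw, e'⟩ := mem_sup_norm (fun g hg => hQ g (mem_St.1 hg).2.1)
      (e1.ge (mul_mem (Subgroup.inv_mem _ hx) (hle hc).1))
    exact ⟨q, hq, by rw [← (mem_St.1 hw).2.2, ← mul_smul, ← e', mul_smul, e, ← mul_smul, inv_mul_cancel_left,
      (mem_St.1 hw).2.2]⟩
  · have hWC : W ≤ CA G a := fun x hx => (mem_St.1 hx).1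
    have cW : Nat.card (W.subgroupOf (CA G a)) = Nat.card W := Nat.card_congr (subgroupOfEquivOfLe hWC).toEquiv
    obtain ⟨q, hq', rfl⟩ := (show Q ≤ (closure {g : CA G a | (orderOf g).Coprime
        (Nat.card (W.subgroupOf (CA G a)))}).map (CA G a).subtype from (closure_le _).2 fun x hx =>
      ⟨⟨x, hx.1⟩, subset_closure (by rw [Set.mem_setOf_eq, orderOf_mk, cW]; exact hx.2), rfl⟩) hq
    have hqW : q ∈ W.subgroupOf (CA G a) := mem_subgroupOf.2 (mem_St.2 ⟨q.2, hP.CA_fix q q.2, e⟩)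
    suffices q = 1 by rw [this, map_one]
    refine Sg.dade (W.subgroupOf (CA G a)) (fun Y hY Y1 => ?_) q hqW hq'
    have hY' : ∀ y ∈ Y.map (CA G a).subtype, y ∈ W := by
      rintro _ ⟨y, hy, rfl⟩
      exact hY hy
    obtain ⟨S, s1, s2, s3, s4, s5, -⟩ := h.F1 hL (Y := Y.map (CA G a).subtype)
      (fun e => Y1 ((map_eq_bot_iff_of_injective _ (CA G a).subtype_injective).1 e)) hP.ta
      (fun y hy => (mem_St.1 (hY' y hy)).2) (t2 _ (map_subtype_le _))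
    have sC : S ≤ CA G a := fun x hx u hu => s5 u ⟨fun y hy => (map_subtype_le _ hy u hu).symm, hu.2⟩ x hx
    refine ⟨S.subgroupOf _, ?_, fun x hx y hy => Subtype.ext ((s2 hx).1 y ⟨y, hy, rfl⟩), fun g hg x hx => ?_,
      fun g hg => ?_⟩
    · obtain ⟨n, hn⟩ := IsPGroup.iff_card.1 s1
      rw [cW, Nat.card_congr (subgroupOfEquivOfLe sC).toEquiv, hn]
      exact Nat.Coprime.pow_left n (Nat.coprime_two_left.2 ho)
    · obtain ⟨n, hn⟩ := pelt_of_mem s1 hx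
      refine s3 _ ?_ (hP.CA_fix _ (g * x * g⁻¹).2) ⟨n, by
        rw [map_mul, map_mul, map_inv, conj_pow, hn]; simp⟩
      rintro _ ⟨y, hy, rfl⟩
      have : (g : G)⁻¹ * y * g * x = x * ((g : G)⁻¹ * y * g) := (s2 hx).1 _ ⟨_, conj_inv_mem hg y hy, rfl⟩
      show (y : G) * (g * x * (g : G)⁻¹) = g * x * (g : G)⁻¹ * y
      calc _ = g * ((g : G)⁻¹ * y * g * x) * (g : G)⁻¹ := by group
        _ = _ := by rw [this]; group
    · obtain ⟨x, hx, e⟩ := s4 (t • a) ((g : G) • t • a) (fun y hy => (mem_St.1 (hY' y hy)).2.2) (by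
        rintro _ ⟨y, hy, rfl⟩
        have : ((g : G)⁻¹ * y * g) • t • a = t • a := (mem_St.1 (hg y hy)).2.2
        rwa [mul_smul, mul_smul, inv_smul_eq_iff] at this) hP.ta
        fun e => hP.ta (smul_left_cancel (g : G) (e.trans (hP.CA_fix g g.2).symm))
      have m := mul_mem ((CA G a).inv_mem (sC hx)) g.2
      exact ⟨⟨x, sC hx⟩, hx, mem_St.2 ⟨m, hP.CA_fix _ m, by
        show (x⁻¹ * g) • t • a = _
        rw [mul_smul, ← e, inv_smul_smul]⟩⟩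

omit hP in
theorem Mn.K_fix' (hP : PS G a t s) (hk : k ∈ KK ⊤ a t) (k1 : k ≠ 1) (hg : g • a = a) (e : g * k = k * g) :
    g • t • a = t • a :=
  (K_fix h.se hL h.ft (mem_top t) hP.ti hP.ta (hP.lam a) hk k1 (hP.lam _)
    (by rw [← mul_smul, ← e, mul_smul, (mem_KK.1 hk).2.2.1])).resolve_left
    fun e => hP.ta (smul_left_cancel g (e.trans hg.symm))

theorem Mn.SE0 {A B : Subgroup G} {q : ℕ} [Fact q.Prime] (hN : ∀ x ∈ N, x • a = a) (he : Even (Nat.card N))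
    (h1 : ∀ x ∈ N, x • t • a = t • a → x = 1) (hq : ¬ q ∣ Nat.card N) (hB : IsPGroup q B) (hk : k ∈ KK ⊤ a t)
    (k1 : k ≠ 1) (hkB : k ∈ B) (hBN : ∀ g ∈ B, ∀ x ∈ N, g * x * g⁻¹ ∈ N) (hAN : ∀ g ∈ A, ∀ x ∈ N, g * x * g⁻¹ ∈ N)
    (hAB : ∀ g ∈ A, ∀ x ∈ B, g * x * g⁻¹ ∈ B) (hA : KK ⊤ a t ⊆ A) :
    ∃ S, SylIn 2 S N ∧ S ≤ CA G a ∧ IA ⊤ a ⊆ (S : Set G) := by
  obtain ⟨S, hS, -, hn⟩ := exists_inv_sylIn (p := 2) hB hq hBN .of_bot bot_le (by simp)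
  have hAS : ∀ g ∈ A, ∀ x ∈ S, g * x * g⁻¹ ∈ S := fun g hg => by
    obtain ⟨c, hc, e1, e2⟩ := inv_sylIn_conj hB hq hBN hS (hS.cj' (hAN g hg)) hn fun b hb x hx => mem_cj.2 (by
      simpa [mul_assoc] using hn _ (conj_inv_mem (hAB g hg) b hb) _ (mem_cj.1 hx))
    rw [h1 c hc (h.K_fix' hL hP hk k1 (hN c hc) (e1 k hkB).symm), cj_one] at e2
    exact cj_le.1 e2.le
  have : Nontrivial S := (nontrivial_iff_ne_bot _).2 fun e => hS.not_dvd (by simpa [e] using even_iff_two_dvd.1 he)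
  have hZ : Nontrivial (center S) := hS.pg.center_nontrivial
  obtain ⟨z, hz, z1, z2⟩ := exists_involution_of_even (X := center S) (by
    rcases (hS.pg.to_subgroup (center S)).card_eq_or_dvd with h | h
    · exact absurd h Finite.one_lt_card.ne'
    · exact even_iff_two_dvd.mpr h)
  have key : ∀ u ∈ IA (⊤ : Subgroup G) a, ∃ k ∈ A, k * z * k⁻¹ = u := fun u hu => by
    obtain ⟨k, hk, e⟩ := h.se.K_trans (mem_top t) hP.ti hP.ta (s := (z : G)) ⟨trivial, ⟨fun h => z1 (Subtype.ext h),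
      congrArg Subtype.val z2⟩, hN _ (hS.le z.2)⟩ hu
    exact ⟨k, hA hk, e⟩
  refine ⟨S, hS, fun x hx u hu => ?_, fun u hu => ?_⟩
  · obtain ⟨k, hk, rfl⟩ := key u hu
    have : k⁻¹ * x * k * z = z * (k⁻¹ * x * k) :=
      congrArg Subtype.val (mem_center_iff.1 hz ⟨_, conj_inv_mem (hAS k hk) x hx⟩)
    calc _ = k * (z * (k⁻¹ * x * k)) * k⁻¹ := by group
      _ = _ := by rw [← this]; group
  · obtain ⟨k, hk, rfl⟩ := key u hu
    exact hAS k hk _ z.2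

theorem Mn.conj_D [Fact p.Prime] (hp : p ∣ Nat.card (IA (⊤ : Subgroup G) a)) (hR : IsPGroup p R)
    (hle : ∀ x ∈ R, x • a = a) : ∃ g : G, g • a = a ∧ cj g R ≤ St ⊤ a (t • a) := by
  obtain ⟨c, -, hc, e⟩ := fix_second h.se hL h.ft hp (hP.lam a) ⟨a, hP.lam a, _, hP.lam _, hP.ta.symm⟩ hR
    fun x hx => ⟨trivial, hle x hx⟩
  obtain ⟨g, hg, e'⟩ := hP.two c _ hc hP.ta
  exact ⟨g, hg, cj_le.2 fun x hx => mem_St.2 ⟨trivial, by simpa [hg] using conj_fix (hle x hx) g,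
    e' ▸ conj_fix (e x hx) g⟩⟩

theorem Mn.not_dvd (hq : p.Prime) (hp : p ∣ Nat.card (IA (⊤ : Subgroup G) a)) (hN : ∀ x ∈ N, x • a = a)
    (hn : ∀ g : G, g • a = a → ∀ x ∈ N, g * x * g⁻¹ ∈ N) (h1 : ∀ x ∈ N, x • t • a = t • a → x = 1) :
    ¬ p ∣ Nat.card N := fun hd => by
  have := Fact.mk hq
  obtain ⟨x, hx⟩ := exists_prime_orderOf_dvd_card' p hd
  obtain ⟨g, hg, e⟩ := h.conj_D hL hP hp (R := zpowers (x : G))
    (.of_card (n := 1) (by rw [Nat.card_zpowers, orderOf_coe, hx, pow_one])) fun y hy => hN y (zpowers_le.2 x.2 hy)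
  have := h1 _ (hn g hg x x.2) (mem_St.1 (e (conj_mem_cj (mem_zpowers _)))).2.2
  rw [show x = 1 from Subtype.ext (by simpa using this), orderOf_one] at hx
  exact hq.one_lt.ne hx

/-- if a Sylow 2-subgroup of `M` centralises all involutions and `W = 1`, then `M = C_a D` -/
theorem Mn.caseZ {S : Subgroup G} (hS : SylIn 2 S (stabilizer G a)) (hSC : S ≤ CA G a)
    (hX : IA ⊤ a ⊆ (S : Set G)) (hg : g • a = a) : ∃ q ∈ CA G a, q • t • a = g • t • a := by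
  have hc : ∀ x : G, x • a = a → x * x = 1 → ∀ y : G, y • a = a → y * y = 1 → x * y = y * x := fun x h1 h2 y h3 h4 => by
    by_cases x1 : x = 1
    · simp [x1]
    by_cases y1 : y = 1
    · simp [y1]
    exact hSC (hX ⟨trivial, ⟨y1, h4⟩, h3⟩) x ⟨trivial, ⟨x1, h2⟩, h1⟩
  let E : Subgroup G :=
    { carrier := {s | s • a = a ∧ s * s = 1}
      one_mem' := ⟨one_smul _ _, mul_one _⟩
      mul_mem' := fun {x y} hx hy => ⟨by rw [mul_smul, hy.1, hx.1], by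
        rw [mul_assoc, ← mul_assoc y, ← hc x hx.1 hx.2 y hy.1 hy.2, mul_assoc x y y, hy.2, mul_one, hx.2]⟩
      inv_mem' := fun {x} hx => by rw [inv_eq_of_sq hx.2]; exact hx }
  letI : CommGroup E := { mul_comm := fun x y => Subtype.ext (hc x x.2.1 x.2.2 y y.2.1 y.2.2) }
  letI : DistribMulAction (stabilizer G a) (Additive E) :=
    { smul := fun d e => Additive.ofMul ⟨d * e.toMul * (d : G)⁻¹, by
        simpa [show (d : G) • a = a from d.2] using conj_fix e.toMul.2.1 (d : G), H5.RankOne.conj_sq e.toMul.2.2 _⟩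
      one_smul := fun e => Subtype.ext (by
        show (1 : G) * e.toMul * 1⁻¹ = e.toMul
        simp)
      mul_smul := fun c d e => Subtype.ext (by
        show (c * d : G) * e.toMul * (c * d : G)⁻¹ = c * (d * e.toMul * (d : G)⁻¹) * (c : G)⁻¹
        group)
      smul_zero := fun d => Subtype.ext (by
        show (d : G) * 1 * (d : G)⁻¹ = 1
        simp)
      smul_add := fun d e f => Subtype.ext (by
        show (d : G) * (e.toMul * f.toMul) * (d : G)⁻¹ = d * e.toMul * (d : G)⁻¹ * (d * f.toMul * (d : G)⁻¹)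
        group) }
  let ρ := DistribMulAction.toModuleAut ℤ (Additive E) (S := stabilizer G a)
  have hρ : ∀ d (e : Additive E), ((ρ d e).toMul : G) = d * e.toMul * (d : G)⁻¹ := fun _ _ => rfl
  have ker : ∀ d, ρ d = 1 ↔ (d : G) ∈ CA G a := fun d => ⟨fun h u hu => by
    have := hρ d (Additive.ofMul ⟨u, hu.2.2, hu.2.1.2⟩)
    rw [h] at this
    exact eq_mul_inv_iff_mul_eq.1 this, fun h => LinearEquiv.ext fun e => Subtype.ext (by
      show (d : G) * e.toMul * (d : G)⁻¹ = e.toMul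
      by_cases e1 : (e.toMul : G) = 1
      · simp [e1]
      rw [← h _ ⟨trivial, ⟨e1, e.toMul.2.2⟩, e.toMul.2.1⟩, mul_inv_cancel_right])⟩
  have hodd : Odd (Nat.card ρ.range) := by
    rw [← index_ker, ← Nat.not_even_iff_odd, even_iff_two_dvd]
    intro h2
    refine hS.not_dvd ?_
    rw [← card_mul_index ρ.ker]
    refine mul_dvd_mul ?_ h2
    rw [← card_subtype]
    exact card_dvd_of_le fun x hx => ⟨⟨x, hS.le hx⟩, (ker _).2 (hSC hx), rfl⟩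
  obtain ⟨u, hu, v, hv, huv, -⟩ := h.two_inv a
  have : Nontrivial (Additive E) := ⟨⟨Additive.ofMul ⟨u, hu.2.2, hu.2.1.2⟩, 0, fun e => hu.2.1.1 (congrArg Subtype.val e)⟩⟩
  have htr : ∀ x y : Additive E, x ≠ 0 → y ≠ 0 → ∃ d : ρ.range, d • x = y := fun x y hx hy => by
    obtain ⟨k, hk, e⟩ := h.se.K_trans (mem_top t) hP.ti hP.ta (s := (x.toMul : G)) (s' := (y.toMul : G))
      ⟨trivial, ⟨fun e => hx (Subtype.ext e), x.toMul.2.2⟩, x.toMul.2.1⟩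
      ⟨trivial, ⟨fun e => hy (Subtype.ext e), y.toMul.2.2⟩, y.toMul.2.1⟩
    exact ⟨⟨_, ⟨k, (mem_KK.1 hk).2.1⟩, rfl⟩, Subtype.ext e⟩
  have : Finite (Additive E ≃ₗ[ℤ] Additive E) := Finite.of_injective _ DFunLike.coe_injective
  obtain ⟨cyc, semi, comm⟩ := S1161.result (D := ρ.range) (E := Additive E) hodd Nat.prime_two
    (fun e => by rw [two_nsmul]; exact Subtype.ext e.toMul.2.2) htr
  have F1 : Cfsg.fittingSubgroup ρ.range ≠ ⊥ := fun e => by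
    rw [e, le_bot_iff, commutator_def, commutator_eq_bot_iff_le_centralizer] at comm
    have : (⊤ : Subgroup ρ.range) ≤ Cfsg.fittingSubgroup ρ.range := le_sSup ⟨inferInstance,
      H5.Core.nilpotent_of_comm fun x y => Subtype.ext (comm y.2 x x.2)⟩
    obtain ⟨d, hd⟩ := htr (Additive.ofMul ⟨u, hu.2.2, hu.2.1.2⟩) (Additive.ofMul ⟨v, hv.2.2, hv.2.1.2⟩)
      (fun e => hu.2.1.1 (congrArg Subtype.val e)) fun e => hv.2.1.1 (congrArg Subtype.val e)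
    rw [show d = 1 from mem_bot.1 (e.le (this (mem_top d))), one_smul] at hd
    exact huv (congrArg Subtype.val hd)
  obtain ⟨l, hl, hd⟩ := Nat.exists_prime_and_dvd (card_eq_one.not.2 F1)
  have := Fact.mk hl
  obtain ⟨⟨φ, hφ⟩, ho⟩ := exists_prime_orderOf_dvd_card' l hd
  rw [orderOf_mk] at ho
  have φ1 : φ ≠ 1 := fun e => hl.one_lt.ne (by rw [← ho, e, orderOf_one])
  have φp : φ ^ l = 1 := ho ▸ pow_orderOf_eq_one φ
  obtain ⟨γ, hγ⟩ := exists_gen cyc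
  have hn : (zpowers φ).Normal := ⟨fun x hx g => by
    obtain ⟨n, rfl⟩ := hx
    rw [← conj_zpow]
    exact zpow_mem (H2.PGroup.mem_zpowers_of_pow_eq_one (hγ ▸ hφ) (hγ ▸ H2.Rk.fitting_map (MulAut.conj g).toMonoidHom
      (MulAut.conj g).surjective hφ) φ1 φp (by rw [conj_pow, φp]; simp)) n⟩
  let F := ((zpowers φ).comap ρ.rangeRestrict).map (stabilizer G a).subtype
  have hF : ∀ g : G, g • a = a → ∀ x ∈ F, g * x * g⁻¹ ∈ F := by
    rintro g hg _ ⟨x, hx, rfl⟩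
    exact ⟨_, (hn.comap ρ.rangeRestrict).conj_mem x hx ⟨g, hg⟩, rfl⟩
  have fpf : ∀ x : stabilizer G a, ρ.rangeRestrict x ∈ zpowers φ → ∀ u ∈ IA (⊤ : Subgroup G) a, x * u = u * x →
      (x : G) ∈ CA G a := fun x hx u hu e => by
    by_contra hn
    exact hu.2.1.1 (congrArg Subtype.val (semi _ (zpowers_le.2 hφ hx) (fun e => hn ((ker x).1 (congrArg Subtype.val e)))
      (Additive.ofMul ⟨u, hu.2.2, hu.2.1.2⟩) (Subtype.ext (mul_inv_eq_iff_eq_mul.2 e))))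
  obtain ⟨x₀, hx₀⟩ := ρ.rangeRestrict_surjective φ
  obtain ⟨P₀, hP₀, -⟩ := exists_sylIn (p := l) (X := F) .of_bot bot_le
  have P1 : ∀ P, SylIn l P F → ¬ P ≤ CA G a := fun P hP' hle => hP'.not_dvd (by
    have e1 : (CA G a).relIndex F ≠ 1 := fun e => φ1 (by
      rw [← hx₀]
      exact Subtype.ext ((ker x₀).2 (relIndex_eq_one.1 e ⟨x₀, show _ ∈ zpowers φ from hx₀ ▸ mem_zpowers _, rfl⟩)))
    have e2 : IsPGroup l (F ⧸ ((CA G a).subgroupOf F).normalCore) := fun x => by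
      obtain ⟨x, rfl⟩ := QuotientGroup.mk_surjective x
      refine ⟨1, ?_⟩
      rw [← QuotientGroup.mk_pow, QuotientGroup.eq_one_iff]
      intro b
      obtain ⟨_, y, hy, rfl⟩ := x
      obtain ⟨_, z, hz, rfl⟩ := b
      refine CA_conj z.2 _ ((ker (y ^ l ^ 1)).1 (congrArg Subtype.val (show ρ.rangeRestrict _ = 1 from ?_)))
      rw [map_pow, pow_one, ← orderOf_dvd_iff_pow_eq_one, ← ho]
      exact orderOf_dvd_of_mem_zpowers hy
    rw [← card_mul_index ((CA G a).subgroupOf F)]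
    refine mul_dvd_mul ?_ ?_
    · rw [← card_subtype]
      exact card_dvd_of_le fun x hx => ⟨⟨x, hP'.le hx⟩, hle hx, rfl⟩
    · obtain ⟨n, hn⟩ := IsPGroup.iff_card.1 e2
      obtain ⟨m, -, hm⟩ := (Nat.dvd_prime_pow hl).1 
        (show ((CA G a).subgroupOf F).index ∣ l ^ n from hn ▸ index_dvd_of_le (normalCore_le _))
      exact hm ▸ dvd_pow_self l fun e => e1 (by rw [relIndex, hm, e, pow_zero]))
  have hFa : ∀ x ∈ F, x • a = a := fun x hx => map_subtype_le _ hx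
  have hlx : l ∣ Nat.card (IA (⊤ : Subgroup G) a) := by
    by_contra hn
    obtain ⟨u, hu, e⟩ := exists_fix_conj hP₀.pg (IA ⊤ a)
      (fun g hg x hx => by simpa [hFa g (hP₀.le hg)] using IA_conj (mem_top g) hx) hn
    refine P1 _ hP₀ fun x hx => ?_
    obtain ⟨y, hy, rfl⟩ := hP₀.le hx
    exact fpf y hy u hu (e _ hx)
  obtain ⟨g₀, hg₀, hle⟩ := h.conj_D hL hP hlx hP₀.pg fun x hx => hFa x (hP₀.le hx)
  have hP' := hP₀.cj' (hF g₀ hg₀)
  generalize cj g₀ P₀ = P at hle hP'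
  obtain ⟨_, hf, hf'⟩ := SetLike.not_le_iff_exists.1 (P1 P hP')
  obtain ⟨f, hfF, rfl⟩ := hP'.le hf
  obtain ⟨x, hx, hn⟩ := hP'.frattini (hF g hg)
  have e1 : (x * g) • t • a = t • a := by
    by_contra hne
    obtain ⟨u, hu⟩ := h.cent_inv hL hP.ta (fun y hy => (mem_St.1 (hle hy)).2) (Fx_smul (H := ⊤) trivial (mem_norm.1 hn)
      ⟨hP.lam _, fun y hy => (mem_St.1 (hle hy)).2.2⟩).2 (fun e => hP.ta (smul_left_cancel (x * g)
        (by rw [e, mul_smul, hg, hFa x hx]))) hne fun y hy => (mem_St.1 (hle hy)).2.1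
    exact hf' (fpf f hfF u ⟨trivial, hu.2⟩ (hu.1 _ hf))
  obtain ⟨y, hy, e2⟩ := F.inv_mem hx
  obtain ⟨n, hn⟩ := zpowers_le.2 (mem_zpowers_of_prime hl φp hfF
    fun e => hf' ((ker f).1 (congrArg Subtype.val e))) hy
  refine ⟨_, (ker (y * (f ^ n)⁻¹)).1 (congrArg Subtype.val (show ρ.rangeRestrict _ = 1 from ?_)), ?_⟩
  · rw [map_mul, map_inv, map_zpow, ← hn, mul_inv_cancel]
  · rw [coe_mul, mul_smul, show (((f ^ n)⁻¹ : stabilizer G a) : G) • t • a = t • a from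
      (mem_St.1 (hle (P.inv_mem (zpow_mem hf n)))).2.2, show (y : G) = x⁻¹ from e2, inv_smul_eq_iff, ← mul_smul, e1]

end

end Cfsg.Agent.H1.Bx
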