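import Cfsg.Agent.H7.Proper

/-!
Extension field subgroups: a group containing the field extension subgroup and one transvection
contains the special linear group.
-/

set_option autoImplicit false
set_option linter.unusedSectionVars false

namespace Cfsg.Agent.H1.C3a

open Module Cfsg.Agent.H7

variable {F E V : Type*} [Field F] [Field E] [Algebra F E] [AddCommGroup V] [Module F V] [Module E V]
  [IsScalarTower F E V] [FiniteDimensional E V] [Finite E] {G : Subgroup (V ≃ₗ[F] V)}

/-- `g` is semilinear over `E`. -/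
def Semi (E : Type*) [Field E] [Module E V] (g : V ≃ₗ[F] V) : Prop :=
  ∀ e : E, ∃ e' : E, ∀ v, g (e • v) = e' • g v

/-- `G` contains all `E`-linear automorphisms of `F`-determinant one. -/
def HasLin (E : Type*) [Field E] [Algebra F E] [Module E V] [IsScalarTower F E V]
    (G : Subgroup (V ≃ₗ[F] V)) : Prop :=
  ∀ g : V ≃ₗ[E] V, Algebra.norm F (LinearEquiv.det g : E) = 1 → g.restrictScalars F ∈ G

omit [FiniteDimensional E V] [Finite E] in
theorem det_restrict (g : V ≃ₗ[E] V) :
    (LinearEquiv.det (g.restrictScalars F) : F) = Algebra.norm F (LinearEquiv.det g : E) := by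
  rw [LinearEquiv.coe_det, LinearEquiv.coe_det, ← LinearMap.det_restrictScalars]
  rfl

theorem HasLin.rank_one (hG : HasLin E G) {χ : Dual E V} {x : V} (h : Algebra.norm F (1 + χ x) = 1) :
    ∃ t ∈ G, (∀ z, t z = z + χ z • x) ∧ ∀ z, t.symm z = z - ((1 + χ x)⁻¹ * χ z) • x := by
  have h0 : 1 + χ x ≠ 0 := by
    intro h1; rw [h1, Algebra.norm_zero] at h; exact zero_ne_one h
  obtain ⟨g, hg, e⟩ := exists_dilat h0
  refine ⟨_, hG g (by rw [hg, h]), e, fun z => ?_⟩
  rw [LinearEquiv.symm_apply_eq]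
  change z = g _
  rw [e, map_sub, map_smul, smul_eq_mul]
  match_scalars
  · rfl
  · field_simp; ring

theorem HasLin.transv (hG : HasLin E G) {χ : Dual E V} {x : V} (h : χ x = 0) :
    ∃ t ∈ G, (∀ z, t z = z + χ z • x) ∧ ∀ z, t.symm z = z - χ z • x := by
  obtain ⟨t, ht, e, e'⟩ := hG.rank_one (χ := χ) (x := x) (by simp [h])
  exact ⟨t, ht, e, fun z => by simpa [h] using e' z⟩

theorem HasLin.homol (hG : HasLin E G) {ξ : Dual E V} {y : V} (h : ξ y = 1) {a : E}
    (ha : Algebra.norm F a = 1) :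
    ∃ t ∈ G, (∀ z, t z = z + ((a - 1) * ξ z) • y) ∧ ∀ z, t.symm z = z + ((a⁻¹ - 1) * ξ z) • y := by
  have h0 : a ≠ 0 := by
    intro h1; rw [h1, Algebra.norm_zero] at ha; exact zero_ne_one ha
  obtain ⟨t, ht, e, e'⟩ := hG.rank_one (χ := (a - 1) • ξ) (x := y) (by simp [h, ha])
  refine ⟨t, ht, fun z => by simpa using e z, fun z => ?_⟩
  rw [e']
  simp only [LinearMap.smul_apply, h, smul_eq_mul, mul_one, add_sub_cancel]
  match_scalars
  · rfl
  · field_simp; ring

/-- The elements of norm one generate the extension field as a ring. -/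
theorem subring_eq_top (hr : 1 < finrank F E) (R : Subring E) (h : ∀ a, Algebra.norm F a = 1 → a ∈ R) :
    R = ⊤ := by
  classical
  have : Finite F := Finite.of_injective _ (algebraMap F E).injective
  let R' : Subfield E :=
    { R with
      inv_mem' := fun x hx => by
        by_cases h0 : x = 0
        · rw [h0, inv_zero]; exact R.zero_mem
        have := Fintype.ofFinite E
        have h1 : x⁻¹ = x ^ (Fintype.card E - 2) := by
          have h2 := FiniteField.pow_card_sub_one_eq_one x h0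
          have h3 := Fintype.one_lt_card (α := E)
          rw [show Fintype.card E - 1 = (Fintype.card E - 2) + 1 by omega, pow_succ] at h2
          exact (eq_inv_of_mul_eq_one_left h2).symm
        change x⁻¹ ∈ R
        rw [h1]; exact R.pow_mem hx _ }
  by_contra hne
  have hd : 2 ≤ finrank R' E := by
    by_contra h1
    have h2 : finrank R' E = 1 := by have := Module.finrank_pos (R := R') (M := E); omega
    apply hne
    rw [eq_top_iff]
    intro x _
    obtain ⟨c, hc⟩ := (finrank_eq_one_iff_of_nonzero' (1 : E) one_ne_zero).1 h2 x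
    rw [← hc]
    simp only [Subfield.smul_def, smul_eq_mul, mul_one]
    exact c.2
  have h1 := Module.natCard_eq_pow_finrank (K := R') (V := E)
  have h2 := Module.natCard_eq_pow_finrank (K := F) (V := E)
  let N : Eˣ →* Fˣ := Units.map (Algebra.norm F (S := E))
  have h3 := Subgroup.card_mul_index N.ker
  rw [Subgroup.index_ker] at h3
  have h4 : Nat.card N.range ≤ Nat.card F - 1 := by
    rw [← Nat.card_units]; exact Nat.card_le_card_of_injective _ Subtype.val_injective
  have h5 : Nat.card N.ker ≤ Nat.card R' - 1 := by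
    rw [← Nat.card_units]
    refine Nat.card_le_card_of_injective (fun a : N.ker => Units.mk0 (⟨(a.1 : E), h _
      (congrArg Units.val a.2)⟩ : R') (fun h0 => a.1.ne_zero (congrArg Subtype.val h0))) ?_
    intro a b hab
    exact Subtype.ext (Units.ext (congrArg (fun u : R'ˣ => ((u : R') : E)) hab))
  rw [Nat.card_units] at h3
  have h6 := Finite.one_lt_card (α := F)
  have h7 := Finite.one_lt_card (α := R')
  have h8 : Nat.card R' ^ 2 ≤ Nat.card E := h1 ▸ Nat.pow_le_pow_right (by omega) hd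
  have h9 : Nat.card F ^ 2 ≤ Nat.card E := h2 ▸ Nat.pow_le_pow_right (by omega) hr
  have h10 := Nat.mul_le_mul h5 h4
  rw [h3] at h10
  obtain ⟨a, ha⟩ : ∃ a, Nat.card R' = a + 1 := ⟨_, (Nat.sub_add_cancel h7.le).symm⟩
  obtain ⟨b, hb⟩ : ∃ b, Nat.card F = b + 1 := ⟨_, (Nat.sub_add_cancel h6.le).symm⟩
  rw [ha, hb, Nat.add_sub_cancel, Nat.add_sub_cancel] at h10
  rw [ha] at h7 h8
  rw [hb] at h6 h9
  have h11 : Nat.card E ≤ a * b + 1 := by omega
  nlinarith

theorem addSubgroup_eq_top (hr : 1 < finrank F E) (M : AddSubgroup E)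
    (h : ∀ a, Algebra.norm F a = 1 → ∀ e ∈ M, a * e ∈ M) {e : E} (he : e ∈ M) (h0 : e ≠ 0) (c : E) :
    c ∈ M := by
  let R : Subring E :=
    { carrier := {a | ∀ e ∈ M, a * e ∈ M}
      mul_mem' := fun {a b} ha hb e he => by rw [mul_assoc]; exact ha _ (hb e he)
      one_mem' := fun e he => by simpa using he
      add_mem' := fun {a b} ha hb e he => by rw [add_mul]; exact M.add_mem (ha e he) (hb e he)
      zero_mem' := fun e _ => by simp
      neg_mem' := fun {a} ha e he => by rw [neg_mul]; exact M.neg_mem (ha e he) }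
  have : c / e ∈ R := subring_eq_top hr R h ▸ Subring.mem_top _
  simpa [h0] using this e he

theorem exists_norm_one (hr : 1 < finrank F E) : ∃ a : E, Algebra.norm F a = 1 ∧ a ≠ 1 := by
  by_contra hc
  push Not at hc
  have h1 := subring_eq_top hr (algebraMap F E).range (fun a ha => ⟨1, by rw [hc a ha, map_one]⟩)
  have : finrank F E = 1 := by
    refine (finrank_eq_one_iff_of_nonzero' (1 : E) one_ne_zero).2 fun x => ?_
    obtain ⟨c, hc⟩ : x ∈ (algebraMap F E).range := h1 ▸ Subring.mem_top _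
    exact ⟨c, by rw [← hc, Algebra.algebraMap_eq_smul_one]⟩
  omega

theorem finite_FE : FiniteDimensional F E := by
  have : Finite F := Finite.of_injective _ (algebraMap F E).injective
  infer_instance

theorem exists_comp {τ : Dual F E} (hτ : τ ≠ 0) (ψ : Dual F V) : ∃ χ : Dual E V, ∀ z, ψ z = τ (χ z) := by
  have := finite_FE (F := F) (E := E)
  have : FiniteDimensional F V := Module.Finite.trans E V
  have : FiniteDimensional F (Dual E V) := Module.Finite.trans E _
  let L : Dual E V →ₗ[F] Dual F V :=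
    { toFun := fun χ => τ ∘ₗ χ.restrictScalars F
      map_add' := fun a b => by ext; simp
      map_smul' := fun a b => by ext; simp }
  have hinj : Function.Injective L := by
    rw [injective_iff_map_eq_zero]
    intro χ hχ
    by_contra h0
    obtain ⟨z, hz⟩ := exists_dual_apply_ne h0
    obtain ⟨e, he⟩ := exists_dual_apply_ne hτ
    have := LinearMap.congr_fun hχ ((e / χ z) • z)
    simp [L, hz, he] at this
  have hd : finrank F (Dual E V) = finrank F (Dual F V) := by
    rw [← Module.finrank_mul_finrank F E (Dual E V), Subspace.dual_finrank_eq, Subspace.dual_finrank_eq,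
      Module.finrank_mul_finrank]
  obtain ⟨χ, hχ⟩ := (LinearMap.injective_iff_surjective_of_finrank_eq_finrank hd).1 hinj ψ
  exact ⟨χ, fun z => by rw [← hχ]; rfl⟩

theorem exists_dual_ker (hm : 2 ≤ finrank E V) (u : V) : ∃ χ : Dual E V, χ ≠ 0 ∧ χ u = 0 := by
  obtain ⟨y, -, hy⟩ := exists_mem_notMem_of_finrank_lt (U := ⊤) (W := E ∙ u)
    (lt_of_le_of_lt (finrank_span_singleton_le u) (by rw [finrank_top]; omega))
  obtain ⟨χ, h1, h2⟩ := exists_dual_one hy
  exact ⟨χ, fun h => by simp [h] at h1, h2 u (Submodule.mem_span_singleton_self u)⟩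

/-- All transvections with centre `u` whose axis contains the `E`-line through `u`. -/
def Ann (E : Type*) [Field E] [Module E V] (G : Subgroup (V ≃ₗ[F] V)) (u : V) : Prop :=
  ∀ ψ : Dual F V, (∀ e : E, ψ (e • u) = 0) → Has G ψ u

theorem ann_of_has (hr : 1 < finrank F E) (hm : 2 ≤ finrank E V) (hG : HasLin E G) {φ : Dual F V} {u : V}
    (h : Has G φ u) (h0 : φ u = 0) (hφ : φ ≠ 0) : Ann E G u := by
  obtain ⟨φ', h', h1, hφ'⟩ : ∃ φ' : Dual F V, Has G φ' u ∧ (∀ e : E, φ' (e • u) = 0) ∧ φ' ≠ 0 := by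
    by_cases h1 : ∀ e : E, φ (e • u) = 0
    · exact ⟨φ, h, h1, hφ⟩
    push Not at h1
    obtain ⟨e, he⟩ := h1
    obtain ⟨χ, hχ, hχu⟩ := exists_dual_ker hm u
    obtain ⟨t, ht, e1, e2⟩ := hG.transv hχu
    have h2 := h.conj ht
    rw [e1, hχu, zero_smul, add_zero] at h2
    refine ⟨_, h.sub_left h2 h0 (by simp [e2, hχu, h0]), fun c => by simp [e2, hχu], fun h3 => ?_⟩
    obtain ⟨z, hz⟩ := exists_dual_apply_ne hχ
    have := LinearMap.congr_fun h3 ((e / χ z) • z)
    simp [e2, hz, he] at this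
  let τ : Dual F E := Algebra.trace F E
  have := finite_FE (F := F) (E := E)
  have : Finite F := Finite.of_injective _ (algebraMap F E).injective
  have hτ : τ ≠ 0 := Algebra.trace_ne_zero F E
  have hk : ∀ χ : Dual E V, (∀ e : E, τ (χ (e • u)) = 0) → χ u = 0 := by
    intro χ hχ
    by_contra h2
    obtain ⟨e, he⟩ := exists_dual_apply_ne hτ
    have := hχ (e / χ u)
    simp [h2, he] at this
  let L : Dual E V → Dual F V := fun χ => τ ∘ₗ χ.restrictScalars F
  have hL : ∀ χ z, L χ z = τ (χ z) := fun _ _ => rfl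
  have step : ∀ (χ ξ : Dual E V) (y : V) (a : E), χ u = 0 → Has G (L χ) u → ξ u = 0 → ξ y = 1 →
      Algebra.norm F a = 1 → Has G (L (((a - 1) * χ y) • ξ)) u := by
    intro χ ξ y a a1 a2 a3 a4 a5
    obtain ⟨t, ht, e1, e2⟩ := hG.homol a4 a5
    have h2 := a2.conj (G.inv_mem ht)
    rw [LinearEquiv.coe_inv, e2, a3, mul_zero, zero_smul, add_zero] at h2
    have e3 : ∀ z, (t⁻¹).symm z = t z := fun z => rfl
    refine (h2.sub_left a2 (by simp [e3, e1, a3, hL, a1]) (by simp [hL, a1])).congr fun z => ?_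
    simp only [LinearMap.sub_apply, LinearMap.comp_apply, LinearEquiv.coe_coe, e3, e1, hL, map_add,
      map_smul, LinearMap.smul_apply, smul_eq_mul, add_sub_cancel_left]
    congr 2; ring
  obtain ⟨χ0, hχ0⟩ := exists_comp hτ φ'
  have b1 : χ0 u = 0 := hk χ0 fun e => by rw [← hχ0, h1]
  have b2 : χ0 ≠ 0 := by rintro rfl; exact hφ' (by ext z; simp [hχ0])
  have b3 : Has G (L χ0) u := h'.congr fun z => by rw [hχ0, hL]
  intro ψ hψ
  obtain ⟨ξ, hξ⟩ := exists_comp hτ ψ
  have b4 : ξ u = 0 := hk ξ fun e => by rw [← hξ, hψ]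
  by_cases b5 : ξ = 0
  · subst b5; exact (has_zero_left u).congr fun z => by simp [hξ]
  obtain ⟨y0, -, c1, c2⟩ := exists_apply_ne_ne (⊤ : Submodule E V) ξ.toAddMonoidHom χ0.toAddMonoidHom
    (by obtain ⟨z, hz⟩ := exists_dual_apply_ne b5; exact ⟨z, trivial, hz⟩)
    (by obtain ⟨z, hz⟩ := exists_dual_apply_ne b2; exact ⟨z, trivial, hz⟩)
  replace c1 : ξ y0 ≠ 0 := c1
  replace c2 : χ0 y0 ≠ 0 := c2
  have c3 : ξ ((ξ y0)⁻¹ • y0) = 1 := by simp [c1]
  let M : AddSubgroup E :=
    { carrier := {e | Has G (L (e • ξ)) u}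
      zero_mem' := (has_zero_left u).congr fun z => by simp [hL]
      add_mem' := fun {a b} ha hb => (Has.add_left ha hb (by simp [hL, b4])).congr fun z => by
        simp [hL, add_mul]
      neg_mem' := fun {a} ha => (Has.neg_left ha (by simp [hL, b4])).congr fun z => by simp [hL] }
  obtain ⟨a, ha, ha1⟩ := exists_norm_one hr
  have : (1 : E) ∈ M := by
    refine addSubgroup_eq_top hr M (fun a ha e he => ?_) (e := (a - 1) * χ0 ((ξ y0)⁻¹ • y0))
      (step χ0 ξ _ a b1 b3 b4 c3 ha) (by simp [sub_eq_zero, ha1, c1, c2]) 1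
    have : (a - 1) * (e • ξ) ((ξ y0)⁻¹ • y0) ∈ M := step (e • ξ) ξ _ a (by simp [b4]) he b4 c3 ha
    rw [LinearMap.smul_apply, c3, smul_eq_mul, mul_one] at this
    simpa [sub_mul] using M.add_mem this he
  exact Has.congr this fun z => by simp [hL, hξ]

theorem Ann.move (hG : HasLin E G) {u v : V} (h : Ann E G u) (hu : u ≠ 0) (hv : v ∉ E ∙ u) : Ann E G v := by
  have h1 : u ∉ (⊥ : Submodule E V) ⊔ E ∙ (v - u) :=
    notMem_sup_span_sub (by simpa using hu) (by simpa using hv)
  obtain ⟨χ, e1, e2⟩ := exists_dual_one h1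
  obtain ⟨t, ht, e3, -⟩ := hG.transv (e2 _ (Submodule.mem_sup_right (Submodule.mem_span_singleton_self _)))
  intro ψ hψ
  have e4 : ∀ e : E, t (e • u) = e • v := fun e => by rw [e3, map_smul, e1]; module
  have := (h (ψ ∘ₗ (t : V →ₗ[F] V)) (fun e => by simp [e4, hψ])).conj ht
  rw [show t u = v by simpa using e4 1] at this
  exact this.congr fun z => by simp

theorem all_of_has (hr : 1 < finrank F E) (hm : 2 ≤ finrank E V) (hG : HasLin E G) {φ : Dual F V} {u : V}
    (h : Has G φ u) (h0 : φ u = 0) (hφ : φ ≠ 0) (hu : u ≠ 0) (g : V ≃ₗ[F] V)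
    (hg : LinearEquiv.det g = 1) : g ∈ G := by
  have := finite_FE (F := F) (E := E)
  have : FiniteDimensional F V := Module.Finite.trans E V
  have h1 := ann_of_has hr hm hG h h0 hφ
  have h2 : ∀ v, Ann E G v := by
    intro v
    by_cases hv0 : v = 0
    · subst hv0; exact fun ψ _ => has_zero_right ψ
    by_cases hv : v ∈ E ∙ u
    · obtain ⟨y, -, hy⟩ := exists_mem_notMem_of_finrank_lt (U := ⊤) (W := E ∙ u)
        (lt_of_le_of_lt (finrank_span_singleton_le u) (by rw [finrank_top]; omega))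
      refine (h1.move hG hu hy).move hG (by rintro rfl; exact hy (zero_mem _)) fun h3 => hy ?_
      obtain ⟨c, rfl⟩ := Submodule.mem_span_singleton.1 h3
      have hc : c ≠ 0 := by rintro rfl; simp at hv0
      simpa [hc] using Submodule.smul_mem _ c⁻¹ hv
    · exact h1.move hG hu hv
  refine mem_of_det_of_has (fun ψ v hv => ?_) g hg
  by_cases h3 : ∀ e : E, ψ (e • v) = 0
  · exact h2 v ψ h3
  have : Finite F := Finite.of_injective _ (algebraMap F E).injective
  obtain ⟨ξ, hξ⟩ := exists_comp (Algebra.trace_ne_zero F E) ψ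
  obtain ⟨w, hw, hw0⟩ := exists_ne_zero_of_finrank_pos (A := LinearMap.ker ξ) (by
    have := finrank_le_finrank_inf_ker (⊤ : Submodule E V) ξ
    rw [top_inf_eq, finrank_top] at this; omega)
  replace hw : ξ w = 0 := hw
  have h4 : ∀ e : E, ψ (e • w) = 0 := fun e => by simp [hξ, hw]
  have h5 : w ∉ (E ∙ v).restrictScalars F := by
    intro h5
    obtain ⟨c, rfl⟩ := Submodule.mem_span_singleton.1 h5
    have hc : c ≠ 0 := by rintro rfl; simp at hw0
    exact h3 fun e => by simpa [smul_smul, hc] using h4 (e / c)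
  obtain ⟨φ1, e1, e2⟩ := exists_dual_one h5
  have h6 : ∀ e : E, φ1 (e • v) = 0 := fun e => e2 _ (Submodule.mem_span_singleton.2 ⟨e, rfl⟩)
  have := (h2 v φ1 h6).comm_left (h2 w ψ h4) (by simpa using h6 1) (by simpa using h4 1) hv
  simpa [e1] using this

end Cfsg.Agent.H1.C3a
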