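import Cfsg.Agent.H1.C3a

/-!
Extension field subgroups of prime degree: overgroups contain a transvection.
-/

set_option autoImplicit false
set_option linter.unusedSectionVars false

namespace Cfsg.Agent.H1.C3b

open Module Cfsg.Agent.H7 Cfsg.Agent.H1.C3a

variable {F E V : Type*} [Field F] [Field E] [Algebra F E] [AddCommGroup V] [Module F V] [Module E V]
  [IsScalarTower F E V] [FiniteDimensional E V] [Finite E] {G : Subgroup (V ≃ₗ[F] V)}

/-- The `E`-line through `x`, as an `F`-subspace. -/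
def line (F E : Type*) [Field F] [Field E] [Algebra F E] [Module F V] [Module E V] [IsScalarTower F E V]
    (x : V) : Submodule F V := (E ∙ x).restrictScalars F

theorem mem_line {x v : V} : v ∈ line F E x ↔ ∃ e : E, e • x = v := Submodule.mem_span_singleton

theorem smul_mem_line (e : E) (x : V) : e • x ∈ line F E x := mem_line.2 ⟨e, rfl⟩

theorem self_mem_line (x : V) : x ∈ line F E x := mem_line.2 ⟨1, one_smul _ _⟩

theorem esmul_mem_line {x v : V} (h : v ∈ line F E x) (e : E) : e • v ∈ line F E x :=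
  (E ∙ x).smul_mem e h

theorem finrank_line {x : V} (hx : x ≠ 0) : finrank F (line F E x) = finrank F E := by
  have : line F E x = LinearMap.range ((LinearMap.toSpanSingleton E V x).restrictScalars F) := by
    ext v; rw [mem_line]; rfl
  rw [this, LinearMap.finrank_range_of_inj]
  exact smul_left_injective E hx

theorem line_eq {x u : V} (hu : u ∈ line F E x) (h0 : u ≠ 0) : line F E u = line F E x := by
  obtain ⟨e, rfl⟩ := mem_line.1 hu
  have he : e ≠ 0 := by rintro rfl; simp at h0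
  unfold line
  rw [Submodule.span_singleton_smul_eq (IsUnit.mk0 e he)]

include E in
theorem finV : FiniteDimensional F V := by
  have := finite_FE (F := F) (E := E)
  exact Module.Finite.trans E V

theorem stab_top (hr : (finrank F E).Prime) {Z : Submodule F V} {e : E} (he : e ∉ (algebraMap F E).range)
    (h : ∀ z ∈ Z, e • z ∈ Z) (c : E) : ∀ z ∈ Z, c • z ∈ Z := by
  let R : Subalgebra F E :=
    { carrier := {c | ∀ z ∈ Z, c • z ∈ Z}
      mul_mem' := fun {a b} ha hb z hz => by rw [mul_smul]; exact ha _ (hb z hz)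
      add_mem' := fun {a b} ha hb z hz => by rw [add_smul]; exact Z.add_mem (ha z hz) (hb z hz)
      algebraMap_mem' := fun a z hz => by rw [algebraMap_smul]; exact Z.smul_mem a hz }
  rcases (Subalgebra.isSimpleOrder_of_finrank_prime F E hr).eq_bot_or_eq_top R with h1 | h1
  · exfalso
    have : e ∈ R := h
    rw [h1, Algebra.mem_bot] at this
    exact he this
  · have : c ∈ R := h1 ▸ Algebra.mem_top
    exact this

/-- `G` contains enough elements acting trivially on `W` and `V / W`. -/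
def Good (G : Subgroup (V ≃ₗ[F] V)) (W : Submodule F V) : Prop :=
  ∀ z ∉ W, ∀ w ∈ W, ∃ t ∈ G, t z = z + w ∧ (∀ v, t v - v ∈ W) ∧ ∀ v ∈ W, t v = v

/-- Conjugates of `E`-lines. -/
def Orb (E : Type*) [Field E] [Algebra F E] [Module E V] [IsScalarTower F E V]
    (G : Subgroup (V ≃ₗ[F] V)) (W : Submodule F V) : Prop :=
  ∃ g ∈ G, ∃ x, x ≠ 0 ∧ W = (line F E x).map (g : V →ₗ[F] V)

theorem good_line (hG : HasLin E G) (x : V) : Good G (line F E x) := by
  intro z hz w hw
  obtain ⟨e, rfl⟩ := mem_line.1 hw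
  obtain ⟨χ, h1, h2⟩ := exists_dual_one (F := E) (W := E ∙ x) hz
  have h3 := h2 x (Submodule.mem_span_singleton_self x)
  obtain ⟨t, ht, e1, -⟩ := hG.transv (χ := e • χ) (x := x) (by simp [h3])
  refine ⟨t, ht, by simp [e1, h1], fun v => by rw [e1, add_sub_cancel_left]; exact smul_mem_line _ _,
    fun v hv => by simp [e1, h2 v hv]⟩

theorem Orb.good (hG : HasLin E G) {W : Submodule F V} (h : Orb E G W) : Good G W := by
  obtain ⟨g, hg, x, -, rfl⟩ := h
  rintro z hz _ ⟨w, hw, rfl⟩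
  obtain ⟨z, rfl⟩ := g.surjective z
  obtain ⟨t, ht, e1, e2, e3⟩ := good_line hG x z (fun h => hz ⟨z, h, rfl⟩) w hw
  refine ⟨g * t * g⁻¹, G.mul_mem (G.mul_mem hg ht) (G.inv_mem hg), by simp [e1], fun v => ?_, ?_⟩
  · exact ⟨_, e2 (g.symm v), by simp⟩
  · rintro _ ⟨v, hv, rfl⟩; simp [e3 v hv]

theorem Orb.map {W : Submodule F V} (h : Orb E G W) {g : V ≃ₗ[F] V} (hg : g ∈ G) :
    Orb E G (W.map (g : V →ₗ[F] V)) := by
  obtain ⟨g', hg', x, hx, rfl⟩ := h
  exact ⟨g * g', G.mul_mem hg hg', x, hx, by rw [← Submodule.map_comp]; rfl⟩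

theorem orb_line {x : V} (hx : x ≠ 0) : Orb E G (line F E x) :=
  ⟨1, G.one_mem, x, hx, (Submodule.map_id _).symm⟩

theorem Orb.finrank_eq {W : Submodule F V} (h : Orb E G W) : finrank F W = finrank F E := by
  obtain ⟨g', -, x, hx, rfl⟩ := h
  rw [LinearEquiv.finrank_map_eq, finrank_line hx]

theorem semi_of_lines (hm : 2 ≤ finrank E V) {g : V ≃ₗ[F] V}
    (h : ∀ x, x ≠ 0 → ∃ y, (line F E x).map (g : V →ₗ[F] V) = line F E y) : Semi E g := by
  intro e
  have h1 : ∀ x, ∃ c : E, g (e • x) = c • g x := by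
    intro x
    by_cases hx : x = 0
    · exact ⟨0, by simp [hx]⟩
    obtain ⟨y, hy⟩ := h x hx
    have h2 := mem_of_map_eq hy (smul_mem_line e x)
    rw [← line_eq (mem_of_map_eq hy (self_mem_line x)) (by simpa using hx)] at h2
    obtain ⟨c, hc⟩ := mem_line.1 h2
    exact ⟨c, hc.symm⟩
  obtain ⟨z0, -, hz0⟩ := exists_ne_zero_of_finrank_pos (A := (⊤ : Submodule E V)) (by rw [finrank_top]; omega)
  obtain ⟨x0, rfl⟩ := g.surjective z0
  obtain ⟨c0, hc0⟩ := h1 x0
  have h2 : ∀ x, g x ∉ E ∙ g x0 → g (e • x) = c0 • g x := by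
    intro x hx
    obtain ⟨c, hc⟩ := h1 x
    obtain ⟨c', hc'⟩ := h1 (x + x0)
    rw [smul_add, map_add, map_add, hc, hc0] at hc'
    have h3 : c = c' := by
      by_contra h3
      refine hx (Submodule.mem_span_singleton.2 ⟨(c - c')⁻¹ * (c' - c0), ?_⟩)
      have h4 : (c - c') • g x = (c' - c0) • g x0 := by linear_combination (norm := module) hc'
      rw [mul_smul, ← h4, smul_smul, inv_mul_cancel₀ (sub_ne_zero.2 h3), one_smul]
    rw [h3, smul_add, add_right_inj] at hc'
    rw [hc, h3, smul_left_injective E hz0 hc']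
  refine ⟨c0, fun v => ?_⟩
  by_cases hv : g v ∈ E ∙ g x0
  · obtain ⟨y, -, hy⟩ := exists_mem_notMem_of_finrank_lt (U := ⊤) (W := E ∙ g x0)
      (lt_of_le_of_lt (finrank_span_singleton_le _) (by rw [finrank_top]; omega))
    obtain ⟨y, rfl⟩ := g.surjective y
    have h3 := h2 (v + y) (fun h => hy (by simpa using sub_mem h hv))
    rw [smul_add, map_add, map_add, h2 y hy, smul_add] at h3
    exact add_right_cancel h3
  · exact h2 v hv

/-- The configuration of a conjugate `W` of a line meeting the line through `u` in a hyperplane. -/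
structure Cfg (E : Type*) [Field E] [Algebra F E] [Module E V] [IsScalarTower F E V]
    (G : Subgroup (V ≃ₗ[F] V)) (W : Submodule F V) (u w y : V) (l : Dual F V) : Prop where
  good : Good G W
  u0 : u ≠ 0
  uW : u ∈ W
  wW : w ∈ W
  wu : w ∉ line F E u
  span : ∀ w' ∈ W, ∃ c : F, w' - c • w ∈ line F E u
  yu : y ∈ line F E u
  yW : y ∉ W
  ly : l y = 1
  lW : ∀ a ∈ W, a ∈ line F E u → l a = 0
  dec : ∀ a ∈ line F E u, a - l a • y ∈ W

theorem exists_cfg (hr : (finrank F E).Prime) (hG : HasLin E G) {W0 : Submodule F V} (h0 : Orb E G W0)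
    (h0' : ∀ y, W0 ≠ line F E y) : ∃ W u w y l, Cfg E G W u w y l := by
  have := finV (F := F) (E := E) (V := V)
  let S : Set ℕ := {k | ∃ W1 W2, Orb E G W1 ∧ Orb E G W2 ∧ W1 ≠ W2 ∧
    finrank F (W1 ⊓ W2 : Submodule F V) = k}
  have hS : BddAbove S := ⟨finrank F V, by rintro _ ⟨W1, W2, -, -, -, rfl⟩; exact Submodule.finrank_le _⟩
  obtain ⟨w0, hw0, hw00⟩ := exists_ne_zero_of_finrank_pos (A := W0) (by rw [h0.finrank_eq]; exact hr.pos)
  have hmem : finrank F (W0 ⊓ line F E w0 : Submodule F V) ∈ S := ⟨_, _, h0, orb_line hw00, h0' w0, rfl⟩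
  have hpos : 0 < sSup S := lt_of_lt_of_le (by
    rw [Module.finrank_pos_iff_exists_ne_zero]
    exact ⟨⟨w0, hw0, self_mem_line w0⟩, fun h => hw00 (congrArg Subtype.val h)⟩) (le_csSup hS hmem)
  obtain ⟨W1, W2, ⟨g, hg, x, hx, rfl⟩, h2, hne, hk⟩ := Nat.sSup_mem ⟨_, hmem⟩ hS
  obtain ⟨W, rfl⟩ : ∃ W : Submodule F V, W2 = W.map (g : V →ₗ[F] V) :=
    ⟨W2.map (g.symm : V →ₗ[F] V), by rw [← Submodule.map_comp]; simp⟩
  have hW : Orb E G W := by
    have := h2.map (G.inv_mem hg)
    rwa [← Submodule.map_comp, show ((g⁻¹ : V ≃ₗ[F] V) : V →ₗ[F] V) ∘ₗ (g : V →ₗ[F] V) = LinearMap.id by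
      ext; simp, Submodule.map_id] at this
  rw [← Submodule.map_inf _ g.injective, LinearEquiv.finrank_map_eq] at hk
  have hne' : line F E x ≠ W := fun h => hne (by rw [h])
  obtain ⟨u, ⟨hu1, hu2⟩, hu0⟩ := exists_ne_zero_of_finrank_pos (A := line F E x ⊓ W) (by omega)
  rw [← line_eq hu1 hu0] at hk hne'
  have hd : finrank F W = finrank F (line F E u) := by rw [hW.finrank_eq, finrank_line hu0]
  obtain ⟨w, hw, hwu⟩ : ∃ w ∈ W, w ∉ line F E u := by
    by_contra hc; push Not at hc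
    exact hne' (Submodule.eq_of_le_of_finrank_eq hc hd).symm
  obtain ⟨y, hy, hyW⟩ : ∃ y ∈ line F E u, y ∉ W := by
    by_contra hc; push Not at hc
    exact hne' (Submodule.eq_of_le_of_finrank_eq hc hd.symm)
  have k1 : ∀ χ : Dual E V, χ u = 0 → χ w • u ∈ W → ∀ w' ∈ W, χ w' • u ∈ W := by
    intro χ h1 h2 w' hw'
    obtain ⟨t, ht, e1, -⟩ := hG.transv h1
    have h3 : W = W.map (t : V →ₗ[F] V) := by
      by_contra h3
      have h4 := le_csSup hS ⟨_, _, hW, hW.map ht, h3, rfl⟩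
      have h5 : (line F E u ⊓ W) ⊔ F ∙ t w ≤ W ⊓ W.map (t : V →ₗ[F] V) := by
        refine sup_le (fun a ha => ⟨ha.2, a, ha.2, ?_⟩) ?_
        · obtain ⟨e, rfl⟩ := mem_line.1 ha.1
          simp [e1, h1]
        · rw [Submodule.span_singleton_le_iff_mem]
          exact ⟨by rw [e1]; exact W.add_mem hw h2, w, hw, rfl⟩
      have h6 := Submodule.finrank_mono h5
      rw [Submodule.finrank_sup_span_singleton (fun h => hwu (by
        simpa [e1] using sub_mem h.1 (smul_mem_line (χ w) u)))] at h6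
      omega
    have h4 : t w' ∈ W := by rw [h3]; exact ⟨w', hw', rfl⟩
    simpa [e1] using W.sub_mem h4 hw'
  have hnle : ¬ ∀ e : E, e • u ∈ W := fun h => by
    obtain ⟨e, rfl⟩ := mem_line.1 hy
    exact hyW (h e)
  have k2 : ∀ w' ∈ W, ∃ c : F, w' - c • w ∈ line F E u := by
    intro w' hw'
    have h1 : w' ∈ (E ∙ u) ⊔ E ∙ w := by
      by_contra h1
      obtain ⟨χ, e1, e2⟩ := exists_dual_one h1
      have e3 := e2 u (Submodule.mem_sup_left (Submodule.mem_span_singleton_self u))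
      have e4 := e2 w (Submodule.mem_sup_right (Submodule.mem_span_singleton_self w))
      exact hnle fun e => by simpa [e1] using k1 (e • χ) (by simp [e3]) (by simp [e4]) w' hw'
    obtain ⟨a, ha, β, rfl⟩ := mem_sup_span_iff.1 h1
    obtain ⟨χ, e1, e2⟩ := exists_dual_one (F := E) (W := E ∙ u) hwu
    have e3 := e2 u (Submodule.mem_span_singleton_self u)
    by_cases hβ : β ∈ (algebraMap F E).range
    · obtain ⟨c, rfl⟩ := hβ
      exact ⟨c, by rw [algebraMap_smul, add_sub_cancel_right]; exact ha⟩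
    · exfalso
      refine hnle fun e => (stab_top hr (Z := line F E u ⊓ W) hβ ?_ e u ⟨self_mem_line u, hu2⟩).2
      rintro z ⟨hz1, hz2⟩
      refine ⟨esmul_mem_line hz1 β, ?_⟩
      obtain ⟨e, rfl⟩ := mem_line.1 hz1
      have := k1 (e • χ) (by simp [e3]) (by simpa [e1] using hz2) _ hw'
      simpa [e1, e2 a ha, smul_smul, mul_comm] using this
  have hyU : y ∉ line F E u ⊓ W := fun h => hyW h.2
  obtain ⟨l, e1, e2⟩ := exists_dual_one hyU
  have k3 : (line F E u ⊓ W) ⊔ F ∙ y = line F E u := by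
    apply Submodule.eq_of_le_of_finrank_le
    · exact sup_le inf_le_left ((Submodule.span_singleton_le_iff_mem _ _).2 hy)
    · rw [Submodule.finrank_sup_span_singleton hyU, ← hd]
      refine le_trans (Submodule.finrank_mono ?_) (finrank_sup_span_le (line F E u ⊓ W) w)
      intro w' hw'
      obtain ⟨c, hc⟩ := k2 w' hw'
      exact mem_sup_span_iff.2 ⟨_, ⟨hc, W.sub_mem hw' (W.smul_mem c hw)⟩, c, by simp⟩
  refine ⟨W, u, w, y, l, hW.good hG, hu0, hu2, hw, hwu, k2, hy, hyW, e1, fun a h1 h2 => e2 a ⟨h2, h1⟩,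
    fun a ha => ?_⟩
  rw [← k3] at ha
  obtain ⟨b, hb, c, rfl⟩ := mem_sup_span_iff.1 ha
  simpa [e1, e2 b hb] using hb.2

/-- `G` contains a non-trivial transvection. -/
def NT (G : Subgroup (V ≃ₗ[F] V)) : Prop := ∃ φ u, Has G φ u ∧ φ u = 0 ∧ φ ≠ 0 ∧ u ≠ 0

/-- `1 + f` is an element of `G` acting trivially on `A` and on `V / A`. -/
def TT (G : Subgroup (V ≃ₗ[F] V)) (A : Submodule F V) (f : V → V) : Prop :=
  (∀ v, f v ∈ A) ∧ (∀ a ∈ A, f a = 0) ∧ ∃ h ∈ G, ∀ v, h v = v + f v

theorem TT.add {A : Submodule F V} {f f' : V → V} (h : TT G A f) (h' : TT G A f') :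
    TT G A (fun v => f v + f' v) := by
  obtain ⟨a1, a2, t, ht, e⟩ := h
  obtain ⟨b1, b2, t', ht', e'⟩ := h'
  refine ⟨fun v => A.add_mem (a1 v) (b1 v), fun a ha => by simp [a2 a ha, b2 a ha], t * t',
    G.mul_mem ht ht', fun v => ?_⟩
  rw [LinearEquiv.mul_apply, e', map_add, e, e, a2 _ (b1 v)]; abel

theorem TT.neg {A : Submodule F V} {f : V → V} (h : TT G A f) : TT G A (fun v => -f v) := by
  obtain ⟨a1, a2, t, ht, e⟩ := h
  refine ⟨fun v => A.neg_mem (a1 v), fun a ha => by simp [a2 a ha], t⁻¹, G.inv_mem ht, fun v => ?_⟩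
  rw [LinearEquiv.coe_inv, LinearEquiv.symm_apply_eq, map_add, map_neg, e, e, a2 _ (a1 v)]; simp

theorem TT.sub {A : Submodule F V} {f f' : V → V} (h : TT G A f) (h' : TT G A f') :
    TT G A (fun v => f v - f' v) := by simpa only [sub_eq_add_neg] using h.add h'.neg

theorem TT.conj {A : Submodule F V} {f : V → V} (h : TT G A f) {s : V ≃ₗ[F] V} (hs : s ∈ G)
    (h1 : ∀ a ∈ A, s a ∈ A) (h2 : ∀ a ∈ A, s.symm a ∈ A) : TT G A (fun v => s (f (s.symm v))) := by
  obtain ⟨a1, a2, t, ht, e⟩ := h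
  refine ⟨fun v => h1 _ (a1 _), fun a ha => by simp [a2 _ (h2 a ha)], s * t * s⁻¹,
    G.mul_mem (G.mul_mem hs ht) (G.inv_mem hs), fun v => by simp [e]⟩

theorem TT.shift {A : Submodule F V} {f : V → V} (h : TT G A f) (v : V) {a : V} (ha : a ∈ A) :
    f (v + a) = f v := by
  obtain ⟨a1, a2, t, ht, e⟩ := h
  have := e (v + a)
  rw [map_add, e, e, a2 a ha] at this
  linear_combination (norm := module) -this

theorem TT.smul (hr : 1 < finrank F E) (hG : HasLin E G) {u : V} (hu : u ≠ 0) {f : V → V}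
    (h : TT G (line F E u) f) (e : E) : TT G (line F E u) (fun v => e • f v) := by
  obtain ⟨ξ, e1, -⟩ := exists_dual_one (F := E) (W := ⊥) (x := u) (by simpa using hu)
  let M : AddSubgroup E :=
    { carrier := {e | TT G (line F E u) (fun v => e • f v)}
      zero_mem' := ⟨fun v => by simp, fun a _ => by simp, 1, G.one_mem, fun v => by simp⟩
      add_mem' := fun {a b} ha hb => by
        change TT G _ _
        simpa only [← add_smul] using TT.add ha hb
      neg_mem' := fun {a} ha => by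
        change TT G _ _
        simpa only [← neg_smul] using TT.neg ha }
  refine addSubgroup_eq_top hr M (fun a ha e he => ?_) (e := 1)
    (by change TT G _ _; simpa only [one_smul] using h) one_ne_zero e
  obtain ⟨t, ht, e2, e3⟩ := hG.homol e1 ha
  have e4 : ∀ x ∈ line F E u, t x = a • x := fun x hx => by
    obtain ⟨c, rfl⟩ := mem_line.1 hx
    rw [e2, map_smul, e1]; module
  have := TT.conj he ht (fun x hx => e4 x hx ▸ esmul_mem_line hx a)
    (fun x hx => by rw [e3]; exact Submodule.add_mem _ hx (smul_mem_line _ _))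
  change TT G _ _
  convert this using 2 with v
  rw [e3, h.shift v (smul_mem_line _ _), e4 _ (esmul_mem_line (h.1 v) e), mul_smul]

theorem tt_base (hG : HasLin E G) {u : V} {χ : Dual E V} (h : χ u = 0) :
    TT G (line F E u) (fun v => χ v • u) := by
  obtain ⟨t, ht, e, -⟩ := hG.transv h
  refine ⟨fun v => smul_mem_line _ _, fun a ha => ?_, t, ht, e⟩
  obtain ⟨c, rfl⟩ := mem_line.1 ha
  simp [h]

theorem TT.nt {A : Submodule F V} {φ : Dual F V} {x : V} (h : TT G A (fun v => φ v • x)) {z : V}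
    (hz : φ z ≠ 0) (hx : x ≠ 0) : NT G := by
  obtain ⟨a1, a2, t, ht, e⟩ := h
  refine ⟨φ, x, ⟨t, ht, e⟩, ?_, fun h => hz (by simp [h]), hx⟩
  have := a2 _ (a1 z)
  simpa [hz, hx] using this

namespace Cfg
variable {W : Submodule F V} {u w y : V} {l : Dual F V}

theorem lu (h : Cfg E G W u w y l) : l u = 0 := h.lW u h.uW (self_mem_line u)

theorem exists_s (h : Cfg E G W u w y l) (c : F) : ∃ s ∈ G, (∀ v, s v - v ∈ W) ∧
    (∀ a ∈ line F E u, s a = a + (c * l a) • u) ∧ ∀ a ∈ line F E u, s.symm a = a - (c * l a) • u := by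
  obtain ⟨s, hs, e1, e2, e3⟩ := h.good y h.yW (c • u) (W.smul_mem c h.uW)
  have e4 : ∀ a ∈ line F E u, s a = a + (c * l a) • u := fun a ha => by
    have := e3 _ (h.dec a ha)
    rw [map_sub, map_smul, e1] at this
    linear_combination (norm := module) this
  refine ⟨s, hs, e2, e4, fun a ha => ?_⟩
  rw [LinearEquiv.symm_apply_eq, map_sub, map_smul, e4 a ha, e3 u h.uW]; abel

theorem tt_D (hr : 1 < finrank F E) (hG : HasLin E G) (h : Cfg E G W u w y l) (c : F) (e : E) {f : V → V}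
    (hf : TT G (line F E u) f) : TT G (line F E u) (fun v =>
      (c * l (e • f v)) • u - (c * l (f v)) • e • u - (c ^ 2 * l (f v) * l (e • u)) • u) := by
  obtain ⟨s, hs, -, e1, e2⟩ := h.exists_s c
  have m1 : ∀ a ∈ line F E u, s a ∈ line F E u := fun a ha => by
    rw [e1 a ha]; exact Submodule.add_mem _ ha (Submodule.smul_mem _ _ (self_mem_line u))
  have m2 : ∀ a ∈ line F E u, s.symm a ∈ line F E u := fun a ha => by
    rw [e2 a ha]; exact Submodule.sub_mem _ ha (Submodule.smul_mem _ _ (self_mem_line u))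
  have h1 := (((hf.conj (G.inv_mem hs) m2 m1).smul hr hG h.u0 e).conj hs m1 m2).sub (hf.smul hr hG h.u0 e)
  convert h1 using 2 with v
  have e3 : (s⁻¹).symm (s.symm v) = v := s.apply_symm_apply v
  rw [e3, LinearEquiv.coe_inv, e1 _ (esmul_mem_line (m2 _ (hf.1 v)) e), e2 _ (hf.1 v), smul_sub,
    smul_comm e (c * l (f v)) u, map_sub, l.map_smul, smul_eq_mul]
  module

theorem exists_chi (hm : 2 ≤ finrank E V) (u : V) : ∃ χ : Dual E V, χ u = 0 ∧ ∀ e, ∃ z, χ z = e := by
  obtain ⟨χ, h1, h2⟩ := exists_dual_ker hm u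
  obtain ⟨z, hz⟩ := exists_dual_apply_ne h1
  exact ⟨χ, h2, fun e => ⟨(e / χ z) • z, by simp [hz]⟩⟩

/-- the functional `v ↦ l (χ v • u)` -/
def lc (l : Dual F V) (χ : Dual E V) (u : V) : Dual F V :=
  l ∘ₗ (χ.smulRight u).restrictScalars F

@[simp] theorem lc_apply (l : Dual F V) (χ : Dual E V) (u v : V) : lc l χ u v = l (χ v • u) := rfl

theorem nt_one (hr : 1 < finrank F E) (hm : 2 ≤ finrank E V) (hG : HasLin E G) (h : Cfg E G W u w y l)
    {c : F} (hc0 : c ≠ 0) (hc1 : c ≠ 1) : NT G := by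
  obtain ⟨χ, h1, h2⟩ := exists_chi hm u
  obtain ⟨e, rfl⟩ := mem_line.1 h.yu
  obtain ⟨z, hz⟩ := h2 e
  have h3 := ((h.tt_D hr hG 1 e (tt_base hG h1)).smul hr hG h.u0 (algebraMap F E c)).sub
    (h.tt_D hr hG c e (tt_base hG h1))
  refine TT.nt (φ := (c ^ 2 - c) • lc l χ u) (x := u) (z := z) (A := line F E u) ?_ ?_ h.u0
  · convert h3 using 2 with v
    rw [algebraMap_smul, h.ly, LinearMap.smul_apply, lc_apply, smul_eq_mul]
    module
  · rw [LinearMap.smul_apply, lc_apply, hz, h.ly, smul_eq_mul, mul_one, sq, ← mul_sub_one]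
    exact mul_ne_zero hc0 (sub_ne_zero.2 hc1)

theorem nt_two (hr : (finrank F E).Prime) (hr3 : 3 ≤ finrank F E) (hm : 2 ≤ finrank E V) (hG : HasLin E G)
    (h : Cfg E G W u w y l) : NT G := by
  have := finV (F := F) (E := E) (V := V)
  obtain ⟨χ, h1, h2⟩ := exists_chi hm u
  obtain ⟨e, rfl⟩ := mem_line.1 h.yu
  have he : e ∉ (algebraMap F E).range := by
    rintro ⟨c, rfl⟩
    exact h.yW (by rw [algebraMap_smul]; exact W.smul_mem c h.uW)
  let l' : Dual F V := l ∘ₗ (LinearMap.lsmul E V e).restrictScalars F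
  have hl' : ∀ v, l' v = l (e • v) := fun _ => rfl
  let Z : Submodule F V := (line F E u ⊓ LinearMap.ker l) ⊓ LinearMap.ker l'
  obtain ⟨k0, hk0, hk00⟩ := exists_ne_zero_of_finrank_pos (A := Z) (by
    have a1 := finrank_le_finrank_inf_ker (line F E u) l
    have a2 := finrank_le_finrank_inf_ker (line F E u ⊓ LinearMap.ker l) l'
    rw [finrank_line h.u0] at a1
    simp only [Z]; omega)
  obtain ⟨k, hk, hk'⟩ : ∃ k ∈ Z, e • k ∉ Z := by
    by_contra hc
    push Not at hc
    have h3 : e • u ∈ line F E k0 := by rw [line_eq hk0.1.1 hk00]; exact smul_mem_line e u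
    obtain ⟨c, hc'⟩ := mem_line.1 h3
    have h4 := (stab_top hr he hc c k0 hk0).1.2
    rw [hc'] at h4
    exact one_ne_zero (h.ly.symm.trans h4)
  obtain ⟨e', rfl⟩ := mem_line.1 hk.1.1
  have k1 : l (e' • u) = 0 := hk.1.2
  have k2 : l (e • e' • u) = 0 := hk.2
  have k3 : l (e • e • e' • u) ≠ 0 := fun h5 => hk' ⟨⟨esmul_mem_line hk.1.1 e, k2⟩, h5⟩
  have h3 := h.tt_D hr.one_lt hG 1 e ((h.tt_D hr.one_lt hG 1 e (tt_base hG h1)).smul hr.one_lt hG h.u0 e')
  obtain ⟨z, hz⟩ := h2 e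
  refine TT.nt (φ := (-l (e • e • e' • u)) • lc l χ u) (x := u) (z := z) (A := line F E u) ?_ ?_ h.u0
  · convert h3 using 2 with v
    simp only [smul_sub, smul_comm e' (_ : F), smul_comm e (_ : F), map_sub, map_smul, k1, k2,
      smul_comm e' e u, LinearMap.smul_apply, lc_apply, smul_eq_mul]
    module
  · rw [LinearMap.smul_apply, lc_apply, hz, h.ly, smul_eq_mul, mul_one]
    exact neg_ne_zero.2 k3

theorem nt_three (hm : 3 ≤ finrank E V) (hG : HasLin E G) (h : Cfg E G W u w y l) : NT G := by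
  obtain ⟨z0, -, hz0⟩ := exists_mem_notMem_of_finrank_lt (U := ⊤) (W := (E ∙ u) ⊔ E ∙ w) (by
    have a1 := finrank_sup_span_le (E ∙ u) w
    have a2 := finrank_span_singleton_le (F := E) u
    rw [finrank_top]; omega)
  obtain ⟨χ, e1, e2⟩ := exists_dual_one hz0
  have e3 := e2 u (Submodule.mem_sup_left (Submodule.mem_span_singleton_self u))
  have e4 := e2 w (Submodule.mem_sup_right (Submodule.mem_span_singleton_self w))
  have e5 : ∀ x ∈ W, χ x = 0 := fun x hx => by
    obtain ⟨c, hc⟩ := h.span x hx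
    have := e2 _ (Submodule.mem_sup_left hc)
    rwa [map_sub, ← algebraMap_smul E c w, map_smul, e4, smul_zero, sub_zero] at this
  obtain ⟨s, hs, f1, f2, f3⟩ := h.exists_s 1
  have h3 := ((tt_base hG e3).conj hs
    (fun a ha => by rw [f2 a ha]; exact Submodule.add_mem _ ha (Submodule.smul_mem _ _ (self_mem_line u)))
    (fun a ha => by
      rw [f3 a ha]; exact Submodule.sub_mem _ ha (Submodule.smul_mem _ _ (self_mem_line u)))).sub
    (tt_base hG e3)
  obtain ⟨e, rfl⟩ := mem_line.1 h.yu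
  refine TT.nt (φ := lc l χ u) (x := u) (z := e • z0) (A := line F E u) ?_ (by simp [e1, h.ly]) h.u0
  convert h3 using 2 with v
  have : χ (s.symm v) = χ v := by
    have := e5 _ (f1 (s.symm v))
    rw [map_sub, LinearEquiv.apply_symm_apply, sub_eq_zero] at this
    exact this.symm
  rw [this, f2 _ (smul_mem_line _ _)]; simp

end Cfg

end Cfsg.Agent.H1.C3b
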