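import Cfsg.Agent.H1.C3b

/-!
Extension field subgroups of prime degree are maximal (abstract form).
-/

set_option autoImplicit false
set_option linter.unusedSectionVars false
set_option linter.unusedSimpArgs false

namespace Cfsg.Agent.H1.C3c

open Module Cfsg.Agent.H7 Cfsg.Agent.H1.C3a Cfsg.Agent.H1.C3b

variable {F E V : Type*} [Field F] [Field E] [Algebra F E] [AddCommGroup V] [Module F V] [Module E V]
  [IsScalarTower F E V] [FiniteDimensional E V] [Finite E] {G : Subgroup (V ≃ₗ[F] V)}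

theorem exists_lin (hF : ∀ c : F, c = 0 ∨ c = 1) (hG : HasLin E G) {u w : V} {ξ η : Dual E V}
    (h : ∀ v, v = ξ v • u + η v • w) (u' w' : V) (h' : ∀ a b : E, a • u' + b • w' = 0 → a = 0 ∧ b = 0) :
    ∃ t ∈ G, ∀ v, t v = ξ v • u' + η v • w' := by
  let L : V →ₗ[E] V := ξ.smulRight u' + η.smulRight w'
  have hL : Function.Injective L := by
    rw [injective_iff_map_eq_zero]
    intro v hv
    obtain ⟨h1, h2⟩ := h' _ _ hv
    rw [h v, h1, h2]; simp
  refine ⟨_, hG (LinearEquiv.ofInjectiveEndo L hL) ?_, fun v => rfl⟩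
  have := finite_FE (F := F) (E := E)
  exact (hF _).resolve_left (Algebra.norm_ne_zero_iff.2 (Units.ne_zero _))

theorem nt_four (hF : ∀ c : F, c = 0 ∨ c = 1) (hr : finrank F E = 2) (hm : finrank E V = 2) (hG : HasLin E G)
    {W : Submodule F V} {u w y : V} {l : Dual F V} (h : Cfg E G W u w y l) : NT G := by
  have := finite_FE (F := F) (E := E)
  obtain ⟨ω, rfl⟩ := mem_line.1 h.yu
  have two : (1 : F) + 1 = 0 := (hF _).resolve_right (by simp)
  have h2 : ∀ v : V, v + v = 0 := fun v => by rw [← one_smul F v, ← add_smul, two, zero_smul]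
  have h3 : ∀ a b : V, a + (a + b) = b := fun a b => by rw [← add_assoc, h2, zero_add]
  have two' : (1 : E) + 1 = 0 := by simpa using congrArg (algebraMap F E) two
  have hω : ω ∉ F ∙ (1 : E) := by
    intro h1
    obtain ⟨c, rfl⟩ := Submodule.mem_span_singleton.1 h1
    exact h.yW (by simpa using W.smul_mem c h.uW)
  have hω0 : ω ≠ 0 := by rintro rfl; exact hω (zero_mem _)
  have hω1 : ω ≠ 1 := by rintro rfl; exact hω (Submodule.mem_span_singleton_self _)
  have hE : ∀ e : E, ∃ a b : F, e = a • (1 : E) + b • ω := by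
    intro e
    have h1 : (F ∙ (1 : E)) ⊔ F ∙ ω = ⊤ := Submodule.eq_top_of_finrank_eq (by
      rw [Submodule.finrank_sup_span_singleton hω, finrank_span_singleton one_ne_zero, hr])
    obtain ⟨a, ha, b, rfl⟩ := mem_sup_span_iff.1 (h1 ▸ Submodule.mem_top : e ∈ (F ∙ (1 : E)) ⊔ F ∙ ω)
    obtain ⟨c, rfl⟩ := Submodule.mem_span_singleton.1 ha
    exact ⟨c, b, rfl⟩
  have hω2 : ω * ω = 1 + ω := by
    obtain ⟨a, b, e⟩ := hE (ω * ω)
    rcases hF a with rfl | rfl <;> rcases hF b with rfl | rfl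
    · simp [hω0] at e
    · simp [hω0, hω1] at e
    · exfalso
      have : (ω - 1) ^ 2 = 0 := by
        simp only [one_smul, zero_smul, add_zero] at e
        linear_combination e + (1 - ω) * two'
      exact hω1 (sub_eq_zero.1 (pow_eq_zero_iff two_ne_zero |>.1 this))
    · simpa using e
  obtain ⟨τ1, a1, a2⟩ := exists_dual_one hω
  replace a2 := a2 1 (Submodule.mem_span_singleton_self _)
  have hω' : (1 : E) ∉ F ∙ ω := by
    intro h1
    obtain ⟨c, hc⟩ := Submodule.mem_span_singleton.1 h1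
    rcases hF c with rfl | rfl
    · simp at hc
    · exact hω1 (by simpa using hc)
  obtain ⟨τ0, a3, a4⟩ := exists_dual_one hω'
  replace a4 := a4 ω (Submodule.mem_span_singleton_self _)
  have hwu : w ∉ E ∙ u := h.wu
  have huw : u ∉ E ∙ w := by
    intro h1
    obtain ⟨c, hc⟩ := Submodule.mem_span_singleton.1 h1
    have hc0 : c ≠ 0 := by rintro rfl; exact h.u0 (by simpa using hc.symm)
    exact hwu (Submodule.mem_span_singleton.2 ⟨c⁻¹, by rw [← hc, smul_smul, inv_mul_cancel₀ hc0, one_smul]⟩)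
  obtain ⟨ξ, b1, b2⟩ := exists_dual_one huw
  replace b2 := b2 w (Submodule.mem_span_singleton_self _)
  obtain ⟨η, b3, b4⟩ := exists_dual_one hwu
  replace b4 := b4 u (Submodule.mem_span_singleton_self _)
  have hV : ∀ v, v = ξ v • u + η v • w := by
    intro v
    have h1 : (E ∙ u) ⊔ E ∙ w = ⊤ := Submodule.eq_top_of_finrank_eq (by
      rw [Submodule.finrank_sup_span_singleton hwu, finrank_span_singleton h.u0, hm])
    obtain ⟨a, ha, b, rfl⟩ := mem_sup_span_iff.1 (h1 ▸ Submodule.mem_top : v ∈ (E ∙ u) ⊔ E ∙ w)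
    obtain ⟨c, rfl⟩ := Submodule.mem_span_singleton.1 ha
    simp [b1, b2, b3, b4]
  have ext4 : ∀ (g : V ≃ₗ[F] V) (φ : Dual F V) (x : V), g u = u + φ u • x → g (ω • u) = ω • u + φ (ω • u) • x →
      g w = w + φ w • x → g (ω • w) = ω • w + φ (ω • w) • x → ∀ z, g z = z + φ z • x := by
    intro g φ x c1 c2 c3 c4 z
    obtain ⟨a, b, e1⟩ := hE (ξ z)
    obtain ⟨c, d, e2⟩ := hE (η z)
    have e3 := hV z
    rw [e1, e2, add_smul, add_smul, smul_assoc, smul_assoc, smul_assoc, smul_assoc, one_smul, one_smul] at e3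
    generalize ω • u = p at *
    generalize ω • w = r at *
    rw [e3]
    simp only [map_add, map_smul, c1, c2, c3, c4, smul_eq_mul]
    module
  obtain ⟨s, hs, s1, s2, s3⟩ := h.good _ h.yW w h.wW
  have su := s3 u h.uW
  have sw := s3 w h.wW
  obtain ⟨a, c, sr⟩ : ∃ a c : F, s (ω • w) = ω • w + a • u + c • w := by
    obtain ⟨c, hc⟩ := h.span _ (s2 (ω • w))
    have h4 := h.lW _ (W.sub_mem (s2 _) (W.smul_mem c h.wW)) hc
    obtain ⟨e, he⟩ := mem_line.1 hc
    obtain ⟨a, b, rfl⟩ := hE e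
    rw [← he, add_smul, smul_assoc, smul_assoc, one_smul, map_add, l.map_smul, l.map_smul, h.lu, h.ly] at h4
    rw [show b = 0 by simpa using h4, zero_smul, add_zero, smul_assoc, one_smul] at he
    exact ⟨a, c, by rw [he]; abel⟩
  let φa : Dual F V := τ1 ∘ₗ ξ.restrictScalars F
  let φb : Dual F V := τ1 ∘ₗ η.restrictScalars F
  let φc : Dual F V := τ0 ∘ₗ η.restrictScalars F
  have w0 : w ≠ 0 := by rintro rfl; simp at b3
  have ωω : ∀ v : V, ω • ω • v = v + ω • v := fun v => by rw [smul_smul, hω2, add_smul, one_smul]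
  rcases hF a with rfl | rfl
  · refine ⟨φa + c • φb, w, ⟨s, hs, ext4 _ _ _ ?_ ?_ ?_ ?_⟩, ?_, fun h5 => ?_, w0⟩
    · simp [φa, φb, a1, a2, b1, b2, b3, b4, su, sw, s1, sr]
    · simp [φa, φb, a1, a2, b1, b2, b3, b4, su, sw, s1, sr]
    · simp [φa, φb, a1, a2, b1, b2, b3, b4, su, sw, s1, sr]
    · simp [φa, φb, a1, a2, b1, b2, b3, b4, su, sw, s1, sr]
    · simp [φa, φb, a1, a2, b1, b2, b3, b4, su, sw, s1, sr]
    · simpa [φa, φb, a1, a2, b1, b2, b3, b4, su, sw, s1, sr] using LinearMap.congr_fun h5 (ω • u)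
  rcases hF c with rfl | rfl
  · obtain ⟨t, ht, e⟩ := exists_lin hF hG hV u (u + ω • u + ω • w) (fun a b hab => by
      have d1 := congrArg ξ hab
      have d2 := congrArg η hab
      simp [b1, b2, b3, b4, hω0] at d1 d2
      simpa [d2] using d1)
    have tu : t u = u := by simp [e, b1, b2, b3, b4]
    have tp : t (ω • u) = ω • u := by simp [e, b1, b2, b3, b4]
    have tw : t w = u + ω • u + ω • w := by simp [e, b1, b2, b3, b4]
    have tr : t (ω • w) = u + w + ω • w := by
      simp [e, b1, b2, b3, b4, ωω, h2, h3, add_comm, add_left_comm, add_assoc]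
    simp only [one_smul, zero_smul, add_zero] at sr
    refine ⟨φa + φb, ω • u + ω • w, ⟨s * t * s * t, G.mul_mem (G.mul_mem (G.mul_mem hs ht) hs) ht,
      ext4 _ _ _ ?_ ?_ ?_ ?_⟩, ?_, fun h5 => ?_, fun h5 => ?_⟩
    · simp [φa, φb, b1, b4, a2, tu, su]
    · simp [φa, φb, b1, b4, a1, tu, su, tp, s1, sw, tw, sr, h2, h3, add_comm, add_left_comm, add_assoc]
    · simp [φa, φb, b2, b3, a2, tu, su, tp, s1, sw, tw, sr, tr, h2, h3, add_comm, add_left_comm, add_assoc]
    · simp [φa, φb, b2, b3, a1, tu, su, tp, s1, sw, tw, sr, tr, h2, h3, add_comm, add_left_comm, add_assoc]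
    · simp [φa, φb, b1, b2, b3, b4, a1, two]
    · simpa [φa, φb, b1, b4, a1] using LinearMap.congr_fun h5 (ω • u)
    · simpa [b1, b2, hω0] using congrArg ξ h5
  · obtain ⟨t, ht, e⟩ := exists_lin hF hG hV (u + w + ω • w) (u + ω • u) (fun a b hab => by
      have d1 := congrArg ξ hab
      have d2 := congrArg η hab
      simp only [map_add, map_smul, b1, b2, b3, b4, smul_eq_mul, map_zero] at d1 d2
      have d3 : a = 0 := by linear_combination ω * d2 - a * hω2 - a * ω * two'
      refine ⟨d3, ?_⟩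
      linear_combination ω * d1 - b * hω2 - b * ω * two' - ω * d3)
    have tu : t u = u + w + ω • w := by simp [e, b1, b2, b3, b4]
    have tp : t (ω • u) = ω • u + w := by
      simp [e, b1, b2, b3, b4, ωω, h2, h3, add_comm, add_left_comm, add_assoc]
    have tw : t w = u + ω • u := by simp [e, b1, b2, b3, b4]
    have tr : t (ω • w) = u := by
      simp [e, b1, b2, b3, b4, ωω, h2, h3, add_comm, add_left_comm, add_assoc]
    simp only [one_smul] at sr
    refine ⟨φc, u + ω • w, ⟨s * t * s * t, G.mul_mem (G.mul_mem (G.mul_mem hs ht) hs) ht,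
      ext4 _ _ _ ?_ ?_ ?_ ?_⟩, ?_, fun h5 => ?_, fun h5 => ?_⟩
    · simp [φc, b4, tu, su, tp, s1, sw, tw, sr, tr, h2, h3, add_comm, add_left_comm, add_assoc]
    · simp [φc, b4, tu, su, tp, s1, sw, tw, sr, tr, h2, h3, add_comm, add_left_comm, add_assoc]
    · simp [φc, b3, a3, tu, su, tp, s1, sw, tw, sr, tr, h2, h3, add_comm, add_left_comm, add_assoc]
    · simp [φc, b3, a4, tu, su, tp, s1, sw, tw, sr, tr, h2, h3, add_comm, add_left_comm, add_assoc]
    · simp [φc, b3, b4, a4]
    · simpa [φc, b3, a3] using LinearMap.congr_fun h5 w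
    · simpa [b1, b2] using congrArg ξ h5

theorem abstract_max (hr : (finrank F E).Prime) (hm : 2 ≤ finrank E V) (hG : HasLin E G) :
    (∀ g ∈ G, Semi E g) ∨ ∀ g, LinearEquiv.det g = 1 → g ∈ G := by
  by_cases h1 : ∀ W, Orb E G W → ∃ y, W = line F E y
  · exact Or.inl fun g hg => semi_of_lines hm fun x hx => h1 _ ((orb_line hx).map hg)
  push Not at h1
  obtain ⟨W0, h1, h2⟩ := h1
  obtain ⟨W, u, w, y, l, h⟩ := exists_cfg hr hG h1 h2
  have : NT G := by
    by_cases hF : ∀ c : F, c = 0 ∨ c = 1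
    · by_cases hr3 : 3 ≤ finrank F E
      · exact h.nt_two hr hr3 hm hG
      by_cases hm3 : 3 ≤ finrank E V
      · exact h.nt_three hm3 hG
      exact nt_four hF (by have := hr.two_le; omega) (by omega) hG h
    · push Not at hF
      obtain ⟨c, h0, h1⟩ := hF
      exact h.nt_one hr.one_lt hm hG h0 h1
  obtain ⟨φ, x, a1, a2, a3, a4⟩ := this
  exact Or.inr (all_of_has hr.one_lt hm hG a1 a2 a3 a4)

end Cfsg.Agent.H1.C3c
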