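import Cfsg.Agent.H1.C3c
import Cfsg.Agent.H7.Sp7

/-!
Normalisers of extension fields in `GL` and `SL`.
-/

set_option autoImplicit false
set_option linter.unusedSectionVars false

namespace Cfsg.Agent.H1.C3d

open Module Cfsg.Agent.H7 Cfsg.Agent.H1.C3a Cfsg.Agent.H1.C3b
open scoped Matrix

section abstract
variable {F E V : Type*} [Field F] [Field E] [Algebra F E] [AddCommGroup V] [Module F V] [Module E V]
  [IsScalarTower F E V] [FiniteDimensional E V] [Finite E]

theorem exists_semi_det (hm : 1 ≤ finrank E V) (c : Fˣ) :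
    ∃ g : V ≃ₗ[F] V, Semi E g ∧ LinearEquiv.det g = c := by
  obtain ⟨a, ha⟩ := FiniteField.norm_surjective F E (c : F)
  have := finite_FE (F := F) (E := E)
  have ha0 : a ≠ 0 := by rintro rfl; exact c.ne_zero (by rw [← ha, Algebra.norm_zero])
  obtain ⟨y, -, hy⟩ := exists_ne_zero_of_finrank_pos (A := (⊤ : Submodule E V)) (by rw [finrank_top]; omega)
  obtain ⟨ξ, e1, -⟩ := exists_dual_one (F := E) (W := ⊥) (x := y) (by simpa using hy)
  obtain ⟨g, hg, -⟩ := exists_dilat (φ := (a - 1) • ξ) (v := y) (by simpa [e1] using ha0)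
  refine ⟨g.restrictScalars F, fun e => ⟨e, fun v => g.map_smul e v⟩, Units.ext ?_⟩
  rw [det_restrict, hg, ← ha]; simp [e1]

theorem exists_not_semi (hm : 2 ≤ finrank E V) (E₀ : IntermediateField F E) (h0 : E₀ ≠ ⊤) :
    ∃ t : V ≃ₗ[F] V, LinearEquiv.det t = 1 ∧ (∀ a ∈ E₀, ∀ v, t (a • v) = a • t v) ∧ ¬ Semi E t := by
  obtain ⟨e, he⟩ : ∃ e, e ∉ E₀ := by
    by_contra hc; push Not at hc
    exact h0 (eq_top_iff.2 fun x _ => hc x)
  have : FiniteDimensional E₀ V := Module.Finite.trans E V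
  have : IsScalarTower F E₀ V := ⟨fun c k v => smul_assoc c (k : E) v⟩
  obtain ⟨u, -, hu⟩ := exists_ne_zero_of_finrank_pos (A := (⊤ : Submodule E V)) (by rw [finrank_top]; omega)
  obtain ⟨z, -, hz⟩ := exists_mem_notMem_of_finrank_lt (U := ⊤) (W := E ∙ u)
    (lt_of_le_of_lt (finrank_span_singleton_le u) (by rw [finrank_top]; omega))
  obtain ⟨χ, e1, e2⟩ := exists_dual_one (F := E₀) (W := (E ∙ u).restrictScalars E₀) hz
  have e3 : ∀ a : E, χ (a • u) = 0 := fun a => e2 _ (Submodule.mem_span_singleton.2 ⟨a, rfl⟩)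
  have e4 : χ u = 0 := by simpa using e3 1
  obtain ⟨g, hg, e5⟩ := exists_dilat (φ := χ) (v := u) (by simp [e4])
  refine ⟨g.restrictScalars F, Units.ext ?_, fun a ha v => g.map_smul (⟨a, ha⟩ : E₀) v, fun h => ?_⟩
  · rw [det_restrict, hg, e4]; simp
  · obtain ⟨e', h⟩ := h e
    replace h : ∀ v, g (e • v) = e' • g v := h
    have h1 := h u
    rw [e5, e5, e3, e4, zero_smul, add_zero, add_zero] at h1
    have h2 := h z
    rw [← smul_left_injective E hu h1, e5, e5, e1, one_smul, smul_add, add_right_inj] at h2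
    have h3 : ((χ (e • z) : E₀) : E) = e := smul_left_injective E hu h2
    exact he (h3 ▸ (χ (e • z)).2)

end abstract

variable {ι : Type} [Fintype ι] [DecidableEq ι] {F : Type*} [Field F] [Fintype F]

theorem ext_max {r : ℕ} (hr : r.Prime) (hlt : r < Fintype.card ι) {K : Subalgebra F (Matrix ι ι F)}
    (hK : Geo.IsFieldSubalgebra r K) : IsCoatom (Geo.subalgebraNormalizer K) ∧
    Geo.IsMaximalIn (Geo.specialLinear ι F) (Geo.subalgebraNormalizer K ⊓ Geo.specialLinear ι F) := by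
  have : Nonempty ι := Fintype.card_pos_iff.1 (by omega)
  let _ := Asch.fieldOf K hK.comm hK.inv
  let inst : Module K (ι → F) :=
    Module.compHom _ ((Matrix.toLinAlgEquiv' (R := F)).toRingHom.comp K.val.toRingHom)
  have : @IsScalarTower F K (ι → F) Algebra.toSMul inst.toSMul _ :=
    ⟨fun c k v => Matrix.smul_mulVec c k.1 v⟩
  have : FiniteDimensional K (ι → F) := Module.Finite.right F K _
  have h1 := Module.finrank_mul_finrank F K (ι → F)
  rw [finrank_pi', hK.finrank_eq] at h1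
  have hm : 2 ≤ finrank K (ι → F) := by
    by_contra h2
    have := Nat.mul_le_mul_left r (show finrank K (ι → F) ≤ 1 by omega)
    omega
  have h2 := SL_not_le_subalgebraNormalizer (by have := hr.two_le; omega) hK hr.one_lt
  have h3 : ∀ g, g ∈ Geo.subalgebraNormalizer K ↔ Semi K (toLE g) := mem_subalgebraNormalizer_iff' K
  have hr' : (finrank F K).Prime := hK.finrank_eq ▸ hr
  constructor
  · refine ⟨fun h => h2 (h ▸ le_top), fun M hM => ?_⟩
    rcases C3c.abstract_max hr' hm (G := M.map toLE.toMonoidHom) (fun g _ =>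
      ⟨toLE.symm (g.restrictScalars F), hM.le ((h3 _).2 (by
        rw [MulEquiv.apply_symm_apply]; exact fun e => ⟨e, fun v => g.map_smul e v⟩)), by simp⟩) with h | h
    · exact absurd (fun g hg => (h3 g).2 (h _ ⟨g, hg, rfl⟩)) hM.not_ge
    · rw [eq_top_iff]
      intro g _
      obtain ⟨x, hx, e⟩ := exists_semi_det (F := F) (E := K) (V := ι → F) (by omega) (LinearEquiv.det (toLE g))
      obtain ⟨x, rfl⟩ := toLE.surjective x
      obtain ⟨y, hy, e'⟩ := h (toLE (x⁻¹ * g)) (by rw [map_mul, map_mul, map_inv, map_inv, e, inv_mul_cancel])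
      rw [show y = x⁻¹ * g from toLE.injective e'] at hy
      simpa using M.mul_mem (hM.le ((h3 x).2 hx)) hy
  · refine isMaximalIn_of_equiv toLE _ _ (fun g => LinearEquiv.det g = 1)
      (fun g => Semi K g ∧ LinearEquiv.det g = 1) mem_SL_iff (fun g => ?_) (fun g h => h.2)
      (not_le_inf_of_not_le h2) (fun M h4 h5 => ?_)
    · rw [Subgroup.mem_inf, mem_SL_iff, h3]
    · rcases C3c.abstract_max hr' hm (G := M) (fun g hg => h4 _ ⟨fun e => ⟨e, fun v => g.map_smul e v⟩,
        Units.ext (by rw [det_restrict, hg]; rfl)⟩) with h | h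
      · exact Or.inl fun g hg => ⟨h g hg, h5 g hg⟩
      · exact Or.inr h

theorem ext_not_max {r : ℕ} (hr1 : 1 < r) (hr : ¬ r.Prime) (hlt : r < Fintype.card ι)
    {K : Subalgebra F (Matrix ι ι F)} (hK : Geo.IsFieldSubalgebra r K) :
    ∃ M, Geo.subalgebraNormalizer K ≤ M ∧ ¬ Geo.specialLinear ι F ≤ M ∧
      ¬ M ⊓ Geo.specialLinear ι F ≤ Geo.subalgebraNormalizer K := by
  have : Nonempty ι := Fintype.card_pos_iff.1 (by omega)
  let _ := Asch.fieldOf K hK.comm hK.inv
  let inst : Module K (ι → F) :=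
    Module.compHom _ ((Matrix.toLinAlgEquiv' (R := F)).toRingHom.comp K.val.toRingHom)
  have : @IsScalarTower F K (ι → F) Algebra.toSMul inst.toSMul _ :=
    ⟨fun c k v => Matrix.smul_mulVec c k.1 v⟩
  have : FiniteDimensional K (ι → F) := Module.Finite.right F K _
  have h1 := Module.finrank_mul_finrank F K (ι → F)
  rw [finrank_pi', hK.finrank_eq] at h1
  have hm : 2 ≤ finrank K (ι → F) := by
    by_contra h2
    have := Nat.mul_le_mul_left r (show finrank K (ι → F) ≤ 1 by omega)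
    omega
  have h3 : ∀ g, g ∈ Geo.subalgebraNormalizer K ↔ Semi K (toLE g) := mem_subalgebraNormalizer_iff' K
  obtain ⟨p, hp, hp2, hpr⟩ := Nat.exists_dvd_of_not_prime2 hr1 hr
  let τ := FiniteField.frobeniusAlgEquivOfAlgebraic F K
  have hτ : orderOf τ = r := by rw [FiniteField.orderOf_frobeniusAlgEquivOfAlgebraic, hK.finrank_eq]
  let E₀ := IntermediateField.fixedField (Subgroup.zpowers (τ ^ p))
  have hE : ∀ k : K, k ∈ E₀ ↔ k ^ (Fintype.card F ^ p) = k := by
    intro k
    have e : (τ ^ p) k = k ^ (Fintype.card F ^ p) := by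
      rw [AlgEquiv.coe_pow, FiniteField.coe_frobeniusAlgEquivOfAlgebraic_iterate]
    rw [IntermediateField.mem_fixedField_iff, ← e]
    refine ⟨fun h => h _ (Subgroup.mem_zpowers _), fun h f hf => ?_⟩
    exact (Subgroup.zpowers_le_of_mem (H := MulAction.stabilizer _ k) h hf :)
  have hd : finrank E₀ K = r / p := by
    rw [IntermediateField.finrank_fixedField_eq_card, Nat.card_zpowers, orderOf_pow' _ (by omega), hτ,
      Nat.gcd_eq_right hp]
  have hd' : finrank F E₀ = p := by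
    have := Module.finrank_mul_finrank F E₀ K
    rw [hd, hK.finrank_eq] at this
    obtain ⟨s, rfl⟩ := hp
    rw [Nat.mul_div_cancel_left _ (by omega)] at this
    exact Nat.eq_of_mul_eq_mul_right (Nat.pos_of_ne_zero (by rintro rfl; omega)) this
  have hne : E₀ ≠ ⊤ := by
    intro h
    rw [h, IntermediateField.finrank_top', hK.finrank_eq] at hd'
    omega
  let K₀ : Subalgebra F (Matrix ι ι F) := E₀.toSubalgebra.map K.val
  have hK₀ : Geo.IsFieldSubalgebra p K₀ := by
    refine ⟨?_, ?_, ?_⟩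
    · rintro _ ⟨x, -, rfl⟩ _ ⟨y, -, rfl⟩; exact hK.comm _ x.2 _ y.2
    · rintro _ ⟨x, hx, rfl⟩ h0
      exact ⟨_, ⟨x⁻¹, E₀.inv_mem hx, rfl⟩,
        congrArg Subtype.val (mul_inv_cancel₀ (a := x) (fun h => h0 (by rw [h]; rfl)))⟩
    · rw [← hd']
      exact (E₀.toSubalgebra.equivMapOfInjective K.val Subtype.val_injective).toLinearEquiv.finrank_eq.symm
  refine ⟨Geo.subalgebraNormalizer K₀, fun g hg => mem_subalgebraNormalizer_of ?_,
    SL_not_le_subalgebraNormalizer (by omega) hK₀ hp2, fun h => ?_⟩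
  · rintro _ ⟨x, hx, rfl⟩
    refine ⟨⟨_, (hg x).1 x.2⟩, (hE _).2 (Subtype.ext ?_), rfl⟩
    have := congrArg Subtype.val ((hE x).1 hx)
    rw [SubmonoidClass.coe_pow] at this ⊢
    exact (Units.conj_pow g _ _).trans (by rw [this])
  · obtain ⟨t, a1, a2, a3⟩ := exists_not_semi (V := ι → F) hm E₀ hne
    obtain ⟨t, rfl⟩ := toLE.surjective t
    refine a3 ((h3 t).1 (h ⟨(mem_subalgebraNormalizer_iff' _ _).2 ?_, (mem_SL_iff _).2 a1⟩))
    rintro ⟨_, x, hx, rfl⟩
    exact ⟨⟨_, x, hx, rfl⟩, a2 x hx⟩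

end Cfsg.Agent.H1.C3d
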