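import Cfsg.Agent.H5.Char

set_option autoImplicit false

/-! Sums of class functions over the conjugates of an abelian self-centralising subgroup. -/

namespace Cfsg.Agent.H1.DG5
open Cfsg Finset Cfsg.Agent.H5.Char

theorem ti {G : Type*} [Group G] [Fintype G] (P : Subgroup G) [Fintype P] (hc : ∀ x ∈ P, ∀ y ∈ P, x * y = y * x)
    (hC : ∀ y ∈ P, y ≠ 1 → ∀ g : G, g * y = y * g → g ∈ P) {y0 : G} (h0 : y0 ∈ P) (h1 : y0 ≠ 1) :
    ∃ (l : ℕ) (O : Finset G), 0 < l ∧ 1 ∉ O ∧ (∀ g, g ∉ O → g = 1 ∨ ∃ y ∈ P, y ≠ 1 ∧ IsConj y g) ∧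
      ∀ F : G → ℂ, IsClassFunction G F →
        l * ∑ g ∈ O, F g = l * (∑ g, F g - F 1) - P.index * (∑ y : P, F y - F 1) ∧
        ((∀ g, IsIntegral ℤ (F g)) → IsIntegral ℤ ((∑ y : P, F y - F 1) / l)) := by
  classical
  set S : Finset G := {y | y ∈ P ∧ y ≠ 1} with hS
  have mS : ∀ y, y ∈ S ↔ y ∈ P ∧ y ≠ 1 := fun y => by simp [hS]
  set ν := #{z : G | ∀ w ∈ P, z * w * z⁻¹ ∈ P} with hν
  have cen : ∀ y ∈ S, Nat.card (Subgroup.centralizer ({y} : Set G)) = Nat.card P := fun y hy => by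
    congr 2
    ext g
    rw [Subgroup.mem_centralizer_singleton_iff]
    exact ⟨hC y ((mS y).1 hy).1 ((mS y).1 hy).2 g, fun h => hc g h y ((mS y).1 hy).1⟩
  have cnt : ∀ y ∈ S, #{y' ∈ S | IsConj y y'} * Nat.card P = ν := fun y hy => by
    obtain ⟨hy1, hy2⟩ := (mS y).1 hy
    have e : (univ.filter fun z : G => ∀ w ∈ P, z * w * z⁻¹ ∈ P) = univ.filter fun z => z * y * z⁻¹ ∈ S := by
      ext z
      simp only [mem_filter, mem_univ, true_and, mS]
      refine ⟨fun h => ⟨h y hy1, by simpa using hy2⟩, fun h w hw => hC _ h.1 h.2 _ ?_⟩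
      simp only [mul_assoc, inv_mul_cancel_left]
      rw [← mul_assoc w, hc w hw y hy1, mul_assoc]
    rw [hν, e, card_eq_sum_card_fiberwise (s := univ.filter fun z => z * y * z⁻¹ ∈ S) (t := S)
      (f := fun z => z * y * z⁻¹) fun z hz => (mem_filter.1 hz).2,
      card_filter, sum_mul]
    refine sum_congr rfl fun y' hy' => ?_
    have := card_conj_eq y y'
    rw [cen y hy] at this
    rw [filter_filter, ite_mul, one_mul, zero_mul]
    convert this.symm using 2
    ext z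
    simp only [mem_filter, mem_univ, true_and, and_iff_right_iff_imp]
    rintro rfl'; rwa [rfl']
  have hy0 : y0 ∈ S := (mS y0).2 ⟨h0, h1⟩
  set l := #{y' ∈ S | IsConj y0 y'} with hl
  have cl : ∀ y ∈ S, #{y' ∈ S | IsConj y y'} = l := fun y hy =>
    Nat.eq_of_mul_eq_mul_right Nat.card_pos ((cnt y hy).trans (cnt y0 hy0).symm)
  have l0 : 0 < l := card_pos.2 ⟨y0, mem_filter.2 ⟨hy0, IsConj.refl _⟩⟩
  set K : Finset G := {g | ∃ y ∈ S, IsConj y g} with hK
  have K1 : 1 ∉ K := fun h => by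
    obtain ⟨y, hy, h⟩ := (mem_filter.1 h).2
    exact ((mS y).1 hy).2 (isConj_one_left.1 h)
  have sP : ∀ F : G → ℂ, ∑ y : P, F y - F 1 = ∑ y ∈ S, F y := fun F => by
    rw [← sum_subtype (p := (· ∈ P)) (insert 1 S) (fun x => by
      rw [mem_insert, mS]; exact ⟨fun h => h.elim (· ▸ P.one_mem) And.left, fun h => or_iff_not_imp_left.2 fun e => ⟨h, e⟩⟩),
      sum_insert (by simp [mS]), add_sub_cancel_left]
  refine ⟨l, (insert 1 K)ᶜ, l0, by simp, fun g hg => ?_, fun F hF => ⟨?_, fun hI => ?_⟩⟩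
  · rcases mem_insert.1 (notMem_compl.1 hg) with h | h
    · exact .inl h
    · obtain ⟨y, hy, h⟩ := (mem_filter.1 h).2
      exact .inr ⟨y, ((mS y).1 hy).1, ((mS y).1 hy).2, h⟩
  · have cF : ∀ x y, IsConj x y → F x = F y := fun x y h => by
      obtain ⟨c, rfl⟩ := isConj_iff.1 h; exact (hF x c).symm
    have e : l * ∑ g ∈ K, F g = P.index * ∑ y ∈ S, F y := by
      have a : l * ∑ g ∈ K, F g = ∑ g ∈ K, ∑ y ∈ S, if IsConj y g then F y else 0 := by
        rw [mul_sum]
        refine sum_congr rfl fun g hg => ?_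
        obtain ⟨y, hy, h⟩ := (mem_filter.1 hg).2
        rw [← sum_filter, sum_congr rfl (g := fun _ => F g) fun z hz => cF _ _ (mem_filter.1 hz).2, sum_const,
          nsmul_eq_mul, ← cl y hy]
        congr 3
        exact filter_congr fun z _ => ⟨fun e => e.symm.trans h, fun e => h.trans e.symm⟩
      rw [a, sum_comm, mul_sum]
      refine sum_congr rfl fun y hy => ?_
      rw [← sum_filter, sum_const, nsmul_eq_mul]
      congr 2
      refine Nat.eq_of_mul_eq_mul_right (Nat.card_pos (α := P)) ?_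
      rw [P.index_mul_card, Nat.card_eq_fintype_card (α := G), ← card_univ,
        card_eq_sum_card_fiberwise (s := univ) (t := {g ∈ K | IsConj y g}) (f := fun z => z * y * z⁻¹) fun z _ =>
          mem_filter.2 ⟨mem_filter.2 ⟨mem_univ _, y, hy, isConj_iff.2 ⟨z, rfl⟩⟩, isConj_iff.2 ⟨z, rfl⟩⟩,
        ← smul_eq_mul, ← sum_const]
      refine sum_congr rfl fun g hg => ?_
      have := card_conj_eq y g
      rw [cen y hy, if_pos (mem_filter.1 hg).2] at this
      convert this.symm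
    rw [sP, ← e, ← mul_sub, ← sum_add_sum_compl (insert 1 K), sum_insert K1]
    ring
  · obtain ⟨r, hr⟩ := (ConjClasses.mk_surjective (α := G)).hasRightInverse
    have cF : ∀ y, F y = F (r (ConjClasses.mk y)) := fun y => by
      obtain ⟨c, e⟩ := isConj_iff.1 (ConjClasses.mk_eq_mk_iff_isConj.1 (hr (ConjClasses.mk y)))
      conv_lhs => rw [← e]
      exact hF _ c
    rw [sP, sum_congr rfl fun y _ => cF y, sum_comp (fun c => F (r c)) ConjClasses.mk, sum_div]
    refine IsIntegral.sum _ fun c hc => ?_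
    obtain ⟨y, hy, rfl⟩ := mem_image.1 hc
    have : #{a ∈ S | ConjClasses.mk a = ConjClasses.mk y} = l := by
      rw [← cl y hy]
      congr 1
      exact filter_congr fun a _ => by rw [ConjClasses.mk_eq_mk_iff_isConj, isConj_comm]
    rw [this, nsmul_eq_mul, mul_div_cancel_left₀ _ (by exact_mod_cast l0.ne')]
    exact hI _

end Cfsg.Agent.H1.DG5
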