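import Cfsg.Agent.H1.DG5a
import Cfsg.Agent.H2.Tr1
import Cfsg.Agent.H9.DG0

set_option autoImplicit false

/-! A group of rank at least four with a regular abelian self-centralising subgroup is a Frobenius group. -/

namespace Cfsg.Agent.H1.DG5
open Cfsg Finset MulAction Cfsg.Agent.H5.Char Cfsg.Agent.H2.Tr Cfsg.Agent.H1.PermChar Cfsg.Agent.H9.DG
open scoped ComplexConjugate

universe u v

theorem arith {h l c t : ℝ} (h0 : 0 < h) (l0 : 0 < l) (hc : 2 ≤ c) (ht : c + 2 ≤ t)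
    (H : 0 ≤ h * (1 + l * t) - (l * c) ^ 2 - h * c * (1 + l * t - l * c)) : False := by
  have h1 : 0 < h * ((1 + l * t) * (1 - c) + l * c ^ 2) := by nlinarith [sq_pos_of_pos (mul_pos l0 (by linarith : 0 < c))]
  have h2 := (mul_pos_iff_of_pos_left h0).1 h1
  have h3 : 0 ≤ l * (t * (c - 1) - c ^ 2) := mul_nonneg l0.le (by nlinarith)
  nlinarith

theorem core {G : Type*} [Group G] [Fintype G] (O : Finset G) (C : Finset (Irr G)) (f : G → ℕ) (h l n : ℕ)
    (h0 : 0 < h) (l0 : 0 < l) (C3 : 3 ≤ #C) (hf : ∀ g, (f g : ℂ) = 1 + ∑ ψ ∈ C, ψ.1 g) (f1 : f 1 = n)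
    (fn : ∀ g ∈ O, f g < n) (dv : ∀ ψ ∈ C, l ∣ deg ψ)
    (W1 : ∀ ψ ∈ C, l * ∑ g ∈ O, ψ.1 g = (h - l) * deg ψ)
    (W2 : ∀ ψ ∈ C, l * ∑ g ∈ O, ψ.1 g * conj (ψ.1 g) = l * (h * n - deg ψ ^ 2) - h * (n * deg ψ - deg ψ ^ 2))
    (W3 : ∀ ψ ∈ C, ∀ φ ∈ C, ψ ≠ φ → l * ∑ g ∈ O, ψ.1 g * conj (φ.1 g) = (h - l) * deg ψ * deg φ) :
    ∀ g ∈ O, f g = 1 := by
  classical
  have l0' : (l : ℂ) ≠ 0 := by exact_mod_cast l0.ne'
  choose! c hc using dv
  have hn : n = 1 + l * ∑ ψ ∈ C, c ψ := by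
    have := hf 1
    simp only [deg_eq, f1] at this
    rw [mul_sum, ← sum_congr rfl hc]
    exact_mod_cast this
  have c0 : ∀ ψ ∈ C, 1 ≤ c ψ := fun ψ hψ => Nat.pos_of_mul_pos_left (hc ψ hψ ▸ deg_pos ψ)
  have c1 : ∀ ψ ∈ C, c ψ = 1 := fun ψ hψ => by
    by_contra ne
    have h2 : 2 ≤ c ψ := by have := c0 ψ hψ; omega
    have h3 : c ψ + 2 ≤ ∑ φ ∈ C, c φ := by
      have : #(C.erase ψ) • 1 ≤ ∑ φ ∈ C.erase ψ, c φ := card_nsmul_le_sum (C.erase ψ) c 1 fun φ hφ => c0 φ (mem_of_mem_erase hφ)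
      rw [card_erase_of_mem hψ, smul_eq_mul] at this
      rw [← add_sum_erase C c hψ]; omega
    refine arith (h := h) (l := l) (c := c ψ) (t := (∑ φ ∈ C, c φ : ℕ)) (by exact_mod_cast h0) (by exact_mod_cast l0)
      (by exact_mod_cast h2) (by exact_mod_cast h3) ?_
    have e := W2 ψ hψ
    generalize ∑ φ ∈ C, c φ = t at hn
    simp only [Complex.mul_conj, hc ψ hψ, hn] at e
    have e' : ((∑ g ∈ O, Complex.normSq (ψ.1 g) : ℝ) : ℂ) =
        ((h * (1 + l * t) - (l * c ψ) ^ 2 - h * c ψ * (1 + l * t - l * c ψ) : ℝ) : ℂ) := by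
      refine mul_left_cancel₀ l0' ?_
      push_cast at e ⊢
      rw [e]; ring
    rw [← Complex.ofReal_injective e']
    exact sum_nonneg fun g _ => Complex.normSq_nonneg _
  have dl : ∀ ψ ∈ C, (deg ψ : ℂ) = l := fun ψ hψ => by rw [hc ψ hψ, c1 ψ hψ, mul_one]
  rw [sum_congr rfl c1, sum_const, smul_eq_mul, mul_one] at hn
  have W : ∀ ψ ∈ C, ∀ φ ∈ C, ∑ g ∈ O, ψ.1 g * conj (φ.1 g) = (h - l) * l := fun ψ hψ φ hφ => by
    refine mul_left_cancel₀ l0' ?_
    by_cases e : ψ = φ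
    · rw [← e, W2 ψ hψ, dl ψ hψ]; ring
    · rw [W3 ψ hψ φ hφ e, dl ψ hψ, dl φ hφ]; ring
  obtain ⟨ψ, hψ⟩ := card_pos.1 (show 0 < #C by omega)
  have eq : ∀ φ ∈ C, ∀ g ∈ O, φ.1 g = ψ.1 g := fun φ hφ g hg => by
    have e : ((∑ g ∈ O, Complex.normSq (φ.1 g - ψ.1 g) : ℝ) : ℂ) = 0 := by
      push_cast
      simp only [← Complex.mul_conj, map_sub, mul_sub, sub_mul, sum_sub_distrib, W _ hψ _ hψ, W _ hψ _ hφ, W _ hφ _ hψ,
        W _ hφ _ hφ]
      ring
    have := (sum_eq_zero_iff_of_nonneg fun g _ => Complex.normSq_nonneg _).1 (Complex.ofReal_eq_zero.1 e) g hg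
    exact sub_eq_zero.1 (Complex.normSq_eq_zero.1 this)
  have t0 : (#C : ℂ) ≠ 0 := by exact_mod_cast (by omega : #C ≠ 0)
  have ex : ∀ g ∈ O, ∃ x : ℕ, f g = 1 + #C * x ∧ ψ.1 g = x := fun g hg => by
    have e := hf g
    rw [sum_congr rfl fun φ hφ => eq φ hφ g hg, sum_const, nsmul_eq_mul] at e
    have e2 : (((f g : ℤ) - 1 : ℤ) : ℂ) / ((#C : ℤ) : ℂ) = ψ.1 g := by
      push_cast; rw [e]; field_simp; ring
    obtain ⟨x, hx⟩ := dvd_of_isIntegral (by exact_mod_cast (by omega : #C ≠ 0)) (e2 ▸ isIntegral_val ψ g)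
    have x0 : 0 ≤ x := by
      by_contra h
      have : (3 : ℤ) ≤ #C := by exact_mod_cast C3
      have : (0 : ℤ) ≤ f g := Nat.cast_nonneg _
      nlinarith
    lift x to ℕ using x0
    refine ⟨x, by omega, ?_⟩
    rw [← e2, hx]; push_cast; field_simp
  choose! x hx hx' using ex
  have xl : ∀ g ∈ O, x g < l := fun g hg => by
    have := fn g hg
    rw [hx g hg, hn, mul_comm l] at this
    exact Nat.lt_of_mul_lt_mul_left (a := #C) (by omega)
  have z : ∑ g ∈ O, x g * (l - x g) = 0 := by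
    have a := W ψ hψ ψ hψ
    have b := W1 ψ hψ
    rw [sum_congr rfl fun g hg => by rw [hx' g hg, map_natCast]] at a
    rw [sum_congr rfl hx', dl ψ hψ, mul_sum] at b
    have : ((∑ g ∈ O, x g * (l - x g) : ℕ) : ℂ) = 0 := by
      rw [Nat.cast_sum, sum_congr rfl (g := fun g => (l : ℂ) * x g - x g * x g) fun g hg => by
        rw [Nat.cast_mul, Nat.cast_sub (xl g hg).le]; ring, sum_sub_distrib, a, b, sub_self]
    exact_mod_cast this
  intro g hg
  have := xl g hg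
  rcases mul_eq_zero.1 (sum_eq_zero_iff.1 z g hg) with e | e
  · rw [hx g hg, e]; rfl
  · omega

theorem p5 : P5.{u, v} := by
  intro G Ω _ _ _ _ _ P a b hR hC hb hb' g c d hc hd hcd
  classical
  have := Fintype.ofFinite G
  have := Fintype.ofFinite Ω
  have : Fintype P := Fintype.ofFinite _
  have : Nonempty Ω := ⟨a⟩
  have tr : IsPretransitive G Ω := ⟨fun x y => (hR.tr x y).imp fun _ h => h.2⟩
  set n := Nat.card P with hn0
  have hn : Nat.card Ω = n := (Nat.card_congr (Equiv.ofBijective (fun y : P => (y : G) • a) ⟨fun x y e =>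
    Subtype.ext (inv_mul_eq_one.1 (hR.sr _ (P.mul_mem (P.inv_mem x.2) y.2) a (by
      rw [mul_smul, inv_smul_eq_iff]; exact e.symm))), fun x => by
    obtain ⟨y, h, e⟩ := hR.tr a x; exact ⟨⟨y, h⟩, e⟩⟩)).symm
  obtain ⟨y0, h0, e0⟩ := hR.tr a (b 0)
  obtain ⟨l, O, l0, O1, Oc, hF⟩ := ti P hR.comm hC h0 fun e => hb 0 (by rw [← e0, e, one_smul])
  set f : G → ℕ := fun g => Nat.card (fixedBy Ω g) with hf
  obtain ⟨e, he⟩ : ∃ e, Ch (fun g => (f g : ℂ)) e := perm_char (K := ℂ) (G := G) (Ω := Ω) ▸ ch_rep (permRep ℂ G Ω)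
  have f1 : f 1 = n := by simp [hf, ← hn]
  have fP : ∀ y ∈ P, y ≠ 1 → f y = 0 := fun y hy h => by
    have : IsEmpty (fixedBy Ω y) := ⟨fun x => h (hR.sr y hy x x.2)⟩
    exact Nat.card_of_isEmpty
  have dP : ∀ μ : Irr P, deg μ = 1 := deg_comm fun x y => Subtype.ext (hR.comm x x.2 y y.2)
  have n0 : (n : ℂ) ≠ 0 := card_ne
  have A : ∀ μ : Irr P, ∑ ψ, e ψ * mult ψ μ = 1 := fun μ => by
    have := (he.res P).inner μ
    rw [classInner, sum_eq_single 1 (fun y _ h => by rw [fP y y.2 (by simpa using h)]; simp) (by simp), deg_eq, dP,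
      OneMemClass.coe_one, f1] at this
    have e : ((∑ ψ, e ψ * mult ψ μ : ℕ) : ℂ) = 1 := by
      rw [← this, Nat.cast_one, map_one, mul_one, inv_mul_cancel₀ n0]
    exact_mod_cast e
  have A1 : ∀ ψ μ, e ψ * mult ψ μ ≤ 1 := fun ψ μ =>
    A μ ▸ single_le_sum (f := fun ψ => e ψ * mult ψ μ) (fun _ _ => Nat.zero_le _) (mem_univ ψ)
  have dm : ∀ ψ : Irr G, deg ψ = ∑ μ : Irr P, mult ψ μ := fun ψ => by
    have := (ch_res ψ P).one
    simp only [OneMemClass.coe_one, deg_eq, dP, mul_one] at this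
    exact_mod_cast this
  have e1 : ∀ ψ, e ψ ≠ 0 → e ψ = 1 := fun ψ h => by
    obtain ⟨μ, -, hμ⟩ := exists_ne_zero_of_sum_ne_zero (dm ψ ▸ (deg_pos ψ).ne')
    have := A1 ψ μ
    have := Nat.mul_le_mul_left (e ψ) (Nat.one_le_iff_ne_zero.2 hμ)
    omega
  have sP : ∀ ψ φ, e ψ ≠ 0 → e φ ≠ 0 → ∑ y : P, ψ.1 y * conj (φ.1 y) = if ψ = φ then (n : ℂ) * deg ψ else 0 :=
    fun ψ φ h1 h2 => by
    have := parseval (cl_res (X := P) (cl ψ)) fun y : P => φ.1 y
    simp only [mult_eq, mult_eq'] at this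
    rw [classInner, inv_mul_eq_iff_eq_mul₀ n0] at this
    rw [this]
    split_ifs with h
    · rw [← h, dm, Nat.cast_sum]
      congr 1
      refine sum_congr rfl fun μ _ => ?_
      have := A1 ψ μ
      rw [e1 ψ h1, one_mul] at this
      interval_cases mult ψ μ <;> simp
    · refine mul_eq_zero_of_right _ (sum_eq_zero fun μ _ => ?_)
      have := add_le_sum (f := fun ψ => e ψ * mult ψ μ) (fun _ _ => Nat.zero_le _) (mem_univ ψ) (mem_univ φ) h
      simp only [A μ, e1 ψ h1, e1 φ h2, one_mul] at this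
      rcases (show mult ψ μ = 0 ∨ mult φ μ = 0 by omega) with h | h <;> simp [h]
  have sG : ∀ ψ φ : Irr G, ∑ y, ψ.1 y * conj (φ.1 y) = if ψ = φ then (P.index : ℂ) * n else 0 := fun ψ φ => by
    have := inner_irr ψ φ
    rw [classInner, inv_mul_eq_iff_eq_mul₀ card_ne, ← P.index_mul_card] at this
    rw [this]; split_ifs <;> simp [hn0]
  have W : ∀ ψ φ, e ψ ≠ 0 → e φ ≠ 0 → l * ∑ g ∈ O, ψ.1 g * conj (φ.1 g) =
      l * ((if ψ = φ then (P.index : ℂ) * n else 0) - deg ψ * deg φ) -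
        P.index * ((if ψ = φ then (n : ℂ) * deg ψ else 0) - deg ψ * deg φ) := fun ψ φ h1 h2 => by
    have := (hF (fun g => ψ.1 g * conj (φ.1 g)) fun g x => by simp only [cl ψ g x, cl φ g x]).1
    simpa only [sP ψ φ h1 h2, sG, deg_eq, map_natCast] using this
  have et : e (triv G) = 1 := by
    have := (he.inner (triv G)).symm.trans (classInner_perm_one (G := G) (Ω := Ω))
    exact_mod_cast this
  have dt : deg (triv G) = 1 := by
    have := deg_eq (triv G)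
    rw [triv_apply] at this
    exact_mod_cast this.symm
  set C : Finset (Irr G) := ({ψ | e ψ ≠ 0} : Finset (Irr G)).erase (triv G) with hCd
  have mC : ∀ ψ ∈ C, ψ ≠ triv G ∧ e ψ ≠ 0 := fun ψ h => ⟨(mem_erase.1 h).1, (mem_filter.1 (mem_erase.1 h).2).2⟩
  have mt : triv G ∈ ({ψ | e ψ ≠ 0} : Finset (Irr G)) := mem_filter.2 ⟨mem_univ _, by omega⟩
  have C3 : 3 ≤ #C := by
    have h1 : ((∑ ψ, e ψ * e ψ : ℕ) : ℂ) = Nat.card (orbitRel.Quotient G (Ω × Ω)) :=
      he.norm.symm.trans classInner_perm_perm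
    have h2 : ∑ ψ, e ψ * e ψ = #({ψ | e ψ ≠ 0} : Finset (Irr G)) := by
      rw [card_filter]
      refine sum_congr rfl fun ψ _ => ?_
      split_ifs with h
      · rw [e1 ψ h]
      · rw [not_not.1 h]
    have h3 : Nat.card (Option (Fin 3)) ≤ Nat.card (orbitRel.Quotient G (Ω × Ω)) := by
      refine Nat.card_le_card_of_injective (fun i => Quotient.mk _ (a, i.elim a b)) fun i j h => ?_
      obtain ⟨x, hx⟩ := orbitRel_apply.1 (Quotient.exact h)
      obtain ⟨x1, x2⟩ := Prod.ext_iff.1 hx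
      rcases i with _ | i <;> rcases j with _ | j
      · rfl
      · exact (hb j (smul_left_cancel x (x2.trans x1.symm))).elim
      · exact (hb i (x2.symm.trans x1)).elim
      · rw [hb' j i x x1 x2]
    have h4 : #C + 1 = _ := card_erase_add_one mt
    have h5 : ∑ ψ, e ψ * e ψ = Nat.card (orbitRel.Quotient G (Ω × Ω)) := by exact_mod_cast h1
    rw [Nat.card_eq_fintype_card (α := Option _)] at h3
    simp only [Fintype.card_option, Fintype.card_fin] at h3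
    omega
  have key := core O C f P.index l n (Nat.pos_of_ne_zero P.index_ne_zero_of_finite) l0 C3 (fun g => by
      rw [show (f g : ℂ) = _ from he g, ← triv_apply g, hCd, add_sum_erase _ (fun ψ : Irr G => ψ.1 g) mt, sum_filter]
      refine sum_congr rfl fun ψ _ => ?_
      split_ifs with h
      · rw [e1 ψ h, Nat.cast_one, one_mul]
      · rw [not_not.1 h, Nat.cast_zero, zero_mul]) f1
    (fun g hg => by
      rw [← hn]
      refine Finite.card_subtype_lt (x := (not_forall.1 fun h : ∀ x : Ω, g • x = x => O1 ?_).choose)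
        (not_forall.1 fun h : ∀ x : Ω, g • x = x => O1 ?_).choose_spec <;>
      rwa [← eq_of_smul_eq_smul (α := Ω) (m₁ := g) (m₂ := 1) fun x => by rw [one_smul, h]])
    (fun ψ hψ => by
      have h1 := (hF ψ.1 (cl ψ)).2 (isIntegral_val ψ)
      have h2 := sP ψ (triv G) (mC ψ hψ).2 (by omega)
      simp only [triv_apply, map_one, mul_one, if_neg (mC ψ hψ).1] at h2
      rw [h2, deg_eq] at h1
      have := dvd_of_isIntegral (a := -deg ψ) (b := l) (by omega) (by simpa using h1)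
      exact_mod_cast dvd_neg.1 this)
    (fun ψ hψ => by
      have := W ψ (triv G) (mC ψ hψ).2 (by omega)
      simp only [triv_apply, map_one, mul_one, if_neg (mC ψ hψ).1, dt] at this
      rw [this]; push_cast; ring)
    (fun ψ hψ => by rw [W ψ ψ (mC ψ hψ).2 (mC ψ hψ).2, if_pos rfl, if_pos rfl]; ring)
    fun ψ hψ φ hφ h => by rw [W ψ φ (mC ψ hψ).2 (mC φ hφ).2, if_neg h, if_neg h]; ring
  have f2 : 1 < f g := Finite.one_lt_card_iff_nontrivial.2 ⟨⟨c, hc⟩, ⟨d, hd⟩, fun h => hcd (congrArg Subtype.val h)⟩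
  rcases Oc g fun h => by have := key g h; omega with h | ⟨y, hy, y1, h⟩
  · exact h
  · obtain ⟨x, rfl⟩ := isConj_iff.1 h
    have h1 : (f (x * y * x⁻¹) : ℂ) = f y := he.cl y x
    have h2 : f (x * y * x⁻¹) = f y := by exact_mod_cast h1
    have := fP y hy y1
    omega

end Cfsg.Agent.H1.DG5
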