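import Cfsg.Agent.H3.DR0

set_option autoImplicit false

namespace Cfsg.Agent.H1.DR3
open MulAction Finset Cfsg.Agent.H3.DR

universe u v

variable {G : Type u} {Ω : Type v} [Group G] [Fintype G] [MulAction G Ω] [Fintype Ω]

/-- uniqueness of the non-identity fixer of two points -/
def HU (G : Type u) (Ω : Type v) [Group G] [MulAction G Ω] : Prop :=
  ∀ (g g' : G) (a b : Ω), a ≠ b → g ≠ 1 → g' ≠ 1 → g • a = a → g • b = b → g' • a = a → g' • b = b → g = g'

omit [Fintype Ω] in
theorem hu_of (h : ∀ a b : Ω, a ≠ b → Nat.card (stabilizer (stabilizer G a) b) ≤ 2) : HU G Ω := by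
  classical
  intro g g' a b hab hg hg' h1 h2 h3 h4
  by_contra hne
  have hh := h a b hab
  let x : stabilizer (stabilizer G a) b := ⟨⟨g, h1⟩, h2⟩
  let y : stabilizer (stabilizer G a) b := ⟨⟨g', h3⟩, h4⟩
  haveI : Fintype (stabilizer (stabilizer G a) b) := Fintype.ofFinite _
  rw [Nat.card_eq_fintype_card] at hh
  have h3' : 2 < Fintype.card (stabilizer (stabilizer G a) b) := by
    rw [Fintype.two_lt_card_iff]
    refine ⟨1, x, y, ?_, ?_, ?_⟩
    · intro e; exact hg (congrArg (fun z : stabilizer (stabilizer G a) b => (z.1.1 : G)) e).symm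
    · intro e; exact hg' (congrArg (fun z : stabilizer (stabilizer G a) b => (z.1.1 : G)) e).symm
    · intro e; exact hne (congrArg (fun z : stabilizer (stabilizer G a) b => (z.1.1 : G)) e)
  omega

open Classical in
/-- fixed points -/
noncomputable def Fx (Ω : Type v) [MulAction G Ω] [Fintype Ω] (g : G) : Finset Ω := {c : Ω | g • c = c}

omit [Fintype G] in
theorem mem_Fx {g : G} {c : Ω} : c ∈ Fx Ω g ↔ g • c = c := by simp [Fx]

omit [Fintype G] in
theorem card_Fx (g : G) : #(Fx Ω g) = fx Ω g := by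
  unfold Fx fx; congr

omit [Fintype G] in
theorem fx_conj (k g : G) : fx Ω (k * g * k⁻¹) = fx Ω g := by
  classical
  rw [← card_Fx, ← card_Fx]
  symm
  refine Finset.card_bij (fun c _ => k • c) ?_ ?_ ?_
  · intro c hc; rw [mem_Fx] at *; rw [mul_smul, mul_smul, inv_smul_smul, hc]
  · intro c _ d _ h; exact smul_left_cancel k h
  · intro d hd; refine ⟨k⁻¹ • d, ?_, by simp⟩
    rw [mem_Fx] at *; rw [mul_smul, mul_smul] at hd
    rw [eq_inv_smul_iff]; exact hd

open Classical in
/-- orbit of a pair -/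
noncomputable def Or (G : Type u) [Group G] [Fintype G] [MulAction G Ω] (a b : Ω) : Finset (Ω × Ω) :=
  univ.image (fun k : G => (k • a, k • b))

omit [Fintype Ω] in
theorem mem_Or {a b : Ω} {p : Ω × Ω} : p ∈ Or G a b ↔ ∃ k : G, (k • a, k • b) = p := by simp [Or]

omit [Fintype Ω] in
theorem or_two (hU : HU G Ω) {a b : Ω} (hab : a ≠ b) : Fintype.card G ≤ 2 * #(Or G a b) := by
  classical
  obtain ⟨g, hg⟩ : ∃ g : G, ∀ x : G, x • a = a → x • b = b → x = 1 ∨ x = g := by
    by_cases h : ∃ g : G, g ≠ 1 ∧ g • a = a ∧ g • b = b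
    · obtain ⟨g, h0, h1, h2⟩ := h
      refine ⟨g, fun x hx hy => ?_⟩
      by_cases e : x = 1
      · exact Or.inl e
      · exact Or.inr (hU x g a b hab e h0 hx hy h1 h2)
    · refine ⟨1, fun x hx hy => Or.inl ?_⟩
      by_contra e; exact h ⟨x, e, hx, hy⟩
  have := Finset.card_le_mul_card_image (f := fun k : G => (k • a, k • b)) univ 2 (by
    intro p hp
    obtain ⟨k, -, rfl⟩ := Finset.mem_image.1 hp
    refine le_trans (Finset.card_le_card (t := {k, k * g}) ?_) Finset.card_le_two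
    intro x hx
    have hx := (Finset.mem_filter.1 hx).2
    simp only [Prod.mk.injEq] at hx
    rcases hg (k⁻¹ * x) (by rw [mul_smul, hx.1, inv_smul_smul]) (by rw [mul_smul, hx.2, inv_smul_smul]) with e | e
    · have : x = k := by rw [inv_mul_eq_one] at e; exact e.symm
      simp [this]
    · have : x = k * g := by rw [← e]; simp
      simp [this])
  rw [Finset.card_univ] at this
  convert this using 3
  unfold Or; congr

omit [Fintype Ω] in
theorem or_one {a b : Ω} (h : ∀ x : G, x • a = a → x • b = b → x = 1) : Fintype.card G ≤ #(Or G a b) := by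
  classical
  have : #(Or G a b) = Fintype.card G := by
    unfold Or
    rw [Finset.card_image_of_injective, Finset.card_univ]
    intro k x hx
    simp only [Prod.mk.injEq] at hx
    have := h (k⁻¹ * x) (by rw [mul_smul, ← hx.1, inv_smul_smul]) (by rw [mul_smul, ← hx.2, inv_smul_smul])
    rwa [inv_mul_eq_one] at this
  omega

omit [Fintype Ω] in
theorem or_disj {a b c d : Ω} (h : (c, d) ∉ Or G a b) : Disjoint (Or G a b) (Or G c d) := by
  rw [Finset.disjoint_left]
  intro p hp hq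
  obtain ⟨k, rfl⟩ := mem_Or.1 hp
  obtain ⟨l, hl⟩ := mem_Or.1 hq
  simp only [Prod.mk.injEq] at hl
  exact h (mem_Or.2 ⟨l⁻¹ * k, by rw [mul_smul, mul_smul, ← hl.1, ← hl.2, inv_smul_smul, inv_smul_smul]⟩)

omit [Fintype G] in
theorem cover (S : Finset (Ω × Ω)) (C : Finset G)
    (h : ∀ p ∈ S, p.1 ≠ p.2 ∧ ∃ x ∈ C, x • p.1 = p.1 ∧ x • p.2 = p.2) :
    (#S : ℝ) ≤ ∑ x ∈ C, (fx Ω x : ℝ) * (fx Ω x - 1) := by
  classical
  have h1 : S ⊆ C.biUnion (fun x => (Fx Ω x).offDiag) := by
    intro p hp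
    obtain ⟨h0, x, hx, h1, h2⟩ := h p hp
    exact Finset.mem_biUnion.2 ⟨x, hx, Finset.mem_offDiag.2 ⟨mem_Fx.2 h1, mem_Fx.2 h2, h0⟩⟩
  have h2 := (Finset.card_le_card h1).trans Finset.card_biUnion_le
  calc (#S : ℝ) ≤ ((∑ x ∈ C, #((Fx Ω x).offDiag) : ℕ) : ℝ) := by exact_mod_cast h2
    _ = _ := by
      push_cast
      refine Finset.sum_congr rfl fun x _ => ?_
      rw [Finset.offDiag_card, card_Fx, Nat.cast_sub (Nat.le_mul_self _)]
      push_cast; ring

omit [Fintype Ω] in
theorem or_col {g : G} {a b : Ω} (hab : a ≠ b) (ha : g • a = a) (hb : g • b = b) :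
    ∀ p ∈ Or G a b, p.1 ≠ p.2 ∧ ∃ k : G, (k * g * k⁻¹) • p.1 = p.1 ∧ (k * g * k⁻¹) • p.2 = p.2 := by
  intro p hp
  obtain ⟨k, rfl⟩ := mem_Or.1 hp
  refine ⟨fun e => hab (smul_left_cancel k e), k, ?_, ?_⟩
  · simp only [mul_smul, inv_smul_smul, ha]
  · simp only [mul_smul, inv_smul_smul, hb]

omit [Fintype G] in
/-- Johnson bound -/
theorem johnson (hU : HU G Ω) (C : Finset G) (F : ℕ) (h1 : ∀ x ∈ C, x ≠ 1) (hF : ∀ x ∈ C, fx Ω x = F)
    (hC : C.Nonempty) : (#C : ℝ) * (F ^ 2 - Fintype.card Ω) ≤ Fintype.card Ω * (F - 1) := by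
  classical
  set r : Ω → ℝ := fun c => ∑ x ∈ C, if x • c = c then (1 : ℝ) else 0 with hr
  have e1 : ∑ c, r c = #C * F := by
    simp only [hr]
    rw [Finset.sum_comm, Finset.sum_congr rfl (g := fun _ => (F : ℝ))]
    · simp
    · intro x hx
      rw [← hF x hx, ← card_Fx, Finset.sum_boole]
      congr 2
  have e2 : ∑ c, r c ^ 2 ≤ #C * (F + (#C - 1)) := by
    simp only [hr, sq, Finset.sum_mul_sum]
    rw [Finset.sum_comm]
    refine (Finset.sum_le_card_nsmul _ _ ((F : ℝ) + (#C - 1)) ?_).trans (by simp [mul_add])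
    intro x hx
    rw [Finset.sum_comm, ← Finset.add_sum_erase _ _ hx]
    refine add_le_add ?_ ?_
    · rw [← hF x hx, ← card_Fx]
      simp only [ite_zero_mul_ite_zero, and_self, mul_one]
      rw [Finset.sum_boole]
      apply le_of_eq; congr 2
    · refine (Finset.sum_le_card_nsmul _ _ (1 : ℝ) ?_).trans ?_
      · intro y hy
        simp only [ite_zero_mul_ite_zero, mul_one]
        rw [Finset.sum_boole]
        have : #{c : Ω | x • c = c ∧ y • c = c} ≤ 1 := by
          rw [Finset.card_le_one]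
          intro c hc d hd
          simp only [Finset.mem_filter, Finset.mem_univ, true_and] at hc hd
          by_contra e
          exact (Finset.mem_erase.1 hy).1
            (hU x y c d e (h1 x hx) (h1 y (Finset.mem_erase.1 hy).2) hc.1 hd.1 hc.2 hd.2).symm
        exact_mod_cast this
      · rw [Finset.card_erase_of_mem hx, nsmul_eq_mul, Nat.cast_sub (Finset.card_pos.2 hC)]; simp
  have e3 : (∑ c, r c) ^ 2 ≤ #(univ : Finset Ω) * ∑ c, r c ^ 2 := sq_sum_le_card_mul_sum_sq
  rw [e1, Finset.card_univ] at e3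
  have hc : (0 : ℝ) < #C := by exact_mod_cast Finset.card_pos.2 hC
  have hn : (0 : ℝ) ≤ Fintype.card Ω := by positivity
  have e4 := e3.trans (mul_le_mul_of_nonneg_left e2 hn)
  have : (#C : ℝ) * (#C * (F ^ 2 - Fintype.card Ω)) ≤ #C * (Fintype.card Ω * (F - 1)) := by nlinarith
  exact le_of_mul_le_mul_left this hc

end Cfsg.Agent.H1.DR3
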