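import Cfsg.Agent.H1.DR3a

set_option autoImplicit false

namespace Cfsg.Agent.H1.DR3
open MulAction Finset Cfsg.Agent.H3.DR Pointwise

universe u v

variable {G : Type u} {Ω : Type v} [Group G] [Fintype G] [MulAction G Ω] [Fintype Ω]

omit [Fintype G] in
theorem pencil (hU : HU G Ω) (S : Finset G) (p : Ω) (F : ℕ) (h1 : ∀ x ∈ S, x ≠ 1) (hp : ∀ x ∈ S, x • p = p)
    (hF : ∀ x ∈ S, fx Ω x = F) : #S * (F - 1) + 1 ≤ Fintype.card Ω := by
  classical
  have h2 : #(S.biUnion (fun x => (Fx Ω x).erase p)) = #S * (F - 1) := by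
    rw [Finset.card_biUnion, Finset.sum_congr rfl (g := fun _ => F - 1)]
    · simp
    · intro x hx
      rw [Finset.card_erase_of_mem (mem_Fx.2 (hp x hx)), card_Fx, hF x hx]
    · intro x hx y hy hxy
      rw [Function.onFun, Finset.disjoint_left]
      intro c hc hd
      rw [Finset.mem_erase, mem_Fx] at hc hd
      exact hxy (hU x y c p hc.1 (h1 x hx) (h1 y hy) hc.2 (hp x hx) hd.2 (hp y hy))
  have h3 : S.biUnion (fun x => (Fx Ω x).erase p) ⊆ univ.erase p := by
    intro c hc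
    obtain ⟨x, -, hx⟩ := Finset.mem_biUnion.1 hc
    simp [(Finset.mem_erase.1 hx).1]
  have h4 := Finset.card_le_card h3
  rw [h2, Finset.card_erase_of_mem (Finset.mem_univ _), Finset.card_univ] at h4
  have : 0 < Fintype.card Ω := Fintype.card_pos_iff.2 ⟨p⟩
  omega

theorem not_two (hU : HU G Ω) {g : G} {a b p : Ω} (hg : g ≠ 1) (hab : a ≠ b) (ha : g • a = a) (hb : g • b = b)
    (hp : g • p ≠ p) (hF : Fintype.card Ω < fx Ω g ^ 2) (h2 : ∀ c d : Ω, c ≠ d → (c, d) ∈ Or G a b) : False := by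
  classical
  have cj : ∀ k : G, k * g * k⁻¹ ≠ 1 := fun k e => hg (by simpa using e)
  -- lines
  have line : ∀ c d : Ω, c ≠ d → ∃ x : G, x ≠ 1 ∧ fx Ω x = fx Ω g ∧ x • c = c ∧ x • d = d := by
    intro c d hcd
    obtain ⟨-, k, h1, h2⟩ := or_col hab ha hb _ (h2 c d hcd)
    exact ⟨_, cj k, fx_conj k g, h1, h2⟩
  -- two lines meet
  have meet : ∀ x y : G, x ≠ 1 → y ≠ 1 → fx Ω x = fx Ω g → fx Ω y = fx Ω g → ∃ c : Ω, x • c = c ∧ y • c = c := by
    intro x y hx hy fx1 fy1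
    by_contra hcon
    push Not at hcon
    have hpos : 0 < fx Ω g := by rw [← card_Fx]; exact Finset.card_pos.2 ⟨a, mem_Fx.2 ha⟩
    obtain ⟨q, hq⟩ : (Fx Ω y).Nonempty := Finset.card_pos.1 (by rw [card_Fx, fy1]; exact hpos)
    rw [mem_Fx] at hq
    have hl : ∀ z : Ω, ∃ w : G, x • z = z → (w ≠ 1 ∧ fx Ω w = fx Ω g ∧ w • z = z ∧ w • q = q) := by
      intro z
      by_cases hz : x • z = z
      · obtain ⟨w, hw⟩ := line z q (fun e => hcon z hz (e ▸ hq))
        exact ⟨w, fun _ => hw⟩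
      · exact ⟨1, fun h => absurd h hz⟩
    choose w hw using hl
    have hinj : Set.InjOn w (Fx Ω x) := by
      intro z hz z' hz' e
      have hz := mem_Fx.1 hz
      have hz' := mem_Fx.1 hz'
      by_contra ne
      have := hU (w z) x z z' ne (hw z hz).1 hx (hw z hz).2.2.1 (e ▸ (hw z' hz').2.2.1) hz hz'
      exact hcon q (this ▸ (hw z hz).2.2.2) hq
    have hny : y ∉ (Fx Ω x).image w := by
      intro h
      obtain ⟨z, hz, e⟩ := Finset.mem_image.1 h
      have hz := mem_Fx.1 hz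
      exact hcon z hz (e ▸ (hw z hz).2.2.1)
    have := pencil hU (insert y ((Fx Ω x).image w)) q (fx Ω g) ?_ ?_ ?_
    · rw [Finset.card_insert_of_notMem hny, Finset.card_image_of_injOn hinj, card_Fx, fx1] at this
      obtain ⟨m, hm⟩ : ∃ m, fx Ω g = m + 1 := ⟨fx Ω g - 1, by omega⟩
      rw [hm] at this hF
      simp only [Nat.add_sub_cancel] at this
      nlinarith
    all_goals
      intro z hz
      rcases Finset.mem_insert.1 hz with rfl | hz
      · assumption
      · obtain ⟨t, ht, rfl⟩ := Finset.mem_image.1 hz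
        have := hw t (mem_Fx.1 ht)
        tauto
  have hinv : g⁻¹ = g := hU _ _ a b hab (by simpa using hg) hg (by rw [inv_smul_eq_iff, ha])
    (by rw [inv_smul_eq_iff, hb]) ha hb
  have hgg : ∀ z : Ω, g • g • z = z := fun z => by
    conv_lhs => rw [← hinv]
    rw [hinv, ← mul_smul]; nth_rewrite 1 [← hinv]; simp
  obtain ⟨y, hy, fy, y1, y2⟩ := line p (g • p) (Ne.symm hp)
  have hcomm : g * y * g⁻¹ = y := hU _ _ p (g • p) (Ne.symm hp) (fun e => hy (by simpa using e)) hy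
    (by rw [hinv, mul_smul, mul_smul, y2, hgg]) (by rw [hinv, mul_smul, mul_smul, hgg, y1]) y1 y2
  have hyg : y ≠ g := fun e => hp (e ▸ y1)
  obtain ⟨c, c1, c2⟩ := meet g y hg hy rfl fy
  obtain ⟨d, hd, hdc⟩ : ∃ d : Ω, g • d = d ∧ c ≠ d := by
    by_cases e : c = a
    · exact ⟨b, hb, e ▸ hab⟩
    · exact ⟨a, ha, e⟩
  obtain ⟨k, hk⟩ := mem_Or.1 (h2 c d hdc)
  obtain ⟨l, hl⟩ := mem_Or.1 (h2 d c hdc.symm)
  simp only [Prod.mk.injEq] at hk hl
  set t := l * k⁻¹ with ht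
  have tc : t • c = d := by rw [ht, mul_smul, ← hk.1, inv_smul_smul, hl.1]
  have td : t • d = c := by rw [ht, mul_smul, ← hk.2, inv_smul_smul, hl.2]
  have tg : t * g * t⁻¹ = g := hU _ _ c d hdc (cj t) hg
    (by conv_lhs => rw [← td]
        rw [mul_smul, mul_smul, inv_smul_smul, hd, td])
    (by conv_lhs => rw [← tc]
        rw [mul_smul, mul_smul, inv_smul_smul, c1, tc]) c1 hd
  set y' := t * y * t⁻¹ with hy'
  have y'1 : y' ≠ 1 := fun e => hy (by simpa [hy'] using e)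
  have y'd : y' • d = d := by
    conv_lhs => rw [← tc]
    rw [hy', mul_smul, mul_smul, inv_smul_smul, c2, tc]
  have y'g : y' ≠ g := fun e => hyg (by
    have : t * y * t⁻¹ = t * g * t⁻¹ := by rw [tg, ← hy', e]
    simpa using this)
  have hcomm' : g * y' * g⁻¹ = y' := by
    calc g * y' * g⁻¹ = (t * g * t⁻¹) * (t * y * t⁻¹) * (t * g * t⁻¹)⁻¹ := by rw [tg]
      _ = t * (g * y * g⁻¹) * t⁻¹ := by group
      _ = y' := by rw [hcomm]
  have yy' : y ≠ y' := fun e => hyg (hU y g c d hdc hy hg c2 (e ▸ y'd) c1 hd)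
  obtain ⟨e, e1, e2⟩ := meet y y' hy y'1 fy (by rw [hy', fx_conj, fy])
  have ge : g • e = e := by
    by_contra ne
    refine yy' (hU y y' (g • e) e ne hy y'1 ?_ e1 ?_ e2)
    · conv_lhs => rw [← hcomm]
      rw [mul_smul, mul_smul, inv_smul_smul, e1]
    · conv_lhs => rw [← hcomm']
      rw [mul_smul, mul_smul, inv_smul_smul, e2]
  have ec : e = c := by
    by_contra ne
    exact hyg (hU y g e c ne hy hg e1 c2 ge c1)
  have ed : e = d := by
    by_contra ne
    exact y'g (hU y' g e d ne y'1 hg e2 y'd ge hd)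
  exact hdc (ec ▸ ed)

open Classical in
theorem prim_two [IsPreprimitive G Ω] {g : G} {a b p : Ω} (hab : a ≠ b) (ha : g • a = a) (hb : g • b = b)
    (hp : g • p ≠ p) :
    2 * Fintype.card Ω ≤ #(univ.image (fun k : G => k * g * k⁻¹)) * fx Ω g := by
  set C := univ.image (fun k : G => k * g * k⁻¹) with hC
  have hnb : ¬ IsBlock G {c : Ω | g • c = c} := by
    intro h
    rcases IsPreprimitive.isTrivialBlock_of_isBlock h with h | h
    · exact hab (h ha hb)
    · exact hp (show p ∈ {c : Ω | g • c = c} from h ▸ Set.mem_univ _)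
  rw [isBlock_iff_smul_eq_or_disjoint] at hnb
  push Not at hnb
  obtain ⟨k, hk1, hk2⟩ := hnb
  have key : ∀ c : Ω, c ∈ k • {c : Ω | g • c = c} ↔ (k * g * k⁻¹) • c = c := by
    intro c
    rw [Set.mem_smul_set_iff_inv_smul_mem, Set.mem_setOf_eq, mul_smul, mul_smul, eq_inv_smul_iff]
  have hne : k * g * k⁻¹ ≠ g := by
    intro e; apply hk1; ext c; rw [key, e]; rfl
  obtain ⟨q, q1, q2⟩ := Set.not_disjoint_iff.1 hk2
  rw [key] at q1
  have q2 : g • q = q := q2
  have hr : ∀ c : Ω, 2 ≤ #{x ∈ C | x • c = c} := by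
    intro c
    obtain ⟨t, rfl⟩ := exists_smul_eq G q c
    rw [Nat.succ_le_iff, Finset.one_lt_card]
    refine ⟨t * (k * g * k⁻¹) * t⁻¹, ?_, t * g * t⁻¹, ?_, by simpa using hne⟩
    · refine Finset.mem_filter.2 ⟨Finset.mem_image.2 ⟨t * k, Finset.mem_univ _, by group⟩, ?_⟩
      rw [mul_smul, mul_smul, inv_smul_smul, q1]
    · refine Finset.mem_filter.2 ⟨Finset.mem_image.2 ⟨t, Finset.mem_univ _, rfl⟩, ?_⟩
      rw [mul_smul, mul_smul, inv_smul_smul, q2]
  calc 2 * Fintype.card Ω = ∑ _c : Ω, 2 := by simp [mul_comm]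
    _ ≤ ∑ c : Ω, #{x ∈ C | x • c = c} := Finset.sum_le_sum fun c _ => hr c
    _ = ∑ x ∈ C, fx Ω x := by
      simp only [Finset.card_filter]
      rw [Finset.sum_comm]
      refine Finset.sum_congr rfl fun x _ => ?_
      rw [← card_Fx, Fx, Finset.card_filter]
    _ = _ := by
      rw [Finset.sum_congr rfl (g := fun _ => fx Ω g)]
      · simp
      · intro x hx
        obtain ⟨t, -, rfl⟩ := Finset.mem_image.1 hx
        exact fx_conj t g

end Cfsg.Agent.H1.DR3
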