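import Cfsg.Agent.H1.DR3b

set_option autoImplicit false

namespace Cfsg.Agent.H1.DR3
open MulAction Finset Cfsg.Agent.H3.DR

universe u v

theorem num_big (s F : ℝ) (hs : 100 ≤ s) (hF : s + 2 ≤ F) (h2 : F ^ 2 + F ≤ 2 * s ^ 2) :
    (s + 1) * F * (F - 1) ^ 2 ≤ (s ^ 2 - 1) * (F ^ 2 - s ^ 2) + s ^ 2 * (F - 1) ^ 2 := by
  obtain ⟨x, rfl⟩ : ∃ x, F = s + x := ⟨F - s, by ring⟩
  have hx : 2 ≤ x := by linarith
  have hs0 : 0 < s := by linarith
  have key : (s + x - 1) ^ 2 * (s + x * (s + 1)) ≤ (s ^ 2 - 1) * (2 * s + x) * x := by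
    have hs2 : 0.9999 * s ^ 2 ≤ s ^ 2 - 1 := by nlinarith
    rcases le_total x (s / 10) with h | h
    · have a1 : (s + x - 1) ^ 2 ≤ 1.21 * s ^ 2 := by nlinarith
      have a2 : s + x * (s + 1) ≤ 1.51 * x * s := by nlinarith
      calc (s + x - 1) ^ 2 * (s + x * (s + 1)) ≤ (1.21 * s ^ 2) * (1.51 * x * s) := by gcongr
        _ ≤ (0.9999 * s ^ 2) * (2 * s) * x := by
          have : 0 ≤ s ^ 2 * s * x := by positivity
          nlinarith
        _ ≤ _ := by gcongr <;> linarith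
    · have a1 : (s + x - 1) ^ 2 ≤ (s + x) ^ 2 := by nlinarith
      have a2 : s + x * (s + 1) ≤ 1.11 * x * s := by nlinarith
      have a3 : x ≤ 0.4143 * s := by nlinarith
      have a4 : 1.11 * (s + x) ^ 2 ≤ 0.9999 * s * (2 * s + x) := by nlinarith
      calc (s + x - 1) ^ 2 * (s + x * (s + 1)) ≤ (s + x) ^ 2 * (1.11 * x * s) := by gcongr
        _ = (1.11 * (s + x) ^ 2) * (x * s) := by ring
        _ ≤ (0.9999 * s * (2 * s + x)) * (x * s) := by gcongr
        _ = (0.9999 * s ^ 2) * (2 * s + x) * x := by ring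
        _ ≤ _ := by gcongr
  nlinarith

theorem p3 (hB : PB.{u, v}) : P3.{u, v} := by
  classical
  intro G Ω _ _ _ _ _ hprim hn hst hex
  have hU : HU G Ω := hu_of hst
  haveI : Nonempty Ω := Fintype.card_pos_iff.1 (by omega)
  have hδ := (hB G Ω inferInstance).2.1
  obtain ⟨g0, hg0, hg0'⟩ := hex
  obtain ⟨g, hgm, hmax⟩ := Finset.exists_max_image (univ.erase (1 : G)) (fx Ω) ⟨g0, by simp [hg0]⟩
  have hg : g ≠ 1 := (Finset.mem_erase.1 hgm).1
  set s := √(Fintype.card Ω : ℝ) with hs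
  have hss : s ^ 2 = Fintype.card Ω := Real.sq_sqrt (by positivity)
  have hn' : (10000 : ℝ) ≤ Fintype.card Ω := by exact_mod_cast hn
  have hs100 : 100 ≤ s := Real.le_sqrt_of_sq_le (by linarith)
  set F : ℝ := ((fx Ω g : ℕ) : ℝ) with hFd
  have hsF : s < F := hg0'.trans_le (by rw [hFd]; exact_mod_cast hmax g0 (by simp [hg0]))
  have hF0 : 0 < F := by linarith
  obtain ⟨a, ha, b, hb, hab⟩ : ∃ a ∈ Fx Ω g, ∃ b ∈ Fx Ω g, a ≠ b := by
    rw [← Finset.one_lt_card, card_Fx]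
    have : (1 : ℝ) < fx Ω g := by linarith
    exact_mod_cast this
  rw [mem_Fx] at ha hb
  obtain ⟨p, hp⟩ : ∃ p : Ω, g • p ≠ p := by
    by_contra h
    push Not at h
    exact hg (eq_of_smul_eq_smul (α := Ω) fun c => by rw [h, one_smul])
  set N : ℝ := ((Fintype.card G : ℕ) : ℝ) with hN
  have hN0 : 0 < N := by rw [hN]; exact_mod_cast Fintype.card_pos
  set E : ℝ := ∑ x ∈ univ.erase (1 : G), max ((fx Ω x : ℝ) - 1) 0 with hE
  have hδ' : dl G Ω * N = (s ^ 2 - 1) + E := by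
    rw [hδ, ← Finset.add_sum_erase _ _ (Finset.mem_univ (1 : G))]
    congr 1
    have : fx Ω (1 : G) = Fintype.card Ω := by simp [fx]
    rw [this, hss, max_eq_left (by linarith)]
  have hQ : ∀ S : Finset (Ω × Ω), (∀ p ∈ S, p.1 ≠ p.2 ∧ ∃ x : G, x ≠ 1 ∧ x • p.1 = p.1 ∧ x • p.2 = p.2) →
      (#S : ℝ) ≤ F * E := by
    intro S hS
    refine (cover S (univ.erase (1 : G)) fun p hp => ?_).trans ?_
    · obtain ⟨h0, x, h1, h2⟩ := hS p hp
      exact ⟨h0, x, by simp [h1], h2⟩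
    · rw [hE, Finset.mul_sum]
      refine Finset.sum_le_sum fun x hx => ?_
      have h1 : (fx Ω x : ℝ) ≤ F := by rw [hFd]; exact_mod_cast hmax x hx
      calc (fx Ω x : ℝ) * (fx Ω x - 1) ≤ fx Ω x * max ((fx Ω x : ℝ) - 1) 0 := by gcongr; exact le_max_left _ _
        _ ≤ _ := by gcongr
  have cj : ∀ (x : G), x ≠ 1 → ∀ k : G, k * x * k⁻¹ ≠ 1 := fun x hx k e => hx (by simpa using e)
  have hcol : ∀ (x : G) (c d : Ω), x ≠ 1 → c ≠ d → x • c = c → x • d = d →
      ∀ p ∈ Or G c d, p.1 ≠ p.2 ∧ ∃ x : G, x ≠ 1 ∧ x • p.1 = p.1 ∧ x • p.2 = p.2 := by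
    intro x c d hx hcd h1 h2 p hp
    obtain ⟨h0, k, hk⟩ := or_col hcd h1 h2 p hp
    exact ⟨h0, _, cj x hx k, hk⟩
  have hO : ∀ c d : Ω, c ≠ d → N ≤ 2 * #(Or G c d) := fun c d hcd => by
    rw [hN]; exact_mod_cast or_two hU hcd
  have hO1 := hO a b hab
  have hE1 : N ≤ 2 * (F * E) := hO1.trans (by have := hQ _ (hcol g a b hg hab ha hb); linarith)
  unfold Tg
  rw [← hs, ← hss, div_le_iff₀ (by positivity)]
  refine le_of_mul_le_mul_right ?_ hN0
  rw [show dl G Ω * (2 * s ^ 2) * N = (dl G Ω * N) * (2 * s ^ 2) by ring, hδ']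
  have hE0 : 0 ≤ E := Finset.sum_nonneg fun _ _ => le_max_right _ _
  rcases le_total (s + 2) F with hbig | hsm
  · set C := univ.image (fun k : G => k * g * k⁻¹) with hC
    have hC1 : ∀ x ∈ C, x ≠ 1 := fun x hx => by
      obtain ⟨t, -, rfl⟩ := Finset.mem_image.1 hx; exact cj g hg t
    have hC2 : ∀ x ∈ C, fx Ω x = fx Ω g := fun x hx => by
      obtain ⟨t, -, rfl⟩ := Finset.mem_image.1 hx; exact fx_conj t g
    have hJ := johnson hU C (fx Ω g) hC1 hC2 ⟨g, Finset.mem_image.2 ⟨1, by simp⟩⟩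
    have hP : 2 * (Fintype.card Ω : ℝ) ≤ #C * F := by
      have := prim_two (G := G) hab ha hb hp
      rw [hFd]
      have e : (#C : ℕ) = #(@Finset.image G G (fun a b => Classical.propDecidable _) (fun k : G => k * g * k⁻¹) univ) := by
        congr
      rw [e]; exact_mod_cast this
    have hcv := cover (Or G a b) C fun p hp => by
      obtain ⟨h0, k, hk⟩ := or_col hab ha hb p hp
      exact ⟨h0, _, Finset.mem_image.2 ⟨k, Finset.mem_univ _, rfl⟩, hk⟩
    rw [Finset.sum_congr rfl (g := fun _ => F * (F - 1)) (fun x hx => by rw [hC2 x hx]), Finset.sum_const,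
      nsmul_eq_mul] at hcv
    rw [← hFd, ← hss] at hJ
    rw [← hss] at hP
    set c : ℝ := ((#C : ℕ) : ℝ)
    have hd : 0 < F ^ 2 - s ^ 2 := by nlinarith
    have hs0 : 0 < s ^ 2 := by positivity
    have h2 : F ^ 2 + F ≤ 2 * s ^ 2 := by
      have : s ^ 2 * (2 * (F ^ 2 - s ^ 2)) ≤ s ^ 2 * (F * (F - 1)) := by
        calc s ^ 2 * (2 * (F ^ 2 - s ^ 2)) = (2 * s ^ 2) * (F ^ 2 - s ^ 2) := by ring
          _ ≤ (c * F) * (F ^ 2 - s ^ 2) := by gcongr
          _ = F * (c * (F ^ 2 - s ^ 2)) := by ring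
          _ ≤ F * (s ^ 2 * (F - 1)) := by gcongr
          _ = _ := by ring
      have := le_of_mul_le_mul_left this hs0
      nlinarith
    have hF1 : 0 < F - 1 := by linarith
    have h3 : N * (F ^ 2 - s ^ 2) ≤ 2 * s ^ 2 * (F * (F - 1) ^ 2) := by
      calc N * (F ^ 2 - s ^ 2) ≤ (2 * (c * (F * (F - 1)))) * (F ^ 2 - s ^ 2) := by gcongr; linarith
        _ = 2 * (F * (F - 1)) * (c * (F ^ 2 - s ^ 2)) := by ring
        _ ≤ 2 * (F * (F - 1)) * (s ^ 2 * (F - 1)) := by gcongr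
        _ = _ := by ring
    have h4 := num_big s F hs100 hbig h2
    have hs1 : 0 ≤ s ^ 2 - 1 := by nlinarith
    refine le_of_mul_le_mul_right ?_ (show 0 < F * (F - 1) ^ 2 by positivity)
    calc (s + 1) * N * (F * (F - 1) ^ 2) = N * ((s + 1) * F * (F - 1) ^ 2) := by ring
      _ ≤ N * ((s ^ 2 - 1) * (F ^ 2 - s ^ 2) + s ^ 2 * (F - 1) ^ 2) := by gcongr
      _ = (s ^ 2 - 1) * (N * (F ^ 2 - s ^ 2)) + N * (s ^ 2 * (F - 1) ^ 2) := by ring
      _ ≤ (s ^ 2 - 1) * (2 * s ^ 2 * (F * (F - 1) ^ 2)) + (2 * (F * E)) * (s ^ 2 * (F - 1) ^ 2) := by gcongr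
      _ = _ := by ring
  · have hex : ∃ c d : Ω, c ≠ d ∧ (c, d) ∉ Or G a b := by
      by_contra h
      push Not at h
      refine not_two hU hg hab ha hb hp ?_ h
      have : (Fintype.card Ω : ℝ) < (fx Ω g : ℝ) ^ 2 := by rw [← hss, ← hFd]; nlinarith
      exact_mod_cast this
    obtain ⟨c, d, hcd, hno⟩ := hex
    have hdis := or_disj hno
    have hun : (#(Or G a b ∪ Or G c d) : ℝ) = #(Or G a b) + #(Or G c d) := by
      rw [Finset.card_union_of_disjoint hdis]; push_cast; ring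
    have hFE : F * E ≤ (s + 2) * E := by gcongr
    by_cases hc : ∃ x : G, x ≠ 1 ∧ x • c = c ∧ x • d = d
    · obtain ⟨x, hx, h1, h2⟩ := hc
      have h5 := hQ (Or G a b ∪ Or G c d) fun p hp => by
        rcases Finset.mem_union.1 hp with h | h
        · exact hcol g a b hg hab ha hb p h
        · exact hcol x c d hx hcd h1 h2 p h
      have h6 := hO c d hcd
      have h7 : N ≤ (s + 2) * E := by linarith
      have hs1 : 0 ≤ (s ^ 2 - 1) * (2 * s ^ 2) := by apply mul_nonneg <;> nlinarith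
      have h8 : (s + 1) * N ≤ (s + 1) * ((s + 2) * E) := by gcongr
      have h9 : (s + 1) * (s + 2) * E ≤ 2 * s ^ 2 * E := mul_le_mul_of_nonneg_right (by nlinarith) hE0
      nlinarith
    · push Not at hc
      have h5 : N ≤ #(Or G c d) := by
        rw [hN]
        exact_mod_cast or_one (G := G) fun x h1 h2 => by by_contra e; exact hc x e h1 h2
      have h6 : Or G a b ∪ Or G c d ⊆ (univ : Finset Ω).offDiag := by
        intro p hp
        rw [Finset.mem_offDiag]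
        refine ⟨Finset.mem_univ _, Finset.mem_univ _, ?_⟩
        rcases Finset.mem_union.1 hp with h | h
        · obtain ⟨k, rfl⟩ := mem_Or.1 h; exact fun e => hab (smul_left_cancel k e)
        · obtain ⟨k, rfl⟩ := mem_Or.1 h; exact fun e => hcd (smul_left_cancel k e)
      have h7 : (#(Or G a b ∪ Or G c d) : ℝ) ≤ s ^ 2 * s ^ 2 - s ^ 2 := by
        have := Finset.card_le_card h6
        rw [Finset.offDiag_card, Finset.card_univ] at this
        rw [hss]
        have h := (Nat.cast_le (α := ℝ)).2 this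
        rw [Nat.cast_sub (Nat.le_mul_self _)] at h
        push_cast at h
        exact h
      have h8 : 3 * N ≤ (s ^ 2 - 1) * (2 * s ^ 2) := by nlinarith
      have h9 : N ≤ 2 * ((s + 2) * E) := by linarith
      have h10 : (s - 2) * N ≤ (s - 2) * (2 * ((s + 2) * E)) := by gcongr; linarith
      nlinarith

end Cfsg.Agent.H1.DR3
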