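import Cfsg.Agent.H1.Derange
import Cfsg.Agent.H1.Alt
import Cfsg.Agent.H1.PrimeDeg2

set_option autoImplicit false

namespace Cfsg.Agent.H1.Der2

open MulAction Finset
open scoped Classical

/-- Double transitivity in elementary form. -/
def TwoT (G Ω : Type*) [Group G] [MulAction G Ω] : Prop :=
  ∀ x y x' y' : Ω, x ≠ y → x' ≠ y' → ∃ g : G, g • x = x' ∧ g • y = y'

variable {G Ω : Type*} [Group G] [MulAction G Ω]

/-- The stabiliser of two points. -/
def st (G : Type*) [Group G] [MulAction G Ω] (x y : Ω) : Subgroup G :=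
  stabilizer G x ⊓ stabilizer G y

theorem mem_st {x y : Ω} {g : G} : g ∈ st G x y ↔ g • x = x ∧ g • y = y := Iff.rfl

theorem conj_mem_st {x y : Ω} (g h : G) : g * h * g⁻¹ ∈ st G (g • x) (g • y) ↔ h ∈ st G x y := by
  simp [mem_st, mul_smul]

theorem st_comm (x y : Ω) : st G x y = st G y x := inf_comm _ _

variable [Fintype G] [Fintype Ω]

theorem sum_st {M : Type*} [AddCommMonoid M] (h2 : TwoT G Ω) (F : G → M)
    (hF : ∀ g h, F (g * h * g⁻¹) = F h) {x y x' y' : Ω} (h : x ≠ y) (h' : x' ≠ y') :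
    ∑ g with g ∈ st G x y, F g = ∑ g with g ∈ st G x' y', F g := by
  obtain ⟨g, rfl, rfl⟩ := h2 x y x' y' h h'
  refine sum_equiv (MulAut.conj g).toEquiv (fun h => ?_) (fun h _ => (hF g h).symm)
  simp only [mem_filter, mem_univ, true_and]
  exact (conj_mem_st g h).symm

theorem card_st_eq (x y : Ω) : Nat.card (st G x y) = #{g : G | g ∈ st G x y} := by
  rw [Nat.card_eq_fintype_card, Fintype.card_subtype]

theorem card_st (h2 : TwoT G Ω) {x y x' y' : Ω} (h : x ≠ y) (h' : x' ≠ y') :
    Nat.card (st G x y) = Nat.card (st G x' y') := by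
  rw [card_st_eq, card_st_eq, card_eq_sum_ones, card_eq_sum_ones]
  exact sum_st h2 (fun _ => 1) (fun _ _ => rfl) h h'

theorem st_eq_of_le (h2 : TwoT G Ω) {x y x' y' : Ω} (h : x ≠ y) (h' : x' ≠ y')
    (hle : st G x y ≤ st G x' y') : st G x y = st G x' y' :=
  Subgroup.eq_of_le_of_card_ge hle (card_st h2 h' h).le

/-- The fixed points of a two-point stabiliser. -/
noncomputable def line (G : Type*) [Group G] [MulAction G Ω] (x y : Ω) : Finset Ω :=
  {z | ∀ g ∈ st G x y, g • z = z}

omit [Fintype G] in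
theorem mem_line {x y z : Ω} : z ∈ line G x y ↔ ∀ g ∈ st G x y, g • z = z := by
  simp [line]

omit [Fintype G] in
theorem left_mem_line (x y : Ω) : x ∈ line G x y := mem_line.2 fun _ h => h.1

omit [Fintype G] in
theorem right_mem_line (x y : Ω) : y ∈ line G x y := mem_line.2 fun _ h => h.2

theorem st_eq_of_mem (h2 : TwoT G Ω) {x y u v : Ω} (h : x ≠ y) (h' : u ≠ v)
    (hu : u ∈ line G x y) (hv : v ∈ line G x y) : st G x y = st G u v :=
  st_eq_of_le h2 h h' fun g hg => ⟨mem_line.1 hu g hg, mem_line.1 hv g hg⟩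

omit [Fintype G] in
theorem smul_mem_line {x y z : Ω} (g : G) : g • z ∈ line G (g • x) (g • y) ↔ z ∈ line G x y := by
  simp only [mem_line]
  constructor
  · intro h k hk
    have := h _ ((conj_mem_st g k).2 hk)
    simpa [mul_smul] using this
  · intro h k hk
    have h1 : g⁻¹ * k * g ∈ st G x y := by
      rw [← conj_mem_st g]; simpa [mul_assoc] using hk
    have := h _ h1
    rwa [mul_smul, mul_smul, inv_smul_eq_iff] at this

omit [Fintype G] in
theorem card_line (h2 : TwoT G Ω) {x y x' y' : Ω} (h : x ≠ y) (h' : x' ≠ y') :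
    #(line G x y) = #(line G x' y') := by
  obtain ⟨g, rfl, rfl⟩ := h2 x y x' y' h h'
  exact card_equiv (toPerm g) fun z => (smul_mem_line g).symm

/-- The set of fixed points of an element. -/
noncomputable def fx (Ω : Type*) [MulAction G Ω] [Fintype Ω] (g : G) : Finset Ω := {z | g • z = z}

omit [Fintype G] in
theorem mem_fx {g : G} {z : Ω} : z ∈ fx Ω g ↔ g • z = z := by simp [fx]

omit [Fintype G] in
theorem card_fx (g : G) : Nat.card (fixedBy Ω g) = #(fx Ω g) := by
  rw [Nat.card_eq_fintype_card, Fintype.card_subtype]; rfl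

omit [Fintype G] in
theorem card_fx_conj (g h : G) : #(fx Ω (g * h * g⁻¹)) = #(fx Ω h) := by
  symm
  refine card_equiv (toPerm g) fun z => ?_
  simp [mem_fx, mul_smul]

theorem fix_bound (h2 : TwoT G Ω) {a b : Ω} (hab : a ≠ b) {g : G} {p : Ω} (hp : g • p ≠ p) :
    #(fx Ω g) * (#(line G a b) - 1) + 1 ≤ Fintype.card Ω := by
  have hne : ∀ u ∈ fx Ω g, p ≠ u := by
    rintro u hu rfl
    exact hp (mem_fx.1 hu)
  have h1 : #((fx Ω g).biUnion fun u => (line G p u).erase p) =
      #(fx Ω g) * (#(line G a b) - 1) := by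
    rw [card_biUnion, sum_const_nat]
    · intro u hu
      rw [card_erase_of_mem (left_mem_line _ _), card_line h2 (hne u hu) hab]
    · intro u hu u' hu' huu
      rw [Function.onFun, disjoint_left]
      intro w hw hw'
      rw [mem_erase] at hw hw'
      have e1 := st_eq_of_mem h2 (hne u hu) hw.1.symm (left_mem_line _ _) hw.2
      have e2 := st_eq_of_mem h2 (hne u' hu') hw.1.symm (left_mem_line _ _) hw'.2
      have e3 : st G p u = st G u u' := st_eq_of_le h2 (hne u hu) huu fun k hk =>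
        ⟨hk.2, (show k ∈ st G p u' by rw [e2, ← e1]; exact hk).2⟩
      have : g ∈ st G p u := by rw [e3]; exact ⟨mem_fx.1 hu, mem_fx.1 hu'⟩
      exact hp this.1
  have h3 : ((fx Ω g).biUnion fun u => (line G p u).erase p) ⊆ univ.erase p := by
    intro w hw
    obtain ⟨u, -, hu⟩ := mem_biUnion.1 hw
    exact mem_erase.2 ⟨(mem_erase.1 hu).1, mem_univ _⟩
  have h4 := card_le_card h3
  rw [h1, card_erase_of_mem (mem_univ _), card_univ] at h4
  have : 0 < Fintype.card Ω := Fintype.card_pos_iff.2 ⟨p⟩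
  omega

theorem double_count (h2 : TwoT G Ω) {a b : Ω} (hab : a ≠ b) (F : G → ℚ)
    (hF : ∀ g h, F (g * h * g⁻¹) = F h) :
    ∑ g : G, F g * (#(fx Ω g) * (#(fx Ω g) - 1)) =
      Fintype.card Ω * (Fintype.card Ω - 1) * ∑ g with g ∈ st G a b, F g := by
  have h1 : ∀ g : G, F g * (#(fx Ω g) * (#(fx Ω g) - 1)) =
      ∑ p ∈ (univ : Finset Ω).offDiag, if g ∈ st G p.1 p.2 then F g else 0 := by
    intro g
    rw [← sum_filter, sum_const, nsmul_eq_mul, mul_comm]
    congr 1
    have : ((univ : Finset Ω).offDiag.filter fun p => g ∈ st G p.1 p.2) = (fx Ω g).offDiag := by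
      ext p
      simp only [mem_filter, mem_offDiag, mem_univ, true_and, mem_st, mem_fx]
      tauto
    rw [this, offDiag_card, Nat.cast_sub (Nat.le_mul_self _)]
    push_cast; ring
  rw [sum_congr rfl fun g _ => h1 g, sum_comm,
    sum_congr rfl (g := fun _ => ∑ g with g ∈ st G a b, F g), sum_const, offDiag_card, card_univ,
    nsmul_eq_mul, Nat.cast_sub (Nat.le_mul_self _)]
  · push_cast; ring
  · intro p hp
    rw [← sum_filter]
    exact sum_st h2 F hF (mem_offDiag.1 hp).2.2 hab

end Cfsg.Agent.H1.Der2
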