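import Cfsg.Agent.H1.Der2

set_option autoImplicit false
set_option linter.unusedSectionVars false

namespace Cfsg.Agent.H1.Der3

open MulAction Finset Cfsg.Agent.H1.Der2 Cfsg.Agent.H1.Derange
open scoped Classical

variable {G Ω : Type*} [Group G] [MulAction G Ω] [Fintype G] [Fintype Ω]

theorem six_orbits (L Z : Finset Ω) (hL : ∀ z, (∀ g : G, g • z = z) → z ∈ L)
    (hZ : ∀ z ∈ Z, 3 ≤ Nat.card (orbit G z)) :
    6 * Nat.card (orbitRel.Quotient G Ω) + #Z ≤ 3 * Fintype.card Ω + 3 * #L := by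
  have h1 := sum_fix_orbits (G := G) (Ω := Ω)
  have h2 : ∑ g : G, Nat.card (fixedBy Ω g) = ∑ z : Ω, Nat.card (stabilizer G z) := by
    simp only [card_fx, fx, card_filter]
    rw [sum_comm]
    refine sum_congr rfl fun z _ => ?_
    rw [Nat.card_eq_fintype_card, Fintype.card_subtype, card_filter]
    rfl
  have h3 : ∀ z : Ω, 6 * Nat.card (stabilizer G z) + (if z ∈ Z then 1 else 0) * Nat.card G ≤
      (3 + 3 * if z ∈ L then 1 else 0) * Nat.card G := by
    intro z
    have h4 : Nat.card (orbit G z) * Nat.card (stabilizer G z) = Nat.card G := by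
      rw [← (stabilizer G z).index_mul_card, index_stabilizer]; rfl
    have : Nonempty (orbit G z) := ⟨⟨z, mem_orbit_self z⟩⟩
    have h5 : 0 < Nat.card (orbit G z) := Nat.card_pos
    rw [← h4]
    by_cases hz : z ∈ Z
    · have := hZ z hz
      rw [if_pos hz]
      split_ifs <;> nlinarith [Nat.zero_le (Nat.card (stabilizer G z))]
    · rw [if_neg hz]
      split_ifs with hl
      · nlinarith [Nat.zero_le (Nat.card (stabilizer G z))]
      · have h6 : 2 ≤ Nat.card (orbit G z) := by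
          have : ¬ ∀ g : G, g • z = z := fun h => hl (hL z h)
          push Not at this
          obtain ⟨g, hg⟩ := this
          have : Nontrivial (orbit G z) := ⟨⟨g • z, g, rfl⟩, ⟨z, mem_orbit_self z⟩,
            fun h => hg (congrArg Subtype.val h)⟩
          exact Finite.one_lt_card
        nlinarith [Nat.zero_le (Nat.card (stabilizer G z))]
  have h4 := sum_le_sum (s := univ) fun z _ => h3 z
  rw [sum_add_distrib, ← mul_sum, ← h2, h1, ← sum_mul, ← sum_mul, sum_add_distrib, ← mul_sum,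
    sum_boole, sum_boole, sum_const, card_univ] at h4
  simp only [filter_mem_eq_inter, univ_inter, Nat.cast_id, smul_eq_mul] at h4
  have hG : 0 < Nat.card G := Nat.card_pos
  refine Nat.le_of_mul_le_mul_right ?_ hG
  nlinarith

theorem eq_of_orbit_le_two {z : Ω} (h : ¬ 3 ≤ Nat.card (orbit G z)) {g k : G} (hg : g • z ≠ z)
    (hk : k • z ≠ z) : g • z = k • z := by
  by_contra hc
  apply h
  have h1 : #({z, g • z, k • z} : Finset Ω) = 3 := card_eq_three.2 ⟨_, _, _, hg.symm, hk.symm, hc, rfl⟩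
  rw [← h1, ← Set.ncard_coe_finset]
  apply Set.ncard_le_ncard _ (Set.toFinite _)
  intro w hw
  simp only [coe_insert, coe_singleton, Set.mem_insert_iff, Set.mem_singleton_iff] at hw
  rcases hw with rfl | rfl | rfl
  · exact mem_orbit_self _
  · exact mem_orbit _ _
  · exact mem_orbit _ _

theorem sq_fix_of_orbit_le_two {z : Ω} (h : ¬ 3 ≤ Nat.card (orbit G z)) (g : G) :
    g • g • z = z := by
  by_contra hc
  have hg : g • z ≠ z := fun h => hc (by rw [h, h])
  have := eq_of_orbit_le_two h (g := g * g) (k := g) (by rwa [mul_smul]) hg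
  rw [mul_smul, smul_left_cancel_iff] at this
  exact hg this

theorem three_le_orbit {z : Ω} {g : G} (h : g • g • z ≠ z) : 3 ≤ Nat.card (orbit G z) := by
  by_contra hc
  exact h (sq_fix_of_orbit_le_two hc g)

theorem two_le_fx {a b : Ω} (hab : a ≠ b) {g : G} (hg : g ∈ st G a b) : 2 ≤ #(fx Ω g) := by
  rw [← card_pair hab]
  apply card_le_card
  intro z hz
  rcases mem_insert.1 hz with rfl | hz
  · exact mem_fx.2 hg.1
  · rw [mem_singleton.1 hz]; exact mem_fx.2 hg.2

theorem fx_one : #(fx Ω (1 : G)) = Fintype.card Ω := by simp [fx]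

theorem split_one {M : Type*} [AddCommMonoid M] (H : Subgroup G) (F : G → M) :
    ∑ g with g ∈ H, F g = F 1 + ∑ g ∈ (univ.filter (· ∈ H)).erase 1, F g :=
  (add_sum_erase _ F (mem_filter.2 ⟨mem_univ _, H.one_mem⟩)).symm

theorem card_erase_one (H : Subgroup G) :
    (#((univ.filter (· ∈ H)).erase (1 : G)) : ℚ) = Nat.card H - 1 := by
  rw [card_erase_of_mem (mem_filter.2 ⟨mem_univ _, H.one_mem⟩), Nat.card_eq_fintype_card,
    Fintype.card_subtype, Nat.cast_sub (card_pos.2 ⟨1, mem_filter.2 ⟨mem_univ _, H.one_mem⟩⟩)]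
  simp

theorem direct {a b : Ω} (hab : a ≠ b) (hh : 2 ≤ Nat.card (st G a b))
    (h : ∀ g ∈ st G a b, g ≠ 1 → (2 * Nat.card (st G a b) - 1 : ℚ) * #(fx Ω g) ≤
      Fintype.card Ω * (Nat.card (st G a b) - 1)) :
    (2 * Nat.card (st G a b) : ℚ) ≤ ∑ g with g ∈ st G a b, (Fintype.card Ω : ℚ) / #(fx Ω g) := by
  have hn : (0 : ℚ) < Fintype.card Ω := by exact_mod_cast Fintype.card_pos_iff.2 ⟨a⟩
  have hh' : (2 : ℚ) ≤ Nat.card (st G a b) := by exact_mod_cast hh
  rw [split_one, fx_one, div_self hn.ne']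
  have h1 : ∑ g ∈ (univ.filter (· ∈ st G a b)).erase 1,
      (2 * Nat.card (st G a b) - 1 : ℚ) / (Nat.card (st G a b) - 1) ≤
      ∑ g ∈ (univ.filter (· ∈ st G a b)).erase 1, (Fintype.card Ω : ℚ) / #(fx Ω g) := by
    refine sum_le_sum fun g hg => ?_
    rw [mem_erase, mem_filter] at hg
    have h2 : (2 : ℚ) ≤ #(fx Ω g) := by exact_mod_cast two_le_fx hab hg.2.2
    rw [div_le_div_iff₀ (by linarith) (by linarith)]
    exact h g hg.2.2 hg.1
  rw [sum_const, nsmul_eq_mul, card_erase_one, mul_div_cancel₀ _ (by linarith)] at h1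
  linarith

theorem jensen {a b : Ω} (hab : a ≠ b) (hh : 2 ≤ Nat.card (st G a b))
    (h : (2 * Nat.card (st G a b) - 1 : ℚ) * Nat.card (orbitRel.Quotient (st G a b) Ω) ≤
      Fintype.card Ω * Nat.card (st G a b)) :
    (2 * Nat.card (st G a b) : ℚ) ≤ ∑ g with g ∈ st G a b, (Fintype.card Ω : ℚ) / #(fx Ω g) := by
  have hn : (0 : ℚ) < Fintype.card Ω := by exact_mod_cast Fintype.card_pos_iff.2 ⟨a⟩
  have hh' : (2 : ℚ) ≤ Nat.card (st G a b) := by exact_mod_cast hh
  have h1 : ∑ g with g ∈ st G a b, (#(fx Ω g) : ℚ) =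
      Nat.card (orbitRel.Quotient (st G a b) Ω) * Nat.card (st G a b) := by
    have := sum_fix_orbits (G := st G a b) (Ω := Ω)
    rw [← Nat.cast_mul, ← this, Nat.cast_sum, sum_subtype (p := (· ∈ st G a b))]
    · refine sum_congr rfl fun g _ => ?_
      rw [← card_fx]; rfl
    · simp
  rw [split_one, fx_one] at h1
  rw [split_one, fx_one, div_self hn.ne']
  have hpos : ∀ g ∈ (univ.filter (· ∈ st G a b)).erase 1, (0 : ℚ) < #(fx Ω g) := by
    intro g hg
    rw [mem_erase, mem_filter] at hg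
    have h2 : (2 : ℚ) ≤ #(fx Ω g) := by exact_mod_cast two_le_fx hab hg.2.2
    linarith
  have h2 := sq_sum_div_le_sum_sq_div _ (fun _ => (1 : ℚ)) hpos
  rw [sum_const, nsmul_eq_mul, card_erase_one, mul_one] at h2
  have h3 : 0 < ∑ g ∈ (univ.filter (· ∈ st G a b)).erase 1, (#(fx Ω g) : ℚ) := by
    apply sum_pos hpos
    rw [← card_pos, ← Nat.cast_pos (α := ℚ), card_erase_one]; linarith
  have h4 : ∑ g ∈ (univ.filter (· ∈ st G a b)).erase 1, (Fintype.card Ω : ℚ) / #(fx Ω g) =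
      Fintype.card Ω * ∑ g ∈ (univ.filter (· ∈ st G a b)).erase 1, (1 : ℚ) ^ 2 / #(fx Ω g) := by
    rw [mul_sum]
    exact sum_congr rfl fun g _ => by ring
  rw [h4]
  have h5 : (2 * Nat.card (st G a b) - 1 : ℚ) ≤ Fintype.card Ω * ((Nat.card (st G a b) - 1) ^ 2 /
      ∑ g ∈ (univ.filter (· ∈ st G a b)).erase 1, (#(fx Ω g) : ℚ)) := by
    rw [← mul_div_assoc, le_div_iff₀ h3, eq_sub_of_add_eq' h1]
    nlinarith
  nlinarith

end Cfsg.Agent.H1.Der3
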