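import Cfsg.Agent.H1.Der3

set_option autoImplicit false
set_option linter.unusedSectionVars false

namespace Cfsg.Agent.H1.Der4

open MulAction Finset Cfsg.Agent.H1.Der2 Cfsg.Agent.H1.Derange Cfsg.Agent.H1.Der3
open Cfsg.Agent.H1.Alt Cfsg.Agent.H1.PrimeDeg Cfsg.Agent.H1.PrimeDeg2
open scoped Classical

variable {G Ω : Type*} [Group G] [MulAction G Ω] [Fintype G] [Fintype Ω]

theorem card_group (h2 : TwoT G Ω) {a b : Ω} (hab : a ≠ b) :
    Nat.card G = Fintype.card Ω * (Fintype.card Ω - 1) * Nat.card (st G a b) := by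
  have h1 : stabilizer G (a, b) = st G a b := by
    ext g; simp [mem_st, Prod.ext_iff]
  have h3 : orbit G (a, b) = ((univ : Finset Ω).offDiag : Set (Ω × Ω)) := by
    ext ⟨x, y⟩
    simp only [mem_coe, mem_offDiag, mem_univ, true_and]
    constructor
    · rintro ⟨g, hg⟩
      obtain ⟨rfl, rfl⟩ := Prod.ext_iff.1 hg
      exact fun h => hab (smul_left_cancel g h)
    · intro h
      obtain ⟨g, h1, h2⟩ := h2 a b x y hab h
      exact ⟨g, Prod.ext h1 h2⟩
  rw [← (stabilizer G (a, b)).index_mul_card, index_stabilizer, h1, h3, Set.ncard_coe_finset,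
    offDiag_card, card_univ, Nat.mul_sub_one]

theorem prim (h2 : TwoT G Ω) : IsPreprimitive G Ω :=
  isPreprimitive_of_is_two_pretransitive (is_two_pretransitive_iff.2 fun h h' => h2 _ _ _ _ h h')

theorem four_le [FaithfulSMul G Ω] (h2 : TwoT G Ω) (hn : 6 ≤ Fintype.card Ω) {a b : Ω}
    (Z : Finset Ω) (hZ : ∀ z, z ∈ Z ↔ 3 ≤ Nat.card (orbit (st G a b) z)) (hne : Z.Nonempty) :
    4 ≤ #Z := by
  by_contra hc
  obtain ⟨z, hz⟩ := hne
  have h1 : Nat.card (orbit (st G a b) z) ≤ #Z := by
    rw [← Set.ncard_coe_finset]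
    apply Set.ncard_le_ncard _ (Set.toFinite _)
    intro w hw
    rw [mem_coe, hZ, orbit_eq_iff.2 hw]
    exact (hZ z).1 hz
  have h3 : Nat.card (orbit (st G a b) z) = 3 := by have := (hZ z).1 hz; omega
  have h4 : 3 ∣ Nat.card (st G a b) := by
    rw [← h3, Nat.card_coe_set_eq, ← index_stabilizer]
    exact Subgroup.index_dvd_card _
  have : Fact (Nat.Prime 3) := ⟨Nat.prime_three⟩
  obtain ⟨y, hy⟩ := exists_prime_orderOf_dvd_card' 3 h4
  have hy3 : y ^ 3 = 1 := hy ▸ pow_orderOf_eq_one y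
  have hy1 : (y : G) ≠ 1 := by
    intro h
    have : y = 1 := Subtype.ext h
    rw [this, orderOf_one] at hy
    omega
  have hA := alt_le_of_support_le_three (prim h2) (y : G) (exists_move hy1) Z (by omega) (by
    intro x hx
    rw [hZ] at hx
    have h5 := sq_fix_of_orbit_le_two hx y
    have h6 : y • y • y • x = x := by
      rw [smul_smul, smul_smul, ← pow_three', hy3, one_smul]
    rw [h5] at h6
    exact h6)
  obtain ⟨w1, h5⟩ := exists_notMem (insert a (insert b Z)) (by
    have := card_insert_le a (insert b Z)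
    have := card_insert_le b Z
    omega)
  obtain ⟨w2, h6⟩ := exists_notMem {a, b, w1} (by have := card_le_three (a := a) (b := b) (c := w1); omega)
  obtain ⟨w3, h7⟩ := exists_notMem {a, b, w1, w2} (by
    have := card_le_four (a := a) (b := b) (c := w1) (d := w2); omega)
  simp only [mem_insert, mem_singleton, not_or] at h5 h6 h7
  obtain ⟨g, e1, e2, -, e4⟩ := exists_three_cycle hA (x := w1) (y := w2) (z := w3)
    (Ne.symm h6.2.2) (Ne.symm h7.2.2.1) (Ne.symm h7.2.2.2)
  have hg : g ∈ st G a b := ⟨e4 a (Ne.symm h5.1) (Ne.symm h6.1) (Ne.symm h7.1),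
    e4 b (Ne.symm h5.2.1) (Ne.symm h6.2.1) (Ne.symm h7.2.1)⟩
  apply h5.2.2
  rw [hZ]
  apply three_le_orbit (g := (⟨g, hg⟩ : st G a b))
  change g • g • w1 ≠ w1
  rw [e1, e2]
  exact h7.2.2.1

/-- All orbits of two-point stabilisers have length at most two. -/
def Small (G Ω : Type*) [Group G] [MulAction G Ω] : Prop :=
  ∀ x y : Ω, x ≠ y → ∀ g ∈ st G x y, ∀ k ∈ st G x y, ∀ z : Ω, g • z ≠ z → k • z ≠ z → g • z = k • z

theorem small_of (h2 : TwoT G Ω) {a b : Ω} (hab : a ≠ b)
    (h : ∀ z : Ω, ¬ 3 ≤ Nat.card (orbit (st G a b) z)) : Small G Ω := by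
  intro x y hxy g hg k hk z h3 h4
  obtain ⟨t, rfl, rfl⟩ := h2 a b x y hab hxy
  have h5 : ∀ g ∈ st G (t • a) (t • b), t⁻¹ * g * t ∈ st G a b := fun g hg => by
    rw [← conj_mem_st t]; simpa [mul_assoc] using hg
  have := eq_of_orbit_le_two (h (t⁻¹ • z)) (g := ⟨_, h5 g hg⟩) (k := ⟨_, h5 k hk⟩)
    (by simpa [mul_smul] using h3) (by simpa [mul_smul] using h4)
  simpa [mul_smul] using this

theorem Small.sq [FaithfulSMul G Ω] (h : Small G Ω) {x y : Ω} (hxy : x ≠ y) {g : G}
    (hg : g ∈ st G x y) : g * g = 1 := by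
  apply FaithfulSMul.eq_of_smul_eq_smul (α := Ω)
  intro z
  rw [one_smul]
  by_contra hc
  have h1 : g • z ≠ z := fun h => hc (by rw [mul_smul, h, h])
  have := h x y hxy _ (Subgroup.mul_mem _ hg hg) g hg z hc h1
  rw [mul_smul, smul_left_cancel_iff] at this
  exact h1 this

theorem Small.comm [FaithfulSMul G Ω] (h : Small G Ω) {x y : Ω} (hxy : x ≠ y) {g k : G}
    (hg : g ∈ st G x y) (hk : k ∈ st G x y) : g * k = k * g := by
  have h1 := h.sq hxy hg
  have h2 := h.sq hxy hk
  have h3 := h.sq hxy (Subgroup.mul_mem _ hg hk)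
  calc g * k = k * k * (g * k) * 1 := by rw [h2, one_mul, mul_one]
    _ = k * k * (g * k) * (g * g) := by rw [h1]
    _ = k * (k * g) * (k * g) * g := by group
    _ = k * g := by
      have h4 := h.sq hxy (Subgroup.mul_mem _ hk hg)
      rw [mul_assoc k, h4, mul_one]

theorem Small.comm_out [FaithfulSMul G Ω] (h : Small G Ω) {a b c : Ω} (hab : a ≠ b) (hac : a ≠ c)
    {u v k : G} (hu : u ∈ st G a b) (hv : v ∈ st G a c) (hk : k ∈ st G a b) (hk' : k ∈ st G a c)
    {w : Ω} (hw : k • w ≠ w) : u • v • w = v • u • w := by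
  have hkk : k • k • w = w := by rw [smul_smul, h.sq hab hk, one_smul]
  have key : ∀ b, a ≠ b → ∀ u ∈ st G a b, k ∈ st G a b →
      (u • w = w ∧ u • k • w = k • w) ∨ (u • w = k • w ∧ u • k • w = w) := by
    intro b hab u hu hk
    have h1 : u • k • w = k • u • w := by rw [smul_smul, h.comm hab hu hk, mul_smul]
    by_cases h2 : u • w = w
    · exact Or.inl ⟨h2, by rw [h1, h2]⟩
    · have h3 := h a b hab u hu k hk w h2 hw
      exact Or.inr ⟨h3, by rw [h1, h3, hkk]⟩
  rcases key b hab u hu hk with ⟨h1, h2⟩ | ⟨h1, h2⟩ <;>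
    rcases key c hac v hv hk' with ⟨h3, h4⟩ | ⟨h3, h4⟩ <;> simp only [h1, h2, h3, h4]

theorem Small.fix_line (h : Small G Ω) {a b c : Ω} (hab : a ≠ b) {u : G} (hu : u ∈ st G a b)
    (huc : u • c ≠ c) {p : Ω} (hp : ∀ k ∈ st G a b, k • c = c → k • p = p) (hup : u • p = p) :
    p ∈ line G a b := by
  rw [mem_line]
  intro g hg
  by_cases hgc : g • c = c
  · exact hp g hg hgc
  have h1 := hp (u⁻¹ * g) (Subgroup.mul_mem _ (Subgroup.inv_mem _ hu) hg) (by
    rw [mul_smul, h a b hab g hg u hu c hgc huc, inv_smul_smul])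
  rwa [mul_smul, inv_smul_eq_iff, hup] at h1

theorem Small.card_le [FaithfulSMul G Ω] (h : Small G Ω) (h2 : TwoT G Ω) {a b : Ω} (hab : a ≠ b) :
    Nat.card (st G a b) ≤ 2 := by
  by_contra hc
  obtain ⟨u, c, hu, huc⟩ : ∃ (u : G) (c : Ω), u ∈ st G a b ∧ u • c ≠ c := by
    have : Nontrivial (st G a b) := Finite.one_lt_card_iff_nontrivial.1 (by omega)
    obtain ⟨u, hu⟩ := exists_ne (1 : st G a b)
    obtain ⟨c, hc⟩ := exists_move (Ω := Ω) (c := (u : G)) (fun h => hu (Subtype.ext h))
    exact ⟨u, c, u.2, hc⟩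
  have hac : a ≠ c := by rintro rfl; exact huc hu.1
  have hbc : b ≠ c := by rintro rfl; exact huc hu.2
  obtain ⟨k, hk, hkc, hk1⟩ : ∃ k ∈ st G a b, k • c = c ∧ k ≠ 1 := by
    by_contra h3
    push Not at h3
    apply hc
    rw [card_st_eq]
    refine (card_le_card (t := {1, u}) fun g hg => ?_).trans card_le_two
    have hg := (mem_filter.1 hg).2
    rw [mem_insert, mem_singleton]
    by_cases hgc : g • c = c
    · exact Or.inl (h3 g hg hgc)
    · right
      have := h3 (u⁻¹ * g) (Subgroup.mul_mem _ (Subgroup.inv_mem _ hu) hg) (by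
        rw [mul_smul, h a b hab g hg u hu c hgc huc, inv_smul_smul])
      exact (inv_mul_eq_one.1 this).symm
  obtain ⟨v, hv, hvb⟩ : ∃ v ∈ st G a c, v • b ≠ b := by
    by_contra h3
    push Not at h3
    have := st_eq_of_le h2 hac hab fun g hg => ⟨hg.1, h3 g hg⟩
    exact huc (show u ∈ st G a c from this ▸ hu).2
  obtain ⟨v', hv', hva⟩ : ∃ v ∈ st G b c, v • a ≠ a := by
    by_contra h3
    push Not at h3
    have := st_eq_of_le h2 hbc hab fun g hg => ⟨h3 g hg, hg.1⟩
    exact huc (show u ∈ st G b c from this ▸ hu).2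
  obtain ⟨w, hw⟩ := exists_move (Ω := Ω) hk1
  have huu := h.sq hab hu
  have hvv := h.sq hac hv
  have hφ : 2 ≤ #(line G a b) := by
    rw [← card_pair hab]
    exact card_le_card (insert_subset (left_mem_line _ _) (singleton_subset_iff.2 (right_mem_line _ _)))
  rcases hφ.eq_or_lt with hφ | hφ
  · have hl : line G a b = {a, b} := by
      symm
      apply eq_of_subset_of_card_le
        (insert_subset (left_mem_line _ _) (singleton_subset_iff.2 (right_mem_line _ _)))
      rw [card_pair hab, hφ]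
    have h3 : ∀ w : Ω, k • w ≠ w → (u * v * u * v) • w = w := by
      intro w hw
      rw [mul_assoc, mul_smul, mul_smul u v w, h.comm_out hab hac hu hv hk ⟨hk.1, hkc⟩ hw, mul_smul,
        smul_smul v, hvv, one_smul, smul_smul, huu, one_smul]
    have h4 : u * v * u * v ∈ st G w (k • w) := ⟨h3 w hw, h3 _ fun h => hw (smul_left_cancel k h)⟩
    have h5 := h.sq hw.symm h4
    have h6 : u * (v * u * v) = v * u * v * u := by
      calc u * (v * u * v) = u * v * u * v * (u * (v * (u * (v * v) * u) * v) * u) := by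
            rw [hvv, mul_one, huu, mul_one, hvv, mul_one, huu, mul_one]; group
        _ = (u * v * u * v * (u * v * u * v)) * (v * u * v * u) := by group
        _ = v * u * v * u := by rw [h5, one_mul]
    have hKu : ∀ p : Ω, (∀ k ∈ st G a b, k • c = c → k • p = p) →
        ∀ k ∈ st G a b, k • c = c → k • u • p = u • p := by
      intro p hp k hk hkc
      rw [smul_smul, h.comm hab hk hu, mul_smul, hp k hk hkc]
    have hKv : ∀ p : Ω, (∀ k ∈ st G a b, k • c = c → k • p = p) →
        ∀ k ∈ st G a b, k • c = c → k • v • p = v • p := by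
      intro p hp k hk hkc
      rw [smul_smul, h.comm hac ⟨hk.1, hkc⟩ hv, mul_smul, hp k hk hkc]
    have hb : ∀ k ∈ st G a b, k • c = c → k • b = b := fun k hk _ => hk.2
    have h7 := h.fix_line hab hu huc (hKv _ (hKu _ (hKv _ hb))) (by
      have : (u * (v * u * v)) • b = (v * u * v * u) • b := by rw [h6]
      simpa only [mul_smul, hu.2.symm ▸ (rfl : u • b = u • b), show u • b = b from hu.2] using this)
    have hva' : v • a = a := hv.1
    have hua : u • a = a := hu.1
    rw [hl, mem_insert, mem_singleton] at h7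
    rcases h7 with h7 | h7
    · apply hab
      rw [← hva', smul_left_cancel_iff, ← hua, smul_left_cancel_iff, ← hva',
        smul_left_cancel_iff] at h7
      exact h7.symm
    · have h8 : u • v • b = v • b := by
        have := congrArg (v • ·) h7
        simpa only [smul_smul v v, hvv, one_smul] using this
      have h9 := h.fix_line hab hu huc (hKv _ hb) h8
      rw [hl, mem_insert, mem_singleton] at h9
      rcases h9 with h9 | h9
      · rw [← hva', smul_left_cancel_iff] at h9
        exact hab h9.symm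
      · exact hvb h9
  · have hb : ∀ g : G, g ≠ 1 → 2 * #(fx Ω g) + 1 ≤ Fintype.card Ω := by
      intro g hg
      obtain ⟨p, hp⟩ := exists_move (Ω := Ω) hg
      have := fix_bound h2 hab hp
      have h3 : #(fx Ω g) * 2 ≤ #(fx Ω g) * (#(line G a b) - 1) := Nat.mul_le_mul_left _ (by omega)
      omega
    have key : ∀ a b : Ω, a ≠ b → a ≠ c → u ∈ st G a b → k ∈ st G a b → ∀ v ∈ st G a c,
        v • b ≠ b → u • c ∈ line G a c := by
      intro a b hab hac hu hk v hv hvb
      have h3 : (v * u)⁻¹ * (u * v) = 1 := by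
        by_contra h3
        have h4 := hb _ h3
        have h5 := hb _ hk1
        have h6 : (univ : Finset Ω) ⊆ fx Ω ((v * u)⁻¹ * (u * v)) ∪ fx Ω k := by
          intro w _
          rw [mem_union, mem_fx, mem_fx, or_iff_not_imp_right]
          intro hw
          rw [mul_smul, inv_smul_eq_iff, mul_smul, mul_smul]
          exact h.comm_out hab hac hu hv hk ⟨hk.1, hkc⟩ hw
        have h7 := (card_le_card h6).trans (card_union_le _ _)
        rw [card_univ] at h7
        omega
      rw [inv_mul_eq_one] at h3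
      refine h.fix_line hac hv hvb (fun k hk hkb => ?_) ?_
      · rw [smul_smul, h.comm hab ⟨hk.1, hkb⟩ hu, mul_smul, show k • c = c from hk.2]
      · rw [smul_smul, h3, mul_smul, show v • c = c from hv.2]
    have h3 := key a b hab hac hu hk v hv hvb
    have h4 := key b a hab.symm hbc ⟨hu.2, hu.1⟩ ⟨hk.2, hk.1⟩ v' hv' hva
    have h5 := st_eq_of_mem h2 hac huc.symm (right_mem_line _ _) h3
    have h6 := st_eq_of_mem h2 hbc huc.symm (right_mem_line _ _) h4
    exact hvb (show v ∈ st G b c by rw [h6, ← h5]; exact hv).1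

theorem not_seven [FaithfulSMul G Ω] (h2 : TwoT G Ω) {a b : Ω} (hab : a ≠ b)
    (hn : Fintype.card Ω = 7) : Nat.card (st G a b) ≠ 2 := by
  intro hh
  have hG := card_group h2 hab
  rw [hn, hh] at hG
  have : Fact (Nat.Prime 7) := ⟨by norm_num⟩
  have := (prim h2).toIsPretransitive
  obtain ⟨c, e, hc, he⟩ := exists_coord' (G := G) hn
  have hP : IsPGroup 7 (Subgroup.zpowers c) := IsPGroup.of_card (n := 1) (by rw [Nat.card_zpowers, hc]; rfl)
  obtain ⟨P, hP⟩ := hP.exists_le_sylow
  have h7 := card_sylow (p := 7) (by rw [hG]; norm_num) (by rw [hG]; norm_num) P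
  have hPc : Subgroup.zpowers c = P := Subgroup.eq_of_le_of_card_ge hP (by rw [Nat.card_zpowers, hc, h7])
  have h1 := P.card_dvd_index
  have h3 := card_sylow_modEq_one 7 G
  have h4 : (P : Subgroup G).index = 12 := by
    have := (P : Subgroup G).index_mul_card
    rw [h7, hG] at this; omega
  rw [h4] at h1
  have h5 : Nat.card (Sylow 7 G) = 1 := by
    have := Nat.le_of_dvd (by norm_num) h1
    unfold Nat.ModEq at h3
    interval_cases Nat.card (Sylow 7 G) <;> simp_all
  have : Subsingleton (Sylow 7 G) := (Nat.card_eq_one_iff_unique.1 h5).1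
  have hN := Sylow.normal_of_subsingleton P
  have h01 : e 0 ≠ e 1 := fun h => zero_ne_one (e.injective h)
  rw [card_st h2 hab h01] at hh
  have : Nontrivial (st G (e 0) (e 1)) := Finite.one_lt_card_iff_nontrivial.1 (by omega)
  obtain ⟨⟨t, ht⟩, ht1⟩ := exists_ne (1 : st G (e 0) (e 1))
  have h6 : t * c * t⁻¹ ∈ Subgroup.zpowers c := by
    rw [hPc]; exact hN.conj_mem c (hPc ▸ Subgroup.mem_zpowers c) t
  rw [← mem_powers_iff_mem_zpowers] at h6
  obtain ⟨k, hk⟩ := h6
  have h8 := conj_smul_coord e he ht.1 hk.symm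
  have h9 : (k : ZMod 7) = 1 := by
    have := (h8 1).symm.trans ht.2
    simpa using this
  apply ht1
  apply Subtype.ext
  apply FaithfulSMul.eq_of_smul_eq_smul (α := Ω)
  intro z
  obtain ⟨j, rfl⟩ := e.surjective z
  simp [h8, h9]

end Cfsg.Agent.H1.Der4
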