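import Cfsg.Agent.H1.E8a

set_option autoImplicit false
set_option linter.unusedSimpArgs false
set_option linter.unreachableTactic false
set_option linter.unusedTactic false

namespace Cfsg.Agent.H1.E8

attribute [-simp] zsmul_eq_mul

abbrev K := ZMod 2

abbrev V : Type := (Rt → K) × (Fin 8 → K)

def e (v : L) : V := (fun r => if r.1 = v then 1 else 0, 0)
def h (v : L) : V := (0, fun i => (v i : K))

/-- coefficient of `e t` -/
def co (t : L) : V →ₗ[K] K where
  toFun x := if ht : B t t = 2 then x.1 ⟨t, ht⟩ else 0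
  map_add' x y := by split_ifs <;> rfl
  map_smul' c x := by split_ifs <;> rfl

/-- the pairing of a lattice vector with the Cartan part -/
def pr (r : L) : V →ₗ[K] K where
  toFun x := ∑ i, x.2 i * (B r (al i) : K)
  map_add' x y := by
    rw [← Finset.sum_add_distrib]
    exact Finset.sum_congr rfl fun i _ => add_mul _ _ _
  map_smul' c x := by
    simp only [RingHom.id_apply, smul_eq_mul, Finset.mul_sum]
    exact Finset.sum_congr rfl fun i _ => mul_assoc _ _ _

theorem e_eq_zero {v : L} (hv : B v v ≠ 2) : e v = 0 := by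
  refine Prod.ext (funext fun r => ?_) rfl
  show (if r.1 = v then (1 : K) else 0) = 0
  rw [if_neg]; rintro rfl; exact hv r.2

theorem co_e {t : L} (ht : B t t = 2) (v : L) : co t (e v) = if t = v then 1 else 0 := by
  show (if ht : B t t = 2 then (e v).1 ⟨t, ht⟩ else 0) = _
  rw [dif_pos ht]; rfl

theorem co_e_ne {t v : L} (h : t ≠ v) : co t (e v) = 0 := by
  by_cases ht : B t t = 2
  · rw [co_e ht, if_neg h]
  · show (if ht : B t t = 2 then (e v).1 ⟨t, ht⟩ else 0) = _
    rw [dif_neg ht]

@[simp] theorem co_h (t v : L) : co t (h v) = 0 := by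
  show (if ht : B t t = 2 then (h v).1 ⟨t, ht⟩ else 0) = _
  split_ifs <;> rfl

@[simp] theorem pr_e (r v : L) : pr r (e v) = 0 := by
  show ∑ i, (e v).2 i * (B r (al i) : K) = 0
  simp [e]

@[simp] theorem pr_h (r v : L) : pr r (h v) = (B r v : K) := by
  show ∑ i, (h v).2 i * (B r (al i) : K) = _
  rw [B_sum r v]; push_cast; rfl

theorem h_add (u v : L) : h (u + v) = h u + h v := by
  refine Prod.ext (by show (0 : Rt → K) = 0 + 0; simp) (funext fun i => ?_)
  show ((u i + v i : ℤ) : K) = (u i : K) + v i
  push_cast; rfl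

theorem h_smul (c : ℤ) (v : L) : h (c • v) = (c : K) • h v := by
  refine Prod.ext (by show (0 : Rt → K) = (c : K) • 0; simp) (funext fun i => ?_)
  show ((c * v i : ℤ) : K) = (c : K) * v i
  push_cast; rfl

theorem add_self' (v : V) : v + v = 0 := by
  rw [← two_smul K v, show (2 : K) = 0 from rfl, zero_smul]

theorem neg_V (v : V) : -v = v := neg_eq_of_add_eq_zero_left (add_self' v)

theorem h_neg (v : L) : h (-v) = h v := by
  rw [← neg_one_smul ℤ v, h_smul]; simp

theorem h_sub (u v : L) : h (u - v) = h u + h v := by rw [sub_eq_add_neg, h_add, h_neg]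

noncomputable instance : Fintype Rt := Fintype.ofFinite _

theorem decomp (x : V) : x = ∑ r : Rt, co r.1 x • e r.1 + ∑ i, x.2 i • h (al i) := by
  refine Prod.ext (funext fun s => ?_) (funext fun j => ?_)
  · have h1 : ∀ r : Rt, (co r.1 x • e r.1).1 s = if r = s then x.1 s else 0 := fun r => by
      show (if ht : B r.1 r.1 = 2 then x.1 ⟨r.1, ht⟩ else 0) * (if s.1 = r.1 then 1 else 0) = _
      rw [dif_pos r.2]
      by_cases hrs : r = s
      · subst hrs; simp
      · rw [if_neg hrs, if_neg (fun e => hrs (Subtype.ext e.symm)), mul_zero]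
    have h2 : (∑ r : Rt, co r.1 x • e r.1 + ∑ i, x.2 i • h (al i)).1 s =
        ∑ r : Rt, (co r.1 x • e r.1).1 s + ∑ i, (x.2 i • h (al i)).1 s := by
      rw [← Finset.sum_apply, ← Finset.sum_apply, ← Prod.fst_sum, ← Prod.fst_sum]; rfl
    rw [h2]
    simp only [h1, Finset.sum_ite_eq', Finset.mem_univ, if_true]
    rw [Finset.sum_eq_zero, add_zero]
    intro i _
    show x.2 i * 0 = 0
    simp
  · have h2 : (∑ r : Rt, co r.1 x • e r.1 + ∑ i, x.2 i • h (al i)).2 j =
        ∑ r : Rt, (co r.1 x • e r.1).2 j + ∑ i, (x.2 i • h (al i)).2 j := by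
      rw [← Finset.sum_apply, ← Finset.sum_apply, ← Prod.snd_sum, ← Prod.snd_sum]; rfl
    rw [h2, Finset.sum_eq_zero, zero_add]
    · have h1 : ∀ i, (x.2 i • h (al i)).2 j = if j = i then x.2 j else 0 := fun i => by
        show x.2 i * ((al i j : ℤ) : K) = _
        rw [al_apply]; split_ifs with hh
        · subst hh; simp
        · simp
      simp [h1]
    · intro r _
      show co r.1 x * 0 = 0
      simp

theorem V_ind {p : V → Prop} (h0 : p 0) (ha : ∀ x y, p x → p y → p (x + y))
    (he : ∀ t, B t t = 2 → p (e t)) (hh : ∀ v, p (h v)) (x : V) : p x := by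
  have hs : ∀ (c : K) y, p y → p (c • y) := fun c y hy => by
    have : c = 0 ∨ c = 1 := by revert c; decide
    rcases this with rfl | rfl
    · simpa using h0
    · simpa using hy
  rw [decomp x]
  refine ha _ _ ?_ ?_
  · exact Finset.sum_induction _ p ha h0 fun r _ => hs _ _ (he _ r.2)
  · exact Finset.sum_induction _ p ha h0 fun i _ => hs _ _ (hh _)

theorem lext {f g : V →ₗ[K] V} (he : ∀ t, B t t = 2 → f (e t) = g (e t))
    (hh : ∀ v, f (h v) = g (h v)) : f = g := by
  refine LinearMap.ext fun x => ?_
  refine V_ind (p := fun x => f x = g x) (by simp) (fun x y hx hy => by simp [hx, hy]) he hh x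

noncomputable def x (r : L) : V →ₗ[K] V :=
  LinearMap.id + ∑ s : Rt, (co s.1).smulRight (e (r + s.1)) + (co (-r)).smulRight (h r + e r)
    + (pr r).smulRight (e r)

variable {r s t : L}

theorem x_e' (hr : B r r = 2) (ht : B t t = 2) :
    x r (e t) = e t + e (r + t) + (if -r = t then h r + e r else 0) := by
  simp only [x, LinearMap.add_apply, LinearMap.id_apply, LinearMap.sum_apply,
    LinearMap.smulRight_apply, pr_e, zero_smul, add_zero]
  rw [Finset.sum_eq_single (⟨t, ht⟩ : Rt), co_e ht, co_e (by simpa using hr)]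
  · rw [if_pos rfl]; split_ifs <;> simp
  · intro b _ hb
    rw [co_e_ne (fun e => hb (Subtype.ext e)), zero_smul]
  · simp

theorem x_e (hr : B r r = 2) (ht : B t t = 2) :
    x r (e t) = e t + (if B r t = -1 then e (r + t) else 0) +
      (if B r t = -2 then h r + e r else 0) := by
  rw [x_e' hr ht]
  congr 1
  · congr 1
    split_ifs with h1
    · rfl
    · exact e_eq_zero (fun h2 => h1 ((root_add hr ht).1 h2))
  · refine if_congr ⟨?_, fun h1 => (eq_neg_of_B hr ht h1).symm⟩ rfl rfl
    rintro rfl; simp [hr]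

theorem x_h (r v : L) : x r (h v) = h v + (B r v : K) • e r := by
  simp [x]

theorem sm1 {a b : V} (hab : (1 : K) • a = b) : a = b := by simpa using hab

theorem cases5 (hr : B r r = 2) (ht : B t t = 2) :
    t = r ∨ t = -r ∨ B r t = 1 ∨ B r t = 0 ∨ B r t = -1 := by
  have h1 := B_le hr ht
  have h2 := le_B hr ht
  by_cases h3 : B r t = 2
  · exact Or.inl (eq_of_B hr ht h3)
  by_cases h4 : B r t = -2
  · exact Or.inr (Or.inl (eq_neg_of_B hr ht h4))
  right; right; omega

theorem x_x (hr : B r r = 2) : x r * x r = 1 := by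
  refine lext (fun t ht => ?_) (fun v => ?_)
  · rcases cases5 hr ht with rfl | rfl | h1 | h1 | h1
    · simp [x_e, hr]
    · simp [x_e, hr, x_h]
      apply sm1; match_scalars <;> decide
    · simp [x_e, hr, ht, h1]
    · simp [x_e, hr, ht, h1]
    · simp [x_e, hr, ht, h1, B_comm t r, add_assoc, add_self']
  · simp [x_e, hr, x_h, add_assoc, add_self']

theorem x_comm (hr : B r r = 2) (hs : B s s = 2) (hrs : 0 ≤ B r s) : x r * x s = x s * x r := by
  rcases cases5 hr hs with rfl | rfl | h0 | h0 | h0
  · rfl
  · simp [hr] at hrs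
  · have h0' : B s r = 1 := by rw [B_comm, h0]
    refine lext (fun t ht => ?_) (fun v => ?_)
    · rcases cases5 hr ht with h1 | h1 | h1 | h1 | h1 <;>
      rcases cases5 hs ht with h2 | h2 | h2 | h2 | h2 <;>
      first
        | (subst h1; simp [x_e, hr, hs, h0, h0', x_h, h_add, h_neg, add_comm]; done)
        | (subst h1; simp [x_e, hr, hs, h0, h0', x_h, h_add, h_neg, add_comm]; apply sm1;
            match_scalars <;> decide)
        | (subst h2; simp [x_e, hr, hs, h0, h0', x_h, h_add, h_neg, add_comm]; done)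
        | (subst h2; simp [x_e, hr, hs, h0, h0', x_h, h_add, h_neg, add_comm]; apply sm1;
            match_scalars <;> decide)
        | (simp [x_e, hr, hs, ht, h0, h0', h1, h2, B_comm t r, B_comm t s]; done)
        | (simp [x_e, hr, hs, ht, h0, h0', h1, h2, B_comm t r, B_comm t s, add_left_comm]; abel)
    · simp [x_e, hr, hs, x_h, h0, h0']
      abel
  · have h0' : B s r = 0 := by rw [B_comm, h0]
    refine lext (fun t ht => ?_) (fun v => ?_)
    · rcases cases5 hr ht with h1 | h1 | h1 | h1 | h1 <;>
      rcases cases5 hs ht with h2 | h2 | h2 | h2 | h2 <;>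
      first
        | (subst h1; simp [x_e, hr, hs, h0, h0', x_h, h_add, h_neg, add_comm]; done)
        | (subst h1; simp [x_e, hr, hs, h0, h0', x_h, h_add, h_neg, add_comm]; apply sm1;
            match_scalars <;> decide)
        | (subst h2; simp [x_e, hr, hs, h0, h0', x_h, h_add, h_neg, add_comm]; done)
        | (subst h2; simp [x_e, hr, hs, h0, h0', x_h, h_add, h_neg, add_comm]; apply sm1;
            match_scalars <;> decide)
        | (simp [x_e, hr, hs, ht, h0, h0', h1, h2, B_comm t r, B_comm t s]; done)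
        | (simp [x_e, hr, hs, ht, h0, h0', h1, h2, B_comm t r, B_comm t s, add_left_comm]; abel)
    · simp [x_e, hr, hs, x_h, h0, h0']
      abel
  · omega

theorem x_conj (hr : B r r = 2) (hs : B s s = 2) (h0 : B r s = -1) :
    x r * x s * x r = x (r + s) * x s := by
  have h0' : B s r = -1 := by rw [B_comm, h0]
  have hrs := (root_add hr hs).2 h0
  refine lext (fun t ht => ?_) (fun v => ?_)
  · by_cases h3 : t = r + s
    · subst h3
      simp [x_e, hr, hs, h0, h0']
    by_cases h4 : t = -(r + s)
    · subst h4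
      simp [x_e, hr, hs, h0, h0', x_h, h_add, h_neg, add_comm]
      apply sm1; match_scalars <;> decide
    have h5 : B r t + B s t ≠ 2 := fun h => h3 (eq_of_B hrs ht (by simpa using h))
    have h6 : B r t + B s t ≠ -2 := fun h => h4 (eq_neg_of_B hrs ht (by simpa using h))
    rcases cases5 hr ht with h1 | h1 | h1 | h1 | h1 <;>
      rcases cases5 hs ht with h2 | h2 | h2 | h2 | h2 <;>
      first
        | omega
        | (subst h1; simp [x_e, hr, hs, h0, h0', x_h, h_add, h_neg, add_comm]; done)
        | (subst h1; simp [x_e, hr, hs, h0, h0', x_h, h_add, h_neg, add_comm]; apply sm1;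
            match_scalars <;> decide)
        | (subst h2; simp [x_e, hr, hs, h0, h0', x_h, h_add, h_neg, add_comm]; done)
        | (subst h2; simp [x_e, hr, hs, h0, h0', x_h, h_add, h_neg, add_comm]; apply sm1;
            match_scalars <;> decide)
        | (simp [x_e, hr, hs, ht, h0, h0', h1, h2, B_comm t r, B_comm t s]; done)
        | (simp [x_e, hr, hs, ht, h0, h0', h1, h2, B_comm t r, B_comm t s, add_left_comm, add_assoc]; apply sm1;
            match_scalars <;> decide)
  · simp [x_e, hr, hs, x_h, h0, h0', add_comm s r]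
    generalize (B r v : K) = a
    generalize (B s v : K) = b
    apply sm1; match_scalars <;> (revert a b; decide)

theorem n_e (hr : B r r = 2) (ht : B t t = 2) : (x r * x (-r) * x r) (e t) = e (rf r t) := by
  rcases cases5 hr ht with rfl | rfl | h1 | h1 | h1
  · simp [x_e, hr, x_h, rf_self, h_neg]
    apply sm1; match_scalars <;> decide
  · simp [x_e, hr, x_h, rf_self, rf_neg, h_neg]
    apply sm1; match_scalars <;> decide
  · simp [x_e, hr, ht, h1, rf, B_comm t r, neg_add_eq_sub]
    apply sm1; match_scalars <;> decide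
  · simp [x_e, hr, ht, h1, rf]
  · simp [x_e, hr, ht, h1, rf, B_comm t r, add_comm t r]
    apply sm1; match_scalars <;> decide

theorem n_h (hr : B r r = 2) (v : L) : (x r * x (-r) * x r) (h v) = h (rf r v) := by
  simp [x_e, hr, x_h, rf, h_sub, h_smul, h_neg]
  generalize (B r v : K) = a
  apply sm1; match_scalars <;> (revert a; decide)

end Cfsg.Agent.H1.E8
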