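import Cfsg.Agent.H1.E8b

set_option autoImplicit false

namespace Cfsg.Agent.H1.E8

attribute [-simp] zsmul_eq_mul

noncomputable def xu (r : Rt) : (Module.End K V)ˣ := ⟨x r.1, x r.1, x_x r.2, x_x r.2⟩

def G : Type := ↥(Subgroup.closure (Set.range xu))

noncomputable instance : Group G := inferInstanceAs (Group ↥(Subgroup.closure (Set.range xu)))

noncomputable def ρ : G →* Module.End K V :=
  (Units.coeHom _).comp (Subgroup.closure (Set.range xu)).subtype

theorem ρ_inj : Function.Injective ρ := fun _ _ h => Subtype.ext (Units.ext h)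

instance : Finite G :=
  Finite.of_injective (fun g : G => (ρ g : V → V)) fun _ _ h => ρ_inj (LinearMap.ext (congrFun h))

noncomputable def X0 (r : Rt) : G := ⟨xu r, Subgroup.subset_closure ⟨_, rfl⟩⟩

noncomputable def X (r : L) : G := if h : B r r = 2 then X0 ⟨r, h⟩ else 1

variable {r s t : L}

theorem ρ_X (hr : B r r = 2) : ρ (X r) = x r := by
  rw [X, dif_pos hr]; rfl

theorem X_X (r : L) : X r * X r = 1 := by
  by_cases hr : B r r = 2
  · apply ρ_inj; rw [map_mul, ρ_X hr, x_x hr, map_one]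
  · rw [X, dif_neg hr, one_mul]

@[simp] theorem X_inv (r : L) : (X r)⁻¹ = X r := inv_eq_of_mul_eq_one_right (X_X r)

theorem X_comm (hr : B r r = 2) (hs : B s s = 2) (h : 0 ≤ B r s) : X r * X s = X s * X r := by
  apply ρ_inj; simp only [map_mul, ρ_X hr, ρ_X hs, x_comm hr hs h]

theorem X_conj (hr : B r r = 2) (hs : B s s = 2) (h : B r s = -1) :
    X r * X s * X r = X (r + s) * X s := by
  apply ρ_inj; simp only [map_mul, ρ_X hr, ρ_X hs, ρ_X ((root_add hr hs).2 h), x_conj hr hs h]

theorem eq_top {M : Subgroup G} (hM : ∀ r, B r r = 2 → X r ∈ M) : M = ⊤ := by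
  rw [eq_top_iff]
  rintro ⟨g, hg⟩ -
  induction hg using Subgroup.closure_induction with
  | mem y hy =>
    obtain ⟨r, rfl⟩ := hy
    have := hM r.1 r.2
    rw [X, dif_pos r.2] at this
    exact this
  | one => exact M.one_mem
  | mul a b ha hb h1 h2 => exact M.mul_mem h1 h2
  | inv a ha h1 => exact M.inv_mem h1

structure Act (g : G) (w : L → L) : Prop where
  add : ∀ u v, w (u + v) = w u + w v
  iso : ∀ u v, B (w u) (w v) = B u v
  he : ∀ t, B t t = 2 → ρ g (e t) = e (w t)
  hh : ∀ v, ρ g (h v) = h (w v)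

namespace Act
variable {g g' : G} {w w' : L → L}

theorem one : Act 1 id := ⟨fun _ _ => rfl, fun _ _ => rfl, fun _ _ => by simp, fun _ => by simp⟩

theorem root (a : Act g w) (ht : B t t = 2) : B (w t) (w t) = 2 := by rw [a.iso, ht]

theorem mul (a : Act g w) (b : Act g' w') : Act (g * g') (w ∘ w') :=
  ⟨fun u v => by simp [b.add, a.add], fun u v => by simp [a.iso, b.iso],
    fun t ht => by simp [b.he t ht, a.he _ (b.root ht)], fun v => by simp [b.hh, a.hh]⟩

theorem neg (a : Act g w) (v : L) : w (-v) = - w v := by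
  have h0 : w 0 = 0 := by simpa using a.add 0 0
  have := a.add v (-v)
  rw [add_neg_cancel, h0] at this
  exact (neg_eq_of_add_eq_zero_right this.symm).symm

theorem uniq (a : Act g w) (b : Act g' w') (hw : ∀ v, w v = w' v) : g = g' :=
  ρ_inj (lext (fun t ht => by rw [a.he t ht, b.he t ht, hw]) fun v => by rw [a.hh, b.hh, hw])

theorem X_mul (a : Act g w) (hs : B s s = 2) : g * X s = X (w s) * g := by
  apply ρ_inj
  simp only [map_mul, ρ_X hs, ρ_X (a.root hs)]
  refine lext (fun t ht => ?_) fun v => ?_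
  · simp only [Module.End.mul_apply, a.he t ht, x_e hs ht, x_e (a.root hs) (a.root ht), a.iso,
      map_add]
    congr 1
    · congr 1
      split_ifs with h1
      · rw [a.he _ ((root_add hs ht).2 h1), a.add]
      · simp
    · split_ifs with h1
      · rw [map_add, a.he _ hs, a.hh]
      · simp
  · simp only [Module.End.mul_apply, x_h, a.hh, map_add, map_smul, a.he s hs, a.iso]

theorem conj (a : Act g w) (hs : B s s = 2) : g * X s * g⁻¹ = X (w s) := by
  rw [a.X_mul hs, mul_inv_cancel_right]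

end Act

noncomputable def N (r : L) : G := X r * X (-r) * X r

theorem act_N (hr : B r r = 2) : Act (N r) (rf r) :=
  ⟨rf_add r, B_rf hr, fun t ht => by
    simp only [N, map_mul, ρ_X hr, ρ_X (show B (-r) (-r) = 2 by simpa using hr)]
    exact n_e hr ht, fun v => by
    simp only [N, map_mul, ρ_X hr, ρ_X (show B (-r) (-r) = 2 by simpa using hr)]
    exact n_h hr v⟩

theorem N_N (r : L) : N r * N r = 1 := by
  simp only [N, mul_assoc]
  rw [← mul_assoc (X r) (X r), X_X, one_mul, ← mul_assoc (X (-r)), X_X, one_mul, X_X]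

@[simp] theorem N_inv (r : L) : (N r)⁻¹ = N r := inv_eq_of_mul_eq_one_right (N_N r)

theorem Act.N_mul {g : G} {w : L → L} (a : Act g w) (hs : B s s = 2) : g * N s = N (w s) * g := by
  simp only [N, ← mul_assoc]
  rw [a.X_mul hs, mul_assoc _ g, a.X_mul (by simpa using hs), a.neg, ← mul_assoc, mul_assoc _ g,
    a.X_mul hs, ← mul_assoc]

noncomputable def nl (l : List (Fin 8)) : G := (l.map fun i => N (al i)).prod

def wl : List (Fin 8) → L → L
  | [] => id
  | i :: l => rf (al i) ∘ wl l

theorem nl_cons (i : Fin 8) (l : List (Fin 8)) : nl (i :: l) = N (al i) * nl l := by simp [nl]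
theorem nl_concat (i : Fin 8) (l : List (Fin 8)) : nl (l ++ [i]) = nl l * N (al i) := by simp [nl]
theorem nl_reverse (l : List (Fin 8)) : nl l.reverse = (nl l)⁻¹ := by
  induction l with
  | nil => simp [nl]
  | cons i l ih => rw [List.reverse_cons, nl_concat, ih, nl_cons]; simp

theorem act_nl (l : List (Fin 8)) : Act (nl l) (wl l) := by
  induction l with
  | nil => exact Act.one
  | cons i l ih => rw [nl_cons]; exact (act_N (B_al i)).mul ih

theorem wl_concat (i : Fin 8) (l : List (Fin 8)) (v : L) :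
    wl (l ++ [i]) v = wl l (rf (al i) v) := by
  induction l with
  | nil => rfl
  | cons j l ih => simp [wl, ih]

theorem wl_reverse (l : List (Fin 8)) (v : L) : wl l.reverse (wl l v) = v := by
  induction l generalizing v with
  | nil => rfl
  | cons j l ih => rw [List.reverse_cons, wl_concat]; simp [wl, rf_rf (B_al j), ih]

theorem wl_reverse' (l : List (Fin 8)) (v : L) : wl l (wl l.reverse v) = v := by
  have := wl_reverse l.reverse v
  rwa [List.reverse_reverse] at this

theorem exchange (l : List (Fin 8)) (i : Fin 8) (h : ¬ Pos (wl l (al i))) :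
    ∃ l' : List (Fin 8), l'.length < l.length ∧ nl l * N (al i) = nl l' := by
  induction l with
  | nil => exact absurd (pos_al i) h
  | cons j l ih =>
    by_cases h1 : Pos (wl l (al i))
    · have h2 : wl l (al i) = al j := by
        by_contra h2
        exact h (pos_rf ((act_nl l).root (B_al i)) h1 h2)
      refine ⟨l, by simp, ?_⟩
      rw [nl_cons, mul_assoc, (act_nl l).N_mul (B_al i), h2, ← mul_assoc, N_N, one_mul]
    · obtain ⟨l', h2, h3⟩ := ih h1
      exact ⟨j :: l', by simpa using h2, by rw [nl_cons, nl_cons, mul_assoc, h3]⟩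

noncomputable def gp (S : L → Prop) : Subgroup G := Subgroup.closure {g | ∃ r, B r r = 2 ∧ S r ∧ g = X r}

variable {S S' : L → Prop}

theorem X_mem (hr : B r r = 2) (h : S r) : X r ∈ gp S := Subgroup.subset_closure ⟨r, hr, h, rfl⟩

theorem gp_le {M : Subgroup G} (h : ∀ r, B r r = 2 → S r → X r ∈ M) : gp S ≤ M := by
  rw [gp, Subgroup.closure_le]
  rintro _ ⟨r, hr, hS, rfl⟩
  exact h r hr hS

theorem gp_mono (h : ∀ r, B r r = 2 → S r → S' r) : gp S ≤ gp S' :=
  gp_le fun r hr hS => X_mem hr (h r hr hS)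

theorem gp_ind {p : G → Prop} (h1 : p 1)
    (hm : ∀ r, B r r = 2 → S r → ∀ g ∈ gp S, p g → p (X r * g)) {g : G} (hg : g ∈ gp S) : p g := by
  induction hg using Subgroup.closure_induction_left with
  | one => exact h1
  | mul_left a ha b hb ih =>
    obtain ⟨r, hr, hS, rfl⟩ := ha
    exact hm r hr hS b hb ih
  | inv_mul_cancel a ha b hb ih =>
    obtain ⟨r, hr, hS, rfl⟩ := ha
    rw [X_inv]
    exact hm r hr hS b hb ih

theorem conj_mem {g : G} (h : ∀ r, B r r = 2 → S r → g * X r * g⁻¹ ∈ gp S') {k : G}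
    (hk : k ∈ gp S) : g * k * g⁻¹ ∈ gp S' := by
  refine gp_ind (p := fun k => g * k * g⁻¹ ∈ gp S') (by simp)
    (fun r hr hS k _ ih => ?_) hk
  have := (gp S').mul_mem (h r hr hS) ih
  simpa [mul_assoc] using this

theorem X_norm (hs : B s s = 2) (h : ∀ r, B r r = 2 → S r → r ≠ -s ∧ (B s r = -1 → S (s + r)))
    {k : G} (hk : k ∈ gp S) : X s * k * X s ∈ gp S := by
  have := conj_mem (g := X s) (S' := S) (fun r hr hS => ?_) hk
  · simpa using this
  · obtain ⟨h1, h2⟩ := h r hr hS
    rw [X_inv]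
    by_cases h3 : B s r = -1
    · rw [X_conj hs hr h3]
      exact (gp S).mul_mem (X_mem ((root_add hs hr).2 h3) (h2 h3)) (X_mem hr hS)
    · have h4 := le_B hs hr
      have h5 : B s r ≠ -2 := fun e => h1 (eq_neg_of_B hs hr e)
      rw [X_comm hs hr (by omega), mul_assoc, X_X, mul_one]
      exact X_mem hr hS

theorem index_two (hs : B s s = 2) (h : ∀ r, B r r = 2 → S r → r ≠ -s ∧ (B s r = -1 → S (s + r)))
    (hS : ∀ r, B r r = 2 → S' r → S r ∨ r = s) {g : G} (hg : g ∈ gp S') :
    g ∈ gp S ∨ X s * g ∈ gp S := by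
  refine gp_ind (p := fun g => g ∈ gp S ∨ X s * g ∈ gp S) (Or.inl (gp S).one_mem)
    (fun r hr hr' k _ ih => ?_) hg
  rcases hS r hr hr' with h1 | rfl
  · rcases ih with h2 | h2
    · exact Or.inl ((gp S).mul_mem (X_mem hr h1) h2)
    · right
      have := (gp S).mul_mem (X_norm hs h (X_mem hr h1)) h2
      rwa [mul_assoc, ← mul_assoc (X s) (X s), X_X, one_mul, mul_assoc] at this
  · rcases ih with h2 | h2
    · right; rwa [← mul_assoc, X_X, one_mul]
    · exact Or.inl h2

theorem Act.conj_mem {g : G} {w : L → L} (a : Act g w) (h : ∀ r, B r r = 2 → S r → S' (w r))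
    {k : G} (hk : k ∈ gp S) : g * k * g⁻¹ ∈ gp S' :=
  E8.conj_mem (fun r hr hS => by rw [a.conj hr]; exact X_mem (a.root hr) (h r hr hS)) hk

theorem eq_top' {M : Subgroup G} (hU : gp Pos ≤ M) (hN : ∀ i, N (al i) ∈ M) : M = ⊤ := by
  have key : ∀ n : ℕ, ∀ r, B r r = 2 → Pos r → ht r = n → X (-r) ∈ M := by
    intro n
    induction n using Nat.strong_induction_on with
    | _ n ih =>
      intro r hr hp hn
      obtain ⟨i, -, hi⟩ := exists_pos_B hr hp
      have h1 := (act_N (B_al i)).conj (s := rf (al i) (-r)) (by rw [B_rf (B_al i)]; simpa using hr)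
      rw [rf_rf (B_al i)] at h1
      rw [← h1]
      refine M.mul_mem (M.mul_mem (hN i) ?_) (M.inv_mem (hN i))
      by_cases h2 : r = al i
      · rw [h2, rf_neg, rf_self (B_al i), neg_neg]
        exact hU (X_mem (B_al i) (pos_al i))
      · have h3 := pos_rf hr hp h2
        have h4 : B (rf (al i) r) (rf (al i) r) = 2 := by rw [B_rf (B_al i), hr]
        rw [rf_neg]
        have h5 := ht_nonneg h3
        have h6 : ht (rf (al i) r) < ht r := by
          rw [rf, ht_sub, ht_smul, ht_al, B_comm]; omega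
        exact ih (ht (rf (al i) r)).toNat (by omega) _ h4 h3 (by omega)
  refine eq_top fun r hr => ?_
  rcases pos_or_neg hr with h | h
  · exact hU (X_mem hr h)
  · have := key (ht (-r)).toNat (-r) (by simpa using hr) h (by have := ht_nonneg h; omega)
    rwa [neg_neg] at this

theorem pos_add (h1 : Pos r) (h2 : Pos s) : Pos (r + s) := fun i => add_nonneg (h1 i) (h2 i)

theorem bruhat (g : G) : ∃ u ∈ gp Pos, ∃ l, ∃ u' ∈ gp Pos, g = u * nl l * u' := by
  let D : G → Prop := fun g => ∃ u ∈ gp Pos, ∃ l, ∃ u' ∈ gp Pos, g = u * nl l * u'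
  let M : Subgroup G :=
    { carrier := {g | ∀ d, D d ↔ D (g * d)}
      one_mem' := fun d => by simp
      mul_mem' := fun {a b} ha hb d => by rw [mul_assoc, ← ha, ← hb]
      inv_mem' := fun {a} ha d => by rw [ha (a⁻¹ * d), mul_inv_cancel_left] }
  have hU : ∀ u ∈ gp Pos, ∀ d, D d → D (u * d) := by
    rintro u hu _ ⟨a, ha, l, b, hb, rfl⟩
    exact ⟨u * a, (gp Pos).mul_mem hu ha, l, b, hb, by simp [mul_assoc]⟩
  have hN : ∀ i d, D d → D (N (al i) * d) := by
    rintro i _ ⟨a, ha, l, b, hb, rfl⟩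
    have hc : ∀ k ∈ gp (fun r => Pos r ∧ r ≠ al i), N (al i) * k * N (al i) ∈ gp Pos := by
      intro k hk
      have := (act_N (B_al i)).conj_mem (S' := Pos) (fun r hr hS => pos_rf hr hS.1 hS.2) hk
      simpa using this
    have h2 := index_two (S := fun r => Pos r ∧ r ≠ al i) (S' := Pos) (B_al i)
      (fun r hr hS => ⟨fun e => not_pos_neg hr hS.1 (by rw [e, neg_neg]; exact pos_al i),
        fun _ => ⟨pos_add (pos_al i) hS.1, fun e => root_ne_zero hr (by simpa using e)⟩⟩)
      (fun r _ hp => by tauto) ((gp Pos).inv_mem ha)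
    rcases h2 with h2 | h2
    · refine ⟨_, hc _ ((gp _).inv_mem h2), i :: l, b, hb, ?_⟩
      simp only [nl_cons, inv_inv, mul_assoc]
      rw [← mul_assoc (N (al i)) (N (al i)), N_N, one_mul]
    · have h3 := hc _ ((gp _).inv_mem h2)
      simp only [mul_inv_rev, inv_inv, X_inv] at h3
      have e1 : N (al i) * (a * nl l * b) =
          (N (al i) * (a * X (al i)) * N (al i)) * (N (al i) * X (al i) * nl l * b) := by
        simp only [mul_assoc]
        rw [← mul_assoc (N (al i)) (N (al i)), N_N, one_mul, ← mul_assoc (X (al i)) (X (al i)),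
          X_X, one_mul]
      rw [e1]
      refine hU _ h3 _ ?_
      have hr : B (wl l.reverse (al i)) (wl l.reverse (al i)) = 2 := (act_nl _).root (B_al i)
      rcases pos_or_neg hr with h4 | h4
      · have := (act_nl l).X_mul hr
        rw [wl_reverse'] at this
        refine ⟨1, (gp _).one_mem, i :: l, _, (gp Pos).mul_mem (X_mem hr h4) hb, ?_⟩
        rw [nl_cons, one_mul, mul_assoc (N _), ← this]; simp [mul_assoc]
      · have hr' : B (-wl l.reverse (al i)) (-wl l.reverse (al i)) = 2 := by simpa using hr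
        have := (act_nl l).X_mul hr'
        rw [(act_nl l).neg, wl_reverse'] at this
        refine ⟨X (al i), X_mem (B_al i) (pos_al i), l, _, (gp Pos).mul_mem (X_mem hr' h4) hb, ?_⟩
        rw [N, mul_assoc _ (X (al i)) (X (al i)), X_X, mul_one, mul_assoc (X (al i)), ← this]
        simp [mul_assoc]
  have hM : M = ⊤ := by
    refine eq_top' (fun u hu d => ⟨hU u hu d, fun h => ?_⟩) fun i d => ⟨hN i d, fun h => ?_⟩
    · simpa using hU _ ((gp Pos).inv_mem hu) _ h
    · have := hN i _ h
      rwa [← mul_assoc, N_N, one_mul] at this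
  have : g ∈ M := hM ▸ Subgroup.mem_top g
  have h1 : D 1 := ⟨1, (gp _).one_mem, [], 1, (gp _).one_mem, by simp [nl]⟩
  simpa using (this 1).1 h1

end Cfsg.Agent.H1.E8
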