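import Cfsg.Agent.H1.E8c

set_option autoImplicit false

namespace Cfsg.Agent.H1.E8

attribute [-simp] zsmul_eq_mul

variable {r s t : L}

def Fil (f : L → ℤ) (i : ℤ) : Submodule K V where
  carrier := {v | (∀ s, f s < i → co s v = 0) ∧ (0 < i → v.2 = 0)}
  zero_mem' := ⟨fun _ _ => by simp, fun _ => rfl⟩
  add_mem' := fun {a b} ha hb => ⟨fun s hs => by simp [ha.1 s hs, hb.1 s hs],
    fun hi => by simp [ha.2 hi, hb.2 hi]⟩
  smul_mem' := fun c a ha => ⟨fun s hs => by simp [ha.1 s hs], fun hi => by simp [ha.2 hi]⟩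

variable {f : L → ℤ} {i j : ℤ}

theorem Fil_co {v : V} (hv : v ∈ Fil f i) (hs : f s < i) : co s v = 0 := hv.1 s hs

theorem e_mem (h : i ≤ f t) : e t ∈ Fil f i :=
  ⟨fun s hs => co_e_ne (by rintro rfl; omega), fun _ => rfl⟩

theorem h_mem (hi : i ≤ 0) (v : L) : h v ∈ Fil f i :=
  ⟨fun s _ => co_h s v, fun h => by omega⟩

theorem Fil_mono (hij : i ≤ j) {v : V} (hv : v ∈ Fil f j) : v ∈ Fil f i :=
  ⟨fun s hs => hv.1 s (by omega), fun h => hv.2 (by omega)⟩

theorem Fil_map {φ : V →ₗ[K] V} (he : ∀ t, B t t = 2 → i ≤ f t → φ (e t) ∈ Fil f j)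
    (hh : i ≤ 0 → ∀ v, φ (h v) ∈ Fil f j) {v : V} (hv : v ∈ Fil f i) : φ v ∈ Fil f j := by
  rw [decomp v, map_add, map_sum, map_sum]
  refine add_mem (sum_mem fun r _ => ?_) (sum_mem fun a _ => ?_)
  · rw [map_smul]
    by_cases h1 : f r.1 < i
    · rw [hv.1 _ h1, zero_smul]; exact zero_mem _
    · exact Submodule.smul_mem _ _ (he _ r.2 (by omega))
  · rw [map_smul]
    by_cases h1 : 0 < i
    · rw [hv.2 h1]; simp
    · exact Submodule.smul_mem _ _ (hh (by omega) _)

def Up (f : L → ℤ) (j : ℤ) (g : G) : Prop := ∀ i, ∀ v ∈ Fil f i, ρ g v - v ∈ Fil f (i + j)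

theorem Up.pres {g : G} (hg : Up f j g) (hj : 0 ≤ j) {v : V} (hv : v ∈ Fil f i) :
    ρ g v ∈ Fil f i := by
  have := add_mem (Fil_mono (by omega : i ≤ i + j) (hg i v hv)) hv
  simpa using this

theorem Up.mul {g g' : G} (hg : Up f j g) (hg' : Up f j g') (hj : 0 ≤ j) : Up f j (g * g') := by
  intro i v hv
  have := add_mem (hg i _ (hg'.pres hj hv)) (hg' i v hv)
  simpa using this

theorem up_X (hf : ∀ u v, f (u + v) = f u + f v) (hj : 0 ≤ j) (hr : B r r = 2) (h1 : j ≤ f r) :
    Up f j (X r) := by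
  intro i v hv
  rw [ρ_X hr]
  refine Fil_map (φ := x r - LinearMap.id) (fun t ht h2 => ?_) (fun hi v => ?_) hv
  · simp only [LinearMap.sub_apply, LinearMap.id_apply, x_e' hr ht, add_assoc, add_sub_cancel_left]
    refine add_mem (e_mem (by rw [hf]; omega)) ?_
    split_ifs with h3
    · have h4 := hf r t
      have h5 := hf 0 0
      rw [← h3, add_neg_cancel, h3] at h4
      rw [add_zero] at h5
      exact add_mem (h_mem (by omega) _) (e_mem (by omega))
    · exact zero_mem _
  · simp only [LinearMap.sub_apply, LinearMap.id_apply, x_h, add_sub_cancel_left]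
    exact Submodule.smul_mem _ _ (e_mem (by omega))

theorem up_gp (hf : ∀ u v, f (u + v) = f u + f v) (hj : 0 ≤ j) {S : L → Prop}
    (hS : ∀ r, B r r = 2 → S r → j ≤ f r) {g : G} (hg : g ∈ gp S) : Up f j g :=
  gp_ind (p := Up f j) (fun i v _ => by simp)
    (fun r hr h1 _ _ ih => (up_X hf hj hr (hS r hr h1)).mul ih hj) hg

theorem Up.co_zero {g : G} (hg : Up f j g) (hf : ∀ u v, f (u + v) = f u + f v) (hs : s ≠ 0)
    (h1 : f s < j) : co (t + s) (ρ g (e t)) = 0 := by
  have := Fil_co (s := t + s) (hg _ _ (e_mem (f := f) (t := t) le_rfl)) (by rw [hf]; omega)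
  rwa [map_sub, co_e_ne (by simpa using hs), sub_zero] at this

theorem co_mul {g g' : G} (hg : Up f j g) (hg' : Up f j g') (hj : 1 ≤ j)
    (hf : ∀ u v, f (u + v) = f u + f v) (hs : s ≠ 0) (h1 : f s = j) :
    co (t + s) (ρ (g * g') (e t)) = co (t + s) (ρ g (e t)) + co (t + s) (ρ g' (e t)) := by
  have h2 := hg' _ _ (e_mem (f := f) (t := t) le_rfl)
  have h3 := Fil_co (s := t + s) (hg _ _ h2) (by rw [hf]; omega)
  simp only [map_sub, co_e_ne (show t + s ≠ t by simpa using hs)] at h3
  simp only [map_mul, Module.End.mul_apply]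
  linear_combination h3

theorem co_X (hr : B r r = 2) (hs : B s s = 2) (ht : B t t = 2) (hts : B t s = -1) :
    co (t + s) (ρ (X r) (e t)) = if r = s then 1 else 0 := by
  have h0 := (root_add ht hs).2 hts
  rw [ρ_X hr, x_e' hr ht, map_add, map_add, co_e_ne (by simpa using root_ne_zero hs), co_e h0]
  have : co (t + s) (if -r = t then h r + e r else 0) = 0 := by
    split_ifs with h1
    · rw [map_add, co_h, co_e_ne, add_zero]
      intro h2
      have h3 : s = -t - t := by
        have : r = -t := by rw [← h1, neg_neg]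
        rw [← this, ← h2]; abel
      rw [h3] at hts; simp [ht] at hts
    · simp
  rw [this, zero_add, add_zero]
  refine if_congr ?_ rfl rfl
  rw [add_comm r t, add_right_inj, eq_comm]

theorem elim (hf : ∀ u v, f (u + v) = f u + f v) (hj : 1 ≤ j) {g : G}
    (hg : g ∈ gp fun r => j ≤ f r)
    (hc : ∀ s, B s s = 2 → f s = j → ∃ t, B t t = 2 ∧ B t s = -1 ∧ co (t + s) (ρ g (e t)) = 0) :
    g ∈ gp fun r => j + 1 ≤ f r := by
  have hug := up_gp hf (by omega : 0 ≤ j) (fun _ _ h => h) hg
  have h00 : f 0 = 0 := by simpa using hf 0 0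
  have key : ∀ T : Finset L, (∀ s ∈ T, B s s = 2 ∧ f s = j) →
      g ∈ gp (fun r => j + 1 ≤ f r ∨ r ∈ T) → g ∈ gp fun r => j + 1 ≤ f r := by
    intro T
    induction T using Finset.induction_on with
    | empty => intro _ h; simpa using h
    | insert s T hs ih =>
      intro hT h
      obtain ⟨hs1, hs2⟩ := hT s (by simp)
      have hT' : ∀ s ∈ T, B s s = 2 ∧ f s = j := fun a ha => hT a (by simp [ha])
      have hle : ∀ r, B r r = 2 → (j + 1 ≤ f r ∨ r ∈ T) → j ≤ f r := fun r _ h1 => by
        rcases h1 with h1 | h1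
        · omega
        · exact (hT' r h1).2.ge
      have hcl : ∀ r, B r r = 2 → (j + 1 ≤ f r ∨ r ∈ T) →
          r ≠ -s ∧ (B s r = -1 → (j + 1 ≤ f (s + r) ∨ s + r ∈ T)) := by
        refine fun r hr h1 => ⟨?_, fun _ => ?_⟩
        · rintro rfl
          have := hle _ hr h1
          have := hf s (-s)
          rw [add_neg_cancel] at this
          omega
        · left
          have := hle _ hr h1
          rw [hf]; omega
      rcases index_two (S := fun r => j + 1 ≤ f r ∨ r ∈ T) hs1 hcl
        (fun r _ h1 => by simp only [Finset.mem_insert] at h1; tauto) h with h1 | h1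
      · exact ih hT' h1
      · exfalso
        obtain ⟨t, ht, hts, h2⟩ := hc s hs1 hs2
        have h3 : ∀ k ∈ gp (fun r => j + 1 ≤ f r ∨ r ∈ T), co (t + s) (ρ k (e t)) = 0 := by
          intro k hk
          refine gp_ind (p := fun k => co (t + s) (ρ k (e t)) = 0) ?_ (fun r hr h4 k hk ih => ?_) hk
          · simpa using co_e_ne (show t + s ≠ t by simpa using root_ne_zero hs1)
          · rw [co_mul (up_X hf (by omega) hr (hle r hr h4)) (up_gp hf (by omega) hle hk) hj hf
              (root_ne_zero hs1) hs2, ih, co_X hr hs1 ht hts, if_neg, add_zero]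
            rintro rfl
            rcases h4 with h4 | h4
            · omega
            · exact hs h4
        have h4 := h3 _ h1
        rw [co_mul (up_X hf (by omega) hs1 hs2.ge) hug hj hf (root_ne_zero hs1) hs2, h2,
          co_X hs1 hs1 ht hts] at h4
        simp at h4
  refine key ((Finset.univ.filter fun r : Rt => f r.1 = j).image Subtype.val) ?_
    (gp_mono (fun r hr h1 => ?_) hg)
  · intro s hs
    simp only [Finset.mem_image, Finset.mem_filter] at hs
    obtain ⟨r, h1, rfl⟩ := hs
    exact ⟨r.2, h1.2⟩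
  · rcases h1.eq_or_lt with h2 | h2
    · right
      simp only [Finset.mem_image, Finset.mem_filter]
      exact ⟨⟨r, hr⟩, ⟨Finset.mem_univ _, h2.symm⟩, rfl⟩
    · left; omega

theorem Act.inj {g : G} {w : L → L} (a : Act g w) {u v : L} (h : w u = w v) : u = v := by
  have : B (u - v) (u - v) = 0 := by
    rw [← a.iso, sub_eq_add_neg, a.add, a.neg, h]; simp
  exact sub_eq_zero.1 (eq_zero_of_B this)

theorem Act.co_eq {g : G} {w : L → L} (a : Act g w) (hs : B s s = 2) (v : V) :
    co (w s) (ρ g v) = co s v := by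
  refine V_ind (p := fun v => co (w s) (ρ g v) = co s v) (by simp) (fun u v hu hv => by simp [hu, hv])
    (fun t ht => ?_) (fun v => by simp [a.hh]) v
  rw [a.he t ht, co_e hs, co_e (a.root hs)]
  exact if_congr ⟨a.inj, fun h => h ▸ rfl⟩ rfl rfl

def lv (v : L) : ℤ := v 3
def lv' (v : L) : ℤ := v 3 - B (al 3) v

theorem lv_add (u v : L) : lv (u + v) = lv u + lv v := rfl
theorem lv'_add (u v : L) : lv' (u + v) = lv' u + lv' v := by simp [lv']; ring
theorem lv_rf (v : L) : lv (rf (al 3) v) = lv' v := by simp [lv, lv', rf, al_apply]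
theorem lv'_rf (v : L) : lv' (rf (al 3) v) = lv v := by rw [← lv_rf, rf_rf (B_al 3)]
theorem lv_rf' {a : Fin 8} (ha : a ≠ 3) (v : L) : lv (rf (al a) v) = lv v := by
  simp [lv, rf, al_apply, ha.symm]

noncomputable def R (j : ℤ) : Subgroup G := gp fun r => j ≤ lv r

theorem U_le : gp Pos ≤ R 0 := gp_mono fun _ _ h => h 3

theorem N_mem {a : Fin 8} (ha : a ≠ 3) : N (al a) ∈ R 0 := by
  have h1 : X (al a) ∈ R 0 := X_mem (B_al a) (pos_al a 3)
  have h2 : X (-al a) ∈ R 0 := X_mem (by simp [B_al]) (by simp [lv, al_apply, ha.symm])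
  exact (R 0).mul_mem ((R 0).mul_mem h1 h2) h1

theorem R_norm (hj : 1 ≤ j) {p k : G} (hp : p ∈ R 0) (hk : k ∈ R j) : p * k * p⁻¹ ∈ R j := by
  refine gp_ind (p := fun p => p * k * p⁻¹ ∈ R j) (by simpa using hk) (fun r hr h1 p _ ih => ?_) hp
  have := X_norm (S := fun r => j ≤ lv r) hr (fun s hs h2 => ⟨?_, fun _ => ?_⟩) ih
  · simpa [mul_assoc, R] using this
  · rintro rfl
    simp only [lv, Pi.neg_apply] at h1 h2; omega
  · rw [lv_add]; omega

theorem descent (hs : B s s = 2) (h1 : 1 ≤ lv s) :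
    ∃ g ∈ R 0, ∃ w, Act g w ∧ lv (w s) = lv s ∧ 2 ≤ lv s * B (al 3) (w s) := by
  have key : ∀ n : ℕ, ∀ s, B s s = 2 → 1 ≤ lv s → ht s = n →
      ∃ g ∈ R 0, ∃ w, Act g w ∧ lv (w s) = lv s ∧ 2 ≤ lv s * B (al 3) (w s) := by
    intro n
    induction n using Nat.strong_induction_on with
    | _ n ih =>
      intro s hs h1 hn
      have hp : Pos s := pos_of_coord hs (i := 3) h1
      by_cases h2 : ∃ a, a ≠ 3 ∧ 0 < B (al a) s
      · obtain ⟨a, ha, h2⟩ := h2
        have h3 : B (rf (al a) s) (rf (al a) s) = 2 := by rw [B_rf (B_al a), hs]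
        have h4 : ht (rf (al a) s) < ht s := by rw [rf, ht_sub, ht_smul, ht_al]; omega
        have h5 := lv_rf' ha s
        have h6 := ht_nonneg (pos_of_coord h3 (i := 3) (by simp only [lv] at h5 h1; omega))
        obtain ⟨g, hg, w, a1, a2, a3⟩ := ih (ht (rf (al a) s)).toNat (by omega) _ h3 (by omega)
          (by omega)
        exact ⟨_, (R 0).mul_mem hg (N_mem ha), _, a1.mul (act_N (B_al a)), by simpa [h5] using a2,
          by simpa [h5] using a3⟩
      · push Not at h2
        refine ⟨1, (R 0).one_mem, id, Act.one, rfl, ?_⟩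
        have h3 := B_sum s s
        rw [← Finset.add_sum_erase _ _ (Finset.mem_univ (3 : Fin 8)), hs] at h3
        have h4 : ∑ a ∈ Finset.univ.erase (3 : Fin 8), s a * B s (al a) ≤ 0 :=
          Finset.sum_nonpos fun a ha => mul_nonpos_of_nonneg_of_nonpos (hp a)
            (by rw [B_comm]; exact h2 a (Finset.ne_of_mem_erase ha))
        simp only [lv, id, B_comm (al 3)]
        omega
  have := ht_nonneg (pos_of_coord hs (i := 3) h1)
  exact key (ht s).toNat s hs h1 (by omega)

theorem X_neg_not_mem : X (-al 3) ∉ R 0 := by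
  intro hx
  have h1 := (up_gp lv_add le_rfl (fun _ _ h => h) hx).pres le_rfl
    (e_mem (f := lv) (i := 0) (t := al 3) (pos_al 3 3))
  have h2 := Fil_co (s := -al 3) h1 (by simp [lv, al_apply])
  have h3 : B (-al 3) (-al 3) = 2 := by simp [B_al]
  rw [ρ_X h3, x_e h3 (B_al 3)] at h2
  have h4 : -al 3 ≠ al 3 := fun h => by simpa [al_apply] using congrFun h 3
  simp [B_al, co_e h3, h4] at h2

theorem coatom : IsCoatom (R 0) := by
  refine ⟨fun h => X_neg_not_mem (h ▸ Subgroup.mem_top _), fun M hM => ?_⟩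
  by_cases hc : ∃ r, B r r = 2 ∧ 1 ≤ lv r ∧ X (-r) ∈ M
  · have key : ∀ n : ℕ, ∀ r, B r r = 2 → lv r = n + 1 → X (-r) ∈ M → X (-al 3) ∈ M := by
      intro n
      induction n with
      | zero =>
        intro r hr h1 h2
        obtain ⟨g, hg, w, a1, a2, a3⟩ := descent hr (by omega)
        have h3 := B_le (B_al 3) (a1.root hr)
        rw [h1] at a3
        have h4 := eq_of_B (B_al 3) (a1.root hr) (by omega)
        rw [← h4, ← a1.neg, ← a1.conj (by simpa using hr)]
        exact M.mul_mem (M.mul_mem (hM.le hg) h2) (M.inv_mem (hM.le hg))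
      | succ n ih =>
        intro r hr h1 h2
        obtain ⟨g, hg, w, a1, a2, a3⟩ := descent hr (by omega)
        have h3 := B_le (B_al 3) (a1.root hr)
        have h4 : B (al 3) (w r) ≠ 2 := fun h => by
          rw [eq_of_B (B_al 3) (a1.root hr) h] at a2
          simp [lv, al_apply] at a2 h1; omega
        have h5 : B (al 3) (w r) = 1 := by
          have : 0 < B (al 3) (w r) := by
            by_contra h6
            have := mul_nonpos_of_nonneg_of_nonpos (show 0 ≤ lv r by omega) (not_lt.1 h6)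
            omega
          omega
        have h6 : X (-w r) ∈ M := by
          rw [← a1.neg, ← a1.conj (by simpa using hr)]
          exact M.mul_mem (M.mul_mem (hM.le hg) h2) (M.inv_mem (hM.le hg))
        have h7 := X_conj (B_al 3) (s := -w r) (by simpa using a1.root hr) (by simp [h5])
        have h8 : X (al 3) ∈ M := hM.le (X_mem (B_al 3) (pos_al 3 3))
        refine ih (w r - al 3) (by simp [a1.root hr, B_al, h5, B_comm (w r) (al 3)])
          (by simp [lv, al_apply] at a2 h1 ⊢; omega) ?_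
        have h9 : X (al 3 + -w r) ∈ M := by
          rw [← M.mul_mem_cancel_right h6, ← h7]
          exact M.mul_mem (M.mul_mem h8 h6) h8
        rwa [neg_sub, sub_eq_add_neg]
    obtain ⟨r, hr, h1, h2⟩ := hc
    have h3 := key (lv r - 1).toNat r hr (by omega) h2
    refine eq_top' (U_le.trans hM.le) fun a => ?_
    by_cases ha : a = 3
    · subst ha
      have h8 : X (al 3) ∈ M := hM.le (X_mem (B_al 3) (pos_al 3 3))
      exact M.mul_mem (M.mul_mem h8 h3) h8
    · exact hM.le (N_mem ha)
  · exfalso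
    push Not at hc
    have hpres : ∀ l, nl l ∈ M → ∀ r, B r r = 2 → 0 ≤ lv r → 0 ≤ lv (wl l r) := by
      intro l hl r hr h1
      by_contra h2
      refine hc (-wl l r) (by simpa using (act_nl l).root hr) (by simp only [lv, Pi.neg_apply] at h2 ⊢; omega) ?_
      rw [neg_neg, ← (act_nl l).conj hr]
      exact M.mul_mem (M.mul_mem hl (hM.le (X_mem hr h1))) (M.inv_mem hl)
    have key : ∀ n : ℕ, ∀ l : List (Fin 8), l.length = n → nl l ∈ M → nl l ∈ R 0 := by
      intro n
      induction n using Nat.strong_induction_on with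
      | _ n ih =>
        intro l hn hl
        rcases l.eq_nil_or_concat with rfl | ⟨l0, a, rfl⟩
        · exact (R 0).one_mem
        rw [List.concat_eq_append] at hn hl ⊢
        simp only [List.length_append, List.length_singleton] at hn
        by_cases h1 : Pos (wl l0 (al a))
        · have ha : a ≠ 3 := by
            rintro rfl
            have h2 := hpres _ hl _ (B_al 3) (pos_al 3 3)
            rw [wl_concat, rf_self (B_al 3), (act_nl l0).neg] at h2
            have h3 := hpres (l0 ++ [3]).reverse (by rw [nl_reverse]; exact M.inv_mem hl) _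
              ((act_nl l0).root (B_al 3)) (h1 3)
            have h4 : wl l0 (al 3) = wl (l0 ++ [3]) (-al 3) := by
              rw [wl_concat, rf_neg, rf_self (B_al 3), neg_neg]
            rw [h4, wl_reverse] at h3
            simp [lv, al_apply] at h3
          rw [nl_concat] at hl ⊢
          exact (R 0).mul_mem (ih _ (by omega) l0 rfl
            ((M.mul_mem_cancel_right (hM.le (N_mem ha))).1 hl)) (N_mem ha)
        · obtain ⟨l', h2, h3⟩ := exchange l0 a h1
          rw [nl_concat, h3] at hl ⊢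
          exact ih _ (by omega) l' rfl hl
    obtain ⟨g, hg, hg'⟩ := SetLike.exists_of_lt hM
    obtain ⟨u, hu, l, u', hu', rfl⟩ := bruhat g
    rw [M.mul_mem_cancel_right (hM.le (U_le hu')), M.mul_mem_cancel_left (hM.le (U_le hu))] at hg
    exact hg' ((R 0).mul_mem ((R 0).mul_mem (U_le hu) (key _ l rfl hg)) (U_le hu'))

end Cfsg.Agent.H1.E8
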