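import Cfsg.Agent.H1.E8d

set_option autoImplicit false

namespace Cfsg.Agent.H1.E8

attribute [-simp] zsmul_eq_mul

variable {r s t : L} {j : ℤ}

theorem up_lv {k : G} (hj : 0 ≤ j) (hk : k ∈ R j) : Up lv j k :=
  up_gp lv_add hj (fun _ _ h => h) hk

theorem up_lv' {k : G} (hj : 0 ≤ j) (hk : N (al 3) * k * N (al 3) ∈ R j) : Up lv' j k := by
  have := (act_N (B_al 3)).conj_mem (S' := fun r => j ≤ lv' r)
    (fun r _ (h : j ≤ lv r) => by rwa [lv'_rf]) hk
  rw [N_inv, ← mul_assoc, ← mul_assoc, N_N, one_mul, mul_assoc, N_N, mul_one] at this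
  exact up_gp lv'_add hj (fun _ _ h => h) this

theorem step {Kk : G → Prop} (hK : ∀ p ∈ R 0, ∀ k, Kk k → Kk (p * k * p⁻¹)) (hj : 1 ≤ j) {j' : ℤ}
    (h1 : ∀ k, Kk k → Up lv' j' k)
    (h2 : ∀ s, B s s = 2 → lv s = j → 2 ≤ j * B (al 3) s → lv' s < j') {k : G} (hk : Kk k)
    (hkj : k ∈ R j) : k ∈ R (j + 1) := by
  refine elim lv_add hj hkj fun s hs hsj => ?_
  obtain ⟨t, ht, hts⟩ := exists_m1' hs
  refine ⟨t, ht, hts, ?_⟩
  obtain ⟨g, hg, w, a1, a2, a3⟩ := descent hs (by omega)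
  have h3 := (h1 _ (hK g hg k hk)).co_zero (t := w t) lv'_add (root_ne_zero (a1.root hs))
    (h2 _ (a1.root hs) (by omega) (by rwa [← hsj]))
  rw [← a1.add, ← a1.he t ht, ← Module.End.mul_apply, ← map_mul, inv_mul_cancel_right, map_mul,
    Module.End.mul_apply, a1.co_eq ((root_add ht hs).2 hts)] at h3
  exact h3

theorem K01 (c : K) (h : c ≠ 0) : c = 1 := by revert c; decide

theorem fix_neg {k : G} (hk : k ∈ R 0) (h1 : Up lv' 0 k) :
    ρ k (e (-al 3)) - e (-al 3) ∈ Fil lv 0 := by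
  have h3 : B (-al 3) (-al 3) = 2 := by simp [B_al]
  have a1 := (up_lv le_rfl hk).pres le_rfl
    (e_mem (f := lv) (i := -1) (t := -al 3) (by simp [lv, al_apply]))
  have a2 := h1.pres le_rfl
    (e_mem (f := lv') (i := 1) (t := -al 3) (by simp [lv', al_apply, B_al]))
  have a3 : ∀ s, lv s < 0 → s ≠ -al 3 → co s (ρ k (e (-al 3))) = 0 := by
    intro s h4 h5
    by_cases hs : B s s = 2
    · by_cases h6 : lv s < -1
      · exact Fil_co a1 h6
      · refine Fil_co a2 ?_
        have := le_B (B_al 3) hs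
        have : B (al 3) s ≠ -2 := fun e => h5 (eq_neg_of_B (B_al 3) hs e)
        simp only [lv, lv'] at *
        omega
    · exact dif_neg hs
  have a4 : co (-al 3) (ρ k (e (-al 3))) = 1 := by
    refine K01 _ fun h0 => ?_
    have a5 : ρ k (e (-al 3)) ∈ Fil lv 0 := by
      refine ⟨fun s hs => ?_, fun h => absurd h (lt_irrefl _)⟩
      by_cases h5 : s = -al 3
      · rw [h5, h0]
      · exact a3 s hs h5
    have a6 := (up_lv le_rfl ((R 0).inv_mem hk)).pres le_rfl a5
    rw [← Module.End.mul_apply, ← map_mul, inv_mul_cancel, map_one, Module.End.one_apply] at a6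
    have := Fil_co (s := -al 3) a6 (by simp [lv, al_apply])
    rw [co_e h3] at this
    simp at this
  refine ⟨fun s hs => ?_, fun h => absurd h (lt_irrefl _)⟩
  rw [map_sub]
  by_cases h5 : s = -al 3
  · rw [h5, a4, co_e h3]; simp
  · rw [a3 s hs h5, co_e_ne h5, sub_zero]

theorem first_step {Kk : G → Prop} (hK : ∀ p ∈ R 0, ∀ k, Kk k → Kk (p * k * p⁻¹))
    (h0 : ∀ k, Kk k → k ∈ R 0) (h1 : ∀ k, Kk k → Up lv' 0 k) {k : G} (hk : Kk k) : k ∈ R 1 := by
  have c1 : ∀ k, Kk k → ∀ t, B t t = 2 → lv t = -1 → ρ k (e t) - e t ∈ Fil lv 0 := by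
    intro k hk t ht hl
    have hl' : lv (-t) = 1 := by simp only [lv, Pi.neg_apply] at hl ⊢; omega
    have ht' : B (-t) (-t) = 2 := by simpa using ht
    obtain ⟨g, hg, w, a1, a2, a3⟩ := descent ht' hl'.ge
    have h3 := B_le (B_al 3) (a1.root ht')
    rw [hl'] at a3
    have h4 := eq_of_B (B_al 3) (a1.root ht') (by omega)
    rw [a1.neg, neg_eq_iff_eq_neg] at h4
    have h5 := fix_neg (h0 _ (hK g hg k hk)) (h1 _ (hK g hg k hk))
    rw [← h4, ← a1.he t ht, ← Module.End.mul_apply, ← map_mul, inv_mul_cancel_right, map_mul,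
      Module.End.mul_apply, ← map_sub] at h5
    have a6 := (up_lv le_rfl ((R 0).inv_mem hg)).pres le_rfl h5
    rwa [← Module.End.mul_apply, ← map_mul, inv_mul_cancel, map_one, Module.End.one_apply] at a6
  obtain ⟨u, hu, l, u', hu', e1⟩ := bruhat k
  have hk1 := hK _ ((R 0).inv_mem (U_le hu)) k hk
  have e2 : u⁻¹ * k * u⁻¹⁻¹ = nl l * (u' * u) := by rw [e1]; group
  rw [e2] at hk1
  have hu2 : u' * u ∈ gp Pos := (gp Pos).mul_mem hu' hu
  have hn : nl l ∈ R 0 := ((R 0).mul_mem_cancel_right (U_le hu2)).1 (h0 _ hk1)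
  have hup : Up ht 1 (u' * u) := up_gp ht_add zero_le_one (fun r hr h => ht_pos hr h) hu2
  have c2 : ∀ t, B t t = 2 → t 3 = -1 → wl l.reverse t = t := by
    intro t ht1 hl
    have a6 := (up_lv le_rfl ((R 0).inv_mem hn)).pres le_rfl (c1 _ hk1 t ht1 hl)
    rw [map_sub, ← Module.End.mul_apply, ← map_mul, inv_mul_cancel_left, ← nl_reverse,
      (act_nl _).he t ht1] at a6
    have a7 := Fil_co (s := t) a6 (by simp only [lv]; omega)
    have a8 := Fil_co (s := t) (hup _ _ (e_mem (f := ht) (t := t) le_rfl)) (by omega)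
    rw [map_sub, co_e ht1] at a7 a8
    by_contra hc
    rw [if_neg (Ne.symm hc)] at a7
    rw [if_pos rfl, sub_zero] at *
    rw [a7] at a8
    simp at a8
  have c3 : nl l.reverse = 1 := by
    refine (act_nl _).uniq Act.one fun v => ?_
    refine sub_eq_zero.1 (orth_m1 fun t ht1 hl => ?_)
    rw [B_sub_right, id]
    conv_lhs => rw [← c2 t ht1 hl, (act_nl _).iso, c2 t ht1 hl]
    exact sub_self _
  rw [nl_reverse, inv_eq_one] at c3
  rw [c3, one_mul] at hk1 e2
  obtain ⟨M, hM⟩ : ∃ M : ℤ, ∀ r, B r r = 2 → ht r ≤ M := by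
    obtain ⟨M, hM⟩ := (Set.finite_range fun r : Rt => ht r.1).bddAbove
    exact ⟨M, fun r hr => hM ⟨⟨r, hr⟩, rfl⟩⟩
  have hM1 : 1 ≤ M := ht_al 0 ▸ hM _ (B_al 0)
  let μ : L → ℤ := fun v => M * lv v + ht v
  have hμ : ∀ u v, μ (u + v) = μ u + μ v := fun u v => by simp only [μ, lv_add, ht_add]; ring
  have hneg : ∀ s, B s s = 2 → lv s < 0 → μ s < 0 := fun s hs h => by
    have : ¬ Pos s := fun hp => absurd (hp 3) (not_le.2 h)
    rw [pos_iff hs] at this
    simp only [μ]; nlinarith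
  have key : ∀ n : ℕ, (n : ℤ) ≤ M → u' * u ∈ gp fun r => (n : ℤ) + 1 ≤ μ r := by
    intro n
    induction n with
    | zero =>
      intro _
      refine gp_mono (fun r hr hp => ?_) hu2
      have := ht_pos hr hp
      have : 0 ≤ lv r := hp 3
      simp only [μ]; push_cast; nlinarith
    | succ n ih =>
      intro hn
      push_cast at hn ⊢
      refine elim hμ (by omega) (ih (by omega)) fun s hs h2 => ?_
      have h3 : lv s = 0 := by
        rcases lt_trichotomy (lv s) 0 with h | h | h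
        · have := hneg s hs h; omega
        · exact h
        · have := ht_pos hs (pos_of_coord hs (i := 3) h)
          simp only [μ] at h2; nlinarith
      obtain ⟨t, ht1, hl, hts⟩ := exists_m1 hs h3
      refine ⟨t, ht1, hts, ?_⟩
      have := Fil_co (s := t + s) (c1 _ hk1 t ht1 hl) (by rw [lv_add, h3]; simp only [lv]; omega)
      rwa [map_sub, co_e_ne (by simpa using root_ne_zero hs), sub_zero] at this
  have h5 : u' * u ∈ R 1 := by
    refine gp_mono (fun r hr h => ?_) (key M.toNat (by omega))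
    rcases lt_trichotomy (lv r) 0 with h' | h' | h'
    · have := hneg r hr h'; omega
    · have := hM r hr
      simp only [μ, h'] at h; omega
    · exact h'
  have := R_norm le_rfl (U_le hu) h5
  rw [← e2] at this
  simpa [mul_assoc] using this

theorem mem_core {Γ : Type*} [Group Γ] {M Y : Subgroup Γ} {g : Γ} :
    g ∈ (Y.subgroupOf M).normalCore.map M.subtype ↔ g ∈ M ∧ ∀ m ∈ M, m * g * m⁻¹ ∈ Y := by
  constructor
  · rintro ⟨a, ha, rfl⟩
    exact ⟨a.2, fun m hm => ha ⟨m, hm⟩⟩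
  · rintro ⟨h1, h2⟩
    exact ⟨⟨g, h1⟩, fun m => h2 m.1 m.2, rfl⟩

noncomputable def cj (H : Subgroup G) : Subgroup G := H.map (MulAut.conj (N (al 3))).toMonoidHom

theorem NN (g : G) : N (al 3) * (N (al 3) * g) = g := by rw [← mul_assoc, N_N, one_mul]

theorem mem_cj {H : Subgroup G} {g : G} : g ∈ cj H ↔ N (al 3) * g * N (al 3) ∈ H := by
  constructor
  · rintro ⟨a, ha, rfl⟩
    simpa [mul_assoc, NN, N_N] using ha
  · intro h
    exact ⟨_, h, by simp [mul_assoc, NN, N_N]⟩

noncomputable def A : ℕ → Subgroup G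
  | 0 => R 0
  | i + 1 => ((A i ⊓ cj (A i)).subgroupOf (R 0)).normalCore.map (R 0).subtype

theorem mem_A {i : ℕ} {g : G} : g ∈ A (i + 1) ↔ g ∈ R 0 ∧ ∀ m ∈ R 0, m * g * m⁻¹ ∈ A i ∧
    N (al 3) * (m * g * m⁻¹) * N (al 3) ∈ A i := by
  rw [A, mem_core]; simp only [Subgroup.mem_inf, mem_cj]

theorem B_rec (i : ℕ) : cj (A (i + 1)) =
    ((A i ⊓ cj (A i)).subgroupOf (cj (R 0))).normalCore.map (cj (R 0)).subtype := by
  ext g
  rw [mem_core, mem_cj, mem_A, mem_cj]
  refine and_congr_right fun _ => ⟨fun h m hm => ?_, fun h m hm => ?_⟩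
  · have := h _ (mem_cj.1 hm)
    simp only [Subgroup.mem_inf, mem_cj]
    simpa [mul_assoc, NN, N_N, and_comm] using this
  · have := h (N (al 3) * m * N (al 3)) (by simpa [mem_cj, mul_assoc, NN, N_N] using hm)
    simp only [Subgroup.mem_inf, mem_cj] at this
    simpa [mul_assoc, NN, N_N, and_comm] using this

theorem A_conj (i : ℕ) : ∀ p ∈ R 0, ∀ k, k ∈ A (i + 1) → p * k * p⁻¹ ∈ A (i + 1) := by
  intro p hp k hk
  rw [mem_A] at hk ⊢
  refine ⟨(R 0).mul_mem ((R 0).mul_mem hp hk.1) ((R 0).inv_mem hp), fun m hm => ?_⟩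
  simpa [mul_assoc] using hk.2 _ ((R 0).mul_mem hm hp)

theorem R_mono {i j : ℤ} (h : i ≤ j) : R j ≤ R i := gp_mono fun _ _ h1 => h.trans h1

theorem le_A (i : ℕ) : R (i + 1) ≤ A i := by
  induction i with
  | zero => exact R_mono (by simp)
  | succ i ih =>
    intro g hg
    rw [mem_A]
    refine ⟨R_mono (by omega) hg, fun m hm => ?_⟩
    have h1 := R_norm (by omega) hm hg
    refine ⟨ih (R_mono (by omega) h1), ih ?_⟩
    have := (act_N (B_al 3)).conj_mem (S' := fun r => (i : ℤ) + 1 ≤ lv r) (fun r hr h => ?_) h1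
    · rw [N_inv] at this; exact this
    · have h2 := B_le (B_al 3) hr
      have h3 : B (al 3) r ≠ 2 := fun e => by
        rw [eq_of_B (B_al 3) hr e] at h
        simp [lv, al_apply] at h; omega
      rw [lv_rf]
      simp only [lv, lv'] at h ⊢
      omega

theorem A_le (i : ℕ) : A (i + 1) ≤ R (i + 2) := by
  induction i with
  | zero =>
    intro g hg
    have h0 : ∀ k, k ∈ A 1 → k ∈ R 0 := fun k hk => (mem_A.1 hk).1
    have h1 : ∀ k, k ∈ A 1 → Up lv' 0 k := fun k hk =>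
      up_lv' le_rfl (by simpa [A] using ((mem_A.1 hk).2 1 (R 0).one_mem).2)
    refine step (j := 1) (A_conj 0) le_rfl h1 (fun s _ h2 h3 => ?_) hg
      (first_step (A_conj 0) h0 h1 hg)
    simp only [lv, lv'] at *; omega
  | succ i ih =>
    intro g hg
    have h1 : ∀ k, k ∈ A (i + 2) → Up lv' (i + 2) k := fun k hk =>
      up_lv' (by omega) (ih (by simpa using ((mem_A.1 hk).2 1 (R 0).one_mem).2))
    have := step (j := i + 2) (A_conj (i + 1)) (by omega) h1 (fun s _ h2 h3 => ?_) hg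
      (ih (by simpa using ((mem_A.1 hg).2 1 (R 0).one_mem).1))
    · exact R_mono (by omega) this
    · have : 0 < B (al 3) s := by
        by_contra h6
        have := mul_nonpos_of_nonneg_of_nonpos (show (0 : ℤ) ≤ i + 2 by omega) (not_lt.1 h6)
        omega
      simp only [lv, lv'] at *; omega

theorem A_six : A 6 = ⊥ := by
  rw [eq_bot_iff]
  refine (A_le 5).trans (gp_le fun r hr h => ?_)
  have := lv_le hr
  simp only [lv] at h; omega

theorem A_five : A 5 ≠ ⊥ := by
  intro h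
  let θ : L := ![2, 3, 4, 6, 5, 4, 3, 2]
  have hθ : B θ θ = 2 := by decide
  have h1 : X θ ∈ A 5 := le_A 5 (X_mem hθ (by decide))
  rw [h, Subgroup.mem_bot] at h1
  have h2 := ρ_X hθ
  rw [h1, map_one] at h2
  have h3 := congrArg (co θ) (LinearMap.congr_fun h2 (e (-θ)))
  rw [x_e hθ (by simpa using hθ)] at h3
  have h4 : θ ≠ -θ := by decide
  simp [hθ, co_e hθ, h4] at h3

theorem ne_cj : R 0 ≠ cj (R 0) := by
  intro h
  apply X_neg_not_mem
  rw [h, mem_cj]
  have := (act_N (B_al 3)).conj (s := -al 3) (by simp [B_al])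
  rw [N_inv, rf_neg, rf_self (B_al 3), neg_neg] at this
  rw [this]
  exact X_mem (B_al 3) (pos_al 3 3)

theorem core_bot : (R 0).normalCore = ⊥ := by
  have : ∀ i, (R 0).normalCore ≤ A i := by
    intro i
    induction i with
    | zero => exact Subgroup.normalCore_le _
    | succ i ih =>
      intro g hg
      have hn := (R 0).normalCore_normal
      rw [mem_A]
      refine ⟨Subgroup.normalCore_le _ hg, fun m _ => ⟨ih (hn.conj_mem _ hg _), ih ?_⟩⟩
      simpa using hn.conj_mem _ (hn.conj_mem _ hg m) (N (al 3))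
  rw [eq_bot_iff, ← A_six]
  exact this 6

end Cfsg.Agent.H1.E8
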